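import Cfsg.Agent.H7.AschLinear

set_option autoImplicit false
set_option linter.unusedSectionVars false
set_option linter.unusedVariables false
set_option linter.unnecessarySimpa false
set_option linter.style.haveILetI false
set_option linter.unusedSimpArgs false

namespace Cfsg.Agent.H7

open Cfsg Cfsg.Geo Matrix
open scoped MatrixGroups Kronecker commutatorElement

variable {ι : Type} [Fintype ι] [DecidableEq ι] {F : Type*} [Field F]

/-! ### Adjoints -/

/-- Every element of `H` is an isometry of `f`. -/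
def Isom (f : (ι → F) → (ι → F) → F) (H : Subgroup (GL ι F)) : Prop :=
  ∀ g ∈ H, ∀ u v, f ((g : Matrix ι ι F) *ᵥ u) ((g : Matrix ι ι F) *ᵥ v) = f u v

lemma Isom.mono {f : (ι → F) → (ι → F) → F} {H L : Subgroup (GL ι F)} (h : Isom f H)
    (hL : L ≤ H) : Isom f L := fun g hg => h g (hL hg)

lemma Isom.fixesForm {f : (ι → F) → (ι → F) → F} {H : Subgroup (GL ι F)} (h : Isom f H) :
    FixesForm (matrixSet H) f := by
  rintro _ ⟨g, hg, rfl⟩
  exact h g hg

lemma isom_of_fixesForm {f : (ι → F) → (ι → F) → F} {H : Subgroup (GL ι F)}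
    (h : FixesForm (matrixSet H) f) : Isom f H := fun g hg => h _ ⟨g, hg, rfl⟩

lemma Isom.le_similarityGroup {f : (ι → F) → (ι → F) → F} {H : Subgroup (GL ι F)} (h : Isom f H) :
    H ≤ similarityGroup f := fun g hg => ⟨1, fun u v => by rw [h g hg]; simp⟩

/-- The adjoint of a matrix with respect to a form. -/
noncomputable def adj (σ : F →+* F) (f : (ι → F) → (ι → F) → F) (x : Matrix ι ι F) :
    Matrix ι ι F := ((gramMatrix f)⁻¹ * xᵀ * gramMatrix f).map σ

namespace HForm

variable {σ : F →+* F} {ε : F} {f : (ι → F) → (ι → F) → F}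

lemma eps_ne_zero (h : HForm σ ε f) : ε ≠ 0 := by
  rcases h.eps with rfl | rfl <;> simp

lemma eps_mul_self (h : HForm σ ε f) : ε * ε = 1 := by
  rcases h.eps with rfl | rfl <;> simp

lemma map_eps (h : HForm σ ε f) : σ ε = ε := by
  rcases h.eps with rfl | rfl <;> simp

lemma eq_zero_comm (h : HForm σ ε f) {u v : ι → F} (huv : f u v = 0) : f v u = 0 := by
  rw [h.herm, huv, map_zero, mul_zero]

lemma adj_spec (h : HForm σ ε f) (x : Matrix ι ι F) (u v : ι → F) :
    f (x *ᵥ u) v = f u (adj σ f x *ᵥ v) := by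
  rw [h.eq_gform, h.eq_gform, gform_mulVec_left, gform_mulVec_right, adj, map_map_invol h.invol,
    mul_assoc, mul_nonsing_inv_cancel_left _ _ h.det_ne_zero.isUnit]

lemma adj_spec' (h : HForm σ ε f) (x : Matrix ι ι F) (u v : ι → F) :
    f (adj σ f x *ᵥ u) v = f u (x *ᵥ v) := by
  rw [h.herm, ← h.adj_spec, ← h.herm]

lemma adj_unique (h : HForm σ ε f) {x y : Matrix ι ι F}
    (hxy : ∀ u v, f (x *ᵥ u) v = f u (y *ᵥ v)) : adj σ f x = y :=
  h.mat_ext fun u v => by rw [← h.adj_spec, hxy]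

lemma adj_adj (h : HForm σ ε f) (x : Matrix ι ι F) : adj σ f (adj σ f x) = x :=
  h.adj_unique (h.adj_spec' x)

lemma adj_mul (h : HForm σ ε f) (x y : Matrix ι ι F) :
    adj σ f (x * y) = adj σ f y * adj σ f x :=
  h.adj_unique fun u v => by rw [← mulVec_mulVec, ← mulVec_mulVec, h.adj_spec, h.adj_spec]

lemma adj_add (h : HForm σ ε f) (x y : Matrix ι ι F) :
    adj σ f (x + y) = adj σ f x + adj σ f y :=
  h.adj_unique fun u v => by
    rw [add_mulVec, add_mulVec, h.add_left, h.add_right, h.adj_spec, h.adj_spec]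

lemma adj_smul (h : HForm σ ε f) (c : F) (x : Matrix ι ι F) :
    adj σ f (c • x) = σ c • adj σ f x :=
  h.adj_unique fun u v => by
    rw [smul_mulVec, smul_mulVec, h.smul_left, h.smul_right, h.invol, h.adj_spec]

lemma adj_one (h : HForm σ ε f) : adj σ f (1 : Matrix ι ι F) = 1 :=
  h.adj_unique fun u v => by rw [one_mulVec, one_mulVec]

lemma adj_zero (h : HForm σ ε f) : adj σ f (0 : Matrix ι ι F) = 0 :=
  h.adj_unique fun u v => by rw [zero_mulVec, zero_mulVec, h.zero_left, h.zero_right]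

lemma adj_neg (h : HForm σ ε f) (x : Matrix ι ι F) : adj σ f (-x) = -adj σ f x :=
  h.adj_unique fun u v => by rw [neg_mulVec, neg_mulVec, h.neg_left, h.neg_right, h.adj_spec]

lemma adj_sub (h : HForm σ ε f) (x y : Matrix ι ι F) :
    adj σ f (x - y) = adj σ f x - adj σ f y := by
  rw [sub_eq_add_neg, h.adj_add, h.adj_neg, sub_eq_add_neg]

lemma adj_pow (h : HForm σ ε f) (x : Matrix ι ι F) (k : ℕ) : adj σ f (x ^ k) = adj σ f x ^ k := by
  induction k with
  | zero => simpa using h.adj_one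
  | succ k ih => rw [pow_succ, h.adj_mul, ih, pow_succ']

lemma adj_eq_zero_iff (h : HForm σ ε f) {x : Matrix ι ι F} : adj σ f x = 0 ↔ x = 0 := by
  constructor
  · intro h0
    rw [← h.adj_adj x, h0, h.adj_zero]
  · rintro rfl
    exact h.adj_zero

lemma isScal_adj (h : HForm σ ε f) {x : Matrix ι ι F} (hx : IsScal x) : IsScal (adj σ f x) := by
  obtain ⟨c, rfl⟩ := hx
  exact ⟨σ c, by rw [h.adj_smul, h.adj_one]⟩

lemma adj_val (h : HForm σ ε f) {H : Subgroup (GL ι F)} (hH : Isom f H) {g : GL ι F} (hg : g ∈ H) :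
    adj σ f (g : Matrix ι ι F) = ((g⁻¹ : GL ι F) : Matrix ι ι F) :=
  h.adj_unique fun u v => by rw [← hH g hg u, val_mulVec_inv]

lemma adj_cj (h : HForm σ ε f) {H : Subgroup (GL ι F)} (hH : Isom f H) {g : GL ι F} (hg : g ∈ H)
    (x : Matrix ι ι F) : adj σ f (cj g x) = cj g (adj σ f x) := by
  rw [cj_apply, cj_apply, h.adj_mul, h.adj_mul, h.adj_val hH hg, h.adj_val hH (H.inv_mem hg),
    inv_inv, mul_assoc]

lemma adj_mem_spanAlg (h : HForm σ ε f) {L : Subgroup (GL ι F)} (hL : Isom f L) {x : Matrix ι ι F}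
    (hx : x ∈ spanAlg L) : adj σ f x ∈ spanAlg L := by
  refine spanAlg_induction hx ?_ ?_ ?_ ?_
  · intro g hg
    rw [h.adj_val hL hg]
    exact mem_spanAlg (L.inv_mem hg)
  · rw [h.adj_zero]
    exact Subalgebra.zero_mem _
  · intro x y _ _ h1 h2
    rw [h.adj_add]
    exact Subalgebra.add_mem _ h1 h2
  · intro c x _ h1
    rw [h.adj_smul]
    exact Subalgebra.smul_mem _ h1 _

lemma adj_mem_ctr (h : HForm σ ε f) {A : Subalgebra F (Matrix ι ι F)}
    (hA : ∀ x ∈ A, adj σ f x ∈ A) {x : Matrix ι ι F} (hx : x ∈ ctr A) : adj σ f x ∈ ctr A := by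
  rw [mem_ctr] at hx ⊢
  refine ⟨hA x hx.1, fun y hy => ?_⟩
  have := congrArg (adj σ f) (hx.2 _ (hA y hy))
  rw [h.adj_mul, h.adj_mul, h.adj_adj] at this
  exact this.symm

lemma isAdjointClosedFor (h : HForm σ ε f) {K : Subalgebra F (Matrix ι ι F)}
    (hK : ∀ x ∈ K, adj σ f x ∈ K) : IsAdjointClosedFor f K :=
  fun k hk => ⟨_, hK k hk, h.adj_spec k⟩

lemma adj_mem_of_isAdjointClosedFor (h : HForm σ ε f) {K : Subalgebra F (Matrix ι ι F)}
    (hK : IsAdjointClosedFor f K) : ∀ x ∈ K, adj σ f x ∈ K := by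
  intro k hk
  obtain ⟨k', hk', h1⟩ := hK k hk
  rwa [h.adj_unique h1]

lemma isSelfAdjointFor_iff (h : HForm σ ε f) {K : Subalgebra F (Matrix ι ι F)} :
    IsSelfAdjointFor f K ↔ ∀ x ∈ K, adj σ f x = x := by
  constructor
  · intro h1 k hk
    exact h.adj_unique (h1 k hk)
  · intro h1 k hk u v
    rw [h.adj_spec, h1 k hk]

end HForm

/-! ### Orthogonal complements -/

/-- The orthogonal complement of a subspace. -/
def perp {σ : F →+* F} {f : (ι → F) → (ι → F) → F} (h : Sesq σ f) (W : Submodule F (ι → F)) :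
    Submodule F (ι → F) where
  carrier := {v | ∀ w ∈ W, f v w = 0}
  add_mem' {a b} ha hb w hw := by rw [h.add_left, ha w hw, hb w hw, add_zero]
  zero_mem' w hw := h.zero_left w
  smul_mem' c a ha w hw := by rw [h.smul_left, ha w hw, mul_zero]

lemma mem_perp {σ : F →+* F} {f : (ι → F) → (ι → F) → F} {h : Sesq σ f} {W : Submodule F (ι → F)}
    {v : ι → F} : v ∈ perp h W ↔ ∀ w ∈ W, f v w = 0 := Iff.rfl

lemma card_le_finrank_add_perp {σ : F →+* F} {f : (ι → F) → (ι → F) → F} (h : Sesq σ f)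
    (W : Submodule F (ι → F)) :
    Fintype.card ι ≤ Module.finrank F W + Module.finrank F (perp h W) := by
  let b := Module.finBasis F W
  let φ : (ι → F) →ₗ[F] (Fin (Module.finrank F W) → F) :=
    { toFun := fun v i => f v (b i)
      map_add' := fun u v => by ext i; exact h.add_left _ _ _
      map_smul' := fun c v => by ext i; exact h.smul_left _ _ _ }
  have h1 : LinearMap.ker φ ≤ perp h W := by
    intro v hv w hw
    have h2 : ∀ i, f v (b i) = 0 := fun i => congrFun hv i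
    have h3 : w = ∑ i, b.repr ⟨w, hw⟩ i • (b i : ι → F) := by
      have := congrArg W.subtype (b.sum_repr ⟨w, hw⟩)
      rw [map_sum] at this
      exact this.symm
    rw [h3, h.sum_right]
    simp [h.smul_right, h2]
  have h2 := φ.finrank_range_add_finrank_ker
  have h3 := Submodule.finrank_le (LinearMap.range φ)
  have h4 := Submodule.finrank_mono h1
  simp only [Module.finrank_fintype_fun_eq_card, Fintype.card_fin] at h2 h3
  omega

lemma perp_invariant {σ : F →+* F} {f : (ι → F) → (ι → F) → F} (h : Sesq σ f)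
    {H : Subgroup (GL ι F)} (hH : Isom f H) {W : Submodule F (ι → F)}
    (hW : ∀ g ∈ H, ∀ v ∈ W, (g : Matrix ι ι F) *ᵥ v ∈ W) :
    ∀ g ∈ H, ∀ v ∈ perp h W, (g : Matrix ι ι F) *ᵥ v ∈ perp h W := by
  intro g hg v hv w hw
  rw [← val_mulVec_inv g w, hH g hg]
  exact hv _ (hW _ (H.inv_mem hg) w hw)

lemma isCompl_perp {σ : F →+* F} {f : (ι → F) → (ι → F) → F} (h : Sesq σ f)
    {W : Submodule F (ι → F)} (hW : W ⊓ perp h W = ⊥) :
    W ⊔ perp h W = ⊤ ∧ Module.finrank F W + Module.finrank F (perp h W) = Fintype.card ι := by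
  have h1 := card_le_finrank_add_perp h W
  have h2 := Submodule.finrank_sup_add_finrank_inf_eq W (perp h W)
  have h3 := Submodule.finrank_le (W ⊔ perp h W)
  rw [hW, finrank_bot] at h2
  rw [Module.finrank_fintype_fun_eq_card] at h3
  refine ⟨Submodule.eq_top_of_finrank_eq ?_, by omega⟩
  rw [Module.finrank_fintype_fun_eq_card]
  omega

lemma inf_perp_eq_bot {σ : F →+* F} {f : (ι → F) → (ι → F) → F} (h : Sesq σ f)
    {W : Submodule F (ι → F)} (hW : IsNondegenerateOn f W) : W ⊓ perp h W = ⊥ := by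
  rw [eq_bot_iff]
  rintro v ⟨h1, h2⟩
  by_contra h0
  obtain ⟨x, hx, hx'⟩ := (hW v h1 h0).2
  exact hx' (h2 x hx)

lemma HForm.nondegOn_of_inf_perp {σ : F →+* F} {ε : F} {f : (ι → F) → (ι → F) → F}
    (h : HForm σ ε f) {W : Submodule F (ι → F)} (hW : W ⊓ perp h.toSesq W = ⊥) :
    IsNondegenerateOn f W := by
  intro w hw h0
  have : ∃ x ∈ W, f w x ≠ 0 := by
    by_contra h1
    push Not at h1
    apply h0
    have : w ∈ W ⊓ perp h.toSesq W := ⟨hw, h1⟩
    rwa [hW] at this
  obtain ⟨x, hx, hx'⟩ := this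
  exact ⟨⟨x, hx, fun h1 => hx' (h.eq_zero_comm h1)⟩, ⟨x, hx, hx'⟩⟩

lemma HForm.nondegOn_perp {σ : F →+* F} {ε : F} {f : (ι → F) → (ι → F) → F}
    (h : HForm σ ε f) {W : Submodule F (ι → F)} (hW : W ⊓ perp h.toSesq W = ⊥) :
    IsNondegenerateOn f (perp h.toSesq W) := by
  apply h.nondegOn_of_inf_perp
  rw [eq_bot_iff]
  rintro v ⟨h1, h2⟩
  apply h.eq_zero_of_right
  intro x
  have : x ∈ W ⊔ perp h.toSesq W := by rw [(isCompl_perp h.toSesq hW).1]; trivial
  obtain ⟨a, ha, b, hb, rfl⟩ := Submodule.mem_sup.1 this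
  rw [h.add_right, h1 a ha, h2 b hb, add_zero]

lemma map_eq_of_invariant {g : GL ι F} {W : Submodule F (ι → F)}
    (h : ∀ v ∈ W, (g : Matrix ι ι F) *ᵥ v ∈ W) : W.map (Matrix.toLin' (g : Matrix ι ι F)) = W := by
  refine Submodule.eq_of_le_of_finrank_eq ?_ (finrank_map_val g W)
  rintro _ ⟨v, hv, rfl⟩
  exact h v hv

lemma isMDecomposition_pair {W U : Submodule F (ι → F)} (hW : W ≠ ⊥) (h1 : W ⊓ U = ⊥)
    (h2 : W ⊔ U = ⊤) (h3 : Module.finrank F W = Module.finrank F U) :
    IsMDecomposition (Module.finrank F W) ![W, U] := by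
  refine ⟨le_rfl, Nat.pos_of_ne_zero fun h => hW (Submodule.finrank_eq_zero.1 h), ?_, ?_, ?_⟩
  · intro i
    fin_cases i
    · rfl
    · exact h3.symm
  · rw [iSupIndep_pair (i := 0) (j := 1) (by decide) (by decide)]
    exact disjoint_iff.2 h1
  · rw [← h2]
    apply le_antisymm
    · refine iSup_le fun i => ?_
      fin_cases i
      · exact le_sup_left
      · exact le_sup_right
    · exact sup_le (le_iSup ![W, U] 0) (le_iSup ![W, U] 1)

/-- Class 1 (and the reducible part of class 2) for a form. -/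
lemma HForm.reducible {σ : F →+* F} {ε : F} {f : (ι → F) → (ι → F) → F} (hf : HForm σ ε f)
    {H : Subgroup (GL ι F)} (hH : Isom f H) (h : ¬ Irr H) :
    (∃ W : Submodule F (ι → F), W ≠ ⊥ ∧ IsTotallySingularFor f W ∧ H ≤ subspaceStabilizer W) ∨
    (∃ W : Submodule F (ι → F), W ≠ ⊥ ∧ IsNondegenerateOn f W ∧
      2 * Module.finrank F W < Fintype.card ι ∧ H ≤ subspaceStabilizer W) ∨
    (∃ (k : ℕ) (D : Fin 2 → Submodule F (ι → F)), IsNondegenerateMDecomposition f k D ∧
      H ≤ decompositionStabilizer D ∧ ∀ i, H ≤ subspaceStabilizer (D i)) := by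
  obtain ⟨W, h0, h1, hW⟩ := exists_of_not_irr h
  have hU := perp_invariant hf.toSesq hH hW
  by_cases hr : W ⊓ perp hf.toSesq W = ⊥
  swap
  · exact Or.inl ⟨_, hr, fun u hu v hv => hu.2 v hv.1,
      le_subspaceStabilizer fun g hg v hv => ⟨hW g hg v hv.1, hU g hg v hv.2⟩⟩
  obtain ⟨htop, hdim⟩ := isCompl_perp hf.toSesq hr
  have hU0 : perp hf.toSesq W ≠ ⊥ := by
    intro h2
    rw [h2, sup_bot_eq] at htop
    exact h1 htop
  rcases lt_trichotomy (Module.finrank F W) (Module.finrank F (perp hf.toSesq W)) with h2 | h2 | h2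
  · exact Or.inr (Or.inl ⟨W, h0, hf.nondegOn_of_inf_perp hr, by omega, le_subspaceStabilizer hW⟩)
  · refine Or.inr (Or.inr ⟨_, ![W, perp hf.toSesq W], ⟨isMDecomposition_pair h0 hr htop h2, ?_, ?_⟩,
      fun g hg => ⟨1, fun i => ?_⟩, fun i => ?_⟩)
    · intro i
      fin_cases i
      · exact hf.nondegOn_of_inf_perp hr
      · exact hf.nondegOn_perp hr
    · intro i j hij
      fin_cases i <;> fin_cases j
      · exact absurd rfl hij
      · exact fun u hu v hv => hf.eq_zero_comm (hv u hu)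
      · exact fun u hu v hv => hu v hv
      · exact absurd rfl hij
    · fin_cases i
      · exact map_eq_of_invariant (hW g hg)
      · exact map_eq_of_invariant (hU g hg)
    · fin_cases i
      · exact le_subspaceStabilizer hW
      · exact le_subspaceStabilizer hU
  · exact Or.inr (Or.inl ⟨_, hU0, hf.nondegOn_perp hr, by omega, le_subspaceStabilizer hU⟩)

lemma IsMDecomposition.mul_eq {t m : ℕ} {D : Fin t → Submodule F (ι → F)}
    (h : IsMDecomposition m D) : t * m = Fintype.card ι := by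
  have h1 : DirectSum.IsInternal D :=
    DirectSum.isInternal_submodule_of_iSupIndep_of_iSup_eq_top h.indep h.iSup_eq_top
  have h2 := (LinearEquiv.ofBijective (DirectSum.coeLinearMap D) h1).finrank_eq
  rw [Module.finrank_directSum, Module.finrank_fintype_fun_eq_card] at h2
  simpa [h.finrank_eq] using h2

/-- Classes 2 and 3 for a form. -/
lemma HForm.decomp_or_field [Finite F] [Nonempty ι] {σ : F →+* F} {ε : F}
    {f : (ι → F) → (ι → F) → F} (hf : HForm σ ε f) {H : Subgroup (GL ι F)} (hH : Isom f H)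
    (hirr : Irr H) {Z : Subalgebra F (Matrix ι ι F)} (hZ : NormA H Z)
    (hc : ∀ x ∈ Z, ∀ y ∈ Z, x * y = y * x) (hadj : ∀ x ∈ Z, adj σ f x ∈ Z) :
    (∃ (t m : ℕ) (D : Fin t → Submodule F (ι → F)), IsNondegenerateMDecomposition f m D ∧
      H ≤ decompositionStabilizer D ∧
      ∀ i j, ∃ h ∈ H, (D i).map (Matrix.toLin' (h : Matrix ι ι F)) = D j) ∨
    (∃ (k : ℕ) (D : Fin 2 → Submodule F (ι → F)), 2 * k = Fintype.card ι ∧ IsMDecomposition k D ∧
      (∀ i, IsTotallySingularFor f (D i)) ∧ H ≤ decompositionStabilizer D) ∨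
    ∀ x ∈ Z, x ≠ 0 → ∃ y ∈ Z, x * y = 1 := by
  rcases hirr.idem_or_field hZ hc with ⟨e, he, hee, h0, h1⟩ | hinv
  swap
  · exact Or.inr (Or.inr hinv)
  have hidm : ∀ e ∈ Z, ∀ e' ∈ Z, e * e = e → e' * e' = e' → (e * e') * (e * e') = e * e' := by
    intro e he e' he' h1 h2
    rw [mul_assoc, ← mul_assoc e', ← hc e he e' he', mul_assoc, h2, ← mul_assoc, h1]
  by_cases hsa : ∃ e ∈ {e | e ∈ Z ∧ e * e = e ∧ adj σ f e = e}, e ≠ 0 ∧ e ≠ 1
  · left
    obtain ⟨e, he, h0, h1, -, horth⟩ := exists_orth_idem (H := H)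
      (E := {e | e ∈ Z ∧ e * e = e ∧ adj σ f e = e}) (fun e he => he.2.1)
      (fun e he e' he' => ⟨Z.mul_mem he.1 he'.1, hidm e he.1 e' he'.1 he.2.1 he'.2.1, by
        rw [hf.adj_mul, he.2.2, he'.2.2, hc e he.1 e' he'.1]⟩)
      (fun e he e' he' => hc e he.1 e' he'.1)
      (fun h hh e he => ⟨hZ h hh e he.1, by rw [← map_mul, he.2.1], by
        rw [hf.adj_cj hH hh, he.2.2]⟩) hsa
    obtain ⟨t, m, D, E, hD, hHD, hE, -, hDE, horth', -⟩ := hirr.exists_decomp he.2.1 h0 h1 horth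
    have hEa : ∀ i, adj σ f (E i) = E i := by
      intro i
      obtain ⟨h, hh, hi⟩ := hE i
      rw [hi, hf.adj_cj hH hh, he.2.2]
    have hEi : ∀ i, E i * E i = E i := by
      intro i
      obtain ⟨h, hh, hi⟩ := hE i
      rw [hi, ← map_mul, he.2.1]
    refine ⟨t, m, D, ⟨hD, fun i w hw hw0 => ?_, fun i j hij => ?_⟩, hHD, fun i j => ?_⟩
    · rw [hDE] at hw ⊢
      obtain ⟨x, hx⟩ := (hf.nondeg w hw0).1
      have : f (E i *ᵥ x) w ≠ 0 := by
        rwa [hf.adj_spec, hEa, idem_mulVec_of_mem_range (hEi i) hw]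
      exact ⟨⟨_, mem_range_toLin' _ _, this⟩,
        ⟨_, mem_range_toLin' _ _, fun h2 => this (hf.eq_zero_comm h2)⟩⟩
    · rw [hDE, hDE]
      rintro _ ⟨u, rfl⟩ _ ⟨v, rfl⟩
      rw [Matrix.toLin'_apply, Matrix.toLin'_apply, hf.adj_spec, hEa, mulVec_mulVec,
        horth' i j hij, zero_mulVec, hf.zero_right]
    · obtain ⟨h, hh, hi⟩ := hE i
      obtain ⟨k, hk, hj⟩ := hE j
      refine ⟨k * h⁻¹, H.mul_mem hk (H.inv_mem hh), ?_⟩
      rw [hDE, hDE, range_cj, hi, hj, ← cj_mul, inv_mul_cancel_right]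
  · right
    left
    have hsa' : ∀ e ∈ Z, e * e = e → adj σ f e = e → e = 0 ∨ e = 1 := by
      intro e he h1 h2
      by_contra h3
      push Not at h3
      exact hsa ⟨e, ⟨he, h1, h2⟩, h3⟩
    have hkey : ∀ e ∈ Z, e * e = e → e ≠ 0 → e ≠ 1 → adj σ f e = 1 - e := by
      intro e he h1 h2 h3
      have ha := hadj e he
      have hai : adj σ f e * adj σ f e = adj σ f e := by rw [← hf.adj_mul, h1]
      have h4 : e * adj σ f e = 0 := by
        rcases hsa' _ (Z.mul_mem he ha) (hidm _ he _ ha h1 hai)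
          (by rw [hf.adj_mul, hf.adj_adj]) with h5 | h5
        · exact h5
        · exfalso
          apply h3
          rw [← mul_one e, ← h5, ← mul_assoc, h1]
      rcases hsa' _ (Z.add_mem he ha)
        (by rw [add_mul, mul_add, mul_add, h1, h4, ← hc _ he _ ha, h4, hai, add_zero, zero_add])
        (by rw [hf.adj_add, hf.adj_adj, add_comm]) with h5 | h5
      · exfalso
        apply h2
        have := congrArg (e * ·) h5
        simpa [mul_add, h1, h4] using this
      · rw [← h5, add_sub_cancel_left]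
    have hcj : ∀ h ∈ H, cj h e ∈ Z ∧ cj h e * cj h e = cj h e ∧ cj h e ≠ 0 ∧ cj h e ≠ 1 := by
      intro h hh
      refine ⟨hZ h hh e he, by rw [← map_mul, hee], by simpa using h0, fun h2 => h1 ?_⟩
      rw [← map_one (cj h)] at h2
      exact (cj h).injective h2
    have horth : ∀ h ∈ H, cj h e = e ∨ cj h e * e = 0 := by
      intro h hh
      obtain ⟨h2, h3, h4, h5⟩ := hcj h hh
      by_cases h6 : cj h e * e = 0
      · exact Or.inr h6
      left
      have h7 : cj h e * e ≠ 1 := by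
        intro h7
        apply h1
        rw [← one_mul e, ← h7, mul_assoc, hee]
      have h8 := hkey _ (Z.mul_mem h2 he) (hidm _ h2 _ he h3 hee) h6 h7
      rw [hf.adj_mul, hkey e he hee h0 h1, hkey _ h2 h3 h4 h5, sub_mul, mul_sub, mul_sub, one_mul,
        one_mul, mul_one, hc _ he _ h2] at h8
      have h9 : e + cj h e = cj h e * e + cj h e * e := by linear_combination (norm := abel) -h8
      have h10 := congrArg (· * e) h9
      have h11 := congrArg (cj h e * ·) h9
      simp only [add_mul, mul_add, mul_assoc, hee] at h10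
      simp only [add_mul, mul_add, ← mul_assoc, h3] at h11
      rw [add_left_cancel h11, ← add_right_cancel h10]
    obtain ⟨t, m, D, E, hD, hHD, hE, -, hDE, horth', hinj⟩ := hirr.exists_decomp hee h0 h1 horth
    have hE' : ∀ i, E i ∈ Z ∧ E i * E i = E i ∧ E i ≠ 0 ∧ E i ≠ 1 := by
      intro i
      obtain ⟨h, hh, hi⟩ := hE i
      rw [hi]
      exact hcj h hh
    have hEa : ∀ i, adj σ f (E i) = 1 - E i := fun i =>
      hkey _ (hE' i).1 (hE' i).2.1 (hE' i).2.2.1 (hE' i).2.2.2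
    have hsum : ∀ i j, i ≠ j → E i + E j = 1 := by
      intro i j hij
      by_contra h2
      have h3 := hkey _ (Z.add_mem (hE' i).1 (hE' j).1)
        (by rw [add_mul, mul_add, mul_add, (hE' i).2.1, (hE' j).2.1, horth' i j hij,
          horth' j i hij.symm, add_zero, zero_add])
        (fun h4 => (hE' i).2.2.1 (by
          have := congrArg (E i * ·) h4
          simpa [mul_add, (hE' i).2.1, horth' i j hij] using this)) h2
      rw [hf.adj_add, hEa, hEa] at h3
      exact one_ne_zero (α := Matrix ι ι F) (by linear_combination (norm := abel) h3)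
    obtain rfl : t = 2 := by
      have h2 := hD.two_le
      by_contra h3
      have h4 := hsum ⟨0, by omega⟩ ⟨1, by omega⟩ (by simp)
      rw [← hsum ⟨0, by omega⟩ ⟨2, by omega⟩ (by simp)] at h4
      simpa using hinj (add_left_cancel h4)
    refine ⟨m, D, IsMDecomposition.mul_eq hD, hD, fun i => ?_, hHD⟩
    rw [hDE]
    rintro _ ⟨u, rfl⟩ _ ⟨v, rfl⟩
    rw [Matrix.toLin'_apply, Matrix.toLin'_apply, hf.adj_spec, hEa, mulVec_mulVec, sub_mul,
      (hE' i).2.1, one_mul, sub_self, zero_mulVec, hf.zero_right]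

lemma card_eq_sq_of_invol {K : Type*} [Field K] [Finite K] (φ : K →+* K) (hφ : ∀ x, φ (φ x) = x)
    {a : K} (ha : φ a ≠ a) : Nat.card K = Nat.card (fixField φ) ^ 2 := by
  have ha' : a - φ a ≠ 0 := sub_ne_zero.2 ha.symm
  have ha'' : φ a - a ≠ 0 := sub_ne_zero.2 ha
  rw [pow_two, ← Nat.card_prod]
  symm
  refine Nat.card_eq_of_bijective (fun p => (p.1 : K) + a * p.2) ⟨?_, ?_⟩
  · rintro ⟨u, y⟩ ⟨u', y'⟩ h
    simp only at h
    have h1 := congrArg φ h
    rw [map_add, map_add, map_mul, map_mul, mem_fixField.1 u.2, mem_fixField.1 y.2,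
      mem_fixField.1 u'.2, mem_fixField.1 y'.2] at h1
    have h2 : (y : K) = y' := mul_left_cancel₀ ha' (by linear_combination h - h1)
    have h3 : (u : K) = u' := by rw [h2] at h; exact add_right_cancel h
    exact Prod.ext (Subtype.ext h3) (Subtype.ext h2)
  · intro x
    refine ⟨⟨⟨x - a * ((x - φ x) / (a - φ a)), ?_⟩, ⟨(x - φ x) / (a - φ a), ?_⟩⟩, by simp⟩
    · rw [mem_fixField, map_sub, map_mul, map_div₀, map_sub, map_sub, hφ, hφ]
      field_simp
      ring
    · rw [mem_fixField, map_div₀, map_sub, map_sub, hφ, hφ]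
      field_simp
      ring

lemma exists_q_of_invol [Fintype F] {σ : F →+* F} (hσ : ∀ x, σ (σ x) = x) (hne : ∃ a, σ a ≠ a) :
    ∃ q, Fintype.card F = q ^ 2 ∧ Nat.card (fixField σ) = q := by
  obtain ⟨a, ha⟩ := hne
  exact ⟨_, by rw [← card_eq_sq_of_invol σ hσ ha, Nat.card_eq_fintype_card], rfl⟩

/-- The adjoint as a ring endomorphism of a commutative adjoint-closed subalgebra. -/
noncomputable def HForm.adjHom {σ : F →+* F} {ε : F} {f : (ι → F) → (ι → F) → F}
    (hf : HForm σ ε f) {K : Subalgebra F (Matrix ι ι F)} (hc : ∀ x ∈ K, ∀ y ∈ K, x * y = y * x)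
    (hadj : ∀ x ∈ K, adj σ f x ∈ K) : K →+* K where
  toFun x := ⟨adj σ f x, hadj x x.2⟩
  map_one' := Subtype.ext hf.adj_one
  map_mul' x y := Subtype.ext (by
    simp only [MulMemClass.coe_mul]
    rw [hf.adj_mul, hc _ (hadj _ y.2) _ (hadj _ x.2)])
  map_zero' := Subtype.ext hf.adj_zero
  map_add' x y := Subtype.ext (hf.adj_add _ _)

/-- An adjoint-closed subfield for a unitary form has odd degree. -/
lemma HForm.odd_finrank [Fintype F] [Nonempty ι] {q : ℕ} (hF : Fintype.card F = q ^ 2)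
    {σ : F →+* F} (hσ : ∀ x, σ x = x ^ q) {ε : F} {f : (ι → F) → (ι → F) → F} (hf : HForm σ ε f)
    {K : Subalgebra F (Matrix ι ι F)} (hc : ∀ x ∈ K, ∀ y ∈ K, x * y = y * x)
    (hinv : ∀ x ∈ K, x ≠ 0 → ∃ y ∈ K, x * y = 1) (hadj : ∀ x ∈ K, adj σ f x ∈ K) :
    Odd (Module.finrank F K) := by
  letI : Field K := (isField_of_subalgebra hc hinv).toField
  obtain ⟨a, ha⟩ := qHom_ne hF hσ
  have h1 : hf.adjHom hc hadj (algebraMap F K a) = algebraMap F K (σ a) := by
    apply Subtype.ext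
    change adj σ f (algebraMap F (Matrix ι ι F) a) = algebraMap F (Matrix ι ι F) (σ a)
    rw [Algebra.algebraMap_eq_smul_one, Algebra.algebraMap_eq_smul_one, hf.adj_smul, hf.adj_one]
  have h2 : hf.adjHom hc hadj (algebraMap F K a) ≠ algebraMap F K a := by
    rw [h1]
    exact fun h => ha ((algebraMap F K).injective h)
  have h3 := card_eq_sq_of_invol (hf.adjHom hc hadj) (fun x => Subtype.ext (hf.adj_adj _)) h2
  by_contra hodd
  obtain ⟨k, hk⟩ := Nat.not_odd_iff_even.1 hodd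
  rw [Module.natCard_eq_pow_finrank (K := F), hk, pow_add, ← pow_two,
    Nat.card_eq_fintype_card] at h3
  have h4 := Nat.pow_left_injective two_ne_zero h3
  apply h2
  rw [← mem_fixField, mem_subfield_iff_pow, ← h4, ← map_pow, FiniteField.pow_card_pow]

lemma HForm.adj_mem_powFixAlg [Fintype F] [Nonempty ι] {σ : F →+* F} {ε : F}
    {f : (ι → F) → (ι → F) → F} (hf : HForm σ ε f) {K : Subalgebra F (Matrix ι ι F)}
    (hc : ∀ x ∈ K, ∀ y ∈ K, x * y = y * x) (hadj : ∀ x ∈ K, adj σ f x ∈ K) (r : ℕ) :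
    ∀ x ∈ powFixAlg K hc r, adj σ f x ∈ powFixAlg K hc r := fun x hx =>
  ⟨hadj x hx.1, by rw [← hf.adj_pow, hx.2]⟩

/-- Class 3 in the unitary case. -/
lemma HForm.field_unitary [Fintype F] [Nonempty ι] {q : ℕ} (hF : Fintype.card F = q ^ 2)
    {σ : F →+* F} (hσ : ∀ x, σ x = x ^ q) {ε : F} {f : (ι → F) → (ι → F) → F} (hf : HForm σ ε f)
    {H : Subgroup (GL ι F)} {Z : Subalgebra F (Matrix ι ι F)} (hZ : NormA H Z)
    (hc : ∀ x ∈ Z, ∀ y ∈ Z, x * y = y * x) (hinv : ∀ x ∈ Z, x ≠ 0 → ∃ y ∈ Z, x * y = 1)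
    (hadj : ∀ x ∈ Z, adj σ f x ∈ Z) (hns : ∃ x ∈ Z, ¬ IsScal x) :
    ∃ (r : ℕ) (K : Subalgebra F (Matrix ι ι F)), r.Prime ∧ Odd r ∧ IsFieldSubalgebra r K ∧
      IsAdjointClosedFor f K ∧ H ≤ subalgebraNormalizer K := by
  have hp := Nat.minFac_prime (finrank_ne_one_of_not_scal hns)
  exact ⟨_, powFixAlg Z hc _, hp, (hf.odd_finrank hF hσ hc hinv hadj).of_dvd_nat (Nat.minFac_dvd _),
    isFieldSubalgebra_powFixAlg hc hinv hp.pos (Nat.minFac_dvd _),
    hf.isAdjointClosedFor (hf.adj_mem_powFixAlg hc hadj _), (hZ.powFixAlg hc _).le_normalizer⟩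

lemma inv_unique_of_comm {M : Type*} [Monoid M] {x y z : M} (h1 : x * y = 1) (h2 : z * x = 1) :
    z = y := by rw [← mul_one z, ← h1, ← mul_assoc, h2, one_mul]

/-- Class 3 for a bilinear form. -/
lemma HForm.field_bilinear [Fintype F] [Nonempty ι] {ε : F} {f : (ι → F) → (ι → F) → F}
    (hf : HForm (RingHom.id F) ε f) {H : Subgroup (GL ι F)} (hH : Isom f H)
    {Z : Subalgebra F (Matrix ι ι F)} (hZ : NormA H Z)
    (hc : ∀ x ∈ Z, ∀ y ∈ Z, x * y = y * x) (hinv : ∀ x ∈ Z, x ≠ 0 → ∃ y ∈ Z, x * y = 1)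
    (hadj : ∀ x ∈ Z, adj (RingHom.id F) f x ∈ Z) (hns : ∃ x ∈ Z, ¬ IsScal x) :
    (∃ (r : ℕ) (K : Subalgebra F (Matrix ι ι F)), r.Prime ∧ IsFieldSubalgebra r K ∧
      IsSelfAdjointFor f K ∧ NormA H K) ∨
    (IsFieldSubalgebra 2 Z ∧ ¬ IsSelfAdjointFor f Z ∧
      ∀ x ∈ Z, adj (RingHom.id F) f x = x → IsScal x) := by
  let S : Subalgebra F (Matrix ι ι F) :=
    { carrier := {x | x ∈ Z ∧ adj (RingHom.id F) f x = x}
      mul_mem' := fun {a b} ha hb => ⟨Z.mul_mem ha.1 hb.1, by
        rw [hf.adj_mul, ha.2, hb.2, hc a ha.1 b hb.1]⟩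
      add_mem' := fun {a b} ha hb => ⟨Z.add_mem ha.1 hb.1, by rw [hf.adj_add, ha.2, hb.2]⟩
      algebraMap_mem' := fun c => ⟨Z.algebraMap_mem c, by
        rw [Algebra.algebraMap_eq_smul_one, hf.adj_smul, hf.adj_one, RingHom.id_apply]⟩ }
  have hSc : ∀ x ∈ S, ∀ y ∈ S, x * y = y * x := fun x hx y hy => hc x hx.1 y hy.1
  by_cases hS : ∃ x ∈ S, ¬ IsScal x
  · left
    have hSinv : ∀ x ∈ S, x ≠ 0 → ∃ y ∈ S, x * y = 1 := by
      intro x hx h0
      obtain ⟨y, hy, hxy⟩ := hinv x hx.1 h0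
      refine ⟨y, ⟨hy, inv_unique_of_comm hxy ?_⟩, hxy⟩
      have := congrArg (adj (RingHom.id F) f) hxy
      rwa [hf.adj_mul, hx.2, hf.adj_one] at this
    have hSn : NormA H S := fun g hg x hx => ⟨hZ g hg x hx.1, by rw [hf.adj_cj hH hg, hx.2]⟩
    have hp := Nat.minFac_prime (finrank_ne_one_of_not_scal hS)
    exact ⟨_, powFixAlg S hSc _, hp, isFieldSubalgebra_powFixAlg hSc hSinv hp.pos (Nat.minFac_dvd _),
      hf.isSelfAdjointFor_iff.2 fun x hx => hx.1.2, hSn.powFixAlg hSc _⟩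
  · right
    push Not at hS
    have hS' : ∀ x ∈ Z, adj (RingHom.id F) f x = x → IsScal x := fun x hx h => hS x ⟨hx, h⟩
    obtain ⟨θ, hθ, hθs⟩ := hns
    have hθa : adj (RingHom.id F) f θ ≠ θ := fun h => hθs (hS' θ hθ h)
    refine ⟨⟨hc, hinv, ?_⟩, fun h => hθa (hf.isSelfAdjointFor_iff.1 h θ hθ), hS'⟩
    have hδ : θ - adj (RingHom.id F) f θ ∈ Z := Z.sub_mem hθ (hadj θ hθ)
    obtain ⟨y, hy, hδy⟩ := hinv _ hδ (sub_ne_zero.2 hθa.symm)
    have hya : adj (RingHom.id F) f y = -y := by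
      have := congrArg (adj (RingHom.id F) f) hδy
      rw [hf.adj_mul, hf.adj_sub, hf.adj_adj, hf.adj_one, ← neg_sub, mul_neg, ← neg_mul] at this
      exact neg_eq_iff_eq_neg.1 (inv_unique_of_comm hδy this)
    have hspan : Subalgebra.toSubmodule Z = Submodule.span F (Set.range ![1, θ]) := by
      apply le_antisymm
      · intro x hx
        have hx' : x - adj (RingHom.id F) f x ∈ Z := Z.sub_mem hx (hadj x hx)
        obtain ⟨c, hc1⟩ := hS' _ (Z.mul_mem hx' hy) (by
          rw [hf.adj_mul, hya, hf.adj_sub, hf.adj_adj, ← neg_sub x, neg_mul_neg, hc _ hy _ hx'])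
        have h2 : x - adj (RingHom.id F) f x = c • (θ - adj (RingHom.id F) f θ) := by
          rw [← mul_one (x - _), ← hδy, hc _ hδ _ hy, ← mul_assoc, hc1, Matrix.smul_mul, one_mul]
        obtain ⟨d, hd⟩ := hS' (x - c • θ) (Z.sub_mem hx (Z.smul_mem hθ c)) (by
          rw [hf.adj_sub, hf.adj_smul, RingHom.id_apply]
          rw [smul_sub] at h2
          linear_combination (norm := abel) -h2)
        have h3 : x = d • (1 : Matrix ι ι F) + c • θ := by rw [← hd, sub_add_cancel]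
        rw [h3]
        exact Submodule.add_mem _ (Submodule.smul_mem _ _ (Submodule.subset_span ⟨0, rfl⟩))
          (Submodule.smul_mem _ _ (Submodule.subset_span ⟨1, rfl⟩))
      · rw [Submodule.span_le]
        rintro _ ⟨i, rfl⟩
        fin_cases i
        · exact Z.one_mem
        · exact hθ
    have h1 : Module.finrank F Z ≤ 2 := by
      rw [← Subalgebra.finrank_toSubmodule, hspan]
      exact (finrank_range_le_card (R := F) ![1, θ]).trans (by simp)
    have h2 := finrank_ne_one_of_not_scal ⟨θ, hθ, hθs⟩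
    have h3 : 0 < Module.finrank F Z := Module.finrank_pos
    omega

lemma finrank_le_card_of_field [Nonempty ι] {K : Subalgebra F (Matrix ι ι F)}
    (hc : ∀ x ∈ K, ∀ y ∈ K, x * y = y * x) (hinv : ∀ x ∈ K, x ≠ 0 → ∃ y ∈ K, x * y = 1) :
    Module.finrank F K ≤ Fintype.card ι := by
  obtain ⟨i⟩ := ‹Nonempty ι›
  let φ : K →ₗ[F] (ι → F) :=
    { toFun := fun x => (x : Matrix ι ι F) *ᵥ Pi.single i 1
      map_add' := fun x y => add_mulVec _ _ _
      map_smul' := fun c x => smul_mulVec _ _ _ }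
  rw [← Module.finrank_fintype_fun_eq_card F]
  refine LinearMap.finrank_le_finrank_of_injective (f := φ) ((injective_iff_map_eq_zero φ).2 ?_)
  intro x hx
  by_contra h0
  obtain ⟨y, hy, hxy⟩ := hinv x x.2 fun h => h0 (Subtype.ext h)
  have : y *ᵥ ((x : Matrix ι ι F) *ᵥ Pi.single i 1) = 0 := by
    change y *ᵥ φ x = 0
    rw [hx, mulVec_zero]
  rw [mulVec_mulVec, ← hc _ x.2 _ hy, hxy, one_mulVec] at this
  simpa using congrFun this i

/-- A normalised self-adjoint subfield is alternating. -/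
lemma alt_of_selfAdjoint [Finite F] [Nonempty ι] {f : (ι → F) → (ι → F) → F}
    (hs : IsSymplecticForm f) {H : Subgroup (GL ι F)} (hH : Isom f H) (hirr : Irr H) {r : ℕ}
    {K : Subalgebra F (Matrix ι ι F)} (hK : IsFieldSubalgebra r K) (hsa : IsSelfAdjointFor f K)
    (hn : NormA H K) : ∀ k ∈ K, ∀ v, f (k *ᵥ v) v = 0 := by
  have hb := hs.bilinear
  by_cases h2 : (2 : F) = 0
  swap
  · intro k hk v
    have := hsa k hk v v
    rw [hs.skew v] at this
    exact mul_left_cancel₀ h2 (by linear_combination this)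
  have hadd : ∀ k ∈ K, ∀ u v, f (k *ᵥ (u + v)) (u + v) = f (k *ᵥ u) u + f (k *ᵥ v) v := by
    intro k hk u v
    rw [mulVec_add, hb.add_left, hb.add_right, hb.add_right, hsa k hk v u, hs.skew v]
    ring
  let W : Submodule F (ι → F) :=
    { carrier := {v | ∀ k ∈ K, f (k *ᵥ v) v = 0}
      add_mem' := fun {a b} ha hb k hk => by rw [hadd k hk, ha k hk, hb k hk, add_zero]
      zero_mem' := fun k hk => by rw [mulVec_zero]; exact hs.alternating 0
      smul_mem' := fun c a ha k hk => by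
        rw [mulVec_smul, hb.smul_left, hb.smul_right, ha k hk, mul_zero, mul_zero] }
  rcases hirr W (by
    intro g hg v hv k hk
    rw [← cj_cj_inv g k, cj_mulVec, hH g hg]
    exact hv _ (hn _ (H.inv_mem hg) k hk)) with h | h
  · exfalso
    let Φ : (ι → F) →+ Module.Dual F K :=
      { toFun := fun v =>
          { toFun := fun k => f ((k : Matrix ι ι F) *ᵥ v) v
            map_add' := fun x y => by rw [Subalgebra.coe_add, add_mulVec, hb.add_left]
            map_smul' := fun c x => by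
              rw [Subalgebra.coe_smul, smul_mulVec, hb.smul_left]; rfl }
        map_zero' := by
          ext k
          simpa using hs.alternating 0
        map_add' := fun u v => by
          ext k
          exact hadd k k.2 u v }
    have hinj : Function.Injective Φ := by
      rw [injective_iff_map_eq_zero]
      intro v hv
      have : v ∈ W := fun k hk => LinearMap.congr_fun hv ⟨k, hk⟩
      rwa [h] at this
    haveI : Finite (Module.Dual F K) := Module.finite_of_finite F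
    have hbij := hinj.bijective_of_nat_card_le (by
      rw [Module.natCard_eq_pow_finrank (K := F), Module.natCard_eq_pow_finrank (K := F) (V := ι → F),
        Subspace.dual_finrank_eq, Module.finrank_fintype_fun_eq_card]
      exact Nat.pow_le_pow_right Nat.card_pos (finrank_le_card_of_field hK.comm hK.inv))
    obtain ⟨φ, hφ⟩ : ∃ φ : Module.Dual F K, φ 1 ≠ 0 := by
      by_contra h0
      push Not at h0
      exact one_ne_zero ((Module.forall_dual_apply_eq_zero_iff F (1 : K)).1 h0)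
    obtain ⟨v, rfl⟩ := hbij.2 φ
    apply hφ
    change f ((1 : Matrix ι ι F) *ᵥ v) v = 0
    rw [one_mulVec, hs.alternating]
  · intro k hk v
    have : v ∈ W := by rw [h]; trivial
    exact this k hk

/-- In characteristic two, a normalised quadratic subfield that is not self-adjoint gives an
invariant quadratic form. -/
lemma exists_quad_of_field {f : (ι → F) → (ι → F) → F} (hs : IsSymplecticForm f) (h2 : (2 : F) = 0)
    {H : Subgroup (GL ι F)} (hH : Isom f H) {Z : Subalgebra F (Matrix ι ι F)} (hZ : NormA H Z)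
    (hadj : ∀ x ∈ Z, adj (RingHom.id F) f x ∈ Z) (hns : ¬ IsSelfAdjointFor f Z)
    (hS : ∀ x ∈ Z, adj (RingHom.id F) f x = x → IsScal x) :
    ∃ Q : (ι → F) → F, IsNondegenerateQuadraticForm Q ∧
      (∀ u v, QuadraticMap.polar Q u v = f u v) ∧ ∀ g ∈ H, ∀ v, Q ((g : Matrix ι ι F) *ᵥ v) = Q v := by
  have hf := hform_of_symplectic hs
  have hb := hs.bilinear
  have hm2 : ∀ x : Matrix ι ι F, x + x = 0 := fun x => by rw [← two_smul F, h2, zero_smul]
  rw [hf.isSelfAdjointFor_iff] at hns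
  push Not at hns
  obtain ⟨θ, hθ, hθa⟩ := hns
  obtain ⟨t, ht⟩ := hS _ (Z.add_mem hθ (hadj θ hθ)) (by rw [hf.adj_add, hf.adj_adj, add_comm])
  have ht0 : t ≠ 0 := by
    rintro rfl
    apply hθa
    rw [zero_smul] at ht
    linear_combination (norm := abel) ht - hm2 θ
  have hη : t⁻¹ • θ ∈ Z := Z.smul_mem hθ _
  have hηa : t⁻¹ • θ + adj (RingHom.id F) f (t⁻¹ • θ) = 1 := by
    rw [hf.adj_smul, RingHom.id_apply, ← smul_add, ht, smul_smul, inv_mul_cancel₀ ht0, one_smul]
  generalize t⁻¹ • θ = η at hη hηa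
  have hpol : ∀ u v, QuadraticMap.polar (fun v => f (η *ᵥ v) v) u v = f u v := by
    intro u v
    rw [QuadraticMap.polar, mulVec_add, hb.add_left, hb.add_right, hb.add_right,
      hf.adj_spec η v u, hs.skew v]
    conv_rhs => rw [← one_mulVec u, ← hηa, add_mulVec, hb.add_left]
    linear_combination (-f (adj (RingHom.id F) f η *ᵥ u) v) * h2
  have hpol' : QuadraticMap.polar (fun v => f (η *ᵥ v) v) = f :=
    funext fun u => funext fun v => hpol u v
  refine ⟨fun v => f (η *ᵥ v) v, ⟨fun c v => ?_, hpol'.symm ▸ hb, hpol'.symm ▸ hs.nondegenerate⟩,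
    hpol, fun g hg v => ?_⟩
  · rw [mulVec_smul, hb.smul_left, hb.smul_right]
    ring
  · have hg' := H.inv_mem hg
    obtain ⟨c, hc⟩ := hS (cj g⁻¹ η + η) (Z.add_mem (hZ _ hg' η hη) hη) (by
      have h3 := congrArg (cj g⁻¹) hηa
      rw [map_add, map_one] at h3
      rw [hf.adj_add, hf.adj_cj hH hg']
      linear_combination (norm := abel) h3 + hηa - hm2 (cj g⁻¹ η) - hm2 η + hm2 1)
    have h3 : cj g⁻¹ η = η + c • 1 := by linear_combination (norm := abel) hc - hm2 η
    simp only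
    conv_lhs => rw [← cj_cj_inv g η]
    rw [cj_mulVec, hH g hg, h3, add_mulVec, hb.add_left, smul_mulVec, one_mulVec,
      hb.smul_left, hs.alternating, mul_zero, add_zero]

end Cfsg.Agent.H7
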