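import Cfsg.Agent.H7.AschTv

set_option autoImplicit false
set_option linter.unusedSectionVars false
set_option linter.unusedVariables false
set_option linter.unnecessarySimpa false
set_option linter.style.haveILetI false
set_option linter.unusedSimpArgs false

namespace Cfsg.Agent.H7

open Cfsg Cfsg.Geo Matrix
open scoped MatrixGroups Kronecker commutatorElement

variable {ι : Type} [Fintype ι] [DecidableEq ι] {F : Type*} [Field F]

/-! ### Decompositions given by a frame and a labelling of the coordinates -/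

section Label
variable {κ : Type} [Fintype κ] [DecidableEq κ] {t : ℕ}

/-- the span of the frame vectors with label `i` -/
def blockSub (e : ι ≃ κ) (P : GL ι F) (β : κ → Fin t) (i : Fin t) : Submodule F (ι → F) where
  carrier := {v | ∀ x, β x ≠ i → (frameVec e P).symm v x = 0}
  add_mem' {a b} ha hb x hx := by rw [map_add, Pi.add_apply, ha x hx, hb x hx, add_zero]
  zero_mem' x hx := by simp
  smul_mem' c a ha x hx := by rw [map_smul, Pi.smul_apply, ha x hx, smul_zero]

lemma mem_blockSub {e : ι ≃ κ} {P : GL ι F} {β : κ → Fin t} {i : Fin t} {v : ι → F} :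
    v ∈ blockSub e P β i ↔ ∀ x, β x ≠ i → (frameVec e P).symm v x = 0 := Iff.rfl

lemma frameVec_mem_blockSub {e : ι ≃ κ} {P : GL ι F} {β : κ → Fin t} {i : Fin t} {w : κ → F} :
    frameVec e P w ∈ blockSub e P β i ↔ ∀ x, β x ≠ i → w x = 0 := by
  rw [mem_blockSub, LinearEquiv.symm_apply_apply]

lemma single_mem_blockSub (e : ι ≃ κ) (P : GL ι F) (β : κ → Fin t) (x : κ) (c : F) :
    frameVec e P (Pi.single x c) ∈ blockSub e P β (β x) := by
  rw [frameVec_mem_blockSub]
  intro y hy
  rw [Pi.single_apply, if_neg]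
  rintro rfl
  exact hy rfl

lemma finrank_blockSub (e : ι ≃ κ) (P : GL ι F) (β : κ → Fin t) (i : Fin t) :
    Module.finrank F (blockSub e P β i) = Fintype.card {x // β x = i} := by
  let L : ({x // β x = i} → F) →ₗ[F] (κ → F) :=
    { toFun := fun y x => if h : β x = i then y ⟨x, h⟩ else 0
      map_add' := fun y z => by ext x; by_cases h : β x = i <;> simp [h]
      map_smul' := fun c y => by ext x; by_cases h : β x = i <;> simp [h] }
  have hL : Function.Injective ((frameVec e P).toLinearMap.comp L) := by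
    rw [injective_iff_map_eq_zero]
    intro y hy
    have h1 : L y = 0 := by simpa using hy
    ext ⟨x, hx⟩
    have := congrFun h1 x
    simpa [L, hx] using this
  have hr : LinearMap.range ((frameVec e P).toLinearMap.comp L) = blockSub e P β i := by
    ext v
    constructor
    · rintro ⟨y, rfl⟩
      refine frameVec_mem_blockSub.2 fun x hx => ?_
      simp [L, hx]
    · intro hv
      refine ⟨fun x => (frameVec e P).symm v x.1, ?_⟩
      apply (frameVec e P).symm.injective
      ext x
      by_cases h : β x = i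
      · simp [L, h]
      · simp [L, h, hv x h]
  rw [← hr, LinearMap.finrank_range_of_inj hL, Module.finrank_fintype_fun_eq_card]

lemma isMDecomposition_blockSub (e : ι ≃ κ) (P : GL ι F) {β : κ → Fin t} {m : ℕ} (ht : 2 ≤ t)
    (hm : 0 < m) (hβ : ∀ i, Fintype.card {x // β x = i} = m) :
    IsMDecomposition m (blockSub e P β) where
  two_le := ht
  pos := hm
  finrank_eq i := by rw [finrank_blockSub, hβ]
  indep i := by
    let U : Submodule F (ι → F) :=
      { carrier := {v | ∀ x, β x = i → (frameVec e P).symm v x = 0}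
        add_mem' := fun {a b} ha hb x hx => by
          rw [map_add, Pi.add_apply, ha x hx, hb x hx, add_zero]
        zero_mem' := fun x hx => by simp
        smul_mem' := fun c a ha x hx => by rw [map_smul, Pi.smul_apply, ha x hx, smul_zero] }
    refine Disjoint.mono_right (c := U) (iSup₂_le fun j hj v hv x hx => hv x ?_) ?_
    · rw [hx]; exact Ne.symm hj
    · rw [Submodule.disjoint_def]
      intro v h1 h2
      apply (frameVec e P).symm.injective
      ext x
      by_cases h : β x = i
      · rw [h2 x h]; simp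
      · rw [h1 x h]; simp
  iSup_eq_top := by
    rw [eq_top_iff]
    intro v _
    obtain ⟨w, rfl⟩ := (frameVec e P).surjective v
    rw [← Finset.univ_sum_single w, map_sum]
    exact Submodule.sum_mem _ fun x _ =>
      (le_iSup (blockSub e P β) (β x)) (single_mem_blockSub e P β x _)

lemma mem_decomp_blockSub {e : ι ≃ κ} {P : GL ι F} {β : κ → Fin t} {m : ℕ}
    (hβ : ∀ i, Fintype.card {x // β x = i} = m) {g : GL ι F} {X : Matrix κ κ F}
    (hg : (g : Matrix ι ι F) = frameEquiv e P X) {s : Equiv.Perm (Fin t)}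
    (hX : ∀ x y, β x ≠ s (β y) → X x y = 0) : g ∈ decompositionStabilizer (blockSub e P β) := by
  refine ⟨s, fun i => Submodule.eq_of_le_of_finrank_eq ?_ ?_⟩
  · rintro _ ⟨v, hv, rfl⟩ x hx
    rw [toLin'_apply, hg, frameVec_symm_mulVec]
    refine Finset.sum_eq_zero fun y _ => ?_
    by_cases h : β y = i
    · exact mul_eq_zero_of_left (hX x y (by rwa [h])) _
    · exact mul_eq_zero_of_right _ (hv y h)
  · rw [finrank_map_val, finrank_blockSub, finrank_blockSub, hβ, hβ]

lemma zero_of_mem_decomp {e : ι ≃ κ} {P : GL ι F} {β : κ → Fin t} {g : GL ι F}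
    (hg : g ∈ decompositionStabilizer (blockSub e P β)) : ∃ s : Equiv.Perm (Fin t),
      ∀ x y, β x ≠ s (β y) → (frameEquiv e P).symm (g : Matrix ι ι F) x y = 0 := by
  obtain ⟨s, hs⟩ := hg
  refine ⟨s, fun x y hxy => ?_⟩
  have h1 : (g : Matrix ι ι F) *ᵥ frameVec e P (Pi.single y 1) ∈ blockSub e P β (s (β y)) := by
    rw [← hs]
    exact ⟨_, single_mem_blockSub e P β y 1, toLin'_apply _ _⟩
  have h2 := h1 x hxy
  rw [← (frameEquiv e P).apply_symm_apply (g : Matrix ι ι F), frameVec_symm_mulVec,
    LinearEquiv.symm_apply_apply, mulVec_single_one] at h2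
  exact h2

end Label

lemma Sesq.nondegDecomp {σ : F →+* F} {f : (ι → F) → (ι → F) → F} (hf : Sesq σ f) {t m : ℕ}
    {D : Fin t → Submodule F (ι → F)} (hD : IsMDecomposition m D)
    (ho : ∀ i j, i ≠ j → AreOrthogonalFor f (D i) (D j)) : IsNondegenerateMDecomposition f m D := by
  refine ⟨hD, fun i w hw hw0 => ⟨?_, ?_⟩, ho⟩
  · by_contra hall
    push Not at hall
    refine hw0 (hf.eq_zero_of_left fun x => ?_)
    have hx : x ∈ iSup D := by rw [hD.iSup_eq_top]; trivial
    induction hx using Submodule.iSup_induction' with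
    | mem j x hx =>
      by_cases h : j = i
      · exact hall x (h ▸ hx)
      · exact ho j i h x hx w hw
    | zero => exact hf.zero_left _
    | add x y _ _ hx hy => rw [hf.add_left, hx, hy, add_zero]
  · by_contra hall
    push Not at hall
    refine hw0 (hf.eq_zero_of_right fun x => ?_)
    have hx : x ∈ iSup D := by rw [hD.iSup_eq_top]; trivial
    induction hx using Submodule.iSup_induction' with
    | mem j x hx =>
      by_cases h : j = i
      · exact hall x (h ▸ hx)
      · exact ho i j (Ne.symm h) w hw x hx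
    | zero => exact hf.zero_right _
    | add x y _ _ hx hy => rw [hf.add_right, hx, hy, add_zero]

lemma Sesq.blockSub_form {σ : F →+* F} {f : (ι → F) → (ι → F) → F} (hf : Sesq σ f)
    {κ : Type} [Fintype κ] [DecidableEq κ] {t : ℕ} {e : ι ≃ κ} {P : GL ι F} {β : κ → Fin t}
    {i j : Fin t} (hG : ∀ x y, β x = i → β y = j → frameGram f e P x y = 0) :
    AreOrthogonalFor f (blockSub e P β i) (blockSub e P β j) := by
  intro u hu v hv
  obtain ⟨u, rfl⟩ := (frameVec e P).surjective u
  obtain ⟨v, rfl⟩ := (frameVec e P).surjective v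
  rw [frameVec_mem_blockSub] at hu hv
  rw [hf.frameGram_spec, gform_eq_formOfGram]
  refine Finset.sum_eq_zero fun x _ => Finset.sum_eq_zero fun y _ => ?_
  by_cases hx : β x = i
  · by_cases hy : β y = j
    · rw [hG x y hx hy]; simp
    · rw [hv y hy]; simp
  · rw [hu x hx]; simp

lemma Sesq.nondeg_blockSub {σ : F →+* F} {f : (ι → F) → (ι → F) → F} (hf : Sesq σ f)
    {κ : Type} [Fintype κ] [DecidableEq κ] {t : ℕ} {e : ι ≃ κ} {P : GL ι F} {β : κ → Fin t}
    {m : ℕ} (ht : 2 ≤ t) (hm : 0 < m) (hβ : ∀ i, Fintype.card {x // β x = i} = m)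
    (hG : ∀ x y, β x ≠ β y → frameGram f e P x y = 0) :
    IsNondegenerateMDecomposition f m (blockSub e P β) :=
  hf.nondegDecomp (isMDecomposition_blockSub e P ht hm hβ) fun i j hij =>
    hf.blockSub_form fun x y hx hy => hG x y (by rwa [hx, hy])

lemma card_snd_eq {α : Type} [Fintype α] {t : ℕ} (i : Fin t) :
    Fintype.card {x : α × Fin t // x.2 = i} = Fintype.card α :=
  Fintype.card_congr
    { toFun := fun x => x.1.1
      invFun := fun a => ⟨(a, i), rfl⟩
      left_inv := by rintro ⟨⟨a, j⟩, rfl⟩; rfl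
      right_inv := fun a => rfl }

lemma card_fst_eq {α : Type} [Fintype α] {t : ℕ} (i : Fin t) :
    Fintype.card {x : Fin t × α // x.1 = i} = Fintype.card α :=
  Fintype.card_congr
    { toFun := fun x => x.1.2
      invFun := fun a => ⟨(i, a), rfl⟩
      left_inv := by rintro ⟨⟨j, a⟩, rfl⟩; rfl
      right_inv := fun a => rfl }

lemma card_equiv_eq {κ : Type} [Fintype κ] {t : ℕ} (β : κ ≃ Fin t) (i : Fin t) :
    Fintype.card {x : κ // β x = i} = 1 := by
  rw [Fintype.card_eq_one_iff]
  exact ⟨⟨β.symm i, by simp⟩, by rintro ⟨x, rfl⟩; simp⟩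

/-! ### Block-monomial matrices -/

section Bm
variable {T α : Type} [Fintype T] [DecidableEq T] [Fintype α] [DecidableEq α]

/-- block-monomial matrix: the block `a i` maps part `i` to part `s i` -/
def bm (s : Equiv.Perm T) (a : T → Matrix α α F) : Matrix (α × T) (α × T) F :=
  Matrix.of fun x y => if x.2 = s y.2 then a y.2 x.1 y.1 else 0

lemma bm_apply (s : Equiv.Perm T) (a : T → Matrix α α F) (x y : α × T) :
    bm s a x y = if x.2 = s y.2 then a y.2 x.1 y.1 else 0 := rfl

lemma bm_eq (s : Equiv.Perm T) (a : T → Matrix α α F) :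
    bm s a = (blockDiagonal a).submatrix (Equiv.prodCongr (Equiv.refl α) s.symm) id := by
  ext ⟨k, i⟩ ⟨l, j⟩
  simp only [bm_apply, submatrix_apply, Equiv.prodCongr_apply, Prod.map, blockDiagonal_apply,
    Equiv.refl_apply, id, Equiv.symm_apply_eq]
  split_ifs with h
  · subst h; simp
  · rfl

lemma det_bm (s : Equiv.Perm T) (a : T → Matrix α α F) :
    (bm s a).det = ((Equiv.Perm.sign s : ℤ) : F) ^ Fintype.card α * ∏ i, (a i).det := by
  rw [bm_eq, det_permute, det_blockDiagonal]
  congr 1
  have : (Equiv.prodCongr (Equiv.refl α) s.symm : Equiv.Perm (α × T)) =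
      Equiv.prodCongrRight fun _ : α => s.symm := by
    ext ⟨k, i⟩ <;> rfl
  rw [this, Equiv.Perm.sign_prodCongrRight]
  simp

lemma bm_mulVec (s : Equiv.Perm T) (a : T → Matrix α α F) (x : α × T → F) (k : α) (i : T) :
    (bm s a *ᵥ x) (k, s i) = (a i *ᵥ fun l => x (l, i)) k := by
  simp only [mulVec, dotProduct, bm_apply, Fintype.sum_prod_type, EmbeddingLike.apply_eq_iff_eq,
    ite_mul, zero_mul]
  refine Finset.sum_congr rfl fun l _ => ?_
  rw [Finset.sum_ite_eq]; simp

lemma tw_bm (σ : F →+* F) (A : T → Matrix α α F) (s : Equiv.Perm T) (a : T → Matrix α α F) :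
    tw σ (blockDiagonal A) (bm s a) = blockDiagonal fun i => tw σ (A (s i)) (a i) := by
  ext ⟨k, i⟩ ⟨l, j⟩
  simp only [tw, mul_apply, transpose_apply, map_apply, bm_apply, blockDiagonal_apply,
    Fintype.sum_prod_type, ite_mul, zero_mul, mul_ite, mul_zero, apply_ite σ, map_zero,
    Finset.sum_ite_eq', Finset.mem_univ, if_true, Finset.sum_ite_eq, Finset.sum_mul]
  by_cases h : i = j
  · subst h; simp
  · simp [h, Ne.symm h]

lemma eq_bm_of_zero {X : Matrix (α × T) (α × T) F} {s : Equiv.Perm T}
    (h : ∀ x y, x.2 ≠ s y.2 → X x y = 0) : X = bm s fun i => Matrix.of fun k l => X (k, s i) (l, i) := by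
  ext ⟨k, i⟩ ⟨l, j⟩
  rw [bm_apply]
  split_ifs with h1
  · simp only at h1; subst h1; rfl
  · exact h _ _ h1

lemma det_ne_zero_of_bm {s : Equiv.Perm T} {a : T → Matrix α α F} (h : (bm s a).det ≠ 0) (i : T) :
    (a i).det ≠ 0 := by
  rw [det_bm] at h
  exact Finset.prod_ne_zero_iff.1 (right_ne_zero_of_mul h) i (Finset.mem_univ i)

lemma blockDiagonal_smul_eq {A B : T → Matrix α α F} {c : F} (h : ∀ i, A i = c • B i) :
    blockDiagonal A = c • blockDiagonal B := by
  rw [← blockDiagonal_smul]; congr 1; funext i; exact h i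

lemma sign_cast_sq (s : Equiv.Perm T) :
    ((Equiv.Perm.sign s : ℤ) : F) * ((Equiv.Perm.sign s : ℤ) : F) = 1 := by
  rw [← Int.cast_mul, ← Units.val_mul, Int.units_mul_self]; simp

end Bm

lemma det_frameEquiv {κ : Type} [Fintype κ] [DecidableEq κ] (e : ι ≃ κ) (P : GL ι F)
    (X : Matrix κ κ F) : (frameEquiv e P X).det = X.det := by
  rw [frameEquiv_apply, cj_apply, det_units_conj, det_submatrix_equiv_self]

lemma IsMDecomposition.exists_frame_of_basis {t m : ℕ} {D : Fin t → Submodule F (ι → F)}
    (hD : IsMDecomposition m D) {α : Type} [Fintype α] [DecidableEq α] (hα : Fintype.card α = m)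
    {b : Fin t → α → ι → F} (hb : ∀ i, LinearIndependent F (b i)) (hmem : ∀ i k, b i k ∈ D i) :
    ∃ (e : ι ≃ α × Fin t) (P : GL ι F), (∀ k i, frameVec e P (Pi.single (k, i) 1) = b i k) ∧
      D = blockSub e P Prod.snd ∧
      ∀ g ∈ decompositionStabilizer D, ∃ (s : Equiv.Perm (Fin t)) (a : Fin t → Matrix α α F),
        (∀ i, (a i).det ≠ 0) ∧ (g : Matrix ι ι F) = frameEquiv e P (bm s a) := by
  have hsp : ∀ i, Submodule.span F (Set.range (b i)) = D i := fun i =>
    Submodule.eq_of_le_of_finrank_eq (Submodule.span_le.2 (by rintro _ ⟨k, rfl⟩; exact hmem i k))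
      (by rw [finrank_span_eq_card (hb i), hα, hD.finrank_eq])
  have htop : ⊤ ≤ Submodule.span F (Set.range fun x : α × Fin t => b x.2 x.1) := by
    rw [← hD.iSup_eq_top]
    refine iSup_le fun i => ?_
    rw [← hsp i]
    exact Submodule.span_mono (by rintro _ ⟨k, rfl⟩; exact ⟨(k, i), rfl⟩)
  have hli : LinearIndependent F fun x : α × Fin t => b x.2 x.1 := by
    apply linearIndependent_of_top_le_span_of_card_eq_finrank htop
    rw [Fintype.card_prod, hα, Fintype.card_fin, Module.finrank_fintype_fun_eq_card, mul_comm,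
      IsMDecomposition.mul_eq hD]
  obtain ⟨e, P, hP⟩ := exists_frame _ hli htop
  have hDe : D = blockSub e P Prod.snd := by
    funext i
    apply Submodule.eq_of_le_of_finrank_eq
    · rw [← hsp i, Submodule.span_le]
      rintro _ ⟨k, rfl⟩
      rw [← hP (k, i)]
      exact single_mem_blockSub e P Prod.snd (k, i) 1
    · rw [finrank_blockSub, card_snd_eq, hα, hD.finrank_eq]
  refine ⟨e, P, fun k i => hP (k, i), hDe, fun g hg => ?_⟩
  rw [hDe] at hg
  obtain ⟨s, hs⟩ := zero_of_mem_decomp hg
  have h1 := eq_bm_of_zero hs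
  refine ⟨s, _, det_ne_zero_of_bm (s := s) ?_, by rw [← h1]; simp⟩
  rw [← h1, ← det_frameEquiv e P, AlgEquiv.apply_symm_apply]
  exact val_det_ne_zero g

lemma exists_basis_of_finrank {W : Submodule F (ι → F)} {m : ℕ} (h : Module.finrank F W = m) :
    ∃ b : Fin m → ι → F, LinearIndependent F b ∧ ∀ k, b k ∈ W := by
  let B := Module.finBasisOfFinrankEq F W h
  exact ⟨fun k => (B k : ι → F), B.linearIndependent.map' W.subtype (by simp), fun k => (B k).2⟩

lemma IsMDecomposition.exists_frame {t m : ℕ} {D : Fin t → Submodule F (ι → F)}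
    (hD : IsMDecomposition m D) :
    ∃ (e : ι ≃ Fin m × Fin t) (P : GL ι F), D = blockSub e P Prod.snd ∧
      ∀ g ∈ decompositionStabilizer D, ∃ (s : Equiv.Perm (Fin t))
        (a : Fin t → Matrix (Fin m) (Fin m) F),
        (∀ i, (a i).det ≠ 0) ∧ (g : Matrix ι ι F) = frameEquiv e P (bm s a) := by
  choose b hb hmem using fun i => exists_basis_of_finrank (hD.finrank_eq i)
  obtain ⟨e, P, -, h⟩ := IsMDecomposition.exists_frame_of_basis hD (Fintype.card_fin m) hb hmem
  exact ⟨e, P, h⟩

lemma frameGram_apply {f : (ι → F) → (ι → F) → F} {κ : Type} [Fintype κ] [DecidableEq κ]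
    (e : ι ≃ κ) (P : GL ι F) (x y : κ) :
    frameGram f e P x y = f (frameVec e P (Pi.single x 1)) (frameVec e P (Pi.single y 1)) := rfl

/-- the Gram matrix of an orthogonal decomposition is block diagonal -/
lemma frameGram_eq_blockDiagonal {f : (ι → F) → (ι → F) → F} {t : ℕ} {α : Type} [Fintype α]
    [DecidableEq α] {e : ι ≃ α × Fin t} {P : GL ι F}
    (ho : ∀ i j, i ≠ j → AreOrthogonalFor f (blockSub e P Prod.snd i) (blockSub e P Prod.snd j)) :
    frameGram f e P = blockDiagonal fun i => Matrix.of fun k l => frameGram f e P (k, i) (l, i) := by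
  ext ⟨k, i⟩ ⟨l, j⟩
  rw [blockDiagonal_apply]
  split_ifs with h
  · simp only at h; subst h; rfl
  · exact ho i j h _ (single_mem_blockSub e P Prod.snd (k, i) 1) _
      (single_mem_blockSub e P Prod.snd (l, j) 1)

end Cfsg.Agent.H7
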