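import Cfsg.Agent.H7.AschSubfield

set_option autoImplicit false
set_option linter.unusedSectionVars false
set_option linter.unusedVariables false
set_option linter.unnecessarySimpa false
set_option linter.style.haveILetI false
set_option linter.unusedSimpArgs false

namespace Cfsg.Agent.H7

open Cfsg Cfsg.Geo Matrix
open scoped MatrixGroups Kronecker commutatorElement

variable {ι : Type} [Fintype ι] [DecidableEq ι] {F : Type*} [Field F]

/-! ### Groups with scalar commutators -/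

lemma mul_pow_of_comm_central {G : Type*} [Group G] {x y c : G} (hc : ∀ g, c * g = g * c)
    (h : y * x = c * (x * y)) (k : ℕ) : (x * y) ^ k = c ^ k.choose 2 * (x ^ k * y ^ k) := by
  have hcp : ∀ j : ℕ, ∀ g, c ^ j * g = g * c ^ j := fun j g => (Commute.pow_left (hc g) j).eq
  have h1 : ∀ j : ℕ, y ^ j * x = c ^ j * (x * y ^ j) := by
    intro j
    induction j with
    | zero => simp
    | succ j ih =>
      rw [pow_succ' y, mul_assoc, ih, ← mul_assoc, ← hcp, mul_assoc, ← mul_assoc y, h, pow_succ c]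
      simp only [mul_assoc]
  induction k with
  | zero => simp
  | succ k ih =>
    rw [pow_succ, ih, Nat.choose_succ_succ' k 1, Nat.choose_one_right, pow_add, pow_succ x,
      pow_succ y]
    calc c ^ k.choose 2 * (x ^ k * y ^ k) * (x * y)
        = c ^ k.choose 2 * (x ^ k * (y ^ k * x) * y) := by simp only [mul_assoc]
      _ = c ^ k.choose 2 * ((x ^ k * c ^ k) * (x * y ^ k) * y) := by rw [h1]; simp only [mul_assoc]
      _ = _ := by
        rw [← hcp k, hcp k (c ^ k.choose 2)]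
        simp only [mul_assoc]

lemma pow_eq_one_of_comm_central {G : Type*} [Group G] {x y c : G} (hc : ∀ g, c * g = g * c)
    (h : y * x = c * (x * y)) {k : ℕ} (hk : y ^ k * x = x * y ^ k) : c ^ k = 1 := by
  have hcp : ∀ j : ℕ, ∀ g, c ^ j * g = g * c ^ j := fun j g => (Commute.pow_left (hc g) j).eq
  have h1 : ∀ j : ℕ, y ^ j * x = c ^ j * (x * y ^ j) := by
    intro j
    induction j with
    | zero => simp
    | succ j ih =>
      rw [pow_succ' y, mul_assoc, ih, ← mul_assoc, ← hcp, mul_assoc, ← mul_assoc y, h, pow_succ c]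
      simp only [mul_assoc]
  have := h1 k
  rw [hk] at this
  simpa using this

lemma dvd_choose_two {r : ℕ} (hr : r.Prime) : r ∣ (r * Nat.gcd 2 r).choose 2 := by
  rcases hr.eq_two_or_odd' with rfl | hodd
  · decide
  · have : Nat.gcd 2 r = 1 := (Nat.coprime_two_left.2 hodd)
    rw [this, mul_one]
    have h2 : 2 < r := by
      have := hr.two_le
      rcases hodd with ⟨k, hk⟩
      omega
    exact hr.dvd_choose_self two_ne_zero h2

lemma scalGL_mul (c d : Fˣ) : scalGL ι (c * d) = scalGL ι c * scalGL ι d := map_mul _ _ _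

lemma scalGL_pow (c : Fˣ) (k : ℕ) : scalGL ι (c ^ k) = scalGL ι c ^ k := map_pow _ _ _

lemma scalGL_inv (c : Fˣ) : scalGL ι c⁻¹ = (scalGL ι c)⁻¹ := map_inv _ _

lemma scalGL_one : scalGL ι (1 : Fˣ) = 1 := map_one _

lemma scalGL_comm (c : Fˣ) (g : GL ι F) : scalGL ι c * g = g * scalGL ι c :=
  scalars_comm (scalGL_mem c) g

lemma scalGL_injective [Nonempty ι] : Function.Injective (scalGL ι : Fˣ → GL ι F) := by
  intro c d h
  obtain ⟨i⟩ := ‹Nonempty ι›
  have := congrArg (fun g : GL ι F => (g : Matrix ι ι F) i i) h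
  exact Units.ext (by simpa using this)

lemma scalGL_eq_one_iff [Nonempty ι] {c : Fˣ} : scalGL ι c = 1 ↔ c = 1 := by
  rw [← scalGL_one, scalGL_injective.eq_iff]

lemma exists_scalGL {g : GL ι F} (h : g ∈ scalars ι F) : ∃ c, g = scalGL ι c := by
  obtain ⟨c, hc⟩ := h
  exact ⟨c, hc.symm⟩

lemma mem_sup_scalars {L : Subgroup (GL ι F)} {x : GL ι F} :
    x ∈ L ⊔ scalars ι F ↔ ∃ l ∈ L, ∃ c : Fˣ, x = scalGL ι c * l := by
  constructor
  · intro hx
    rw [← SetLike.mem_coe, Subgroup.mul_normal] at hx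
    obtain ⟨l, hl, z, hz, rfl⟩ := hx
    obtain ⟨c, rfl⟩ := exists_scalGL hz
    exact ⟨l, hl, c, (scalGL_comm c l).symm⟩
  · rintro ⟨l, hl, c, rfl⟩
    rw [scalGL_comm]
    exact Subgroup.mul_mem_sup hl (scalGL_mem c)

lemma NormG.sup_scalars {H L : Subgroup (GL ι F)} (h : NormG H L) : NormG H (L ⊔ scalars ι F) := by
  intro g hg x hx
  obtain ⟨l, hl, c, rfl⟩ := mem_sup_scalars.1 hx
  refine mem_sup_scalars.2 ⟨_, h g hg l hl, c, ?_⟩
  rw [← mul_assoc, ← scalGL_comm]
  simp only [mul_assoc]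

lemma AbsIrr.of_le_sup {L R : Subgroup (GL ι F)} (hL : AbsIrr L) (h : L ≤ R ⊔ scalars ι F) :
    AbsIrr R := by
  constructor
  · intro W hW
    refine hL.1 W fun g hg v hv => ?_
    obtain ⟨l, hl, c, rfl⟩ := mem_sup_scalars.1 (h hg)
    rw [Units.val_mul, scalGL_val, Matrix.smul_mul, one_mul, smul_mulVec]
    exact W.smul_mem _ (hW l hl v hv)
  · intro x hx
    refine hL.2 x fun g hg => ?_
    obtain ⟨l, hl, c, rfl⟩ := mem_sup_scalars.1 (h hg)
    rw [Units.val_mul, scalGL_val, Matrix.smul_mul, one_mul, Matrix.smul_mul, Matrix.mul_smul,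
      hx l hl]

lemma AbsIrr.exists_not_comm (hn : 2 ≤ Fintype.card ι) {L : Subgroup (GL ι F)} (hL : AbsIrr L) :
    ∃ x ∈ L, ∃ y ∈ L, x * y ≠ y * x := by
  by_contra h
  push Not at h
  exact not_irr_of_scal hn (fun g hg => hL.2 _ fun k hk => by
    rw [← Units.val_mul, ← Units.val_mul, h g hg k hk]) hL.1

lemma AbsIrr.mem_scalars [Nonempty ι] {L : Subgroup (GL ι F)} (hL : AbsIrr L) {x : GL ι F}
    (h : ∀ g ∈ L, x * g = g * x) : x ∈ scalars ι F :=
  (mem_scalars_iff_isScal x).2 (hL.2 _ fun g hg => by rw [← Units.val_mul, ← Units.val_mul, h g hg])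

lemma exists_comm_scal {x y : GL ι F} (h : x * y * x⁻¹ * y⁻¹ ∈ scalars ι F) :
    ∃ c : Fˣ, x * y = scalGL ι c * (y * x) := by
  obtain ⟨c, hc⟩ := exists_scalGL h
  exact ⟨c, by rw [← hc]; group⟩

/-- The order of a group with scalar-or-traceless elements. -/
lemma card_eq_finrank_mul {G : Type*} [Group G] [Finite G] (ρ : G →* Matrix ι ι F) (Z : Subgroup G)
    (hZ : ∀ z ∈ Z, IsScal (ρ z)) (htr : ∀ x ∉ Z, (ρ x).trace = 0)
    (hn : (Fintype.card ι : F) ≠ 0) :
    Nat.card G = Module.finrank F (Submodule.span F (Set.range ρ)) * Nat.card Z := by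
  classical
  haveI : Fintype (G ⧸ Z) := Fintype.ofFinite _
  let b : G ⧸ Z → Matrix ι ι F := fun q => ρ q.out
  have hli : LinearIndependent F b := by
    rw [Fintype.linearIndependent_iff]
    intro c hc q
    have := congrArg (fun X => (ρ q.out⁻¹ * X).trace) hc
    simp only [Finset.mul_sum, trace_sum, Matrix.mul_smul, trace_smul, b, ← map_mul, mul_zero,
      trace_zero] at this
    rw [Finset.sum_eq_single q] at this
    · simpa [hn] using this
    · intro q' _ hq
      rw [htr, smul_zero]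
      intro h
      apply hq
      rw [← QuotientGroup.eq] at h
      simpa using h.symm
    · simp
  have hsp : Submodule.span F (Set.range b) = Submodule.span F (Set.range ρ) := by
    apply le_antisymm
    · apply Submodule.span_mono
      rintro _ ⟨q, rfl⟩
      exact ⟨_, rfl⟩
    · rw [Submodule.span_le]
      rintro _ ⟨g, rfl⟩
      obtain ⟨z, hz⟩ := QuotientGroup.mk_out_eq_mul Z g
      obtain ⟨c, hc⟩ := hZ _ (Z.inv_mem z.2)
      have : ρ g = c • b (QuotientGroup.mk g) := by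
        simp only [b]
        rw [hz, ← mul_one (ρ (g * z)), ← Matrix.mul_smul, ← hc, ← map_mul]
        simp
      rw [this]
      exact Submodule.smul_mem _ _ (Submodule.subset_span ⟨_, rfl⟩)
  rw [Subgroup.card_eq_card_quotient_mul_card_subgroup Z, ← hsp, finrank_span_eq_card hli,
    Nat.card_eq_fintype_card]

/-- The data of a normalised group of symplectic type. -/
structure ExtraData (H R : Subgroup (GL ι F)) (r : ℕ) : Prop where
  prime : r.Prime
  norm : NormG H R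
  abs : AbsIrr R
  comm : ∀ x ∈ R, ∀ y ∈ R, x * y * x⁻¹ * y⁻¹ ∈ scalars ι F
  pow_scal : ∀ x ∈ R, x ^ r ∈ scalars ι F
  pow : ∀ x ∈ R, x ^ (r * Nat.gcd 2 r) = 1
  min : ∀ M ≤ R, NormG (subgroupNormalizer R) M → (∀ x ∈ M, ∀ y ∈ M, x * y = y * x) →
    M ≤ scalars ι F

lemma min_of_min (hn : 2 ≤ Fintype.card ι) {H R : Subgroup (GL ι F)} (hN : NormG H R)
    (habs : AbsIrr R) (h : ∀ M ≤ R, NormG H M → M ≤ scalars ι F ∨ R ≤ M ⊔ scalars ι F) :
    ∀ M ≤ R, NormG (subgroupNormalizer R) M → (∀ x ∈ M, ∀ y ∈ M, x * y = y * x) →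
      M ≤ scalars ι F := by
  intro M hM hMN hc
  refine (h M hM (hMN.mono hN.le_normalizer)).resolve_right fun h1 => ?_
  obtain ⟨x, hx, y, hy, hxy⟩ := (habs.of_le_sup h1).exists_not_comm hn
  exact hxy (hc x hx y hy)

lemma exists_root_of_comm [Nonempty ι] (hn : 2 ≤ Fintype.card ι) {L : Subgroup (GL ι F)}
    (hL : AbsIrr L) (hc : ∀ x ∈ L, ∀ y ∈ L, x * y * x⁻¹ * y⁻¹ ∈ scalars ι F) {r : ℕ}
    (hp : ∀ x ∈ L, x ^ r ∈ scalars ι F) :
    ∃ x ∈ L, ∃ y ∈ L, ∃ c : Fˣ, c ≠ 1 ∧ c ^ r = 1 ∧ x * y = scalGL ι c * (y * x) := by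
  obtain ⟨x, hx, y, hy, hxy⟩ := hL.exists_not_comm hn
  obtain ⟨c, hc⟩ := exists_comm_scal (hc x hx y hy)
  refine ⟨x, hx, y, hy, c, ?_, ?_, hc⟩
  · rintro rfl
    rw [scalGL_one, one_mul] at hc
    exact hxy hc
  · rw [← scalGL_eq_one_iff (ι := ι), scalGL_pow]
    exact pow_eq_one_of_comm_central (scalGL_comm c) hc (scalars_comm (hp x hx) y)

lemma prime_dvd_card_sub_one [Fintype F] {r : ℕ} (hr : r.Prime) {c : Fˣ} (h1 : c ≠ 1)
    (h : c ^ r = 1) : r ∣ Fintype.card F - 1 := by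
  classical
  haveI : Fact r.Prime := ⟨hr⟩
  rw [← Fintype.card_units, ← orderOf_eq_prime h h1]
  exact orderOf_dvd_card

lemma prime_ne_char [Fintype F] {r p : ℕ} [CharP F p] (hr : r.Prime)
    (h : r ∣ Fintype.card F - 1) : r ≠ p := by
  rintro rfl
  haveI : Fact r.Prime := ⟨hr⟩
  obtain ⟨f, -, hf⟩ := FiniteField.card F r
  have h1 : r ∣ Fintype.card F := by rw [hf]; exact dvd_pow_self r f.ne_zero
  have h2 := Fintype.one_lt_card (α := F)
  have := (Nat.dvd_sub_iff_right (by omega) h1).1 h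
  exact hr.one_lt.ne' (Nat.dvd_one.1 this)

namespace ExtraData

variable {H R : Subgroup (GL ι F)} {r : ℕ}

lemma dvd_card_sub_one [Fintype F] (hn : 2 ≤ Fintype.card ι) (h : ExtraData H R r) :
    r ∣ Fintype.card F - 1 := by
  haveI := nonempty_of_two_le hn
  obtain ⟨x, -, y, -, c, h1, h2, -⟩ := exists_root_of_comm hn h.abs h.comm h.pow_scal
  exact prime_dvd_card_sub_one h.prime h1 h2

lemma cast_ne_zero [Fintype F] (hn : 2 ≤ Fintype.card ι) (h : ExtraData H R r) : (r : F) ≠ 0 := by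
  obtain ⟨p, hp⟩ := CharP.exists F
  rw [Ne, CharP.cast_eq_zero_iff F p,
    Nat.prime_dvd_prime_iff_eq (CharP.char_is_prime F p) h.prime]
  exact (prime_ne_char h.prime (h.dvd_card_sub_one hn)).symm

lemma trace_eq_zero [Nonempty ι] (h : ExtraData H R r) {x : GL ι F} (hx : x ∈ R)
    (hs : x ∉ scalars ι F) : (x : Matrix ι ι F).trace = 0 := by
  by_contra htr
  apply hs
  apply h.abs.mem_scalars
  intro g hg
  obtain ⟨c, hc⟩ := exists_comm_scal (h.comm g hg x hx)
  have h1 : g * x * g⁻¹ = scalGL ι c * x := by rw [hc]; group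
  have h2 := congrArg (fun y : GL ι F => (y : Matrix ι ι F).trace) h1
  simp only [Units.val_mul, scalGL_val, Matrix.smul_mul, one_mul, trace_smul, smul_eq_mul] at h2
  rw [trace_mul_comm, ← mul_assoc, Units.inv_mul, one_mul] at h2
  have h3 : c = 1 := Units.ext (mul_right_cancel₀ htr (by rw [← h2]; simp))
  rw [hc, h3, scalGL_one, one_mul]

lemma card_ne_zero [Finite F] [Nonempty ι] (h : ExtraData H R r) : (Fintype.card ι : F) ≠ 0 := by
  obtain ⟨g, hg, htr⟩ := h.abs.exists_trace_ne_zero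
  obtain ⟨c, rfl⟩ := exists_scalGL (by_contra fun hs => htr (h.trace_eq_zero hg hs))
  intro h0
  apply htr
  simp [h0]

lemma mem_center_iff [Nonempty ι] (h : ExtraData H R r) (x : R) :
    x ∈ Subgroup.center R ↔ (x : GL ι F) ∈ scalars ι F := by
  rw [Subgroup.mem_center_iff]
  constructor
  · intro hx
    exact h.abs.mem_scalars fun g hg => (congrArg Subtype.val (hx ⟨g, hg⟩)).symm
  · intro hx g
    exact Subtype.ext (scalars_comm hx _).symm

lemma card_eq [Finite F] [Nonempty ι] (h : ExtraData H R r) :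
    Nat.card R = Fintype.card ι ^ 2 * Nat.card (Subgroup.center R) := by
  have := card_eq_finrank_mul ((Units.coeHom (Matrix ι ι F)).comp R.subtype) (Subgroup.center R)
    (fun z hz => isScal_of_mem_scalars ((h.mem_center_iff z).1 hz))
    (fun x hx => h.trace_eq_zero x.2 (fun h' => hx ((h.mem_center_iff x).2 h'))) h.card_ne_zero
  rw [this]
  congr 1
  have h1 : Submodule.span F (Set.range ((Units.coeHom (Matrix ι ι F)).comp R.subtype)) = ⊤ := by
    rw [eq_top_iff]
    intro x _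
    refine Submodule.span_mono ?_ (mem_spanAlg_iff.1 (h.abs.mem_span x))
    rintro _ ⟨g, hg, rfl⟩
    exact ⟨⟨g, hg⟩, rfl⟩
  rw [h1, finrank_top, Module.finrank_matrix, Module.finrank_self, mul_one, pow_two]

lemma isPGroup (h : ExtraData H R r) : IsPGroup r R := by
  intro x
  refine ⟨2, Subtype.ext ?_⟩
  have h1 := h.pow x x.2
  obtain ⟨k, hk⟩ := Nat.gcd_dvd_right 2 r
  have : r ^ 2 = r * Nat.gcd 2 r * k := by rw [mul_assoc, ← hk, pow_two]
  rw [this, pow_mul]
  simp [h1]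

lemma exists_card_eq_pow [Finite F] (hn : 2 ≤ Fintype.card ι) (h : ExtraData H R r) :
    ∃ m, 1 ≤ m ∧ Fintype.card ι = r ^ m := by
  haveI := nonempty_of_two_le hn
  haveI : Fact r.Prime := ⟨h.prime⟩
  obtain ⟨k, hk⟩ := h.isPGroup.exists_card_eq
  have : Fintype.card ι ∣ r ^ k := by
    rw [← hk, h.card_eq, pow_two, mul_assoc]
    exact dvd_mul_right _ _
  obtain ⟨m, -, hm⟩ := (Nat.dvd_prime_pow h.prime).1 this
  refine ⟨m, Nat.pos_of_ne_zero ?_, hm⟩
  rintro rfl
  rw [hm] at hn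
  simp at hn

lemma isSymplecticTypeGroup [Finite F] (hn : 2 ≤ Fintype.card ι) (h : ExtraData H R r) :
    IsSymplecticTypeGroup r R := by
  haveI := nonempty_of_two_le hn
  obtain ⟨x, hx, y, hy, hxy⟩ := h.abs.exists_not_comm hn
  refine ⟨h.prime, h.isPGroup, ?_, ?_⟩
  · intro A hA hcomm
    have hnorm : NormG (subgroupNormalizer R) (A.map R.subtype) := by
      rintro g hg _ ⟨a, ha, rfl⟩
      have h1 := Subgroup.characteristic_iff_map_eq.1 hA (R.normalizerMonoidHom ⟨g, hg⟩)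
      have h2 : (R.normalizerMonoidHom ⟨g, hg⟩) a ∈ A := by
        rw [← h1]
        exact ⟨a, ha, rfl⟩
      exact ⟨_, h2, rfl⟩
    have h1 := h.min _ (Subgroup.map_subtype_le A) hnorm (by
      rintro _ ⟨a, ha, rfl⟩ _ ⟨b, hb, rfl⟩
      exact congrArg (fun z : A => ((z : R) : GL ι F)) (hcomm.is_comm.comm ⟨a, ha⟩ ⟨b, hb⟩))
    have h2 : ∀ a : A, ∃ c : Fˣ, ((a : R) : GL ι F) = scalGL ι c :=
      fun a => exists_scalGL (h1 ⟨a, a.2, rfl⟩)
    choose φ hφ using h2
    let ψ : A →* Fˣ := MonoidHom.mk' φ fun a b => scalGL_injective (ι := ι) (by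
      rw [scalGL_mul, ← hφ, ← hφ, ← hφ]; rfl)
    refine isCyclic_of_injective ψ fun a b hab => Subtype.ext (Subtype.ext ?_)
    rw [hφ, hφ]
    exact congrArg _ hab
  · have hdvd : Monoid.exponent R ∣ r * Nat.gcd 2 r :=
      Monoid.exponent_dvd_of_forall_pow_eq_one fun g => Subtype.ext (h.pow g g.2)
    have hne : ¬ Monoid.exponent R ∣ 2 := by
      intro h2
      apply hxy
      have h3 : ∀ g : R, g * g = 1 := fun g => by
        rw [← pow_two]
        exact Monoid.exponent_dvd_iff_forall_pow_eq_one.1 h2 g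
      have h4 : (⟨x, hx⟩ * ⟨y, hy⟩ : R) = ⟨y, hy⟩ * ⟨x, hx⟩ := by
        have h5 := h3 (⟨x, hx⟩ * ⟨y, hy⟩)
        rw [mul_eq_one_iff_eq_inv, _root_.mul_inv_rev, ← mul_eq_one_iff_eq_inv.1 (h3 _),
          ← mul_eq_one_iff_eq_inv.1 (h3 _)] at h5
        exact h5
      exact congrArg Subtype.val h4
    rcases h.prime.eq_two_or_odd' with rfl | hodd
    · have : Monoid.exponent R ∣ 2 ^ 2 := hdvd
      obtain ⟨k, hk, hk'⟩ := (Nat.dvd_prime_pow Nat.prime_two).1 this
      rw [hk'] at hne ⊢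
      interval_cases k <;> simp at hne ⊢
    · have h1 : Nat.gcd 2 r = 1 := (Nat.coprime_two_left.2 hodd)
      rw [h1, mul_one] at hdvd ⊢
      rcases (Nat.dvd_prime h.prime).1 hdvd with h2 | h2
      · rw [h2] at hne
        simp at hne
      · exact h2

lemma card_center_ne_zero [Fintype F] (hn : 2 ≤ Fintype.card ι) (h : ExtraData H R r) :
    (Nat.card (Subgroup.center R) : F) ≠ 0 := by
  haveI : Fact r.Prime := ⟨h.prime⟩
  obtain ⟨k, hk⟩ := (h.isPGroup.to_subgroup (Subgroup.center R)).exists_card_eq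
  rw [hk, Nat.cast_pow]
  exact pow_ne_zero _ (h.cast_ne_zero hn)

lemma pow_card_center [Finite F] [Nonempty ι] (h : ExtraData H R r) {c : Fˣ}
    (hc : scalGL ι c ∈ R) : c ^ Nat.card (Subgroup.center R) = 1 := by
  have := pow_card_eq_one' (x := (⟨⟨_, hc⟩, (h.mem_center_iff _).2 (scalGL_mem c)⟩ :
    Subgroup.center R))
  rw [← scalGL_eq_one_iff (ι := ι), scalGL_pow]
  exact congrArg (fun z : Subgroup.center R => ((z : R) : GL ι F)) this

lemma realisableOver [Finite F] [Nonempty ι] (h : ExtraData H R r) (F₀ : Subfield F)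
    (hF : ∀ c : Fˣ, scalGL ι c ∈ R → (c : F) ∈ F₀) : RealisableOver F₀ (matrixSet R) := by
  refine h.abs.realisableOver F₀ fun g hg => ?_
  by_cases hs : g ∈ scalars ι F
  · obtain ⟨c, rfl⟩ := exists_scalGL hs
    rw [scalGL_val, trace_smul, trace_one, smul_eq_mul]
    exact F₀.mul_mem (hF c hg) (natCast_mem F₀ _)
  · rw [h.trace_eq_zero hg hs]
    exact F₀.zero_mem

/-- Averaging gives an invariant form. -/
lemma exists_invariant [Fintype F] (hn : 2 ≤ Fintype.card ι) (h : ExtraData H R r) (σ : F →+* F)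
    (hσ : ∀ c : Fˣ, scalGL ι c ∈ R → (c : F) * σ c = 1) :
    ∃ G : Matrix ι ι F, G ≠ 0 ∧ ∀ g ∈ R, tw σ G g = G := by
  classical
  haveI := nonempty_of_two_le hn
  haveI : Fintype R := Fintype.ofFinite _
  let av : Matrix ι ι F → Matrix ι ι F := fun X => ∑ g : R, tw σ X ((g : GL ι F) : Matrix ι ι F)
  have hinv : ∀ X, ∀ k ∈ R, tw σ (av X) k = av X := by
    intro X k hk
    have : tw σ (av X) k = ∑ g : R, tw σ X ((g * ⟨k, hk⟩ : R) : GL ι F) := by
      simp only [av, Subgroup.coe_mul, Units.val_mul, tw_mul]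
      simp only [tw, Finset.mul_sum, Finset.sum_mul]
    rw [this]
    exact Equiv.sum_comp (Equiv.mulRight (⟨k, hk⟩ : R))
      (fun g : R => tw σ X ((g : GL ι F) : Matrix ι ι F))
  by_contra hcon
  push Not at hcon
  have h0 : ∀ X, av X = 0 := fun X => by
    by_contra hX
    obtain ⟨g, hg, hg'⟩ := hcon _ hX
    exact hg' (hinv X g hg)
  have h1 : ∑ i, ∑ j, av (Matrix.single i j 1) i j = ∑ g : R,
      ((g : GL ι F) : Matrix ι ι F).trace * σ ((g : GL ι F) : Matrix ι ι F).trace := by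
    simp only [av, Matrix.sum_apply]
    have h2 : ∀ (x : Matrix ι ι F) i j, tw σ (Matrix.single i j 1) x i j = x i i * σ (x j j) := by
      intro x i j
      rw [tw, Matrix.mul_apply, Finset.sum_eq_single j]
      · simp
      · intro b _ hb
        rw [Matrix.mul_single_apply_of_ne _ _ _ _ _ hb, zero_mul]
      · simp
    simp only [h2, trace, diag_apply, map_sum, Finset.sum_mul_sum]
    rw [Finset.sum_comm' (t' := Finset.univ) (s' := fun _ => Finset.univ) (by simp)]
    rw [Finset.sum_congr rfl fun i _ => Finset.sum_comm, Finset.sum_comm]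
    exact Finset.sum_congr rfl fun g _ => Finset.sum_comm
  have h3 : ∀ g : R, ((g : GL ι F) : Matrix ι ι F).trace * σ ((g : GL ι F) : Matrix ι ι F).trace =
      if g ∈ Subgroup.center R then (Fintype.card ι : F) ^ 2 else 0 := by
    intro g
    split_ifs with hg
    · obtain ⟨c, hc⟩ := exists_scalGL ((h.mem_center_iff g).1 hg)
      have := hσ c (hc ▸ g.2)
      rw [hc, scalGL_val, trace_smul, trace_one, smul_eq_mul, map_mul, map_natCast]
      linear_combination (Fintype.card ι : F) ^ 2 * this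
    · rw [h.trace_eq_zero g.2 (fun h' => hg ((h.mem_center_iff g).2 h')), zero_mul]
  simp only [h0, h3, Matrix.zero_apply, Finset.sum_const_zero] at h1
  rw [← Finset.sum_filter, Finset.sum_const, nsmul_eq_mul] at h1
  refine mul_ne_zero ?_ (pow_ne_zero 2 h.card_ne_zero) h1.symm
  have := h.card_center_ne_zero hn
  rwa [Nat.card_eq_fintype_card, Fintype.card_subtype] at this

end ExtraData

/-- The full group of symplectic type attached to the extraspecial case. -/
lemma ExtraCase.exists_data [Fintype F] (hn : 2 ≤ Fintype.card ι) {H : Subgroup (GL ι F)}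
    (h : ExtraCase H) : ∃ (r : ℕ) (R : Subgroup (GL ι F)), ExtraData H R r ∧
      R ≤ H ⊔ scalars ι F ∧ ∀ c : Fˣ, c ^ (r * Nat.gcd 2 r) = 1 → scalGL ι c ∈ R := by
  haveI := nonempty_of_two_le hn
  obtain ⟨L, hLH, hN, habs, hcomm, r, hr, hpow, hmin⟩ := h
  set N := L ⊔ scalars ι F with hNdef
  have hpowN : ∀ x ∈ N, x ^ r ∈ scalars ι F := by
    intro x hx
    obtain ⟨l, hl, c, rfl⟩ := mem_sup_scalars.1 hx
    rw [Commute.mul_pow (scalGL_comm c l)]
    exact Subgroup.mul_mem _ (Subgroup.pow_mem _ (scalGL_mem c) _) (hpow l hl)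
  have hcommN : ∀ x ∈ N, ∀ y ∈ N, x * y * x⁻¹ * y⁻¹ ∈ scalars ι F := by
    intro x hx y hy
    obtain ⟨l, hl, c, rfl⟩ := mem_sup_scalars.1 hx
    obtain ⟨k, hk, d, rfl⟩ := mem_sup_scalars.1 hy
    rw [commutator_mem_scalars_iff] at *
    have := (commutator_mem_scalars_iff l k).1 (hcomm l hl k hk)
    have h1 : ∀ c : Fˣ, QuotientGroup.mk' (scalars ι F) (scalGL ι c) = 1 := fun c =>
      (QuotientGroup.eq_one_iff _).2 (scalGL_mem c)
    rw [map_mul, map_mul, h1, h1, one_mul, one_mul]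
    exact this
  have hmulpow : ∀ x ∈ N, ∀ y ∈ N,
      (x * y) ^ (r * Nat.gcd 2 r) = x ^ (r * Nat.gcd 2 r) * y ^ (r * Nat.gcd 2 r) := by
    intro x hx y hy
    obtain ⟨c, hc⟩ := exists_comm_scal (hcommN y hy x hx)
    have h1 := pow_eq_one_of_comm_central (scalGL_comm c) hc (scalars_comm (hpowN y hy) x)
    obtain ⟨k, hk⟩ := dvd_choose_two hr
    rw [mul_pow_of_comm_central (scalGL_comm c) hc, hk, pow_mul, h1, one_pow, one_mul]
  let R : Subgroup (GL ι F) :=
    { carrier := {x | x ∈ N ∧ x ^ (r * Nat.gcd 2 r) = 1}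
      mul_mem' := fun {a b} ha hb => ⟨N.mul_mem ha.1 hb.1, by
        rw [hmulpow a ha.1 b hb.1, ha.2, hb.2, one_mul]⟩
      one_mem' := ⟨N.one_mem, one_pow _⟩
      inv_mem' := fun {a} ha => ⟨N.inv_mem ha.1, by rw [inv_pow, ha.2, inv_one]⟩ }
  have hRN : NormG H R := by
    intro g hg x hx
    exact ⟨hN.sup_scalars g hg x hx.1, by rw [conj_pow, hx.2, mul_one, mul_inv_cancel]⟩
  have hmin' : ∀ M ≤ N, NormG H M → M ≤ scalars ι F ∨ L ≤ M ⊔ scalars ι F := by
    intro M hM hMN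
    rcases hmin (L ⊓ (M ⊔ scalars ι F)) inf_le_left (hN.inf hMN.sup_scalars) with h1 | h1
    · left
      intro x hx
      obtain ⟨l, hl, c, rfl⟩ := mem_sup_scalars.1 (hM hx)
      refine Subgroup.mul_mem _ (scalGL_mem c) (h1 ⟨hl, mem_sup_scalars.2 ⟨_, hx, c⁻¹, ?_⟩⟩)
      rw [scalGL_inv, inv_mul_cancel_left]
    · right
      rw [← h1]
      exact inf_le_right
  have hns : ¬ R ≤ scalars ι F := by
    obtain ⟨x, hx, y, hy, c, hc1, hcr, hxy⟩ := exists_root_of_comm hn habs hcomm hpow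
    obtain ⟨s, hs⟩ := prime_dvd_card_sub_one hr hc1 hcr
    have key : ∀ w ∈ L, w ∉ scalars ι F → ∀ a : Fˣ,
        w ^ (r * Nat.gcd 2 r) = scalGL ι a ^ Nat.gcd 2 r → a ^ s = 1 → ¬ R ≤ scalars ι F := by
      intro w hw hws a hwa ha hR
      obtain ⟨z, hz⟩ := exists_pow_eq_of_pow_eq_one (F := F) (a := s) (b := r) (d := (a : F))
        (by rw [hs, mul_comm]) (by rw [← Units.val_pow_eq_pow_val, ha, Units.val_one])
      have hz0 : z ≠ 0 := by
        rintro rfl
        rw [zero_pow hr.ne_zero] at hz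
        exact a.ne_zero hz.symm
      have hz' : Units.mk0 z hz0 ^ r = a := Units.ext (by simpa using hz)
      have hmem : scalGL ι (Units.mk0 z hz0)⁻¹ * w ∈ R := by
        refine ⟨mem_sup_scalars.2 ⟨w, hw, _, rfl⟩, ?_⟩
        rw [Commute.mul_pow (scalGL_comm _ w), hwa, pow_mul, ← scalGL_pow, inv_pow, hz',
          scalGL_inv, inv_pow, inv_mul_cancel]
      apply hws
      have := Subgroup.mul_mem _ (scalGL_mem (Units.mk0 z hz0)) (hR hmem)
      rwa [scalGL_inv, mul_inv_cancel_left] at this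
    have hnc : x * y ≠ y * x := by
      intro h0
      rw [h0, eq_comm, mul_eq_right, scalGL_eq_one_iff] at hxy
      exact hc1 hxy
    obtain ⟨a, ha⟩ := exists_scalGL (hpow x hx)
    obtain ⟨b, hb⟩ := exists_scalGL (hpow y hy)
    have hroot : ∀ a : Fˣ, (a ^ s) ^ r = 1 := fun a => by
      classical
      rw [← pow_mul, mul_comm, ← hs, ← Fintype.card_units, pow_card_eq_one]
    by_cases has : a ^ s = 1
    · exact key x hx (fun h0 => hnc (scalars_comm h0 y)) a (by rw [pow_mul, ha]) has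
    · haveI : Fact r.Prime := ⟨hr⟩
      haveI : NeZero r := ⟨hr.ne_zero⟩
      have hprim : IsPrimitiveRoot (a ^ s) r := by
        rw [← orderOf_eq_prime (hroot a) has]
        exact IsPrimitiveRoot.orderOf _
      have hprim' : IsPrimitiveRoot ((a ^ s : Fˣ) : F) r := IsPrimitiveRoot.coe_units_iff.2 hprim
      obtain ⟨i, -, hi⟩ := hprim'.eq_pow_of_pow_eq_one (ξ := ((b⁻¹ ^ s : Fˣ) : F))
        (by rw [← Units.val_pow_eq_pow_val, hroot, Units.val_one])
      have hi' : (a ^ s) ^ i = b⁻¹ ^ s := Units.ext (by simpa using hi)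
      refine key (x ^ i * y) (L.mul_mem (L.pow_mem hx i) hy) (fun h0 => hnc ?_) (a ^ i * b) ?_ ?_
      · have := scalars_comm h0 x
        rw [mul_assoc, ← mul_assoc x, ← pow_succ', pow_succ, mul_assoc, mul_right_inj] at this
        exact this.symm
      · rw [hmulpow _ (Subgroup.mem_sup_left (L.pow_mem hx i)) _ (Subgroup.mem_sup_left hy),
          ← pow_mul, mul_comm i, mul_assoc, pow_mul x, pow_mul y, ha, hb, scalGL_mul,
          Commute.mul_pow (scalGL_comm _ _), scalGL_pow, ← pow_mul, mul_comm i]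
      · rw [mul_pow, ← pow_mul, mul_comm i, pow_mul, hi', ← mul_pow, inv_mul_cancel, one_pow]
  have hLR : L ≤ R ⊔ scalars ι F := (hmin' R (fun x hx => hx.1) hRN).resolve_left hns
  refine ⟨r, R, ⟨hr, hRN, habs.of_le_sup hLR, fun x hx y hy => hcommN x hx.1 y hy.1,
    fun x hx => hpowN x hx.1, fun x hx => hx.2, min_of_min hn hRN (habs.of_le_sup hLR) ?_⟩, ?_, ?_⟩
  · intro M hM hMN
    refine (hmin' M (fun x hx => (hM hx).1) hMN).imp_right fun h1 x hx => ?_
    exact sup_le h1 le_sup_right hx.1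
  · intro x hx
    exact sup_le_sup_right hLH _ hx.1
  · intro c hc
    exact ⟨Subgroup.mem_sup_right (scalGL_mem c), by rw [← scalGL_pow, hc, scalGL_one]⟩

lemma fixesForm_gform {L : Subgroup (GL ι F)} {σ : F →+* F} {G : Matrix ι ι F}
    (h : ∀ g ∈ L, tw σ G g = G) : FixesForm (matrixSet L) (gform σ G) := by
  rintro _ ⟨g, hg, rfl⟩ u v
  rw [gform_tw, h g hg]

lemma Irr.exists_unitary [Finite F] {L : Subgroup (GL ι F)} (hL : Irr L) {σ : F →+* F}
    (hσ : ∀ a, σ (σ a) = a) (hne : ∃ a, σ a ≠ a) {G : Matrix ι ι F} (hG : G ≠ 0)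
    (h : ∀ g ∈ L, tw σ G g = G) :
    ∃ (σ' : F ≃+* F) (f : (ι → F) → (ι → F) → F), IsUnitaryForm σ' f ∧
      FixesForm (matrixSet L) f := by
  obtain ⟨G', h0, h1, h2⟩ := exists_herm hσ hne hG h
  let σ' : F ≃+* F := RingEquiv.ofBijective σ (Finite.injective_iff_bijective.1 σ.injective)
  have hdet := hL.det_gram_ne_zero σ h0 fun g hg => ⟨1, by rw [h1 g hg, one_smul]⟩
  refine ⟨σ', gform σ G', isUnitaryForm_gform (σ := σ') ?_ hσ hdet h2, fixesForm_gform h1⟩
  obtain ⟨a, ha⟩ := hne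
  intro h3
  exact ha (congrArg (fun t : F ≃+* F => t a) h3)

lemma Irr.exists_bilinear {L : Subgroup (GL ι F)} (hL : Irr L) (h2 : (2 : F) ≠ 0)
    {G : Matrix ι ι F} (hG : G ≠ 0) (h : ∀ g ∈ L, tw (RingHom.id F) G g = G) :
    (∃ f : (ι → F) → (ι → F) → F, IsSymmetricForm f ∧ FixesForm (matrixSet L) f) ∨
    (∃ f : (ι → F) → (ι → F) → F, IsSymplecticForm f ∧ FixesForm (matrixSet L) f) := by
  obtain ⟨G', h0, h1, h3⟩ := exists_sym_or_skew hG h
  have hdet := hL.det_gram_ne_zero _ h0 fun g hg => ⟨1, by rw [h1 g hg, one_smul]⟩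
  rcases h3 with h3 | h3
  · exact Or.inl ⟨_, isSymmetricForm_gform hdet h3, fixesForm_gform h1⟩
  · refine Or.inr ⟨_, isSymplecticForm_gform hdet h3 fun i => ?_, fixesForm_gform h1⟩
    have : G' i i = -G' i i := congrFun (congrFun h3 i) i
    exact mul_left_cancel₀ h2 (by linear_combination this)

lemma gcd_two_of_odd {r : ℕ} (h : Odd r) : Nat.gcd 2 r = 1 := Nat.coprime_two_left.2 h

namespace ExtraData

variable {H R : Subgroup (GL ι F)} {r : ℕ}

lemma card_center_full [Fintype F] [Nonempty ι] (h : ExtraData H R r)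
    (hfull : ∀ c : Fˣ, c ^ (r * Nat.gcd 2 r) = 1 → scalGL ι c ∈ R) :
    Nat.card (Subgroup.center R) = (Fintype.card F - 1).gcd (r * Nat.gcd 2 r) := by
  classical
  rw [← Fintype.card_units, ← Nat.card_eq_fintype_card, ← IsCyclic.card_powMonoidHom_ker]
  symm
  refine Nat.card_eq_of_bijective (fun c => ⟨⟨scalGL ι c.1, hfull c.1 c.2⟩,
    (h.mem_center_iff _).2 (scalGL_mem _)⟩) ⟨?_, ?_⟩
  · intro c d hcd
    exact Subtype.ext (scalGL_injective (ι := ι)
      (congrArg (fun z : Subgroup.center R => ((z : R) : GL ι F)) hcd))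
  · intro z
    obtain ⟨c, hc⟩ := exists_scalGL ((h.mem_center_iff _).1 z.2)
    refine ⟨⟨c, ?_⟩, Subtype.ext (Subtype.ext hc.symm)⟩
    have := h.pow _ z.1.2
    rwa [hc, ← scalGL_pow, scalGL_eq_one_iff] at this

lemma card_center_dvd [Fintype F] [Nonempty ι] (h : ExtraData H R r)
    (hfull : ∀ c : Fˣ, c ^ (r * Nat.gcd 2 r) = 1 → scalGL ι c ∈ R) :
    Nat.card (Subgroup.center R) ∣ Fintype.card F - 1 := by
  rw [h.card_center_full hfull]
  exact Nat.gcd_dvd_left _ _

lemma card_center_odd [Fintype F] (hn : 2 ≤ Fintype.card ι) (h : ExtraData H R r)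
    (hfull : ∀ c : Fˣ, c ^ (r * Nat.gcd 2 r) = 1 → scalGL ι c ∈ R) (hodd : Odd r) :
    Nat.card (Subgroup.center R) = r := by
  haveI := nonempty_of_two_le hn
  rw [h.card_center_full hfull, gcd_two_of_odd hodd, mul_one]
  exact Nat.gcd_eq_right (h.dvd_card_sub_one hn)

lemma card_center_two [Fintype F] (hn : 2 ≤ Fintype.card ι) (h : ExtraData H R 2)
    (hfull : ∀ c : Fˣ, c ^ (2 * Nat.gcd 2 2) = 1 → scalGL ι c ∈ R) :
    (4 ∣ Fintype.card F - 1 ∧ Nat.card (Subgroup.center R) = 4) ∨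
      Nat.card (Subgroup.center R) = 2 := by
  haveI := nonempty_of_two_le hn
  rw [h.card_center_full hfull]
  have h2 := h.dvd_card_sub_one hn
  by_cases h4 : 4 ∣ Fintype.card F - 1
  · exact Or.inl ⟨h4, Nat.gcd_eq_right h4⟩
  · right
    have h5 : (Fintype.card F - 1).gcd 4 ∣ 2 ^ 2 := Nat.gcd_dvd_right _ _
    obtain ⟨k, hk, hk'⟩ := (Nat.dvd_prime_pow Nat.prime_two).1 h5
    have h6 : 2 ∣ (Fintype.card F - 1).gcd 4 := Nat.dvd_gcd h2 (by norm_num)
    have h7 : (Fintype.card F - 1).gcd 4 ∣ Fintype.card F - 1 := Nat.gcd_dvd_left _ _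
    change (Fintype.card F - 1).gcd 4 = 2
    rw [hk'] at h6 h7 ⊢
    interval_cases k
    · simp at h6
    · rfl
    · exact absurd h7 h4

/-- Either the field is minimal or the centre lies in a proper subfield. -/
lemma minimal_or_subfield [Fintype F] [Nonempty ι] (h : ExtraData H R r)
    (hdvd : Nat.card (Subgroup.center R) ∣ Fintype.card F - 1) :
    (∃ p e : ℕ, 0 < e ∧ IsMinimalFieldFor (Nat.card (Subgroup.center R)) p e F) ∨
      ∃ F₀ : Subfield F, F₀ ≠ ⊤ ∧ ∀ c : Fˣ, scalGL ι c ∈ R → (c : F) ∈ F₀ := by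
  obtain ⟨p, hp⟩ := CharP.exists F
  have hpp : p.Prime := CharP.char_is_prime F p
  haveI : Fact p.Prime := ⟨hpp⟩
  obtain ⟨e, -, he⟩ := FiniteField.card F p
  by_cases hmin : ∀ d : ℕ, 0 < d → d < e → ¬ Nat.card (Subgroup.center R) ∣ p ^ d - 1
  · exact Or.inl ⟨p, e, e.pos, hpp, hp, he, he ▸ hdvd, hmin⟩
  · right
    push Not at hmin
    obtain ⟨d, hd0, hde, k, hk⟩ := hmin
    refine ⟨powFixField F p d, ?_, fun c hc => ?_⟩
    · obtain ⟨a, ha⟩ := exists_pow_ne (F := F) (s := p ^ d)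
        (Nat.one_lt_pow hd0.ne' hpp.one_lt) (by rw [he]; exact Nat.pow_lt_pow_right hpp.one_lt hde)
      intro h0
      exact ha (mem_powFixField.1 (h0 ▸ Subfield.mem_top a))
    · rw [mem_powFixField]
      have h1 : p ^ d = Nat.card (Subgroup.center R) * k + 1 := by
        have := Nat.one_le_pow d p hpp.pos
        omega
      rw [h1, pow_succ, pow_mul, ← Units.val_pow_eq_pow_val, h.pow_card_center hc]
      simp

lemma card_eq_pow [Finite F] [Nonempty ι] (h : ExtraData H R r) {m k : ℕ}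
    (hm : Fintype.card ι = r ^ m) (hk : Nat.card (Subgroup.center R) = r ^ k) :
    Nat.card R = r ^ (k + 2 * m) := by
  rw [h.card_eq, hm, hk]
  ring

end ExtraData

lemma dvd_add_one_of_minimal {z p e : ℕ} (hz : z.Prime ∨ z = 4) (hp : 0 < p)
    (h1 : z ∣ p ^ (2 * e) - 1) (h2 : ¬ z ∣ p ^ e - 1) : z ∣ p ^ e + 1 := by
  obtain ⟨a, ha⟩ : ∃ a, p ^ e = a + 1 := ⟨p ^ e - 1, by have := Nat.one_le_pow e p hp; omega⟩
  have h3 : p ^ (2 * e) - 1 = a * (a + 2) := by
    rw [mul_comm 2 e, pow_mul, ha]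
    apply Nat.sub_eq_of_eq_add
    ring
  rw [h3] at h1
  rw [ha] at h2 ⊢
  simp only [add_tsub_cancel_right] at h2
  rcases hz with hz | rfl
  · exact ((Nat.Prime.dvd_mul hz).1 h1).resolve_left h2
  · have : a % 4 = 0 ∨ a % 4 = 1 ∨ a % 4 = 2 ∨ a % 4 = 3 := by omega
    rw [Nat.dvd_iff_mod_eq_zero] at *
    rcases this with h | h | h | h <;> simp [Nat.mul_mod, Nat.add_mod, h] at h1 h2 ⊢

lemma four_dvd_of_odd {p e : ℕ} (he : Odd e) (hp : 0 < p) (h : 4 ∣ p ^ e - 1) : 4 ∣ p ^ 1 - 1 := by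
  obtain ⟨k, rfl⟩ := he
  have h1 : p ^ (2 * k + 1) % 4 = 1 := by
    have := Nat.one_le_pow (2 * k + 1) p hp
    omega
  rw [pow_succ, pow_mul] at h1
  have : p % 4 = 0 ∨ p % 4 = 1 ∨ p % 4 = 2 ∨ p % 4 = 3 := by omega
  rcases this with h2 | h2 | h2 | h2
  · simp [Nat.mul_mod, h2] at h1
  · rw [pow_one]
    omega
  · have : ((p ^ 2) ^ k * p) % 2 = 0 := by simp [Nat.mul_mod, show p % 2 = 0 by omega]
    omega
  · have h3 : p ^ 2 % 4 = 1 := by simp [Nat.pow_mod, h2]
    simp [Nat.mul_mod, Nat.pow_mod (p ^ 2), h3, h2] at h1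

/-- Class 6 in the linear case. -/
lemma ExtraData.linear [Fintype F] (hn : 3 ≤ Fintype.card ι) {H R : Subgroup (GL ι F)} {r : ℕ}
    (h : ExtraData H R r) (hfull : ∀ c : Fˣ, c ^ (r * Nat.gcd 2 r) = 1 → scalGL ι c ∈ R) :
    (∃ F₀ : Subfield F, F₀ ≠ ⊤ ∧ RealisableOver F₀ (matrixSet R)) ∨
    IsLinearSymplecticTypeData r R ∨
    (∃ (σ : F ≃+* F) (f : (ι → F) → (ι → F) → F), IsUnitaryForm σ f ∧
      FixesForm (matrixSet R) f) ∨
    (Odd (Fintype.card F) ∧
      ∃ f : (ι → F) → (ι → F) → F, IsSymmetricForm f ∧ FixesForm (matrixSet R) f) ∨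
    (∃ f : (ι → F) → (ι → F) → F, IsSymplecticForm f ∧ FixesForm (matrixSet R) f) := by
  have hn2 : 2 ≤ Fintype.card ι := by omega
  haveI := nonempty_of_two_le hn2
  rcases h.minimal_or_subfield (h.card_center_dvd hfull) with
    ⟨p, e, he0, hpp, hp, hcard, hdvd, hmin⟩ | ⟨F₀, h0, h1⟩
  swap
  · exact Or.inl ⟨F₀, h0, h.realisableOver F₀ h1⟩
  have hrp : r ≠ p := prime_ne_char h.prime (h.dvd_card_sub_one hn2)
  obtain ⟨m, hm1, hm⟩ := h.exists_card_eq_pow hn2
  have hunit : (Nat.card (Subgroup.center R)).Prime ∨ Nat.card (Subgroup.center R) = 4 →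
      Even e → ∃ (σ : F ≃+* F) (f : (ι → F) → (ι → F) → F), IsUnitaryForm σ f ∧
        FixesForm (matrixSet R) f := by
    rintro hz ⟨k, rfl⟩
    rw [← two_mul] at *
    obtain ⟨j, hj⟩ := dvd_add_one_of_minimal hz hpp.pos hdvd (hmin k (by omega) (by omega))
    have hF : Fintype.card F = (p ^ k) ^ 2 := by rw [hcard, ← pow_mul, mul_comm]
    obtain ⟨σ, hσ⟩ := exists_qHom hF
    obtain ⟨G, hG, hinv⟩ := h.exists_invariant hn2 σ fun c hc => by
      rw [hσ, ← pow_succ', hj, pow_mul, ← Units.val_pow_eq_pow_val, h.pow_card_center hc]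
      simp
    exact h.abs.1.exists_unitary (qHom_invol hF hσ) (qHom_ne hF hσ) hG hinv
  rcases h.prime.eq_two_or_odd' with rfl | hodd
  · rcases h.card_center_two hn2 hfull with ⟨h4, hz⟩ | hz
    · rcases Nat.even_or_odd e with he | he
      · exact Or.inr (Or.inr (Or.inl (hunit (Or.inr hz) he)))
      · have he1 : e = 1 := by
          by_contra hne
          refine hmin 1 one_pos (by omega) ?_
          rw [hz] at hdvd ⊢
          exact four_dvd_of_odd he hpp.pos hdvd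
        refine Or.inr (Or.inl ⟨h.isSymplecticTypeGroup hn2, absIrr_iff.1 h.abs, p, e, hrp,
          ⟨hpp, hp, hcard, hdvd, hmin⟩, Or.inr (Or.inl ⟨rfl, he1, hz, ?_, m,
            h.card_eq_pow hm (k := 2) hz⟩)⟩)
        rw [hm] at hn ⊢
        by_contra h5
        have : m < 2 := by
          by_contra h6
          exact h5 (Nat.pow_le_pow_right (by norm_num) (not_lt.1 h6) : 2 ^ 2 ≤ 2 ^ m)
        interval_cases m
        omega
    · have h2 : (2 : F) ≠ 0 := by exact_mod_cast h.cast_ne_zero hn2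
      obtain ⟨G, hG, hinv⟩ := h.exists_invariant hn2 (RingHom.id F) fun c hc => by
        have := h.pow_card_center hc
        rw [hz, pow_two] at this
        rw [RingHom.id_apply, ← Units.val_mul, this, Units.val_one]
      rcases h.abs.1.exists_bilinear h2 hG hinv with h3 | h3
      · refine Or.inr (Or.inr (Or.inr (Or.inl ⟨?_, h3⟩)))
        by_contra h4
        exact h2 (two_eq_zero_of_not_odd h4)
      · exact Or.inr (Or.inr (Or.inr (Or.inr h3)))
  · have hz := h.card_center_odd hn2 hfull hodd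
    rcases Nat.even_or_odd e with he | he
    · exact Or.inr (Or.inr (Or.inl (hunit (Or.inl (hz.symm ▸ h.prime)) he)))
    · exact Or.inr (Or.inl ⟨h.isSymplecticTypeGroup hn2, absIrr_iff.1 h.abs, p, e, hrp,
        ⟨hpp, hp, hcard, hdvd, hmin⟩, Or.inl ⟨hodd, he, hz, m, hm1,
          h.card_eq_pow hm (k := 1) (by rw [hz, pow_one])⟩⟩)

end Cfsg.Agent.H7
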