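import Cfsg.Agent.H7.AschAdj

set_option autoImplicit false
set_option linter.unusedSectionVars false
set_option linter.unusedVariables false
set_option linter.unnecessarySimpa false
set_option linter.style.haveILetI false
set_option linter.unusedSimpArgs false

namespace Cfsg.Agent.H7

open Cfsg Cfsg.Geo Matrix
open scoped MatrixGroups Kronecker commutatorElement

variable {ι : Type} [Fintype ι] [DecidableEq ι] {F : Type*} [Field F]

/-! ### Forms in a frame -/

section Frame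

variable {κ : Type} [Fintype κ] [DecidableEq κ] {σ : F →+* F} {ε : F} {f : (ι → F) → (ι → F) → F}

lemma HForm.frame (h : HForm σ ε f) (T : (κ → F) ≃ₗ[F] (ι → F)) :
    HForm σ ε (fun x y => f (T x) (T y)) where
  toSesq := h.toSesq.frame T
  invol := h.invol
  herm u v := h.herm _ _
  eps := h.eps

/-- The Gram matrix of a form in a frame. -/
def frameGram (f : (ι → F) → (ι → F) → F) (e : ι ≃ κ) (P : GL ι F) : Matrix κ κ F :=
  gramMatrix fun x y => f (frameVec e P x) (frameVec e P y)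

lemma Sesq.frameGram_spec (h : Sesq σ f) (e : ι ≃ κ) (P : GL ι F) (x y : κ → F) :
    f (frameVec e P x) (frameVec e P y) = gform σ (frameGram f e P) x y :=
  (h.frame (frameVec e P)).eq_gform x y

lemma Sesq.frameGram_det (h : Sesq σ f) (e : ι ≃ κ) (P : GL ι F) : (frameGram f e P).det ≠ 0 :=
  (h.frame (frameVec e P)).det_ne_zero

lemma HForm.gram_herm (h : HForm σ ε f) : gramMatrix f = ε • ((gramMatrix f).map σ)ᵀ := by
  ext i j
  exact h.herm _ _

lemma HForm.frameGram_herm (h : HForm σ ε f) (e : ι ≃ κ) (P : GL ι F) :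
    frameGram f e P = ε • ((frameGram f e P).map σ)ᵀ := (h.frame (frameVec e P)).gram_herm

lemma Sesq.frameGram_sim (h : Sesq σ f) (e : ι ≃ κ) (P : GL ι F) {X : Matrix κ κ F} {c : F}
    (hX : ∀ u v, f (frameEquiv e P X *ᵥ u) (frameEquiv e P X *ᵥ v) = c * f u v) :
    tw σ (frameGram f e P) X = c • frameGram f e P := by
  refine ((h.frame (frameVec e P)).sim_iff X c).1 fun u v => ?_
  simp only [← frameEquiv_mulVec, hX]

lemma Sesq.sim_of_frameGram (h : Sesq σ f) (e : ι ≃ κ) (P : GL ι F) {X : Matrix κ κ F} {c : F}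
    (hX : tw σ (frameGram f e P) X = c • frameGram f e P) (u v : ι → F) :
    f (frameEquiv e P X *ᵥ u) (frameEquiv e P X *ᵥ v) = c * f u v := by
  obtain ⟨x, rfl⟩ := (frameVec e P).surjective u
  obtain ⟨y, rfl⟩ := (frameVec e P).surjective v
  rw [frameEquiv_mulVec, frameEquiv_mulVec, h.frameGram_spec, h.frameGram_spec, gform_tw, hX,
    gform_smul]

lemma HForm.frameGram_adj (h : HForm σ ε f) (e : ι ≃ κ) (P : GL ι F) {X Y : Matrix κ κ F}
    (hXY : adj σ f (frameEquiv e P X) = frameEquiv e P Y) :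
    Xᵀ * frameGram f e P = frameGram f e P * Y.map σ := by
  apply gform_ext (σ := σ)
  intro u v
  rw [← gform_mulVec_left, ← gform_mulVec_right, ← h.frameGram_spec, ← h.frameGram_spec,
    ← frameEquiv_mulVec, ← frameEquiv_mulVec, h.adj_spec, hXY]

lemma HForm.adj_frameEquiv (h : HForm σ ε f) (e : ι ≃ κ) (P : GL ι F) {X Y : Matrix κ κ F}
    (hXY : Xᵀ * frameGram f e P = frameGram f e P * Y.map σ) :
    adj σ f (frameEquiv e P X) = frameEquiv e P Y := by
  refine h.adj_unique fun u v => ?_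
  obtain ⟨x, rfl⟩ := (frameVec e P).surjective u
  obtain ⟨y, rfl⟩ := (frameVec e P).surjective v
  rw [frameEquiv_mulVec, frameEquiv_mulVec, h.frameGram_spec, h.frameGram_spec, gform_mulVec_left,
    gform_mulVec_right, hXY]

end Frame

lemma kron_map {α β : Type*} (σ : F →+* F) (x : Matrix α α F) (y : Matrix β β F) :
    (x ⊗ₖ y).map σ = x.map σ ⊗ₖ y.map σ := by
  ext ⟨a, b⟩ ⟨c, d⟩
  simp

lemma kron_transpose {α β : Type*} (x : Matrix α α F) (y : Matrix β β F) :
    (x ⊗ₖ y)ᵀ = xᵀ ⊗ₖ yᵀ := by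
  ext ⟨a, b⟩ ⟨c, d⟩
  simp

lemma ne_zero_of_det {α : Type*} [Fintype α] [DecidableEq α] [Nonempty α] {A : Matrix α α F}
    (h : A.det ≠ 0) : A ≠ 0 := by
  rintro rfl
  exact h det_zero

lemma norm_eq_one_of_herm {α : Type*} {σ : F →+* F} (hσ : ∀ a, σ (σ a) = a) {A : Matrix α α F}
    (hA : A ≠ 0) {μ : F} (h : A = μ • (A.map σ)ᵀ) : μ * σ μ = 1 := by
  obtain ⟨i, j, hij⟩ := exists_entry_ne_zero hA
  have h1 : A i j = μ * σ (A j i) := congrFun (congrFun h i) j
  have h2 : A j i = μ * σ (A i j) := congrFun (congrFun h j) i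
  rw [h2, map_mul, hσ] at h1
  exact mul_right_cancel₀ hij (by linear_combination -h1)

/-- Rescale a matrix which is hermitian up to a scalar. -/
lemma exists_rescale {α : Type*} {σ : F →+* F} (hσ : ∀ a, σ (σ a) = a) {A : Matrix α α F}
    (hA : A ≠ 0) {μ : F} (h : A = μ • (A.map σ)ᵀ) :
    ∃ a δ : F, a ≠ 0 ∧ (δ = 1 ∨ δ = -1) ∧ ((∃ x, σ x ≠ x) → δ = 1) ∧ σ a * δ = a * μ ∧
      a • A = δ • ((a • A).map σ)ᵀ := by
  have h1 := norm_eq_one_of_herm hσ hA h
  have key : ∀ a δ : F, σ a * δ = a * μ → a • A = δ • ((a • A).map σ)ᵀ := by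
    intro a δ h2
    rw [map_smul_ringHom, transpose_smul, smul_smul, mul_comm δ, h2, ← smul_smul, ← h]
  by_cases hne : ∃ x, σ x ≠ x
  · obtain ⟨a, ha, h2⟩ := exists_hilbert90 hσ hne h1
    exact ⟨a, 1, ha, Or.inl rfl, fun _ => rfl, by rw [mul_one, h2], key a 1 (by rw [mul_one, h2])⟩
  · have h2 : σ μ = μ := by
      by_contra h3
      exact hne ⟨μ, h3⟩
    rw [h2] at h1
    exact ⟨1, μ, one_ne_zero, mul_self_eq_one_iff.1 h1, fun h3 => absurd h3 hne, by simp,
      key 1 μ (by simp)⟩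

/-- The Gram matrix in a tensor frame is a Kronecker product. -/
lemma HForm.exists_kron {σ : F →+* F} {ε : F} {f : (ι → F) → (ι → F) → F} (hf : HForm σ ε f)
    {α β : Type} [Fintype α] [DecidableEq α] [Fintype β] [DecidableEq β] [Nonempty α] [Nonempty β]
    (e : ι ≃ α × β) (P : GL ι F)
    (hadj : ∀ X : Matrix α α F, ∃ Y : Matrix α α F,
      adj σ f (frameEquiv e P (X ⊗ₖ (1 : Matrix β β F))) =
        frameEquiv e P (Y ⊗ₖ (1 : Matrix β β F))) :
    ∃ (A : Matrix α α F) (B : Matrix β β F) (ε₂ : F), A.det ≠ 0 ∧ B.det ≠ 0 ∧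
      HForm σ (ε * ε₂) (gform σ A) ∧ HForm σ ε₂ (gform σ B) ∧ ((∃ x, σ x ≠ x) → ε₂ = 1) ∧
      frameGram f e P = A ⊗ₖ B := by
  obtain ⟨a, b, hab⟩ := kron_of_normalizes (g := (frameGram f e P)ᵀ)
    (by rw [det_transpose]; exact hf.frameGram_det e P) (by
      intro X
      obtain ⟨Y, hY⟩ := hadj X
      refine ⟨(Y.map σ)ᵀ, ?_⟩
      have := congrArg transpose (hf.frameGram_adj e P hY)
      rw [transpose_mul, transpose_mul, transpose_transpose, kron_map, kron_transpose,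
        Matrix.map_one _ (map_zero σ) (map_one σ), transpose_one] at this
      exact this)
  have hG : frameGram f e P = (a : Matrix α α F)ᵀ ⊗ₖ (b : Matrix β β F)ᵀ := by
    rw [← kron_transpose, ← hab, transpose_transpose]
  have hA : (a : Matrix α α F)ᵀ.det ≠ 0 := by rw [det_transpose]; exact val_det_ne_zero a
  have hB : (b : Matrix β β F)ᵀ.det ≠ 0 := by rw [det_transpose]; exact val_det_ne_zero b
  generalize (a : Matrix α α F)ᵀ = A at hG hA
  generalize (b : Matrix β β F)ᵀ = B at hG hB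
  have h1 := hf.frameGram_herm e P
  rw [hG, kron_map, kron_transpose, ← smul_kronecker] at h1
  obtain ⟨μ, hμ, h2, h3⟩ := kron_eq_kron
    (smul_ne_zero hf.eps_ne_zero (ne_zero_of_det (by
      rw [det_transpose]; exact det_map_ne_zero σ hA)))
    (ne_zero_of_det (by rw [det_transpose]; exact det_map_ne_zero σ hB)) h1
  obtain ⟨c, δ, hc, hδ, hδ', h4, h5⟩ := exists_rescale hf.invol (ne_zero_of_det hB) h3
  have hδ2 : δ * δ = 1 := by rcases hδ with rfl | rfl <;> simp
  have hA' : (c⁻¹ • A).det ≠ 0 := by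
    rw [det_smul]; exact mul_ne_zero (pow_ne_zero _ (inv_ne_zero hc)) hA
  have hB' : (c • B).det ≠ 0 := by
    rw [det_smul]; exact mul_ne_zero (pow_ne_zero _ hc) hB
  refine ⟨c⁻¹ • A, c • B, δ, hA', hB', hform_gform hf.invol hA' ?_ ?_,
    hform_gform hf.invol hB' hδ h5, hδ', ?_⟩
  · rcases hf.eps with rfl | rfl <;> rcases hδ with rfl | rfl <;> simp
  · rw [map_smul_ringHom, transpose_smul, smul_smul]
    conv_lhs => rw [h2, smul_smul, smul_smul]
    congr 1
    have hσc : σ c ≠ 0 := (map_ne_zero σ).2 hc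
    rw [map_inv₀]
    field_simp at h4 ⊢
    linear_combination (ε * δ) * h4 - (ε * σ c * μ) * hδ2
  · rw [hG, smul_kronecker, kronecker_smul, smul_smul, inv_mul_cancel₀ hc, one_smul]

lemma TensorCase.hadj {σ : F →+* F} {ε : F} {f : (ι → F) → (ι → F) → F} (hf : HForm σ ε f)
    {L : Subgroup (GL ι F)} (hL : Isom f L) {κ μ : Type} [Fintype κ] [DecidableEq κ]
    [Fintype μ] [DecidableEq μ] {e : ι ≃ κ} {P : GL ι F} {φ : Matrix μ μ F → Matrix κ κ F}
    (hmem : ∀ x, x ∈ spanAlg L ↔ ∃ X, x = frameEquiv e P (φ X)) (X : Matrix μ μ F) :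
    ∃ Y, adj σ f (frameEquiv e P (φ X)) = frameEquiv e P (φ Y) :=
  (hmem _).1 (hf.adj_mem_spanAlg hL ((hmem _).2 ⟨X, rfl⟩))

lemma tw_of_kron {σ : F →+* F} {α β : Type} [Fintype α] [DecidableEq α] [Fintype β]
    [DecidableEq β] [Nonempty α] [Nonempty β] {A x : Matrix α α F} {B y : Matrix β β F}
    (hA : A.det ≠ 0) (hB : B.det ≠ 0) (h : tw σ (A ⊗ₖ B) (x ⊗ₖ y) = A ⊗ₖ B) :
    ∃ μ : F, μ ≠ 0 ∧ tw σ A x = μ • A ∧ tw σ B y = μ⁻¹ • B := by
  rw [tw_kron] at h
  exact kron_eq_kron (ne_zero_of_det hA) (ne_zero_of_det hB) h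

lemma isTensorFormStructure_of_gram {σ : F →+* F} {f : (ι → F) → (ι → F) → F} (hf : Sesq σ f)
    {a b : ℕ} {e : ι ≃ Fin a × Fin b} {P : GL ι F} {A : Matrix (Fin a) (Fin a) F}
    {B : Matrix (Fin b) (Fin b) F} (h : frameGram f e P = A ⊗ₖ B) :
    IsTensorFormStructure σ f (gform σ A) (gform σ B) e P ∧
      IsTensorFormStructure σ f (gform σ B) (gform σ A) (e.trans (Equiv.prodComm _ _)) P := by
  refine ⟨⟨1, one_ne_zero, fun x y => ?_⟩, ⟨1, one_ne_zero, fun x y => ?_⟩⟩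
  · rw [one_mul, gramMatrix_gform, gramMatrix_gform, ← gform_eq_formOfGram, ← h]
    exact hf.frameGram_spec e P x y
  · rw [one_mul, gramMatrix_gform, gramMatrix_gform]
    have := hf.frameGram_spec e P (x ∘ Equiv.prodComm _ _) (y ∘ Equiv.prodComm _ _)
    rw [h, gform_eq_formOfGram] at this
    refine this.trans ?_
    unfold formOfGram
    refine Fintype.sum_equiv (Equiv.prodComm _ _) _ _ fun i => ?_
    refine Fintype.sum_equiv (Equiv.prodComm _ _) _ _ fun j => ?_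
    simp [mul_comm]

lemma frameGram_of_isTensorFormStructure {σ : F →+* F} {f : (ι → F) → (ι → F) → F}
    {a b : ℕ} {e : ι ≃ Fin a × Fin b} {P : GL ι F} {f₁ : (Fin a → F) → (Fin a → F) → F}
    {f₂ : (Fin b → F) → (Fin b → F) → F} (h : IsTensorFormStructure σ f f₁ f₂ e P) :
    ∃ c : F, c ≠ 0 ∧ frameGram f e P = c • (gramMatrix f₁ ⊗ₖ gramMatrix f₂) := by
  obtain ⟨c, hc, h⟩ := h
  refine ⟨c, hc, ?_⟩
  ext i j
  have := h (Pi.single i 1) (Pi.single j 1)
  rw [← gform_eq_formOfGram, gform_single] at this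
  exact this

/-! ### Tensor powers -/

section Pt

variable {T α : Type} [Fintype T] [DecidableEq T] [Fintype α] [DecidableEq α]

lemma slot_injective [Nonempty α] (i : T) :
    Function.Injective (slot i : Matrix α α F → Matrix (T → α) (T → α) F) := by
  intro X Y h
  obtain ⟨a0⟩ := ‹Nonempty α›
  ext a b
  have := congrFun (congrFun h (Function.update (fun _ => a0) i a)) (Function.update (fun _ => a0) i b)
  rw [slot_apply, slot_apply, if_pos, if_pos] at this
  · simpa using this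
  · intro j hj
    simp [hj]
  · intro j hj
    simp [hj]

lemma pt_update (A : T → Matrix α α F) (i : T) (X : Matrix α α F) :
    slot i X * pt A = pt (Function.update A i (X * A i)) ∧
      pt A * slot i X = pt (Function.update A i (A i * X)) := by
  rw [slot_eq_pt, pt_mul, pt_mul]
  constructor <;>
  · congr 1
    funext j
    by_cases hj : j = i
    · subst hj; simp
    · simp [hj]

lemma mul_eq_of_slot [Nonempty α] {A : T → Matrix α α F} (hA : ∀ j, (A j).det ≠ 0) {i : T}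
    {X Y : Matrix α α F} (h : slot i X * pt A = pt A * slot i Y) : X * A i = A i * Y := by
  have h1 : pt A * slot i ((A i)⁻¹ * X * A i) = slot i X * pt A :=
    pt_mul_slot A i (by rw [mul_assoc, mul_nonsing_inv_cancel_left _ _ (hA i).isUnit])
  rw [← h1] at h
  have h2 := slot_injective i (mul_left_cancel_det (det_pt_ne_zero hA) h)
  rw [← h2, mul_assoc, mul_nonsing_inv_cancel_left _ _ (hA i).isUnit]

lemma eq_smul_of_comm {A B : Matrix α α F} (hA : A.det ≠ 0)
    (h : ∀ X : Matrix α α F, ∃ Y, X * A = A * Y ∧ X * B = B * Y) : ∃ c : F, B = c • A := by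
  obtain ⟨c, hc⟩ := isScal_of_comm_all (x := B * A⁻¹) fun X => by
    obtain ⟨Y, h1, h2⟩ := h X
    rw [← mul_assoc, h2]
    apply mul_right_cancel_det hA
    rw [mul_assoc, h1, mul_assoc, nonsing_inv_mul_cancel_left _ _ hA.isUnit,
      nonsing_inv_mul_cancel_right _ _ hA.isUnit]
  exact ⟨c, by rw [← nonsing_inv_mul_cancel_right A B hA.isUnit, hc, Matrix.smul_mul, one_mul]⟩

/-- If `tw (pt A) (slot i X) = c • pt A` then `tw (A i) X = c • A i`. -/
lemma tw_of_slot [Nonempty α] (σ : F →+* F) {A : T → Matrix α α F} (hA : ∀ j, (A j).det ≠ 0)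
    {i : T} {X : Matrix α α F} {c : F} (h : tw σ (pt A) (slot i X) = c • pt A) :
    tw σ (A i) X = c • A i := by
  have h1 : tw σ (pt A) (slot i X) = slot i (tw σ (A i) X * (A i)⁻¹) * pt A := by
    rw [slot_eq_pt, tw_pt, (pt_update A i _).1, nonsing_inv_mul_cancel_right _ _ (hA i).isUnit]
    congr 1
    funext j
    by_cases hj : j = i
    · subst hj; simp
    · simp [hj, tw_one]
  have h2 : c • pt A = slot i (c • (1 : Matrix α α F)) * pt A := by
    rw [map_smul, map_one, Matrix.smul_mul, one_mul]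
  rw [h1, h2] at h
  have h3 := slot_injective i (mul_right_cancel_det (det_pt_ne_zero hA) h)
  rw [← nonsing_inv_mul_cancel_right (A i) (tw σ (A i) X) (hA i).isUnit, h3, Matrix.smul_mul,
    one_mul]

end Pt

/-- The Gram matrix in a tensor-power frame. -/
lemma HForm.exists_pt {σ : F →+* F} {ε : F} {f : (ι → F) → (ι → F) → F} (hf : HForm σ ε f)
    {T α : Type} [Fintype T] [DecidableEq T] [Fintype α] [DecidableEq α] [Nonempty α] [Nonempty T]
    (e : ι ≃ (T → α)) (P : GL ι F) {H : Subgroup (GL ι F)} (hH : Isom f H)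
    (hadj : ∀ (i : T) (X : Matrix α α F), ∃ Y : Matrix α α F,
      adj σ f (frameEquiv e P (slot i X)) = frameEquiv e P (slot i Y))
    (htr : ∀ i j : T, ∃ h ∈ H, ∀ X : Matrix α α F,
      cj h (frameEquiv e P (slot i X)) = frameEquiv e P (slot j X)) :
    ∃ (A : Matrix α α F) (c δ : F), c ≠ 0 ∧ A.det ≠ 0 ∧ HForm σ δ (gform σ A) ∧
      ((∃ x, σ x ≠ x) → δ = 1) ∧ c = ε * σ c * δ ^ Fintype.card T ∧
      frameGram f e P = c • pt fun _ : T => A := by
  obtain ⟨c, a, hca⟩ := pt_of_normalizes (g := (frameGram f e P)ᵀ)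
    (ne_zero_of_det (by rw [det_transpose]; exact hf.frameGram_det e P)) (by
      intro i X
      obtain ⟨Y, hY⟩ := hadj i X
      refine ⟨(Y.map σ)ᵀ, ?_⟩
      have := congrArg transpose (hf.frameGram_adj e P hY)
      rw [transpose_mul, transpose_mul, transpose_transpose, slot_map, slot_transpose] at this
      exact this)
  have hG : frameGram f e P = c • pt fun i => (a i : Matrix α α F)ᵀ := by
    rw [← pt_transpose, ← transpose_smul, ← hca, transpose_transpose]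
  have hA : ∀ i, (a i : Matrix α α F)ᵀ.det ≠ 0 := fun i => by
    rw [det_transpose]; exact val_det_ne_zero _
  obtain ⟨A, hAdef⟩ : ∃ A : T → Matrix α α F, A = fun i => (a i : Matrix α α F)ᵀ := ⟨_, rfl⟩
  rw [← hAdef] at hG
  replace hA : ∀ i, (A i).det ≠ 0 := by rw [hAdef]; exact hA
  have hG0 := ne_zero_of_det (hf.frameGram_det e P)
  have hc : c ≠ 0 := by
    rintro rfl
    exact hG0 (by rw [hG, zero_smul])
  have hslot : ∀ i X Y, adj σ f (frameEquiv e P (slot i X)) = frameEquiv e P (slot i Y) →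
      Xᵀ * A i = A i * Y.map σ := by
    intro i X Y hY
    have := hf.frameGram_adj e P hY
    rw [hG, slot_map, slot_transpose, Matrix.mul_smul, Matrix.smul_mul] at this
    exact mul_eq_of_slot hA (smul_right_injective _ hc this)
  obtain ⟨i0⟩ := ‹Nonempty T›
  have hprop : ∀ j, ∃ d : F, A j = d • A i0 := by
    intro j
    obtain ⟨h, hh, hj⟩ := htr i0 j
    refine eq_smul_of_comm (hA i0) fun X => ?_
    obtain ⟨Y, hY⟩ := hadj i0 Xᵀ
    refine ⟨Y.map σ, by simpa using hslot i0 _ _ hY, ?_⟩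
    have : adj σ f (frameEquiv e P (slot j Xᵀ)) = frameEquiv e P (slot j Y) := by
      rw [← hj, hf.adj_cj hH hh, hY, hj]
    simpa using hslot j _ _ this
  choose d hd using hprop
  have hG1 : frameGram f e P = (c * ∏ j, d j) • pt fun _ : T => A i0 := by
    rw [hG, ← smul_smul, ← pt_smul]
    congr 2
    funext j
    exact hd j
  have hB := hA i0
  generalize A i0 = B at hG1 hB
  generalize c * ∏ j, d j = c' at hG1
  have hc' : c' ≠ 0 := by
    rintro rfl
    exact hG0 (by rw [hG1, zero_smul])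
  have hB' : (B.map σ)ᵀ.det ≠ 0 := by rw [det_transpose]; exact det_map_ne_zero σ hB
  have h1 := hf.frameGram_herm e P
  rw [hG1, map_smul_ringHom, transpose_smul, pt_map, pt_transpose, smul_smul] at h1
  obtain ⟨ν, hν⟩ := eq_smul_of_comm (B := B) hB' fun X => by
    refine ⟨((B.map σ)ᵀ)⁻¹ * X * (B.map σ)ᵀ,
      by rw [mul_assoc, mul_nonsing_inv_cancel_left _ _ hB'.isUnit], ?_⟩
    have h2 := pt_mul_slot (fun _ : T => (B.map σ)ᵀ) i0 (X := ((B.map σ)ᵀ)⁻¹ * X * (B.map σ)ᵀ)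
      (Y := X) (by rw [mul_assoc, mul_nonsing_inv_cancel_left _ _ hB'.isUnit])
    have h3 := congrArg ((ε * σ c') • ·) h2
    rw [← Matrix.smul_mul, ← Matrix.mul_smul, ← h1, Matrix.smul_mul, Matrix.mul_smul] at h3
    exact mul_eq_of_slot (A := fun _ : T => B) (fun _ => hB) (smul_right_injective _ hc' h3).symm
  obtain ⟨b, δ, hb, hδ, hδ', -, h5⟩ := exists_rescale hf.invol (ne_zero_of_det hB) hν
  have hbB : (b • B).det ≠ 0 := by
    rw [det_smul]; exact mul_ne_zero (pow_ne_zero _ hb) hB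
  have hG2 : frameGram f e P = (c' * b⁻¹ ^ Fintype.card T) • pt fun _ : T => b • B := by
    rw [hG1, pt_smul (fun _ : T => b) (fun _ : T => B), smul_smul]
    congr 1
    rw [Finset.prod_const, Finset.card_univ, mul_assoc, ← mul_pow, inv_mul_cancel₀ hb, one_pow,
      mul_one]
  refine ⟨b • B, _, δ, mul_ne_zero hc' (pow_ne_zero _ (inv_ne_zero hb)), hbB,
    hform_gform hf.invol hbB hδ h5, hδ', ?_, hG2⟩
  have hδ2 : δ * δ = 1 := by rcases hδ with rfl | rfl <;> simp
  have h6 : ((b • B).map σ)ᵀ = δ • (b • B) := by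
    conv_rhs => rw [h5, smul_smul, hδ2, one_smul]
  have h7 := hf.frameGram_herm e P
  rw [hG2, map_smul_ringHom, transpose_smul, pt_map, pt_transpose, h6,
    pt_smul (fun _ : T => δ) (fun _ : T => b • B), smul_smul, smul_smul, Finset.prod_const,
    Finset.card_univ] at h7
  exact smul_left_injective F (ne_zero_of_det (det_pt_ne_zero fun _ => hbB)) h7

lemma isTensorPowerFormStructure_of_gram {σ : F →+* F} {f : (ι → F) → (ι → F) → F} (hf : Sesq σ f)
    {k t : ℕ} {e : ι ≃ (Fin t → Fin k)} {P : GL ι F} {A : Matrix (Fin k) (Fin k) F} {c : F}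
    (hc : c ≠ 0) (h : frameGram f e P = c • pt fun _ : Fin t => A) :
    IsTensorPowerFormStructure σ f (gform σ A) e P := by
  refine ⟨c, hc, fun x y => ?_⟩
  have := hf.frameGram_spec e P x y
  rw [h, gform_smul, gform_eq_formOfGram] at this
  rw [gramMatrix_gform]
  exact this

lemma isSymmetricForm_of_hform {f : (ι → F) → (ι → F) → F} (h : HForm (RingHom.id F) 1 f) :
    IsSymmetricForm f :=
  ⟨h.toSesq.bilinear, fun u v => by simpa using h.herm v u, h.nondeg⟩

lemma isSymplecticForm_of_hform {f : (ι → F) → (ι → F) → F} (h : HForm (RingHom.id F) (-1) f)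
    (h2 : (2 : F) ≠ 0) : IsSymplecticForm f :=
  ⟨h.toSesq.bilinear, fun u v => by simpa using h.herm v u, fun v => by
    have := h.herm v v
    rw [RingHom.id_apply] at this
    exact mul_left_cancel₀ h2 (by linear_combination this), h.nondeg⟩

lemma isUnitaryFormPow_of_hform {q : ℕ} {σ : F →+* F} (hσ : ∀ x, σ x = x ^ q)
    {f : (ι → F) → (ι → F) → F} (h : HForm σ 1 f) : IsUnitaryFormPow q f :=
  ⟨h.add_left, h.smul_left, fun u v => by rw [h.herm, one_mul, hσ], h.nondeg⟩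

lemma hform_of_isUnitaryFormPow {q : ℕ} {σ : F →+* F} (hσ : ∀ x, σ x = x ^ q)
    (hinv : ∀ x, σ (σ x) = x) {f : (ι → F) → (ι → F) → F} (h : IsUnitaryFormPow q f) :
    HForm σ 1 f :=
  hform_of_herm hinv h.add_left h.smul_left (fun v w => by rw [hσ]; exact h.herm v w)
    h.nondegenerate

/-- The structure of the form in the tensor case. -/
lemma HForm.tensorCase {σ : F →+* F} {ε : F} {f : (ι → F) → (ι → F) → F} (hf : HForm σ ε f)
    {H : Subgroup (GL ι F)} (hH : Isom f H) (h : TensorCase H) :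
    ∃ (a b : ℕ) (e : ι ≃ Fin a × Fin b) (P : GL ι F) (A : Matrix (Fin a) (Fin a) F)
      (B : Matrix (Fin b) (Fin b) F) (ε₂ : F), 2 ≤ a ∧ 2 ≤ b ∧ A.det ≠ 0 ∧ B.det ≠ 0 ∧
      HForm σ (ε * ε₂) (gform σ A) ∧ HForm σ ε₂ (gform σ B) ∧ ((∃ x, σ x ≠ x) → ε₂ = 1) ∧
      frameGram f e P = A ⊗ₖ B ∧
      (∃ L ≤ H, NormG H L ∧
        ∀ x, x ∈ spanAlg L ↔ ∃ X, x = frameEquiv e P (X ⊗ₖ (1 : Matrix (Fin b) (Fin b) F))) ∧
      ∀ g ∈ H, ∃ (x : GL (Fin a) F) (y : GL (Fin b) F) (μ : F), (g : Matrix ι ι F) =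
        frameEquiv e P ((x : Matrix (Fin a) (Fin a) F) ⊗ₖ (y : Matrix (Fin b) (Fin b) F)) ∧
        μ ≠ 0 ∧ tw σ A x = μ • A ∧ tw σ B y = μ⁻¹ • B := by
  obtain ⟨L, hLH, hL, a, b, ha, hb, e, P, hmem⟩ := h
  haveI : Nonempty (Fin a) := ⟨⟨0, by omega⟩⟩
  haveI : Nonempty (Fin b) := ⟨⟨0, by omega⟩⟩
  obtain ⟨A, B, ε₂, hA, hB, h1, h2, h3, hG⟩ := hf.exists_kron e P
    (TensorCase.hadj hf (hH.mono hLH) (φ := fun X => X ⊗ₖ (1 : Matrix (Fin b) (Fin b) F)) hmem)
  refine ⟨a, b, e, P, A, B, ε₂, ha, hb, hA, hB, h1, h2, h3, hG, ⟨L, hLH, hL, hmem⟩, fun g hg => ?_⟩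
  obtain ⟨x, y, hxy⟩ := kron_of_tensorCase hL ha hb hmem hg
  have h4 := hf.frameGram_sim e P (c := 1)
    (X := (x : Matrix (Fin a) (Fin a) F) ⊗ₖ (y : Matrix (Fin b) (Fin b) F))
    (fun u v => by rw [← hxy, hH g hg, one_mul])
  rw [one_smul, hG] at h4
  obtain ⟨μ, hμ, h5⟩ := tw_of_kron hA hB h4
  exact ⟨x, y, μ, hxy, hμ, h5⟩

/-- The structure of the form in the tensor power case. -/
lemma HForm.powerCase {σ : F →+* F} {ε : F} {f : (ι → F) → (ι → F) → F} (hf : HForm σ ε f)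
    {H : Subgroup (GL ι F)} (hH : Isom f H) (h : PowerCase H) :
    ∃ (t m : ℕ) (e : ι ≃ (Fin t → Fin m)) (P : GL ι F) (A : Matrix (Fin m) (Fin m) F) (c δ : F),
      2 ≤ t ∧ 2 ≤ m ∧ c ≠ 0 ∧ A.det ≠ 0 ∧ HForm σ δ (gform σ A) ∧ ((∃ x, σ x ≠ x) → δ = 1) ∧
      c = ε * σ c * δ ^ t ∧ frameGram f e P = (c • pt fun _ : Fin t => A) ∧
      H ≤ tensorWreathSubgroup m t e P ∧
      (∀ g ∈ H, ∃ (s : Equiv.Perm (Fin t)) (a : Fin t → GL (Fin m) F),
        g = frameGL e P (permGL s * ptGL a)) ∧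
      ∃ L ≤ H, NormG H L ∧ AbsIrr L ∧ ∃ N : Fin t → Subgroup (GL ι F),
        (∀ i, ⁅N i, N i⁆ = N i) ∧ L = ⨆ i, N i ∧
        (∀ i x, x ∈ spanAlg (N i) ↔ ∃ X, x = frameEquiv e P (slot i X)) ∧
        ∀ i, ∀ g ∈ N i, ∃ X, (g : Matrix ι ι F) = frameEquiv e P (slot i X) ∧ tw σ A X = A := by
  obtain ⟨L, hLH, hL, habs, t, m, ht, hm, e, P, N, hperf, hsup, hmem, htr, hperm⟩ := h
  haveI : Nonempty (Fin t) := ⟨⟨0, by omega⟩⟩
  haveI : Nonempty (Fin m) := ⟨⟨0, by omega⟩⟩
  have hN : ∀ i, N i ≤ H := fun i => (le_iSup N i).trans (hsup ▸ hLH)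
  obtain ⟨A, c, δ, hc, hA, h1, h2, h3, hG⟩ := hf.exists_pt e P hH
    (fun i => TensorCase.hadj hf (hH.mono (hN i)) (φ := fun X => slot i X) (hmem i)) htr
  refine ⟨t, m, e, P, A, c, δ, ht, hm, hc, hA, h1, h2, by simpa using h3, hG,
    le_tensorWreath_of_powerCase ht hm hmem hperm,
    fun g hg => perm_pt_of_powerCase ht hm hmem hperm hg, L, hLH, hL, habs, N, hperf, hsup, hmem,
    fun i g hg => ?_⟩
  obtain ⟨X, hX⟩ := (hmem i _).1 (mem_spanAlg hg)
  refine ⟨X, hX, ?_⟩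
  have h4 := hf.frameGram_sim e P (c := 1) (X := slot i X)
    (fun u v => by rw [← hX, hH g (hN i hg), one_mul])
  rw [hG, tw_smul, smul_comm] at h4
  have := tw_of_slot σ (A := fun _ : Fin t => A) (fun _ => hA) (smul_right_injective _ hc h4)
  rwa [one_smul] at this

end Cfsg.Agent.H7
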