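import Cfsg.Agent.H7.AschSL

set_option autoImplicit false
set_option linter.unusedSectionVars false
set_option linter.unusedVariables false
set_option linter.unnecessarySimpa false
set_option linter.style.haveILetI false
set_option linter.unusedSimpArgs false

namespace Cfsg.Agent.H7

open Cfsg Cfsg.Geo Matrix
open scoped MatrixGroups Kronecker commutatorElement

variable {ι : Type} [Fintype ι] [DecidableEq ι] {F : Type*} [Field F]

/-! ### Traces -/

lemma exists_trace_ne {σ : F →+* F} (hne : ∃ a, σ a ≠ a) : ∃ c : F, c + σ c ≠ 0 := by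
  by_contra hall
  push Not at hall
  obtain ⟨a, ha⟩ := hne
  have h1 := hall 1
  rw [map_one] at h1
  exact ha (by linear_combination hall a - a * h1)

lemma exists_trace_eq {σ : F →+* F} (hσ : ∀ a, σ (σ a) = a) (hne : ∃ a, σ a ≠ a) {d : F}
    (hd : σ d = d) : ∃ μ : F, μ + σ μ = d := by
  obtain ⟨c, hc⟩ := exists_trace_ne hne
  refine ⟨d * c / (c + σ c), ?_⟩
  rw [map_div₀, map_mul, map_add, hσ, hd, add_comm (σ c) c]
  field_simp

lemma exists_trace_zero {σ : F →+* F} (hσ : ∀ a, σ (σ a) = a) (hne : ∃ a, σ a ≠ a) :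
    ∃ ζ : F, ζ ≠ 0 ∧ ζ + σ ζ = 0 := by
  obtain ⟨a, ha⟩ := hne
  exact ⟨σ a - a, sub_ne_zero.2 ha, by rw [map_sub, hσ]; ring⟩

section Herm
variable {σ : F →+* F} {f : (ι → F) → (ι → F) → F}

lemma HForm.herm1 (hf : HForm σ 1 f) (u v : ι → F) : f v u = σ (f u v) := by
  rw [hf.herm, one_mul]

lemma HForm.map_self (hf : HForm σ 1 f) (u : ι → F) : σ (f u u) = f u u := (hf.herm1 u u).symm

lemma HForm.self_add (hf : HForm σ 1 f) (u v : ι → F) :
    f (u + v) (u + v) = f u u + f v v + (f u v + σ (f u v)) := by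
  rw [hf.add_left, hf.add_right, hf.add_right, hf.herm1 u v]; ring

lemma HForm.self_smul (hf : HForm σ 1 f) (c : F) (u : ι → F) :
    f (c • u) (c • u) = c * σ c * f u u := by
  rw [hf.smul_left, hf.smul_right]; ring

lemma HForm.exists_aniso (hf : HForm σ 1 f) (hne : ∃ a, σ a ≠ a) {U : Submodule F (ι → F)}
    {x y : ι → F} (hx : x ∈ U) (hy : y ∈ U) (hxy : f x y ≠ 0) : ∃ w ∈ U, f w w ≠ 0 := by
  by_contra hall
  push Not at hall
  obtain ⟨c, hc⟩ := exists_trace_ne hne
  have h1 := hall (((c * (f x y)⁻¹) • x) + y) (U.add_mem (U.smul_mem _ hx) hy)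
  rw [hf.self_add, hall _ (U.smul_mem _ hx), hall _ hy, hf.smul_left, mul_assoc,
    inv_mul_cancel₀ hxy, mul_one, zero_add, zero_add] at h1
  exact hc h1

variable [Fintype F] {q : ℕ}

lemma HForm.exists_unit (hF : Fintype.card F = q ^ 2) (hσ : ∀ x, σ x = x ^ q) (hf : HForm σ 1 f)
    {w : ι → F} (hw : f w w ≠ 0) {d : F} (hd : σ d = d) : ∃ c : F, f (c • w) (c • w) = d := by
  obtain ⟨l, hl⟩ := exists_norm_eq hF hσ (d := d * (f w w)⁻¹)
    (by rw [map_mul, map_inv₀, hf.map_self, hd])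
  exact ⟨l, by rw [hf.self_smul, hl, mul_assoc, inv_mul_cancel₀ hw, mul_one]⟩

lemma HForm.exists_orthonormal (hF : Fintype.card F = q ^ 2) (hσ : ∀ x, σ x = x ^ q)
    (hf : HForm σ 1 f) {U : Submodule F (ι → F)} (hU : IsNondegenerateOn f U) (k : ℕ)
    (hk : k ≤ Module.finrank F U) : ∃ v : Fin k → ι → F, (∀ i, v i ∈ U) ∧
      ∀ i j, f (v i) (v j) = if i = j then 1 else 0 := by
  induction k with
  | zero => exact ⟨Fin.elim0, fun i => i.elim0, fun i => i.elim0⟩
  | succ k ih =>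
    obtain ⟨v, hv, hvv⟩ := ih (by omega)
    let L : U →ₗ[F] (Fin k → F) :=
      { toFun := fun x i => f x (v i)
        map_add' := fun x y => by ext i; exact hf.add_left _ _ _
        map_smul' := fun c x => by ext i; exact hf.smul_left _ _ _ }
    obtain ⟨x, hx, hx0⟩ := Submodule.exists_mem_ne_zero_of_ne_bot
      (LinearMap.ker_ne_bot_of_finrank_lt (f := L) (by simp; omega))
    have hx1 : ∀ i, f x (v i) = 0 := fun i => congrFun (LinearMap.mem_ker.1 hx) i
    obtain ⟨-, y, hy, hxy⟩ := hU x x.2 fun h => hx0 (Subtype.ext h)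
    let U' : Submodule F (ι → F) := U ⊓ perp hf.toSesq (Submodule.span F (Set.range v))
    have hmem : ∀ z, z ∈ U → (∀ i, f z (v i) = 0) → z ∈ U' := fun z hz h =>
      ⟨hz, fun w hw => by
        induction hw using Submodule.span_induction with
        | mem w hw => obtain ⟨i, rfl⟩ := hw; exact h i
        | zero => exact hf.zero_right _
        | add a b _ _ ha hb => rw [hf.add_right, ha, hb, add_zero]
        | smul c a _ ha => rw [hf.smul_right, ha, mul_zero]⟩
    have hy' : y - ∑ i, f y (v i) • v i ∈ U' := by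
      refine hmem _ (U.sub_mem hy (U.sum_mem fun i _ => U.smul_mem _ (hv i))) fun j => ?_
      rw [hf.sub_left, hf.sum_left]
      simp [hf.smul_left, hvv]
    obtain ⟨w, hw, hww⟩ := hf.exists_aniso (qHom_ne hF hσ) (hmem _ x.2 hx1) hy' (by
      rw [hf.sub_right, hf.sum_right]
      simpa [hf.smul_right, hx1] using hxy)
    obtain ⟨c, hc⟩ := hf.exists_unit hF hσ hww (map_one σ)
    have hw' : ∀ i, f (c • w) (v i) = 0 := fun i => by
      rw [hf.smul_left, hw.2 _ (Submodule.subset_span ⟨i, rfl⟩), mul_zero]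
    refine ⟨Fin.cons (c • w) v, fun i => ?_, fun i j => ?_⟩
    · refine Fin.cases ?_ (fun i => ?_) i
      · exact U.smul_mem _ hw.1
      · exact hv i
    · refine Fin.cases ?_ (fun i => ?_) i <;> refine Fin.cases ?_ (fun j => ?_) j
      · simpa using hc
      · simpa [(Fin.succ_ne_zero j).symm] using hw' j
      · simpa [Fin.succ_ne_zero] using hf.eq_zero_comm (hw' i)
      · simpa using hvv i j

lemma Sesq.linearIndependent_of_orthonormal (hf : Sesq σ f) {α : Type*} [Fintype α]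
    [DecidableEq α] {v : α → ι → F} (h : ∀ i j, f (v i) (v j) = if i = j then 1 else 0) :
    LinearIndependent F v := by
  rw [Fintype.linearIndependent_iff]
  intro g hg j
  have := congrArg (fun x => f x (v j)) hg
  simpa [hf.sum_left, hf.smul_left, h, hf.zero_left] using this

lemma Sesq.nondegOn_top (hf : Sesq σ f) : IsNondegenerateOn f ⊤ := fun w _ hw =>
  ⟨let ⟨x, hx⟩ := (hf.nondeg w hw).1; ⟨x, trivial, hx⟩,
    let ⟨x, hx⟩ := (hf.nondeg w hw).2; ⟨x, trivial, hx⟩⟩

lemma frameGram_eq_one {κ : Type} [Fintype κ] [DecidableEq κ] {e : ι ≃ κ} {P : GL ι F}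
    {v : κ → ι → F} (hP : ∀ k, frameVec e P (Pi.single k 1) = v k)
    (h : ∀ i j, f (v i) (v j) = if i = j then 1 else 0) : frameGram f e P = 1 := by
  ext i j
  rw [frameGram_apply, hP, hP, h, one_apply]

/-- an orthonormal frame -/
lemma HForm.exists_on_frame (hF : Fintype.card F = q ^ 2) (hσ : ∀ x, σ x = x ^ q)
    (hf : HForm σ 1 f) {n : ℕ} (hn : Fintype.card ι = n) :
    ∃ (e : ι ≃ Fin n) (P : GL ι F), frameGram f e P = 1 := by
  obtain ⟨v, -, hv⟩ := hf.exists_orthonormal hF hσ hf.nondegOn_top n (by simp [hn])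
  have hli := hf.linearIndependent_of_orthonormal hv
  obtain ⟨e, P, hP⟩ := exists_frame v hli (hli.span_eq_top_of_card_eq_finrank' (by simp [hn])).ge
  exact ⟨e, P, frameGram_eq_one hP hv⟩

lemma HForm.exists_tw_eq_one (hF : Fintype.card F = q ^ 2) (hσ : ∀ x, σ x = x ^ q)
    {A : Matrix ι ι F} (hf : HForm σ 1 (gform σ A)) : ∃ Y : GL ι F, tw σ A Y = 1 := by
  obtain ⟨e, P, h⟩ := hf.exists_on_frame hF hσ rfl
  refine ⟨P, ?_⟩
  ext i j
  have := congrFun (congrFun h (e i)) (e j)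
  rw [frameGram_apply, frameVec_apply, frameVec_apply, gform_tw] at this
  have h1 : ∀ k : ι, (Pi.single (e k) (1 : F) : Fin _ → F) ∘ e = Pi.single k 1 := fun k => by
    ext l; simp [Pi.single_apply]
  rw [h1, h1, gform_single] at this
  rw [this]
  simp [one_apply]

lemma HForm.exists_iso_of_pair (hF : Fintype.card F = q ^ 2) (hσ : ∀ x, σ x = x ^ q)
    (hf : HForm σ 1 f) {U : Submodule F (ι → F)} (hU : 2 ≤ Module.finrank F U) :
    ∃ u ∈ U, u ≠ 0 ∧ f u u = 0 := by
  obtain ⟨x, hx, hx0⟩ : ∃ x ∈ U, x ≠ 0 := Submodule.exists_mem_ne_zero_of_ne_bot (by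
    rintro rfl; simp at hU)
  by_cases hxx : f x x = 0
  · exact ⟨x, hx, hx0, hxx⟩
  let L : U →ₗ[F] F :=
    { toFun := fun y => f y x
      map_add' := fun a b => hf.add_left _ _ _
      map_smul' := fun c a => hf.smul_left _ _ _ }
  obtain ⟨y, hy, hy0⟩ := Submodule.exists_mem_ne_zero_of_ne_bot
    (LinearMap.ker_ne_bot_of_finrank_lt (f := L) (by simp; omega))
  have hyx : f y x = 0 := LinearMap.mem_ker.1 hy
  obtain ⟨c, hc⟩ := hf.exists_unit hF hσ hxx (d := -f y y) (by rw [map_neg, hf.map_self])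
  refine ⟨y + c • x, U.add_mem y.2 (U.smul_mem _ hx), fun h0 => ?_, ?_⟩
  · have h1 := congrArg (fun z => f z x) h0
    simp only [hf.add_left, hf.smul_left, hyx, zero_add, hf.zero_left, mul_eq_zero, hxx,
      or_false] at h1
    rw [h1, zero_smul, add_zero] at h0
    exact hy0 (Subtype.ext h0)
  · rw [hf.self_add, hc, hf.smul_right, hyx]; simp

end Herm

/-! ### Change of frame -/

section Change
variable {κ : Type} [Fintype κ] [DecidableEq κ]

lemma frameVec_change (e : ι ≃ κ) (P : GL ι F) (Y : GL κ F) (x : κ → F) :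
    frameVec e (frameGL e P Y * P) x = frameVec e P ((Y : Matrix κ κ F) *ᵥ x) := by
  rw [frameVec_apply, Units.val_mul, ← mulVec_mulVec, ← frameVec_apply, frameGL_val,
    frameEquiv_mulVec]

lemma frameEquiv_change (e : ι ≃ κ) (P : GL ι F) (Y : GL κ F) (X : Matrix κ κ F) :
    frameEquiv e (frameGL e P Y * P) X = frameEquiv e P (cj Y X) := by
  rw [frameEquiv_apply, cj_mul, ← frameEquiv_apply, cj_frameEquiv e P (frameGL_val e P Y)]

lemma Sesq.frameGram_change {σ : F →+* F} {f : (ι → F) → (ι → F) → F} (hf : Sesq σ f)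
    (e : ι ≃ κ) (P : GL ι F) (Y : GL κ F) :
    frameGram f e (frameGL e P Y * P) = tw σ (frameGram f e P) Y := by
  apply gform_ext (σ := σ)
  intro u v
  rw [← hf.frameGram_spec, frameVec_change, frameVec_change, hf.frameGram_spec, gform_tw]

lemma frameGL_change (e : ι ≃ κ) (P : GL ι F) (Y X : GL κ F) :
    frameGL e (frameGL e P Y * P) X = frameGL e P (Y * X * Y⁻¹) := by
  apply Units.ext
  rw [frameGL_val, frameEquiv_change, cj_val, frameGL_val]

lemma mulVec_eq_frameVec (e : ι ≃ κ) (P : GL ι F) (u : ι → F) :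
    (P : Matrix ι ι F) *ᵥ u = frameVec e P (u ∘ e.symm) := by
  rw [frameVec_apply]; congr 1; ext i; simp

end Change

/-! ### Galois descent for an involution -/

lemma mat_eq_of_mulVec_single {x y : Matrix ι ι F}
    (h : ∀ i, x *ᵥ Pi.single i 1 = y *ᵥ Pi.single i 1) : x = y := by
  ext j i
  have := congrFun (h i) j
  simpa using this

lemma exists_descent {σ : F →+* F} (hσ : ∀ a, σ (σ a) = a) (hne : ∃ a, σ a ≠ a)
    {M : Matrix ι ι F} (hM : M * M.map σ = 1) :
    ∃ Y : GL ι F, M * (Y : Matrix ι ι F).map σ = Y := by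
  let S : Set (ι → F) := {v | M *ᵥ (σ ∘ v) = v}
  have hT : ∀ v : ι → F, v + M *ᵥ (σ ∘ v) ∈ S := by
    intro v
    have h1 : σ ∘ (v + M *ᵥ (σ ∘ v)) = σ ∘ v + M.map σ *ᵥ v := by
      have h2 := comp_mulVec σ M (σ ∘ v)
      rw [show σ ∘ (σ ∘ v) = v from funext fun i => hσ _] at h2
      rw [← h2]
      ext i; simp
    change M *ᵥ _ = _
    rw [h1, mulVec_add, mulVec_mulVec, hM, one_mulVec, add_comm]
  have hS : Submodule.span F S = ⊤ := by
    rw [eq_top_iff]
    intro v _
    obtain ⟨a, ha⟩ := hne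
    have h1 := Submodule.sub_mem _ (Submodule.smul_mem _ (σ a) (Submodule.subset_span (hT v)))
      (Submodule.subset_span (R := F) (hT (a • v)))
    have h2 : σ ∘ (a • v) = σ a • (σ ∘ v) := by ext i; simp
    rw [h2, mulVec_smul, smul_add, add_sub_add_right_eq_sub, ← sub_smul] at h1
    have := Submodule.smul_mem _ (σ a - a)⁻¹ h1
    rwa [smul_smul, inv_mul_cancel₀ (sub_ne_zero.2 ha), one_smul] at this
  obtain ⟨b, hbS, hb, hli⟩ := Submodule.exists_fun_fin_finrank_span_eq F S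
  obtain ⟨e, P, hP⟩ := exists_frame b hli (by rw [hb, hS])
  refine ⟨P, mat_eq_of_mulVec_single fun i => ?_⟩
  have h1 : (P : Matrix ι ι F) *ᵥ Pi.single i 1 = b (e i) := by
    rw [← hP, frameVec_apply]; congr 1; ext l; simp [Pi.single_apply]
  have h2 : σ ∘ (Pi.single i (1 : F) : ι → F) = Pi.single i 1 := by
    ext l; simp [Pi.single_apply, apply_ite σ]
  rw [← mulVec_mulVec, ← h2, ← comp_mulVec, h2, h1]
  exact hbS _

/-- index-two subfield subgroups from a semilinear involution -/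
lemma HForm.c5_of_descent [Finite F] [Nonempty ι] {σ : F →+* F} (hne : ∃ a, σ a ≠ a)
    {f : (ι → F) → (ι → F) → F} (hf : HForm σ 1 f) {κ : Type} [Fintype κ] [DecidableEq κ]
    (e : ι ≃ κ) (P : GL ι F) {M : Matrix κ κ F} (hM : M * M.map σ = 1) {H : Subgroup (GL ι F)}
    (hH : ∀ g ∈ H, ∃ (X : Matrix κ κ F) (c : F), (g : Matrix ι ι F) = frameEquiv e P X ∧
      M * X.map σ = c • (X * M)) :
    ∃ P' : GL ι F, H ≤ subfieldSubgroup (fixField σ) P' ∧
      (∀ ζ δ : F, (frameGram f e P * M.map σ)ᵀ = δ • (frameGram f e P * M.map σ) →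
        σ ζ * δ = ζ → IsFormRationalStructure f (fixField σ) ζ P') ∧
      ((frameGram f e P * M.map σ)ᵀ = -(frameGram f e P * M.map σ) →
        (∀ i, (frameGram f e P * M.map σ) i i = 0) → ∀ u : ι → F, (∀ i, u i ∈ fixField σ) →
          f ((P' : Matrix ι ι F) *ᵥ u) ((P' : Matrix ι ι F) *ᵥ u) = 0) := by
  obtain ⟨Y, hY⟩ := exists_descent hf.invol hne hM
  have hM' : M.map σ * M = 1 := mul_eq_one_comm.1 hM
  have hY' : (Y : Matrix κ κ F).map σ = M.map σ * Y := by
    rw [← hY, ← mul_assoc, hM', one_mul, hY]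
  have key : ∀ u v : ι → F, (∀ i, v i ∈ fixField σ) →
      f ((frameGL e P Y * P : GL ι F) *ᵥ u) ((frameGL e P Y * P : GL ι F) *ᵥ v) =
        gform (RingHom.id F) (frameGram f e P * M.map σ) ((Y : Matrix κ κ F) *ᵥ (u ∘ e.symm))
          ((Y : Matrix κ κ F) *ᵥ (v ∘ e.symm)) := by
    intro u v hv
    rw [mulVec_eq_frameVec e, mulVec_eq_frameVec e, frameVec_change, frameVec_change,
      hf.frameGram_spec, gform, gform, comp_mulVec, hY', ← mulVec_mulVec, ← mulVec_mulVec,
      show σ ∘ (v ∘ e.symm) = v ∘ e.symm from funext fun i => hv _]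
    rfl
  refine ⟨frameGL e P Y * P, fun g hg => ?_, fun ζ δ hδ hζ u v hu hv => ?_, fun h1 h2 u hu => ?_⟩
  · obtain ⟨X, c, hX, hc⟩ := hH g hg
    have h1 : (g : Matrix ι ι F) = frameEquiv e (frameGL e P Y * P) (cj Y⁻¹ X) := by
      rw [frameEquiv_change, cj_cj_inv, hX]
    have h2 : (cj Y⁻¹ X).map σ = c • cj Y⁻¹ X := by
      apply mul_left_cancel_det (z := M * (Y : Matrix κ κ F).map σ) (by rw [hY]; exact val_det_ne_zero Y)
      have h3 : (Y : Matrix κ κ F) * cj Y⁻¹ X = X * Y := by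
        rw [cj_apply, inv_inv, ← mul_assoc, ← mul_assoc, Units.mul_inv, one_mul]
      rw [mul_assoc, ← Matrix.map_mul, h3, Matrix.map_mul, ← mul_assoc, hc, hY, mul_smul_comm, h3,
        smul_mul_assoc, mul_assoc, hY]
    have h0 : cj Y⁻¹ X ≠ 0 := by
      intro h0
      rw [h0, map_zero] at h1
      exact val_det_ne_zero g (by rw [h1, det_zero])
    obtain ⟨ζ, hζ, h4⟩ := exists_smul_fixed σ h0 h2
    exact mem_subfield_of_frame h1 hζ h4
  · rw [mem_fixField, map_mul, ← hf.herm1, key u v hv, key v u hu]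
    have := gform_swap (σ := RingHom.id F) (fun _ => rfl) (frameGram f e P * M.map σ)
      ((Y : Matrix κ κ F) *ᵥ (v ∘ e.symm)) ((Y : Matrix κ κ F) *ᵥ (u ∘ e.symm))
    rw [RingHom.id_apply, RingHom.coe_id, Matrix.map_id, hδ, gform_smul] at this
    rw [this, ← mul_assoc, hζ]
  · rw [key u u hu]
    exact gform_self_eq_zero h1 h2 _

end Cfsg.Agent.H7
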