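import Cfsg.Agent.H7.AschExtra

set_option autoImplicit false
set_option linter.unusedSectionVars false
set_option linter.unusedVariables false
set_option linter.unnecessarySimpa false
set_option linter.style.haveILetI false
set_option linter.unusedSimpArgs false

namespace Cfsg.Agent.H7

open Cfsg Cfsg.Geo Matrix
open scoped MatrixGroups Kronecker commutatorElement

variable {ι : Type} [Fintype ι] [DecidableEq ι] {F : Type*} [Field F]

/-! ### Transport of forms along frames -/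

section Pull

variable {κ : Type} [Fintype κ] [DecidableEq κ]

lemma frameVec_symm_mulVec (e : ι ≃ κ) (P : GL ι F) (X : Matrix κ κ F) (u : ι → F) :
    (frameVec e P).symm (frameEquiv e P X *ᵥ u) = X *ᵥ (frameVec e P).symm u := by
  apply (frameVec e P).injective
  rw [← frameEquiv_mulVec, LinearEquiv.apply_symm_apply, LinearEquiv.apply_symm_apply]

lemma isBilinearForm_pull {f : (κ → F) → (κ → F) → F} (h : IsBilinearForm f)
    (T : (ι → F) ≃ₗ[F] (κ → F)) : IsBilinearForm (fun u v => f (T u) (T v)) :=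
  ⟨fun x y v => by rw [map_add, h.add_left], fun c x v => by rw [map_smul, h.smul_left],
    fun x y v => by rw [map_add, h.add_right], fun c x v => by rw [map_smul, h.smul_right]⟩

lemma isNondegenerateForm_pull {f : (κ → F) → (κ → F) → F} (h : IsNondegenerateForm f)
    (T : (ι → F) ≃ₗ[F] (κ → F)) : IsNondegenerateForm (fun u v => f (T u) (T v)) := by
  intro v hv
  obtain ⟨⟨x, hx⟩, ⟨y, hy⟩⟩ := h (T v) (by simpa using hv)
  exact ⟨⟨T.symm x, by simpa using hx⟩, ⟨T.symm y, by simpa using hy⟩⟩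

lemma isSymmetricForm_pull {f : (κ → F) → (κ → F) → F} (h : IsSymmetricForm f)
    (T : (ι → F) ≃ₗ[F] (κ → F)) : IsSymmetricForm (fun u v => f (T u) (T v)) :=
  ⟨isBilinearForm_pull h.bilinear T, fun u v => h.symm _ _, isNondegenerateForm_pull h.nondegenerate T⟩

lemma isSymplecticForm_pull {f : (κ → F) → (κ → F) → F} (h : IsSymplecticForm f)
    (T : (ι → F) ≃ₗ[F] (κ → F)) : IsSymplecticForm (fun u v => f (T u) (T v)) :=
  ⟨isBilinearForm_pull h.bilinear T, fun u v => h.skew _ _, fun v => h.alternating _,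
    isNondegenerateForm_pull h.nondegenerate T⟩

lemma pull_sim (e : ι ≃ κ) (P : GL ι F) (σ : F →+* F) {G X : Matrix κ κ F} {c : F}
    (h : tw σ G X = c • G) (u v : ι → F) :
    gform σ G ((frameVec e P).symm (frameEquiv e P X *ᵥ u))
        ((frameVec e P).symm (frameEquiv e P X *ᵥ v)) =
      c * gform σ G ((frameVec e P).symm u) ((frameVec e P).symm v) := by
  rw [frameVec_symm_mulVec, frameVec_symm_mulVec, gform_tw, h, gform_smul]

end Pull

lemma mem_similarityGroup_of_sim [Nonempty ι] {f : (ι → F) → (ι → F) → F}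
    (hf : IsNondegenerateForm f) {g : GL ι F} {c : F}
    (h : ∀ u v, f ((g : Matrix ι ι F) *ᵥ u) ((g : Matrix ι ι F) *ᵥ v) = c * f u v) :
    g ∈ similarityGroup f := by
  have hc : c ≠ 0 := by
    rintro rfl
    obtain ⟨i⟩ := ‹Nonempty ι›
    obtain ⟨⟨x, hx⟩, -⟩ := hf ((g : Matrix ι ι F) *ᵥ Pi.single i 1) (by
      rw [Ne, val_mulVec_eq_zero]
      intro h0
      simpa using congrFun h0 i)
    apply hx
    rw [← val_mulVec_inv g x, h, zero_mul]
  exact ⟨Units.mk0 c hc, h⟩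

lemma fixesForm_of_perfect {f : (ι → F) → (ι → F) → F} {N : Subgroup (GL ι F)}
    (hN : ⁅N, N⁆ = N) (h : N ≤ similarityGroup f) :
    N ≤ preserving (Units.coeHom (Matrix ι ι F)) f := by
  rw [← hN, Subgroup.commutator_le]
  intro x hx y hy u v
  obtain ⟨c, hc⟩ := h hx
  obtain ⟨d, hd⟩ := h hy
  have h1 := hc (((x⁻¹ : GL ι F) : Matrix ι ι F) *ᵥ (((y⁻¹ : GL ι F) : Matrix ι ι F) *ᵥ u))
    (((x⁻¹ : GL ι F) : Matrix ι ι F) *ᵥ (((y⁻¹ : GL ι F) : Matrix ι ι F) *ᵥ v))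
  have h2 := hd (((y⁻¹ : GL ι F) : Matrix ι ι F) *ᵥ u) (((y⁻¹ : GL ι F) : Matrix ι ι F) *ᵥ v)
  rw [val_mulVec_inv, val_mulVec_inv] at h1 h2
  simp only [commutatorElement_def, Units.coeHom_apply, Units.val_mul, ← mulVec_mulVec]
  rw [hc, hd, h2, h1]
  ring

lemma fixesForm_iff_le {f : (ι → F) → (ι → F) → F} {L : Subgroup (GL ι F)} :
    FixesForm (matrixSet L) f ↔ L ≤ preserving (Units.coeHom (Matrix ι ι F)) f := by
  constructor
  · intro h g hg
    exact h _ ⟨g, hg, rfl⟩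
  · rintro h _ ⟨g, hg, rfl⟩
    exact h hg

/-! ### The determinant form in dimension two -/

/-- The standard alternating `2 × 2` matrix. -/
def J2 (F : Type*) [Field F] : Matrix (Fin 2) (Fin 2) F := !![0, 1; -1, 0]

lemma tw_J2 (X : Matrix (Fin 2) (Fin 2) F) : tw (RingHom.id F) (J2 F) X = X.det • J2 F := by
  ext i j
  fin_cases i <;> fin_cases j <;>
    simp [tw, J2, Matrix.mul_apply, Fin.sum_univ_two, det_fin_two] <;> ring

lemma J2_transpose : (J2 F)ᵀ = -J2 F := by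
  ext i j
  fin_cases i <;> fin_cases j <;> simp [J2]

lemma J2_diag (i : Fin 2) : J2 F i i = 0 := by
  fin_cases i <;> simp [J2]

lemma J2_det : (J2 F).det = 1 := by simp [J2, det_fin_two]

lemma tw_kron {α β : Type} [Fintype α] [DecidableEq α] [Fintype β] [DecidableEq β] (σ : F →+* F)
    (A x : Matrix α α F) (B y : Matrix β β F) :
    tw σ (A ⊗ₖ B) (x ⊗ₖ y) = tw σ A x ⊗ₖ tw σ B y := by
  have : (x ⊗ₖ y).map σ = x.map σ ⊗ₖ y.map σ := by
    ext ⟨a, b⟩ ⟨c, d⟩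
    simp
  rw [tw, tw, tw, this, ← kroneckerMap_transpose, ← mul_kronecker_mul, ← mul_kronecker_mul]

lemma det_kron_ne_zero {α β : Type} [Fintype α] [DecidableEq α] [Fintype β] [DecidableEq β]
    {A : Matrix α α F} {B : Matrix β β F} (hA : A.det ≠ 0) (hB : B.det ≠ 0) :
    (A ⊗ₖ B).det ≠ 0 := by
  rw [det_kronecker]
  exact mul_ne_zero (pow_ne_zero _ hA) (pow_ne_zero _ hB)

section Pt

variable {T α : Type} [Fintype T] [DecidableEq T] [Fintype α] [DecidableEq α]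

lemma pt_transpose (a : T → Matrix α α F) : (pt a)ᵀ = pt fun i => (a i)ᵀ := by
  ext x y
  simp [pt_apply]

lemma pt_map (σ : F →+* F) (a : T → Matrix α α F) : (pt a).map σ = pt fun i => (a i).map σ := by
  ext x y
  simp [pt_apply]

lemma tw_pt (σ : F →+* F) (a b : T → Matrix α α F) :
    tw σ (pt a) (pt b) = pt fun i => tw σ (a i) (b i) := by
  rw [tw, pt_transpose, pt_map, pt_mul, pt_mul]
  rfl

lemma pt_smul (c : T → F) (a : T → Matrix α α F) :
    (pt fun i => c i • a i) = (∏ i, c i) • pt a := by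
  ext x y
  simp [pt_apply, Finset.prod_mul_distrib]

lemma det_pt_ne_zero {a : T → Matrix α α F} (h : ∀ i, (a i).det ≠ 0) : (pt a).det ≠ 0 :=
  val_det_ne_zero (ptGL fun i => Matrix.GeneralLinearGroup.mkOfDetNeZero (a i) (h i))

lemma tw_pt_slot (σ : F →+* F) (a : T → Matrix α α F) (i : T) {X : Matrix α α F} {c : F}
    (h : tw σ (a i) X = c • a i) : tw σ (pt a) (slot i X) = c • pt a := by
  rw [slot_eq_pt, tw_pt, smul_pt c a i]
  congr 1
  funext j
  by_cases hj : j = i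
  · subst hj
    simp [h]
  · simp [hj, tw_one]

end Pt

/-- The geometric classes in the linear case. -/
def LinGeom [Fintype F] (H : Subgroup (GL ι F)) : Prop :=
  (∃ W : Submodule F (ι → F), W ≠ ⊥ ∧ W ≠ ⊤ ∧ H ≤ subspaceStabilizer W) ∨
  (∃ (t m : ℕ) (D : Fin t → Submodule F (ι → F)), IsMDecomposition m D ∧
    H ≤ decompositionStabilizer D) ∨
  (∃ (r : ℕ) (K : Subalgebra F (Matrix ι ι F)), r.Prime ∧ IsFieldSubalgebra r K ∧
    H ≤ subalgebraNormalizer K) ∨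
  (∃ (n₁ n₂ : ℕ) (e : ι ≃ Fin n₁ × Fin n₂) (P : GL ι F), 2 ≤ n₁ ∧ n₁ < n₂ ∧
    H ≤ tensorProductSubgroup n₁ n₂ e P) ∨
  (∃ (F₀ : Subfield F) (r : ℕ) (P : GL ι F), r.Prime ∧ Fintype.card F = Nat.card F₀ ^ r ∧
    H ≤ subfieldSubgroup F₀ P) ∨
  (∃ (r : ℕ) (R : Subgroup (GL ι F)), IsLinearSymplecticTypeData r R ∧ ExtraData H R r) ∨
  (∃ (m t : ℕ) (e : ι ≃ (Fin t → Fin m)) (P : GL ι F), 3 ≤ m ∧ 2 ≤ t ∧
    H ≤ tensorWreathSubgroup m t e P) ∨
  (∃ f : (ι → F) → (ι → F) → F, IsSymplecticForm f ∧ H ≤ similarityGroup f) ∨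
  (∃ (σ : F ≃+* F) (f : (ι → F) → (ι → F) → F), IsUnitaryForm σ f ∧ H ≤ similarityGroup f) ∨
  (∃ Q : (ι → F) → F, IsNondegenerateQuadraticForm Q ∧ Odd (Fintype.card F) ∧
    H ≤ quadSimilarityGroup Q)

namespace LinGeom

variable [Fintype F] {H : Subgroup (GL ι F)}

lemma c1 {W : Submodule F (ι → F)} (h0 : W ≠ ⊥) (h1 : W ≠ ⊤) (h : H ≤ subspaceStabilizer W) :
    LinGeom H := Or.inl ⟨W, h0, h1, h⟩

lemma c2 {t m : ℕ} {D : Fin t → Submodule F (ι → F)} (hD : IsMDecomposition m D)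
    (h : H ≤ decompositionStabilizer D) : LinGeom H := Or.inr (Or.inl ⟨t, m, D, hD, h⟩)

lemma c3 {r : ℕ} {K : Subalgebra F (Matrix ι ι F)} (hr : r.Prime) (hK : IsFieldSubalgebra r K)
    (h : H ≤ subalgebraNormalizer K) : LinGeom H := Or.inr (Or.inr (Or.inl ⟨r, K, hr, hK, h⟩))

lemma c4 {n₁ n₂ : ℕ} {e : ι ≃ Fin n₁ × Fin n₂} {P : GL ι F} (h1 : 2 ≤ n₁) (h2 : n₁ < n₂)
    (h : H ≤ tensorProductSubgroup n₁ n₂ e P) : LinGeom H :=
  Or.inr (Or.inr (Or.inr (Or.inl ⟨n₁, n₂, e, P, h1, h2, h⟩)))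

lemma c5 (h : ∃ (F₀ : Subfield F) (r : ℕ) (P : GL ι F), r.Prime ∧
    Fintype.card F = Nat.card F₀ ^ r ∧ H ≤ subfieldSubgroup F₀ P) : LinGeom H :=
  Or.inr (Or.inr (Or.inr (Or.inr (Or.inl h))))

lemma c6 {r : ℕ} {R : Subgroup (GL ι F)} (h1 : IsLinearSymplecticTypeData r R)
    (h : ExtraData H R r) : LinGeom H :=
  Or.inr (Or.inr (Or.inr (Or.inr (Or.inr (Or.inl ⟨r, R, h1, h⟩)))))

lemma c7 {m t : ℕ} {e : ι ≃ (Fin t → Fin m)} {P : GL ι F} (h1 : 3 ≤ m) (h2 : 2 ≤ t)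
    (h : H ≤ tensorWreathSubgroup m t e P) : LinGeom H :=
  Or.inr (Or.inr (Or.inr (Or.inr (Or.inr (Or.inr (Or.inl ⟨m, t, e, P, h1, h2, h⟩))))))

lemma c8s {f : (ι → F) → (ι → F) → F} (h1 : IsSymplecticForm f) (h : H ≤ similarityGroup f) :
    LinGeom H :=
  Or.inr (Or.inr (Or.inr (Or.inr (Or.inr (Or.inr (Or.inr (Or.inl ⟨f, h1, h⟩)))))))

lemma c8u {σ : F ≃+* F} {f : (ι → F) → (ι → F) → F} (h1 : IsUnitaryForm σ f)
    (h : H ≤ similarityGroup f) : LinGeom H :=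
  Or.inr (Or.inr (Or.inr (Or.inr (Or.inr (Or.inr (Or.inr (Or.inr (Or.inl ⟨σ, f, h1, h⟩))))))))

lemma c8q {Q : (ι → F) → F} (h1 : IsNondegenerateQuadraticForm Q) (h2 : Odd (Fintype.card F))
    (h : H ≤ quadSimilarityGroup Q) : LinGeom H :=
  Or.inr (Or.inr (Or.inr (Or.inr (Or.inr (Or.inr (Or.inr (Or.inr (Or.inr ⟨Q, h1, h2, h⟩))))))))

lemma c8sym {f : (ι → F) → (ι → F) → F} (h1 : IsSymmetricForm f) (h2 : Odd (Fintype.card F))
    (h : H ≤ similarityGroup f) : LinGeom H :=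
  c8q (isQuad_diag h1 (two_ne_zero_of_odd h2)) h2 (h.trans (similarityGroup_le_quad_diag f))

lemma c8gram {κ : Type} [Fintype κ] [DecidableEq κ] (T : (ι → F) ≃ₗ[F] (κ → F))
    {G : Matrix κ κ F} (hG : G.det ≠ 0) (hs : Gᵀ = G ∨ Gᵀ = -G) (hd : ∀ i, G i i = 0)
    (h : H ≤ similarityGroup fun u v => gform (RingHom.id F) G (T u) (T v)) : LinGeom H := by
  have key : Gᵀ = -G → LinGeom H := fun h1 =>
    c8s (isSymplecticForm_pull (isSymplecticForm_gform hG h1 hd) T) h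
  rcases hs with hs | hs
  · by_cases h2 : Odd (Fintype.card F)
    · exact c8sym (isSymmetricForm_pull (isSymmetricForm_gform hG hs) T) h2 h
    · apply key
      rw [hs, eq_neg_iff_add_eq_zero, ← two_smul F, two_eq_zero_of_not_odd h2, zero_smul]
  · exact key hs

end LinGeom

lemma le_tensor_of_kron {H : Subgroup (GL ι F)} {a b : ℕ} {e : ι ≃ Fin a × Fin b} {P : GL ι F}
    (h : ∀ g ∈ H, ∃ (x : GL (Fin a) F) (y : GL (Fin b) F), (g : Matrix ι ι F) =
      frameEquiv e P ((x : Matrix (Fin a) (Fin a) F) ⊗ₖ (y : Matrix (Fin b) (Fin b) F))) :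
    H ≤ tensorProductSubgroup a b e P ∧
      H ≤ tensorProductSubgroup b a (e.trans (Equiv.prodComm _ _)) P := by
  refine ⟨fun g hg => (mem_tensorProductSubgroup_iff e P g).2 (h g hg), fun g hg => ?_⟩
  obtain ⟨x, y, hxy⟩ := h g hg
  exact (mem_tensorProductSubgroup_iff _ P g).2 ⟨y, x, by rw [frameEquiv_swap, hxy]⟩

lemma TensorCase.linGeom [Fintype F] [Nonempty ι] {H : Subgroup (GL ι F)} (h : TensorCase H) :
    LinGeom H := by
  obtain ⟨L, hLH, hL, a, b, ha, hb, e, P, hmem⟩ := h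
  have hk := fun g (hg : g ∈ H) => kron_of_tensorCase hL ha hb hmem hg
  rcases lt_trichotomy a b with hab | rfl | hab
  · exact LinGeom.c4 ha hab (le_tensor_of_kron hk).1
  · by_cases h3 : 3 ≤ a
    · refine LinGeom.c7 (e := e.trans (finTwoArrowEquiv (Fin a)).symm) (P := P) h3 le_rfl
        fun g hg => ?_
      obtain ⟨x, y, hxy⟩ := hk g hg
      exact mem_tensorWreath_of_kron e P hxy
    · obtain rfl : a = 2 := by omega
      have hdet : (J2 F ⊗ₖ J2 F).det ≠ 0 :=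
        det_kron_ne_zero (by rw [J2_det]; exact one_ne_zero) (by rw [J2_det]; exact one_ne_zero)
      refine LinGeom.c8gram (frameVec e P).symm hdet (Or.inl ?_) (fun i => ?_) fun g hg => ?_
      · rw [← kroneckerMap_transpose, J2_transpose]
        ext ⟨i, j⟩ ⟨k, l⟩
        simp
      · simp [J2_diag]
      · obtain ⟨x, y, hxy⟩ := hk g hg
        refine mem_similarityGroup_of_sim
          (isNondegenerateForm_pull (sesq_gform (fun _ => rfl) hdet).nondeg _)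
          (c := (x : Matrix (Fin 2) (Fin 2) F).det * (y : Matrix (Fin 2) (Fin 2) F).det)
          fun u v => ?_
        rw [hxy]
        refine pull_sim e P _ ?_ u v
        rw [tw_kron, tw_J2, tw_J2, smul_kronecker, kronecker_smul, smul_smul]
  · exact LinGeom.c4 hb hab (le_tensor_of_kron hk).2

lemma ExtraCase.linGeom [Fintype F] (hn : 3 ≤ Fintype.card ι) {H : Subgroup (GL ι F)}
    (h : ExtraCase H) : LinGeom H := by
  have hn2 : 2 ≤ Fintype.card ι := by omega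
  haveI := nonempty_of_two_le hn2
  obtain ⟨r, R, hR, -, hfull⟩ := h.exists_data hn2
  rcases hR.linear hn hfull with ⟨F₀, h0, h1⟩ | h1 | ⟨σ, f, h1, h2⟩ | ⟨h0, f, h1, h2⟩ | ⟨f, h1, h2⟩
  · exact LinGeom.c5 (hR.abs.subfield_linear hR.norm h0 h1)
  · exact LinGeom.c6 h1 hR
  · exact LinGeom.c8u h1 ((hform_of_unitary h1).le_similarityGroup hR.abs hR.norm h2)
  · exact LinGeom.c8sym h1 h0 ((hform_of_symmetric h1).le_similarityGroup hR.abs hR.norm h2)
  · exact LinGeom.c8s h1 ((hform_of_symplectic h1).le_similarityGroup hR.abs hR.norm h2)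

lemma pt_J2_transpose (t : ℕ) : (pt fun _ : Fin t => J2 F)ᵀ = (-1 : F) ^ t • pt fun _ : Fin t => J2 F := by
  rw [pt_transpose, J2_transpose]
  have := pt_smul (fun _ : Fin t => (-1 : F)) (fun _ : Fin t => J2 F)
  simpa using this

lemma PowerCase.linGeom [Fintype F] [Nonempty ι] {H : Subgroup (GL ι F)} (h : PowerCase H) :
    LinGeom H := by
  obtain ⟨L, hLH, hL, habs, t, m, ht, hm, e, P, N, hperf, hsup, hmem, -, hperm⟩ := h
  by_cases h3 : 3 ≤ m
  · exact LinGeom.c7 h3 ht (le_tensorWreath_of_powerCase ht hm hmem hperm)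
  obtain rfl : m = 2 := by omega
  have hdet : (pt fun _ : Fin t => J2 F).det ≠ 0 :=
    det_pt_ne_zero fun _ => by rw [J2_det]; exact one_ne_zero
  have hs := (sesq_gform (σ := RingHom.id F) (fun _ => rfl) hdet).frame (frameVec e P).symm
  refine LinGeom.c8gram (frameVec e P).symm hdet ?_ (fun i => ?_) ?_
  · rw [pt_J2_transpose]
    rcases Nat.even_or_odd t with h | h
    · left
      rw [h.neg_one_pow, one_smul]
    · right
      rw [h.neg_one_pow, neg_smul, one_smul]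
  · rw [pt_apply]
    exact Finset.prod_eq_zero (Finset.mem_univ ⟨0, by omega⟩) (J2_diag _)
  · refine hs.le_similarityGroup habs hL (fixesForm_iff_le.2 ?_)
    rw [hsup]
    refine iSup_le fun i => fixesForm_of_perfect (hperf i) fun g hg => ?_
    obtain ⟨X, hX⟩ := (hmem i _).1 (mem_spanAlg hg)
    refine mem_similarityGroup_of_sim hs.nondeg (c := X.det) fun u v => ?_
    rw [hX]
    exact pull_sim e P _ (tw_pt_slot (RingHom.id F) (fun _ : Fin t => J2 F) i (tw_J2 X)) u v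

lemma not_comm_congr {G : Type*} [Group G] {N : Subgroup G} (h1 h2 : N.Normal)
    (h : haveI := h1; ¬ IsMulCommutative (G ⧸ N)) : haveI := h2; ¬ IsMulCommutative (G ⧸ N) := h

lemma QuasiCase.exists_core [Fintype F] [Nonempty ι] {H : Subgroup (GL ι F)} (h : QuasiCase H) :
    ∃ P : Subgroup (GL ι F), P ≤ H ∧ NormG H P ∧ AbsIrr P ∧
      ((∃ F₀ : Subfield F, F₀ ≠ ⊤ ∧ RealisableOver F₀ (matrixSet P)) ∨ IsResidualCore H P) := by
  obtain ⟨P, hPH, hP, habs, hperf, hsimple, hnc, hcent⟩ := h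
  refine ⟨P, hPH, hP, habs, ?_⟩
  by_cases h0 : ∃ F₀ : Subfield F, F₀ ≠ ⊤ ∧ RealisableOver F₀ (matrixSet P)
  · exact Or.inl h0
  · push Not at h0
    exact Or.inr ⟨hPH, hP, hperf, hsimple, hnc, hcent, absIrr_iff.1 habs, h0⟩

lemma QuasiCase.linGeom [Fintype F] [Nonempty ι] {H : Subgroup (GL ι F)} (h : QuasiCase H) :
    LinGeom H ∨ InLinearResidualClass H := by
  obtain ⟨P, hPH, hP, habs, ⟨F₀, h0, h1⟩ | hcore⟩ := h.exists_core
  · exact Or.inl (LinGeom.c5 (habs.subfield_linear hP h0 h1))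
  by_cases hs : ∃ f : (ι → F) → (ι → F) → F, IsSymplecticForm f ∧ FixesForm (matrixSet P) f
  · obtain ⟨f, h1, h2⟩ := hs
    exact Or.inl (LinGeom.c8s h1 ((hform_of_symplectic h1).le_similarityGroup habs hP h2))
  by_cases hu : ∃ (σ : F ≃+* F) (f : (ι → F) → (ι → F) → F), IsUnitaryForm σ f ∧
      FixesForm (matrixSet P) f
  · obtain ⟨σ, f, h1, h2⟩ := hu
    exact Or.inl (LinGeom.c8u h1 ((hform_of_unitary h1).le_similarityGroup habs hP h2))
  by_cases hq : ∃ Q : (ι → F) → F, IsNondegenerateQuadraticForm Q ∧ FixesQuadForm (matrixSet P) Q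
  · obtain ⟨Q, h1, h2⟩ := hq
    by_cases h3 : Odd (Fintype.card F)
    · refine Or.inl (LinGeom.c8q h1 h3 (le_trans ?_
        (similarityGroup_polar_le h1 (two_ne_zero_of_odd h3))))
      exact (hform_of_symmetric (isSymmetricForm_polar h1)).le_similarityGroup habs hP
        (fixesForm_polar h2)
    · exact absurd ⟨_, isSymplecticForm_polar h1 (two_eq_zero_of_not_odd h3), fixesForm_polar h2⟩ hs
  exact Or.inr ⟨P, hcore, hq, hs, hu⟩

/-- Aschbacher's theorem, linear case. -/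
theorem asch_linear [Fintype F] (hn : 3 ≤ Fintype.card ι) (H : Subgroup (GL ι F)) :
    LinGeom H ∨ InLinearResidualClass H := by
  have hn2 : 2 ≤ Fintype.card ι := by omega
  haveI := nonempty_of_two_le hn2
  by_cases hirr : Irr H
  swap
  · obtain ⟨W, h0, h1, h2⟩ := exists_of_not_irr hirr
    exact Or.inl (LinGeom.c1 h0 h1 (le_subspaceStabilizer h2))
  by_cases hctr : ∀ L ≤ H, NormG H L → ∀ z ∈ ctr (spanAlg L), IsScal z
  swap
  · push Not at hctr
    obtain ⟨L, hLH, hL, z, hz, hz'⟩ := hctr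
    rcases hirr.decomp_or_field hL.normA.ctr (ctr_comm _) ⟨z, hz, hz'⟩ with
      ⟨t, m, D, h1, h2⟩ | ⟨r, K, h1, h2, h3⟩
    · exact Or.inl (LinGeom.c2 h1 h2)
    · exact Or.inl (LinGeom.c3 h1 h2 h3)
  rcases core hn2 hirr hctr with h | h | h | h
  · exact Or.inl h.linGeom
  · exact Or.inl (h.linGeom hn)
  · exact Or.inl h.linGeom
  · exact h.linGeom

lemma LinGeom.inLinearClass [Fintype F] {n : ℕ} (hn : 3 ≤ n) {H : Subgroup (GL (Fin n) F)}
    (h : LinGeom H) : ∃ M : Subgroup (GL (Fin n) F), InLinearClass n F M ∧ H ≤ M := by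
  rcases h with ⟨W, h0, h1, h⟩ | ⟨t, m, D, h0, h⟩ | ⟨r, K, h0, h1, h⟩ | ⟨a, b, e, P, h0, h1, h⟩ |
    ⟨F₀, r, P, h0, h1, h⟩ | ⟨r, R, h0, h⟩ | ⟨m, t, e, P, h0, h1, h⟩ | ⟨f, h0, h⟩ | ⟨σ, f, h0, h⟩ |
    ⟨Q, h0, h1, h⟩
  · exact ⟨_, Or.inl ⟨W, h0, h1, rfl⟩, h⟩
  · exact ⟨_, Or.inr (Or.inr (Or.inr (Or.inl ⟨t, m, D, h0, rfl⟩))), h⟩
  · exact ⟨_, Or.inr (Or.inr (Or.inr (Or.inr (Or.inl ⟨r, K, h0, h1, rfl⟩)))), h⟩
  · exact ⟨_, Or.inr (Or.inr (Or.inr (Or.inr (Or.inr (Or.inl ⟨a, b, e, P, h0, h1, rfl⟩))))), h⟩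
  · exact ⟨_, Or.inr (Or.inr (Or.inr (Or.inr (Or.inr (Or.inr (Or.inl
      ⟨F₀, r, P, h0, h1, rfl⟩)))))), h⟩
  · exact ⟨_, Or.inr (Or.inr (Or.inr (Or.inr (Or.inr (Or.inr (Or.inr (Or.inl
      ⟨r, R, h0, rfl⟩))))))), h.norm.le_normalizer⟩
  · exact ⟨_, Or.inr (Or.inr (Or.inr (Or.inr (Or.inr (Or.inr (Or.inr (Or.inr (Or.inl
      ⟨m, t, e, P, h0, h1, rfl⟩)))))))), h⟩
  · have he : Even n := by simpa using even_card_of_symplectic h0
    exact ⟨_, Or.inr (Or.inr (Or.inr (Or.inr (Or.inr (Or.inr (Or.inr (Or.inr (Or.inr (Or.inl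
      ⟨f, h0, he, by obtain ⟨k, rfl⟩ := he; omega, rfl⟩))))))))), h⟩
  · exact ⟨_, Or.inr (Or.inr (Or.inr (Or.inr (Or.inr (Or.inr (Or.inr (Or.inr (Or.inr (Or.inr
      (Or.inl ⟨σ, f, h0, hn, rfl⟩)))))))))), h⟩
  · exact ⟨_, Or.inr (Or.inr (Or.inr (Or.inr (Or.inr (Or.inr (Or.inr (Or.inr (Or.inr (Or.inr
      (Or.inr ⟨Q, h0, h1, hn, rfl⟩)))))))))), h⟩

end Cfsg.Agent.H7
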