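import Cfsg.Agent.H7.AschBlock
import Cfsg.Agent.H7.AschFF

set_option autoImplicit false
set_option linter.unusedSectionVars false
set_option linter.unusedVariables false
set_option linter.unnecessarySimpa false
set_option linter.style.haveILetI false
set_option linter.unusedSimpArgs false

namespace Cfsg.Agent.H7

open Cfsg Cfsg.Geo Matrix
open scoped MatrixGroups Kronecker commutatorElement

variable {ι : Type} [Fintype ι] [DecidableEq ι] {F : Type*} [Field F]

/-! ### `SL` lies in no geometric subgroup -/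

lemma exists_vec_ne_zero (hn : 1 ≤ Fintype.card ι) : ∃ u : ι → F, u ≠ 0 := by
  obtain ⟨i⟩ := Fintype.card_pos_iff.1 hn
  exact ⟨Pi.single i 1, fun h => by simpa using congrFun h i⟩

lemma SL_not_le_stab {W : Submodule F (ι → F)} (h0 : W ≠ ⊥) (h1 : W ≠ ⊤) :
    ¬ specialLinear ι F ≤ subspaceStabilizer W := by
  intro h
  obtain ⟨w, hw, hw0⟩ := Submodule.exists_mem_ne_zero_of_ne_bot h0
  obtain ⟨u, hu⟩ : ∃ u, u ∉ W := by
    by_contra hall
    push Not at hall
    exact h1 (eq_top_iff.2 fun v _ => hall v)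
  obtain ⟨φ, hφu, hφw⟩ := exists_dot_sep (u := u) (w := w) fun c hc => by
    have hc0 : c ≠ 0 := by rintro rfl; exact hw0 (by simpa using hc)
    apply hu
    have := W.smul_mem c⁻¹ hw
    rwa [hc, smul_smul, inv_mul_cancel₀ hc0, one_smul] at this
  exact hu (tv_mem_stab hφu (h (tv_mem_SL hφu)) hw hφw)

lemma SL_not_le_decomp (hn : 3 ≤ Fintype.card ι) {t m : ℕ} {D : Fin t → Submodule F (ι → F)}
    (hD : IsMDecomposition m D) : ¬ specialLinear ι F ≤ decompositionStabilizer D := by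
  intro h
  choose v hv hv0 using IsMDecomposition.exists_ne_zero hD
  obtain ⟨φ, hφ, hφu, -⟩ := exists_dot_eq_zero_two hn (∑ k, v k) 0
  have hmul := IsMDecomposition.mul_eq hD
  refine tv_not_mem_decomp hφ hD hv (S := Finset.univ) (fun i _ => hv0 i) (by simpa using hD.two_le)
    (fun h1 => ?_) rfl hφu (h (tv_mem_SL hφu))
  rw [h1, mul_one] at hmul
  simpa [hmul] using hn

lemma exists_tv_SL (hn : 3 ≤ Fintype.card ι) {M : Subgroup (GL ι F)} (h : specialLinear ι F ≤ M) :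
    ∃ (u φ : ι → F) (h : φ ⬝ᵥ u = 0), u ≠ 0 ∧ φ ≠ 0 ∧ tv u φ h ∈ M := by
  obtain ⟨u, hu⟩ := exists_vec_ne_zero (ι := ι) (F := F) (by omega)
  obtain ⟨φ, hφ, hφu, -⟩ := exists_dot_eq_zero_two hn u 0
  exact ⟨u, φ, hφu, hu, hφ, h (tv_mem_SL hφu)⟩

lemma SL_not_le_subfield [Fintype F] (hn : 3 ≤ Fintype.card ι) {F₀ : Subfield F} {r : ℕ}
    (hr : r.Prime) (hF : Fintype.card F = Nat.card F₀ ^ r) (P : GL ι F) :
    ¬ specialLinear ι F ≤ subfieldSubgroup F₀ P := by
  intro h
  refine ne_top_of_card_pow hr.two_le hF (subfield_eq_top_of_forall (P := P) (by omega)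
    fun u hu => ?_)
  obtain ⟨φ, hφ, hφu, -⟩ := exists_dot_eq_zero_two hn u 0
  exact tv_subfield hn hφu hφ (h (tv_mem_SL hφu))

lemma SL_not_le_extra [Finite F] (hn : 3 ≤ Fintype.card ι) {H R : Subgroup (GL ι F)} {r : ℕ}
    (hR : ExtraData H R r) : ¬ specialLinear ι F ≤ subgroupNormalizer R := by
  intro h
  haveI := nonempty_of_two_le (ι := ι) (by omega)
  obtain ⟨u, hu⟩ := exists_vec_ne_zero (ι := ι) (F := F) (by omega)
  obtain ⟨x, hx, hxu⟩ := hR.exists_not_eigen (by omega) hu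
  obtain ⟨φ, hφ, hφu, hφx⟩ := exists_dot_eq_zero_two hn u ((x : Matrix ι ι F) *ᵥ u)
  have := (hR.tv_trace hn hφu hφ (h (tv_mem_SL hφu)) hx hxu).2
  rw [hφx, zero_mul] at this
  exact hR.card_ne_zero this.symm

lemma SL_not_le_sim (hn : 3 ≤ Fintype.card ι) {σ : F →+* F} {f : (ι → F) → (ι → F) → F}
    (hf : Sesq σ f) : ¬ specialLinear ι F ≤ similarityGroup f := by
  intro h
  obtain ⟨y, hy⟩ := exists_vec_ne_zero (ι := ι) (F := F) (by omega)
  obtain ⟨x, hxy⟩ := (hf.nondeg y hy).1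
  obtain ⟨φ, hφ, hφx, hφy⟩ := exists_dot_eq_zero_two hn x y
  obtain ⟨c, hc⟩ := h (tv_mem_SL hφx)
  obtain ⟨z, hz⟩ := exists_dot_eq_one hφ
  have h1 := hc x y
  have h2 := hc z y
  simp only [tv_mulVec, hφx, hφy, hz, zero_smul, add_zero, one_smul, hf.add_left] at h1 h2
  have hc1 : (c : F) = 1 := mul_right_cancel₀ hxy (by rw [← h1, one_mul])
  rw [hc1, one_mul, add_eq_left] at h2
  exact hxy h2

/-! ### degrees of subfields divide the dimension -/

lemma IsFieldSubalgebra.dvd_card [Fintype F] [Nonempty ι] {r : ℕ}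
    {K : Subalgebra F (Matrix ι ι F)} (hK : IsFieldSubalgebra r K) : r ∣ Fintype.card ι := by
  letI : Field K := (isField_of_subalgebra hK.comm hK.inv).toField
  letI : Module K (ι → F) :=
    Module.compHom (ι → F) ((Matrix.toLinAlgEquiv' (R := F) (n := ι)).toRingEquiv.toRingHom.comp
      K.val.toRingHom)
  have h1 : Nat.card (ι → F) = Nat.card K ^ Module.finrank K (ι → F) :=
    Module.natCard_eq_pow_finrank
  rw [Module.natCard_eq_pow_finrank (K := F) (V := K), hK.finrank_eq, ← pow_mul, Nat.card_fun,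
    Nat.card_eq_fintype_card (α := ι)] at h1
  have h2 : 2 ≤ Nat.card F := by rw [Nat.card_eq_fintype_card]; exact Fintype.one_lt_card
  exact ⟨_, Nat.pow_right_injective h2 h1⟩

/-! ### small exceptional containments -/

lemma mem_sim_of_frame [Nonempty ι] {κ : Type} [Fintype κ] [DecidableEq κ] {e : ι ≃ κ}
    {P g : GL ι F} {σ : F →+* F} (hσ : ∀ a, σ (σ a) = a) {G X : Matrix κ κ F} (hG : G.det ≠ 0)
    {c : F} (hg : (g : Matrix ι ι F) = frameEquiv e P X) (h : tw σ G X = c • G) :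
    g ∈ similarityGroup fun u v => gform σ G ((frameVec e P).symm u) ((frameVec e P).symm v) :=
  mem_similarityGroup_of_sim (isNondegenerateForm_pull (sesq_gform hσ hG).nondeg _)
    fun u v => by rw [hg]; exact pull_sim e P σ h u v

lemma tw_fin_one (σ : F →+* F) (a : Matrix (Fin 1) (Fin 1) F) (h : a.det * σ a.det = 1) :
    tw σ 1 a = 1 := by
  ext i j
  rw [det_fin_one] at h
  rw [Subsingleton.elim i 0, Subsingleton.elim j 0]
  simp [tw, mul_apply, h]

lemma tw_bm_const {T α : Type} [Fintype T] [DecidableEq T] [Fintype α] [DecidableEq α]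
    (σ : F →+* F) {A : Matrix α α F} {s : Equiv.Perm T} {a : T → Matrix α α F} {c : F}
    (h : ∀ i, tw σ A (a i) = c • A) :
    tw σ (blockDiagonal fun _ : T => A) (bm s a) = c • blockDiagonal fun _ : T => A := by
  rw [tw_bm]; exact blockDiagonal_smul_eq h

lemma det_blockDiagonal_const {T α : Type} [Fintype T] [DecidableEq T] [Fintype α] [DecidableEq α]
    {A : Matrix α α F} (h : A.det ≠ 0) : (blockDiagonal fun _ : T => A).det ≠ 0 := by
  rw [det_blockDiagonal]; exact Finset.prod_ne_zero_iff.2 fun _ _ => h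

/-- frames over the field with two elements fix a vector -/
lemma frames_two [Fintype F] (hq : Fintype.card F = 2) {t : ℕ} {D : Fin t → Submodule F (ι → F)}
    (hD : IsMDecomposition 1 D) : ∃ W : Submodule F (ι → F), W ≠ ⊥ ∧ W ≠ ⊤ ∧
      decompositionStabilizer D ≤ subspaceStabilizer W := by
  obtain ⟨e, P, -, h⟩ := IsMDecomposition.exists_frame hD
  have hmul := IsMDecomposition.mul_eq hD
  have ht := hD.two_le
  have hw : frameVec e P 1 ≠ 0 := by
    intro h0
    have := congrFun ((map_eq_zero_iff _ (frameVec e P).injective).1 h0) (0, ⟨0, by omega⟩)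
    simp at this
  refine ⟨Submodule.span F {frameVec e P 1}, by simpa using hw, fun h1 => ?_,
    le_subspaceStabilizer fun g hg v hv => ?_⟩
  · have := finrank_span_singleton (K := F) hw
    rw [h1, finrank_top, Module.finrank_fintype_fun_eq_card] at this
    omega
  · obtain ⟨s, a, ha, hg⟩ := h g hg
    obtain ⟨c, rfl⟩ := Submodule.mem_span_singleton.1 hv
    have : bm s a *ᵥ 1 = 1 := by
      ext ⟨k, j⟩
      obtain ⟨i, rfl⟩ := s.surjective j
      have h1 := (eq_zero_or_one hq _).resolve_left (ha i)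
      rw [det_fin_one] at h1
      rw [bm_mulVec]
      simp [mulVec, dotProduct, Subsingleton.elim k 0, h1]
    rw [mulVec_smul, hg, frameEquiv_mulVec, this]
    exact Submodule.smul_mem _ _ (Submodule.mem_span_singleton_self _)

lemma frames_sim [Nonempty ι] {σ : F →+* F} (hσ : ∀ a, σ (σ a) = a)
    (h1 : ∀ a : F, a ≠ 0 → a * σ a = 1) {t : ℕ} {D : Fin t → Submodule F (ι → F)}
    (hD : IsMDecomposition 1 D) : ∃ f : (ι → F) → (ι → F) → F, HForm σ 1 f ∧
      decompositionStabilizer D ≤ similarityGroup f := by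
  obtain ⟨e, P, -, h⟩ := IsMDecomposition.exists_frame hD
  have hG : (blockDiagonal fun _ : Fin t => (1 : Matrix (Fin 1) (Fin 1) F)).det ≠ 0 :=
    det_blockDiagonal_const (by simp)
  refine ⟨_, (hform_gform hσ hG (Or.inl rfl) ?_).frame (frameVec e P).symm, fun g hg => ?_⟩
  · have : (blockDiagonal fun _ : Fin t => (1 : Matrix (Fin 1) (Fin 1) F)) = 1 := blockDiagonal_one
    rw [this]; simp
  · obtain ⟨s, a, ha, hg⟩ := h g hg
    exact mem_sim_of_frame hσ hG hg (c := 1)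
      (tw_bm_const σ fun i => by rw [one_smul]; exact tw_fin_one σ _ (h1 _ (ha i)))

lemma planes_sim [Nonempty ι] {t : ℕ} {D : Fin t → Submodule F (ι → F)}
    (hD : IsMDecomposition 2 D) {H : Subgroup (GL ι F)} (hH : H ≤ decompositionStabilizer D)
    (h1 : ∀ g ∈ H, ∀ d : Fin t → F, (∀ i, d i ≠ 0) → (g : Matrix ι ι F).det = ∏ i, d i →
      ∃ c, ∀ i, d i = c) :
    ∃ f : (ι → F) → (ι → F) → F, IsSymplecticForm f ∧ H ≤ similarityGroup f := by
  obtain ⟨e, P, -, h⟩ := IsMDecomposition.exists_frame hD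
  have hG : (blockDiagonal fun _ : Fin t => J2 F).det ≠ 0 :=
    det_blockDiagonal_const (by simp [J2_det])
  refine ⟨_, isSymplecticForm_pull (isSymplecticForm_gform hG ?_ ?_) (frameVec e P).symm,
    fun g hg => ?_⟩
  · rw [blockDiagonal_transpose, ← blockDiagonal_neg]
    congr 1; funext i; exact J2_transpose
  · rintro ⟨k, i⟩; simp [blockDiagonal_apply, J2_diag]
  · obtain ⟨s, a, ha, hga⟩ := h g (hH hg)
    obtain ⟨c, hc⟩ := h1 g hg _ ha (by
      rw [hga, det_frameEquiv, det_bm, Fintype.card_fin, pow_two, sign_cast_sq, one_mul])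
    exact mem_sim_of_frame (fun _ => rfl) hG hga (c := c)
      (tw_bm_const _ fun i => by rw [tw_J2, hc])

lemma isUnitaryForm_of_hform [Finite F] {σ : F →+* F} (hne : ∃ a, σ a ≠ a)
    {f : (ι → F) → (ι → F) → F} (hf : HForm σ 1 f) :
    ∃ σ' : F ≃+* F, IsUnitaryForm σ' f := by
  refine ⟨RingEquiv.ofBijective σ ⟨σ.injective, Finite.surjective_of_injective σ.injective⟩,
    fun h => ?_, hf.invol, hf.add_left, hf.smul_left, fun v w => by rw [hf.herm w v, one_mul]; rfl,
    hf.nondeg⟩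
  obtain ⟨a, ha⟩ := hne
  exact ha (congrArg (fun φ : F ≃+* F => φ a) h)

/-- the algebra generated by a quadratic element -/
def quadAlg (θ : Matrix ι ι F) {a b : F} (h : θ * θ = a • 1 + b • θ) :
    Subalgebra F (Matrix ι ι F) where
  carrier := {x | ∃ c d : F, x = c • 1 + d • θ}
  mul_mem' := by
    rintro _ _ ⟨c, d, rfl⟩ ⟨c', d', rfl⟩
    refine ⟨c * c' + d * d' * a, c * d' + d * c' + d * d' * b, ?_⟩
    simp only [add_mul, mul_add, smul_mul_assoc, mul_smul_comm, one_mul, mul_one, h]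
    module
  add_mem' := by
    rintro _ _ ⟨c, d, rfl⟩ ⟨c', d', rfl⟩
    exact ⟨c + c', d + d', by module⟩
  algebraMap_mem' c := ⟨c, 0, by simp [Algebra.algebraMap_eq_smul_one]⟩

lemma mem_quadAlg {θ : Matrix ι ι F} {a b : F} {h : θ * θ = a • 1 + b • θ} {x : Matrix ι ι F} :
    x ∈ quadAlg θ h ↔ ∃ c d : F, x = c • 1 + d • θ := Iff.rfl

lemma self_mem_quadAlg {θ : Matrix ι ι F} {a b : F} (h : θ * θ = a • 1 + b • θ) :
    θ ∈ quadAlg θ h := ⟨0, 1, by simp⟩

lemma quadAlg_comm {θ : Matrix ι ι F} {a b : F} (h : θ * θ = a • 1 + b • θ) :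
    ∀ x ∈ quadAlg θ h, ∀ y ∈ quadAlg θ h, x * y = y * x := by
  rintro _ ⟨c, d, rfl⟩ _ ⟨c', d', rfl⟩
  simp only [add_mul, mul_add, smul_mul_assoc, mul_smul_comm, one_mul, mul_one, h]
  module

lemma normA_quadAlg {θ : Matrix ι ι F} {a b : F} (h : θ * θ = a • 1 + b • θ)
    {H : Subgroup (GL ι F)} (hH : ∀ g ∈ H, cj g θ ∈ quadAlg θ h) : NormA H (quadAlg θ h) := by
  rintro g hg _ ⟨c, d, rfl⟩
  rw [map_add, map_smul, map_smul, map_one]
  exact Subalgebra.add_mem _ (Subalgebra.smul_mem _ (Subalgebra.one_mem _) c)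
    (Subalgebra.smul_mem _ (hH g hg) d)

lemma isFieldSubalgebra_quadAlg [Nonempty ι] {θ : Matrix ι ι F} {a b : F}
    (h : θ * θ = a • 1 + b • θ) (hr : ∀ r : F, r * r ≠ a + b * r) :
    IsFieldSubalgebra 2 (quadAlg θ h) := by
  have hns : ¬ IsScal θ := by
    rintro ⟨c, rfl⟩
    apply hr c
    obtain ⟨i⟩ := ‹Nonempty ι›
    have := congrFun (congrFun h i) i
    simpa using this
  refine ⟨quadAlg_comm h, ?_, ?_⟩
  · rintro _ ⟨c, d, rfl⟩ h0
    have hN : c * c + b * c * d - a * d * d ≠ 0 := by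
      intro hN
      by_cases hd : d = 0
      · subst hd
        have : c = 0 := by simpa using hN
        exact h0 (by simp [this])
      · apply hr (-c / d)
        field_simp
        linear_combination hN
    refine ⟨_, ⟨(c * c + b * c * d - a * d * d)⁻¹ * (c + b * d),
      -((c * c + b * c * d - a * d * d)⁻¹ * d), rfl⟩, ?_⟩
    have h1 := mul_inv_cancel₀ hN
    generalize (c * c + b * c * d - a * d * d)⁻¹ = N at h1 ⊢
    have : (c • (1 : Matrix ι ι F) + d • θ) * ((N * (c + b * d)) • 1 + -(N * d) • θ) =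
        ((c * c + b * c * d - a * d * d) * N) • 1 := by
      simp only [add_mul, mul_add, smul_mul_assoc, mul_smul_comm, one_mul, mul_one, h]
      module
    rw [this, h1, one_smul]
  · have hli : LinearIndependent F ![(1 : Matrix ι ι F), θ] := by
      rw [LinearIndependent.pair_iff]
      intro c d hcd
      by_cases hd : d = 0
      · rw [hd, zero_smul, add_zero] at hcd
        exact ⟨(smul_eq_zero.1 hcd).resolve_right one_ne_zero, hd⟩
      · exfalso
        refine hns ⟨-(d⁻¹ * c), ?_⟩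
        have : θ = d⁻¹ • (d • θ) := by rw [smul_smul, inv_mul_cancel₀ hd, one_smul]
        rw [this, eq_neg_of_add_eq_zero_right hcd]
        module
    have hsp : Subalgebra.toSubmodule (quadAlg θ h) =
        Submodule.span F (Set.range ![(1 : Matrix ι ι F), θ]) := by
      ext x
      rw [Matrix.range_cons, Matrix.range_cons, Matrix.range_empty, Set.union_empty,
        Set.singleton_union, Submodule.mem_span_pair]
      exact ⟨fun ⟨c, d, h⟩ => ⟨c, d, h.symm⟩, fun ⟨c, d, h⟩ => ⟨c, d, h.symm⟩⟩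
    rw [← Subalgebra.finrank_toSubmodule, hsp, finrank_span_eq_card hli, Fintype.card_fin]

lemma two_by_two_F2 [Fintype F] (hq : Fintype.card F = 2) {X : Matrix (Fin 2) (Fin 2) F}
    (h4 : X * X = (1 : F) • 1 + (1 : F) • X) : X = (X 0 0) • 1 + !![0, 1; 1, 1] := by
  have h2 : (2 : F) = 0 := by exact_mod_cast natCast_card_eq_zero hq
  have e00 := congrFun (congrFun h4 0) 0
  have e01 := congrFun (congrFun h4 0) 1
  simp only [mul_apply, Fin.sum_univ_two, Matrix.add_apply, one_apply_eq, one_smul,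
    one_apply_ne (show (0 : Fin 2) ≠ 1 by decide), zero_add] at e00 e01
  have h10 : (1 : F) + 1 = 0 := by linear_combination h2
  rcases eq_zero_or_one hq (X 0 0) with a | a <;> rcases eq_zero_or_one hq (X 0 1) with b | b <;>
    rcases eq_zero_or_one hq (X 1 0) with c | c <;> rcases eq_zero_or_one hq (X 1 1) with d | d <;>
    simp only [a, b, c, d, mul_zero, mul_one, zero_add, add_zero, h10, zero_ne_one,
      one_ne_zero] at e00 e01 <;>
    (ext i j; fin_cases i <;> fin_cases j <;> simp [a, b, c, d, h10])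

/-- `GL₂(2) ⊗ GL_m(2)` normalises a field with four elements -/
lemma tensor_two [Fintype F] (hq : Fintype.card F = 2) {b : ℕ} (hb : 1 ≤ b)
    (e : ι ≃ Fin 2 × Fin b) (P : GL ι F) : ∃ K : Subalgebra F (Matrix ι ι F),
      IsFieldSubalgebra 2 K ∧ tensorProductSubgroup 2 b e P ≤ subalgebraNormalizer K := by
  haveI : Nonempty (Fin b) := ⟨⟨0, hb⟩⟩
  haveI : Nonempty ι := ⟨e.symm (0, ⟨0, hb⟩)⟩
  have h2 : (2 : F) = 0 := by exact_mod_cast natCast_card_eq_zero hq
  let ρ : Matrix (Fin 2) (Fin 2) F := !![0, 1; 1, 1]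
  have hρ : ρ * ρ = (1 : F) • 1 + (1 : F) • ρ := by
    ext i j; fin_cases i <;> fin_cases j <;> simp [ρ, mul_apply, Fin.sum_univ_two]
  have hθ : frameEquiv e P (ρ ⊗ₖ (1 : Matrix (Fin b) (Fin b) F)) *
      frameEquiv e P (ρ ⊗ₖ (1 : Matrix (Fin b) (Fin b) F)) =
      (1 : F) • 1 + (1 : F) • frameEquiv e P (ρ ⊗ₖ (1 : Matrix (Fin b) (Fin b) F)) := by
    rw [← map_mul, ← mul_kronecker_mul, mul_one, hρ, one_smul, one_smul, add_kronecker,
      one_kronecker_one, map_add, map_one, one_smul, one_smul]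
  refine ⟨quadAlg _ hθ, isFieldSubalgebra_quadAlg hθ fun r hr => ?_,
    (normA_quadAlg hθ fun g hg => ?_).le_normalizer⟩
  · rcases eq_zero_or_one hq r with rfl | rfl
    · simp at hr
    · simp at hr
  · obtain ⟨x, y, hg⟩ := (mem_tensorProductSubgroup_iff _ _ _).1 hg
    have h4 : cj x ρ * cj x ρ = (1 : F) • 1 + (1 : F) • cj x ρ := by
      rw [← map_mul, hρ, map_add, map_smul, map_smul, map_one]
    rw [cj_frameEquiv e P (x := kronGL x y) hg, cj_kronGL, map_one, two_by_two_F2 hq h4,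
      add_kronecker, smul_kronecker, one_kronecker_one, map_add, map_smul, map_one]
    exact ⟨cj x ρ 0 0, 1, by rw [one_smul]⟩

/-! ### monomial matrices -/

section Mono
variable {T : Type} [Fintype T] [DecidableEq T]

/-- monomial matrix -/
def mono (s : Equiv.Perm T) (d : T → F) : Matrix T T F :=
  Matrix.of fun x y => if x = s y then d y else 0

lemma mono_apply (s : Equiv.Perm T) (d : T → F) (x y : T) :
    mono s d x y = if x = s y then d y else 0 := rfl

lemma mono_mulVec (s : Equiv.Perm T) (d w : T → F) (i : T) :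
    (mono s d *ᵥ w) (s i) = d i * w i := by
  simp [mulVec, dotProduct, mono_apply]

lemma det_mono (s : Equiv.Perm T) (d : T → F) :
    (mono s d).det = ((Equiv.Perm.sign s : ℤ) : F) * ∏ i, d i := by
  have : mono s d = (diagonal d).submatrix s.symm id := by
    ext x y
    simp only [mono_apply, submatrix_apply, diagonal_apply, id, Equiv.symm_apply_eq]
    split_ifs with h
    · subst h; simp
    · rfl
  rw [this, det_permute, det_diagonal]
  simp

lemma tw_mono (σ : F →+* F) (s : Equiv.Perm T) (d : T → F) :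
    tw σ 1 (mono s d) = diagonal fun i => d i * σ (d i) := by
  ext i j
  simp only [tw, mul_one, mul_apply, transpose_apply, map_apply, mono_apply, diagonal_apply,
    ite_mul, zero_mul, apply_ite σ, map_zero, mul_ite, mul_zero, Finset.sum_ite_eq',
    Finset.mem_univ, if_true]
  by_cases h : i = j
  · subst h; simp
  · simp [h, Ne.symm h]

lemma sum_mono {M : Type*} [AddCommMonoid M] (s : Equiv.Perm T) (d w : T → F) (φ : F → M) :
    ∑ x, φ ((mono s d *ᵥ w) x) = ∑ i, φ (d i * w i) := by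
  rw [← Equiv.sum_comp s]; simp only [mono_mulVec]

lemma prod_mono (s : Equiv.Perm T) (d w : T → F) :
    ∏ x, (mono s d *ᵥ w) x = (∏ i, d i) * ∏ i, w i := by
  rw [← Equiv.prod_comp s]; simp only [mono_mulVec, Finset.prod_mul_distrib]

end Mono

lemma IsMDecomposition.exists_mono {t : ℕ} {D : Fin t → Submodule F (ι → F)}
    (hD : IsMDecomposition 1 D) {v : Fin t → ι → F} (hv : ∀ i, v i ∈ D i) (hv0 : ∀ i, v i ≠ 0) :
    ∃ (e : ι ≃ Fin t) (P : GL ι F), (∀ i, frameVec e P (Pi.single i 1) = v i) ∧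
      D = blockSub e P id ∧
      ∀ g ∈ decompositionStabilizer D, ∃ (s : Equiv.Perm (Fin t)) (d : Fin t → F),
        (∀ i, d i ≠ 0) ∧ (g : Matrix ι ι F) = frameEquiv e P (mono s d) := by
  obtain ⟨e, P, h1, h2, h3⟩ := IsMDecomposition.exists_frame_of_basis hD (α := Unit) (by simp)
    (b := fun i _ => v i) (fun i => linearIndependent_unique_iff.2 (hv0 i)) (fun i _ => hv i)
  refine ⟨e.trans (Equiv.punitProd _), P, fun i => ?_, ?_, fun g hg => ?_⟩
  · rw [frameVec_trans, ← h1 () i]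
    congr 1
    ext ⟨k, j⟩
    simp [Pi.single_apply]
  · rw [h2]
    funext i
    ext w
    simp only [mem_blockSub, id]
    exact ⟨fun h x hx => h ((), x) hx, fun h x hx => h x.2 hx⟩
  · obtain ⟨s, a, ha, hg⟩ := h3 g hg
    refine ⟨s, fun i => a i () (), fun i => by simpa using ha i, ?_⟩
    rw [hg, frameEquiv_trans]
    congr 1

/-- the element with matrix `X` in a frame -/
noncomputable def frameElt {κ : Type} [Fintype κ] [DecidableEq κ] (e : ι ≃ κ) (P : GL ι F)
    (X : Matrix κ κ F) (h : X.det ≠ 0) : GL ι F :=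
  frameGL e P (Matrix.GeneralLinearGroup.mkOfDetNeZero X h)

lemma frameElt_val {κ : Type} [Fintype κ] [DecidableEq κ] (e : ι ≃ κ) (P : GL ι F)
    (X : Matrix κ κ F) (h : X.det ≠ 0) : (frameElt e P X h : Matrix ι ι F) = frameEquiv e P X := rfl

lemma frameElt_mem_SL {κ : Type} [Fintype κ] [DecidableEq κ] (e : ι ≃ κ) (P : GL ι F)
    {X : Matrix κ κ F} (h : X.det ≠ 0) (h1 : X.det = 1) : frameElt e P X h ∈ specialLinear ι F := by
  rw [mem_specialLinear_iff, frameElt_val, det_frameEquiv, h1]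

lemma not_mem_decomp_id {t : ℕ} {e : ι ≃ Fin t} {P g : GL ι F} {X : Matrix (Fin t) (Fin t) F}
    (hg : (g : Matrix ι ι F) = frameEquiv e P X) {i j k : Fin t} (hij : i ≠ j) (hi : X i k ≠ 0)
    (hj : X j k ≠ 0) : g ∉ decompositionStabilizer (blockSub e P id) := by
  intro h
  obtain ⟨s, hs⟩ := zero_of_mem_decomp h
  rw [hg, AlgEquiv.symm_apply_apply] at hs
  have h1 : i = s k := by by_contra h; exact hi (hs i k h)
  have h2 : j = s k := by by_contra h; exact hj (hs j k h)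
  exact hij (h1.trans h2.symm)

/-- a set of coordinate vectors preserved by `H` and by a further element of `K`, but not by `K` -/
lemma false_of_set [Finite F] {K H N : Subgroup (GL ι F)} (h : IsMaximalIn K H) (hN : H ≤ N)
    {κ : Type} [Fintype κ] [DecidableEq κ] (e : ι ≃ κ) (P : GL ι F) (S : (κ → F) → Prop)
    (hH : ∀ g ∈ H, ∃ X, (g : Matrix ι ι F) = frameEquiv e P X ∧ ∀ w, S w → S (X *ᵥ w))
    {a : GL ι F} {A : Matrix κ κ F} (ha : (a : Matrix ι ι F) = frameEquiv e P A) (haK : a ∈ K)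
    (haN : a ∉ N) (hA : ∀ w, S w → S (A *ᵥ w))
    {b : GL ι F} {B : Matrix κ κ F} (hb : (b : Matrix ι ι F) = frameEquiv e P B) (hbK : b ∈ K)
    {w : κ → F} (hw : S w) (hB : ¬ S (B *ᵥ w)) : False := by
  have key : ∀ (g : GL ι F) X, (g : Matrix ι ι F) = frameEquiv e P X → (∀ w, S w → S (X *ᵥ w)) →
      g ∈ setStab {v | S ((frameVec e P).symm v)} := fun g X hg hX =>
    mem_setStab_of_finite fun v hv => by
      simp only [Set.mem_ofPred_eq] at hv ⊢
      rw [hg, frameVec_symm_mulVec]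
      exact hX _ hv
  refine false_of_overgroup h (M := setStab {v | S ((frameVec e P).symm v)}) (fun g hg => ?_) hN
    (fun hK => hB ?_) (key a A ha hA) haK haN
  · obtain ⟨X, h1, h2⟩ := hH g hg
    exact key g X h1 h2
  · have := (mem_setStab.1 (hK hbK) (frameVec e P w)).1 (by simpa using hw)
    simp only [Set.mem_ofPred_eq] at this
    rwa [hb, frameVec_symm_mulVec, LinearEquiv.symm_apply_apply] at this

lemma sl45_aux : ∀ a b c d : ZMod 5, a ^ 4 + b ^ 4 + c ^ 4 + d ^ 4 ≠ 3 → (a * b * c * d) ^ 2 ≠ -1 →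
    (a + c) ^ 4 + (b + d) ^ 4 + (a - c) ^ 4 + (d - b) ^ 4 ≠ 3 ∧
      ((a + c) * (b + d) * (a - c) * (d - b)) ^ 2 ≠ -1 := by decide +kernel

/-- the monomial group of `SL₄(5)` is not maximal -/
lemma sl45 [Fintype F] (hq : Fintype.card F = 5) {H : Subgroup (GL ι F)}
    (hH : IsMaximalIn (specialLinear ι F) H) {D : Fin 4 → Submodule F (ι → F)}
    (hD : IsMDecomposition 1 D) (hHD : H ≤ decompositionStabilizer D) : False := by
  choose v hv hv0 using IsMDecomposition.exists_ne_zero hD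
  obtain ⟨e, P, -, hDe, h⟩ := IsMDecomposition.exists_mono hD hv hv0
  obtain ⟨φ⟩ := exists_equiv_ZMod hq
  have h5 : (5 : F) = 0 := by exact_mod_cast natCast_card_eq_zero hq
  let A : Matrix (Fin 4) (Fin 4) F := !![1, 0, 1, 0; 0, 1, 0, 1; 1, 0, -1, 0; 0, -1, 0, 1]
  let B : Matrix (Fin 4) (Fin 4) F := !![1, 0, 0, 0; 1, 1, 0, 0; 1, 0, 1, 0; 0, 0, 0, 1]
  have hA : A.det = 1 := by
    simp [A, det_succ_row_zero, Fin.sum_univ_succ, Fin.succAbove]
    linear_combination -h5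
  have hB : B.det = 1 := by
    simp [B, det_succ_row_zero, Fin.sum_univ_succ, Fin.succAbove]
  have hA0 : A.det ≠ 0 := by rw [hA]; exact one_ne_zero
  have hB0 : B.det ≠ 0 := by rw [hB]; exact one_ne_zero
  refine false_of_set hH hHD e P (fun w => ∑ i, w i ^ 4 ≠ 3 ∧ (∏ i, w i) ^ 2 ≠ -1)
    (fun g hg => ?_) (frameElt_val e P A hA0) (frameElt_mem_SL e P hA0 hA) ?_ (fun w hw => ?_)
    (frameElt_val e P B hB0) (frameElt_mem_SL e P hB0 hB) (w := ![1, 0, 0, 0]) ?_ ?_
  · obtain ⟨s, d, hd, hgd⟩ := h g (hHD hg)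
    refine ⟨_, hgd, fun w hw => ?_⟩
    have h1 := mem_specialLinear_iff.1 (hH.1.le hg)
    rw [hgd, det_frameEquiv, det_mono] at h1
    have h2 : (∏ i, d i) ^ 2 = 1 := by
      have := sign_cast_sq (F := F) s
      linear_combination (-(∏ i, d i) ^ 2) * this + (((Equiv.Perm.sign s : ℤ) : F) * ∏ i, d i + 1) * h1
    rw [sum_mono s d w (fun x => x ^ 4), prod_mono, mul_pow, h2, one_mul]
    simp only [mul_pow, pow_card_sub_one hq (hd _), one_mul]
    exact hw
  · rw [hDe]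
    exact not_mem_decomp_id (frameElt_val e P A hA0) (i := 0) (j := 2) (k := 0) (by decide)
      (by simp [A]) (by simp [A])
  · have h0 : A *ᵥ w = ![w 0 + w 2, w 1 + w 3, w 0 - w 2, w 3 - w 1] := by
      ext i; fin_cases i <;> simp [A, mulVec, dotProduct, Fin.sum_univ_four] <;> ring
    have := sl45_aux (φ (w 0)) (φ (w 1)) (φ (w 2)) (φ (w 3))
      (fun h => hw.1 (φ.injective (by simpa [Fin.sum_univ_four, map_ofNat] using h)))
      (fun h => hw.2 (φ.injective (by simpa [Fin.prod_univ_four] using h)))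
    rw [h0]
    exact ⟨fun h => this.1 (by simpa [Fin.sum_univ_four, map_ofNat] using congrArg φ h),
      fun h => this.2 (by simpa [Fin.prod_univ_four] using congrArg φ h)⟩
  · refine ⟨fun h => ?_, by simp [Fin.prod_univ_four]⟩
    simp [Fin.sum_univ_four] at h
    have := congrArg φ h
    rw [map_one, map_ofNat] at this
    exact absurd this (by decide)
  · have h0 : B *ᵥ ![1, 0, 0, 0] = ![1, 1, 1, 0] := by
      ext i; fin_cases i <;> simp [B, mulVec, dotProduct, Fin.sum_univ_four]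
    rw [h0]
    intro h
    apply h.1
    simp [Fin.sum_univ_four]; norm_num

lemma mem_subfield_of_frame [Nonempty ι] {κ : Type} [Fintype κ] [DecidableEq κ] {e : ι ≃ κ}
    {P g : GL ι F} {X : Matrix κ κ F} (hg : (g : Matrix ι ι F) = frameEquiv e P X)
    {F₀ : Subfield F} {c : F} (hc : c ≠ 0) (h : ∀ i j, c * X i j ∈ F₀) :
    g ∈ subfieldSubgroup F₀ P := by
  refine mem_subfieldSubgroup_iff.2 ⟨c, hc, fun i j => ?_⟩
  rw [hg, frameEquiv_apply, cj_inv_cj]
  exact h _ _

/-- companion matrix of `X³ - X - 1` -/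
def C3 (R : Type*) [CommRing R] : Matrix (Fin 3) (Fin 3) R := !![0, 0, 1; 1, 0, 1; 0, 1, 0]

/-- the matrix with columns `w, Y w, Y² w` -/
def cyc3 {R : Type*} [CommRing R] (Y : Matrix (Fin 3) (Fin 3) R) (w : Fin 3 → R) :
    Matrix (Fin 3) (Fin 3) R := Matrix.of fun i j => ![w i, (Y *ᵥ w) i, (Y *ᵥ (Y *ᵥ w)) i] j

/-- explicit determinant -/
def det3 {R : Type*} [CommRing R] (A : Matrix (Fin 3) (Fin 3) R) : R :=
  A 0 0 * A 1 1 * A 2 2 - A 0 0 * A 1 2 * A 2 1 - A 0 1 * A 1 0 * A 2 2 + A 0 1 * A 1 2 * A 2 0 +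
    A 0 2 * A 1 0 * A 2 1 - A 0 2 * A 1 1 * A 2 0

lemma det3_eq {R : Type*} [CommRing R] (A : Matrix (Fin 3) (Fin 3) R) : det3 A = A.det :=
  (det_fin_three A).symm

lemma eq_cyc3 {R : Type*} [CommRing R] {X Y C : Matrix (Fin 3) (Fin 3) R} (h : X * C = Y * X)
    (h0 : ∀ i, C i 0 = if i = 1 then 1 else 0) (h1 : ∀ i, C i 1 = if i = 2 then 1 else 0) :
    X = cyc3 Y ![X 0 0, X 1 0, X 2 0] := by
  have hw : ![X 0 0, X 1 0, X 2 0] = fun i => X i 0 := by ext i; fin_cases i <;> rfl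
  have e1 : (Y *ᵥ fun i => X i 0) = fun i => X i 1 := by
    ext i
    have := congrFun (congrFun h i) 0
    simp only [mul_apply, h0, mul_ite, mul_one, mul_zero, Finset.sum_ite_eq', Finset.mem_univ,
      if_true] at this
    exact this.symm
  have e2 : (Y *ᵥ fun i => X i 1) = fun i => X i 2 := by
    ext i
    have := congrFun (congrFun h i) 1
    simp only [mul_apply, h1, mul_ite, mul_one, mul_zero, Finset.sum_ite_eq', Finset.mem_univ,
      if_true] at this
    exact this.symm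
  ext i j
  rw [hw, cyc3, e1, e2]
  fin_cases j <;> rfl

lemma sl34_aux : ∀ a b c : F4, ∀ k : Fin 3, det3 (cyc3 (C3 F4 ^ 2 ^ k.1) ![a, b, c]) = 1 →
    ∃ s : F4, s ≠ 0 ∧ ∀ i j, (s * cyc3 (C3 F4 ^ 2 ^ k.1) ![a, b, c] i j) ^ 2 =
      s * cyc3 (C3 F4 ^ 2 ^ k.1) ![a, b, c] i j := by decide +kernel

lemma IsFieldSubalgebra.eq_zero_of_mulVec {r : ℕ} {K : Subalgebra F (Matrix ι ι F)}
    (hK : IsFieldSubalgebra r K) {x : Matrix ι ι F} (hx : x ∈ K) {v : ι → F} (hv : v ≠ 0)
    (h : x *ᵥ v = 0) : x = 0 := by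
  by_contra h0
  obtain ⟨y, hy, hxy⟩ := hK.inv x hx h0
  apply hv
  rw [← one_mulVec v, ← hxy, hK.comm x hx y hy, ← mulVec_mulVec, h, mulVec_zero]

lemma IsFieldSubalgebra.mul_eq_zero {r : ℕ} {K : Subalgebra F (Matrix ι ι F)}
    (hK : IsFieldSubalgebra r K) {x y : Matrix ι ι F} (hx : x ∈ K) (h : x * y = 0) :
    x = 0 ∨ y = 0 := by
  by_cases h0 : x = 0
  · exact Or.inl h0
  · obtain ⟨z, hz, hxz⟩ := hK.inv x hx h0
    right
    rw [← one_mul y, ← hxz, hK.comm x hx z hz, mul_assoc, h, mul_zero]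

/-- the Singer normaliser in `SL₃(4)` lies in a subfield subgroup -/
lemma sl34 [Fintype F] (hq : Fintype.card F = 4) (hn : Fintype.card ι = 3)
    {K : Subalgebra F (Matrix ι ι F)} (hK : IsFieldSubalgebra 3 K) :
    ∃ (F₀ : Subfield F) (P : GL ι F), Fintype.card F = Nat.card F₀ ^ 2 ∧
      subalgebraNormalizer K ⊓ specialLinear ι F ≤ subfieldSubgroup F₀ P := by
  haveI := nonempty_of_two_le (ι := ι) (by omega)
  obtain ⟨φ⟩ := exists_equiv_F4 hq
  have h2 : (2 : F) = 0 := φ.injective (by rw [map_ofNat, map_zero]; decide)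
  have hroot : ∀ r : F, r ^ 3 ≠ r + 1 := fun r hr =>
    (by decide : ∀ x : F4, x ^ 3 ≠ x + 1) (φ r) (by rw [← map_pow, hr, map_add, map_one])
  obtain ⟨β, hβK, hβ, hconj⟩ : ∃ β ∈ K, β ^ 3 = β + 1 ∧
      ∀ y ∈ K, y ^ 3 = y + 1 → ∃ k : Fin 3, y = β ^ 2 ^ k.1 := by
    letI : Field K := (isField_of_subalgebra hK.comm hK.inv).toField
    have hK2 : (2 : K) = 0 := by
      rw [← map_ofNat (algebraMap F K) 2, h2, map_zero]
    have hc : Nat.card K = 8 ^ 2 := by
      rw [Module.natCard_eq_pow_finrank (K := F), hK.finrank_eq, Nat.card_eq_fintype_card, hq]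
      norm_num
    have h8 := card_pow_fixed K (by norm_num) hc
    obtain ⟨x, hx8, hx0, hx1⟩ : ∃ x : K, x ^ 8 = x ∧ x ≠ 0 ∧ x ≠ 1 := by
      by_contra hall
      push Not at hall
      have : Nat.card {x : K // x ^ 8 = x} ≤ Nat.card Bool := by
        classical
        refine Nat.card_le_card_of_injective (fun x => decide (x.1 = 0)) fun x y hxy => ?_
        apply Subtype.ext
        by_cases h0 : x.1 = 0
        · have : y.1 = 0 := by simpa [h0] using hxy
          rw [h0, this]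
        · have h1 : y.1 ≠ 0 := by simpa [h0] using hxy
          rw [hall _ x.2 h0, hall _ y.2 h1]
      rw [h8] at this
      simp at this
    obtain ⟨β, hβ⟩ : ∃ β : K, β ^ 3 = β + 1 := by
      have : x * (x - 1) * ((x ^ 3 - x - 1) * ((x + 1) ^ 3 - (x + 1) - 1)) = 0 := by
        linear_combination hx8 + (x ^ 7 - x ^ 6 - 3 * x ^ 5 + 2 * x ^ 3 + x ^ 2) * hK2
      rcases mul_eq_zero.1 ((mul_eq_zero.1 this).resolve_left
        (mul_ne_zero hx0 (sub_ne_zero.2 hx1))) with h | h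
      · exact ⟨x, by linear_combination h⟩
      · exact ⟨x + 1, by linear_combination h⟩
    refine ⟨β, β.2, by exact_mod_cast congrArg Subtype.val hβ, fun y hy hy3 => ?_⟩
    have hy3' : (⟨y, hy⟩ : K) ^ 3 = ⟨y, hy⟩ + 1 := Subtype.ext (by simpa using hy3)
    generalize hz : (⟨y, hy⟩ : K) = z at hy3'
    have hyz : y = z := congrArg Subtype.val hz
    have : (z - β) * (z - β ^ 2) * (z - β ^ 4) = 0 := by
      linear_combination hy3' +
        (-z ^ 2 * β + z * (β ^ 3 + β ^ 2 + β + 3) - (β ^ 4 + β ^ 2 + β + 1)) * hβ +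
        (-z ^ 2 * (β + β ^ 2) + z * (β ^ 2 + 2 * β + 2) - (β ^ 2 + β)) * hK2
    rcases mul_eq_zero.1 this with h | h
    · rcases mul_eq_zero.1 h with h | h
      · exact ⟨0, by rw [hyz, sub_eq_zero.1 h]; simp⟩
      · exact ⟨1, by rw [hyz, sub_eq_zero.1 h]; simp⟩
    · exact ⟨2, by rw [hyz, sub_eq_zero.1 h]; simp⟩
  have hns : ∀ c : F, β ≠ c • 1 := by
    rintro c rfl
    obtain ⟨i⟩ := ‹Nonempty ι›
    have := congrFun (congrFun hβ i) i
    rw [smul_pow, one_pow] at this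
    exact hroot c (by simpa using this)
  obtain ⟨v, hv⟩ := exists_vec_ne_zero (ι := ι) (F := F) (by omega)
  have hli : LinearIndependent F ![v, β *ᵥ v, β *ᵥ (β *ᵥ v)] := by
    rw [Fintype.linearIndependent_iff]
    intro g hg
    simp only [Fin.sum_univ_three, cons_val_zero, cons_val_one, cons_val] at hg
    have h0 : g 0 • (1 : Matrix ι ι F) + g 1 • β + g 2 • (β * β) = 0 := by
      refine IsFieldSubalgebra.eq_zero_of_mulVec hK (K.add_mem (K.add_mem
        (K.smul_mem K.one_mem _) (K.smul_mem hβK _)) (K.smul_mem (K.mul_mem hβK hβK) _)) hv ?_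
      rw [add_mulVec, add_mulVec, smul_mulVec, smul_mulVec, smul_mulVec, one_mulVec,
        ← mulVec_mulVec, hg]
    have hlin : ∀ a b : F, a • (1 : Matrix ι ι F) + b • β = 0 → a = 0 ∧ b = 0 := by
      intro a b hab
      by_cases hb : b = 0
      · rw [hb, zero_smul, add_zero] at hab
        exact ⟨(smul_eq_zero.1 hab).resolve_right one_ne_zero, hb⟩
      · exfalso
        refine hns (-(b⁻¹ * a)) ?_
        have : β = b⁻¹ • (b • β) := by rw [smul_smul, inv_mul_cancel₀ hb, one_smul]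
        rw [this, eq_neg_of_add_eq_zero_right hab]
        module
    have hg2 : g 2 = 0 := by
      by_contra hc
      have h3 : β * β * β = β + 1 := by rw [← hβ, pow_three, mul_assoc]
      have h4 := congrArg (· * β) h0
      simp only [add_mul, smul_mul_assoc, one_mul, h3, zero_mul] at h4
      have h5 := hlin (g 2 * g 2 - g 1 * g 0) (g 2 * g 0 + g 2 * g 2 - g 1 * g 1) (by
        have : (g 2 * g 2 - g 1 * g 0) • (1 : Matrix ι ι F) +
            (g 2 * g 0 + g 2 * g 2 - g 1 * g 1) • β =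
            g 2 • (g 0 • β + g 1 • (β * β) + g 2 • (β + 1)) -
            g 1 • (g 0 • (1 : Matrix ι ι F) + g 1 • β + g 2 • (β * β)) := by module
        rw [this, h4, h0]; simp)
      apply hroot (g 1 / g 2)
      field_simp
      linear_combination (-g 2) * h5.1 + (-g 1) * h5.2 + (g 1 * g 2 ^ 2 - g 1 * g 2 ^ 2) * h2 +
        (-g 0 * g 1 * g 2 + g 0 * g 1 * g 2) * h2
    rw [hg2, zero_smul, add_zero] at h0
    obtain ⟨h3, h4⟩ := hlin _ _ h0
    intro i; fin_cases i
    · exact h3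
    · exact h4
    · exact hg2
  obtain ⟨e, P, hP⟩ := exists_frame _ hli (hli.span_eq_top_of_card_eq_finrank' (by
    simp [hn])).ge
  have hβC : β = frameEquiv e P (C3 F) := by
    apply eq_frameEquiv
    intro k
    simp only [hP, Fin.sum_univ_three]
    fin_cases k
    · simp [C3]
    · simp [C3]
    · simp only [C3]
      simp only [Fin.reduceFinMk, cons_val, mulVec_mulVec, ← mul_assoc, ← pow_three', hβ]
      simp [add_mulVec, add_comm]
  obtain ⟨σ, hσ⟩ := exists_qHom (F := F) (q := 2) (by rw [hq]; norm_num)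
  refine ⟨fixField σ, P, by rw [card_fixField_q (q := 2) (by rw [hq]; norm_num) hσ, hq]; norm_num,
    fun g hg => ?_⟩
  obtain ⟨k, hk⟩ := hconj (cj g β) ((hg.1 β).1 hβK) (by rw [← map_pow, hβ, map_add, map_one])
  set X := (frameEquiv e P).symm g with hX
  have hgX : (g : Matrix ι ι F) = frameEquiv e P X := by simp [hX]
  have h1 : X * C3 F = C3 F ^ 2 ^ k.1 * X := by
    apply (frameEquiv e P).injective
    rw [map_mul, map_mul, map_pow, ← hβC, ← hgX, ← hk, cj_mul_val]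
  have hC : φ.toRingHom.mapMatrix (C3 F) = C3 F4 := by
    refine Matrix.ext fun i j => ?_
    fin_cases i <;> fin_cases j <;> simp [C3]
  have h3 := congrArg φ.toRingHom.mapMatrix h1
  rw [map_mul, map_mul, map_pow, hC] at h3
  have h4 := eq_cyc3 h3 (by decide) (by decide)
  have h5 : (φ.toRingHom.mapMatrix X).det = 1 := by
    rw [← RingHom.map_det, ← det_frameEquiv e P, ← hgX, mem_specialLinear_iff.1 hg.2, map_one]
  obtain ⟨s, hs, hsX⟩ := sl34_aux _ _ _ k (by rw [← h4, det3_eq, h5])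
  rw [← h4] at hsX
  refine mem_subfield_of_frame hgX (c := φ.symm s) (by simpa using hs) fun i j => ?_
  rw [mem_fixField, hσ]
  apply φ.injective
  simpa using hsX i j

/-! ### The maximal subgroups of `SL` -/

/-- the geometric maximal subgroups of the special linear group -/
def LinMax [Fintype F] (H : Subgroup (GL ι F)) : Prop :=
  (∃ W : Submodule F (ι → F), W ≠ ⊥ ∧ W ≠ ⊤ ∧ H = subspaceStabilizer W ⊓ specialLinear ι F) ∨
  (∃ (t m : ℕ) (D : Fin t → Submodule F (ι → F)), IsMDecomposition m D ∧ 2 ≤ t ∧ 1 ≤ m ∧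
    t * m = Fintype.card ι ∧ (m = 1 → 5 ≤ Fintype.card F) ∧ (m = 2 → 3 ≤ Fintype.card F) ∧
    (m = 1 → t = 4 → 7 ≤ Fintype.card F) ∧ (m = 2 → t = 2 → 4 ≤ Fintype.card F) ∧
    H = decompositionStabilizer D ⊓ specialLinear ι F) ∨
  (∃ (r : ℕ) (K : Subalgebra F (Matrix ι ι F)), r.Prime ∧ r ∣ Fintype.card ι ∧
    IsFieldSubalgebra r K ∧ (Fintype.card ι = 3 → Fintype.card F ≠ 4) ∧
    H = subalgebraNormalizer K ⊓ specialLinear ι F) ∨
  (∃ (n₁ n₂ : ℕ) (e : ι ≃ Fin n₁ × Fin n₂) (P : GL ι F), 2 ≤ n₁ ∧ n₁ < n₂ ∧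
    n₁ * n₂ = Fintype.card ι ∧ (n₁ = 2 → 3 ≤ Fintype.card F) ∧
    H = tensorProductSubgroup n₁ n₂ e P ⊓ specialLinear ι F) ∨
  (∃ (F₀ : Subfield F) (r : ℕ) (P : GL ι F), r.Prime ∧ Fintype.card F = Nat.card F₀ ^ r ∧
    H = subfieldSubgroup F₀ P ⊓ specialLinear ι F) ∨
  (∃ (r k : ℕ) (R : Subgroup (GL ι F)), r.Prime ∧ 1 ≤ k ∧ r ^ k = Fintype.card ι ∧
    IsLinearSymplecticTypeData r R ∧ H = subgroupNormalizer R ⊓ specialLinear ι F) ∨
  (∃ (m t : ℕ) (e : ι ≃ (Fin t → Fin m)) (P : GL ι F), 3 ≤ m ∧ 2 ≤ t ∧ m ^ t = Fintype.card ι ∧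
    H = tensorWreathSubgroup m t e P ⊓ specialLinear ι F) ∨
  (∃ f : (ι → F) → (ι → F) → F, IsSymplecticForm f ∧ Even (Fintype.card ι) ∧
    H = similarityGroup f ⊓ specialLinear ι F) ∨
  (∃ (σ : F ≃+* F) (f : (ι → F) → (ι → F) → F), IsUnitaryForm σ f ∧
    H = similarityGroup f ⊓ specialLinear ι F) ∨
  (Odd (Fintype.card F) ∧ ∃ Q : (ι → F) → F, IsNondegenerateQuadraticForm Q ∧
    H = quadSimilarityGroup Q ⊓ specialLinear ι F)

theorem max_SL [Fintype F] (hn : 3 ≤ Fintype.card ι) {H : Subgroup (GL ι F)}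
    (hH : IsMaximalIn (specialLinear ι F) H) : LinMax H ∨ InLinearResidualClass H := by
  haveI := nonempty_of_two_le (ι := ι) (by omega)
  have hq2 : 2 ≤ Fintype.card F := Fintype.one_lt_card
  have c1 : ∀ W : Submodule F (ι → F), W ≠ ⊥ → W ≠ ⊤ → H ≤ subspaceStabilizer W → LinMax H :=
    fun W h0 h1 h => Or.inl ⟨W, h0, h1, eq_inf_of_max hH h (SL_not_le_stab h0 h1)⟩
  have c5 : ∀ (F₀ : Subfield F) (r : ℕ) (P : GL ι F), r.Prime →
      Fintype.card F = Nat.card F₀ ^ r → H ≤ subfieldSubgroup F₀ P → LinMax H :=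
    fun F₀ r P hr hF h => Or.inr (Or.inr (Or.inr (Or.inr (Or.inl
      ⟨F₀, r, P, hr, hF, eq_inf_of_max hH h (SL_not_le_subfield hn hr hF P)⟩))))
  have c8s : ∀ f : (ι → F) → (ι → F) → F, IsSymplecticForm f → H ≤ similarityGroup f → LinMax H :=
    fun f hf h => Or.inr (Or.inr (Or.inr (Or.inr (Or.inr (Or.inr (Or.inr (Or.inl
      ⟨f, hf, even_card_of_symplectic hf, eq_inf_of_max hH h
        (SL_not_le_sim hn (hform_of_symplectic hf).toSesq)⟩)))))))
  have c8u : ∀ (σ : F ≃+* F) (f : (ι → F) → (ι → F) → F), IsUnitaryForm σ f →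
      H ≤ similarityGroup f → LinMax H :=
    fun σ f hf h => Or.inr (Or.inr (Or.inr (Or.inr (Or.inr (Or.inr (Or.inr (Or.inr (Or.inl
      ⟨σ, f, hf, eq_inf_of_max hH h (SL_not_le_sim hn (hform_of_unitary hf).toSesq)⟩))))))))
  have c8q : ∀ Q : (ι → F) → F, IsNondegenerateQuadraticForm Q → Odd (Fintype.card F) →
      H ≤ quadSimilarityGroup Q → LinMax H :=
    fun Q hQ ho h => Or.inr (Or.inr (Or.inr (Or.inr (Or.inr (Or.inr (Or.inr (Or.inr (Or.inr
      ⟨ho, Q, hQ, eq_inf_of_max hH h fun h' => SL_not_le_sim hn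
        (hform_of_symmetric (isSymmetricForm_polar hQ)).toSesq
        (h'.trans (quadSimilarityGroup_le_polar Q))⟩))))))))
  have c3 : ∀ (r : ℕ) (K : Subalgebra F (Matrix ι ι F)), r.Prime → IsFieldSubalgebra r K →
      H ≤ subalgebraNormalizer K → LinMax H := by
    intro r K hr hK h
    by_cases hex : Fintype.card ι = 3 ∧ Fintype.card F = 4
    · have hd := IsFieldSubalgebra.dvd_card hK
      rw [hex.1] at hd
      obtain rfl := (Nat.prime_dvd_prime_iff_eq hr Nat.prime_three).1 hd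
      obtain ⟨F₀, P, h1, h2⟩ := sl34 hex.2 hex.1 hK
      exact c5 F₀ 2 P Nat.prime_two h1 ((le_inf h hH.1.le).trans h2)
    · refine Or.inr (Or.inr (Or.inl ⟨r, K, hr, IsFieldSubalgebra.dvd_card hK, hK,
        fun h3 h4 => hex ⟨h3, h4⟩, eq_inf_of_max hH h fun h' => ?_⟩))
      obtain ⟨u, φ, hφu, hu, hφ, hm⟩ := exists_tv_SL hn h'
      exact tv_not_mem_field hn hφu hu hφ hr.two_le hK hm
  rcases asch_linear hn H with h | h
  swap
  · exact Or.inr h
  left
  rcases h with ⟨W, h0, h1, h⟩ | ⟨t, m, D, hD, h⟩ | ⟨r, K, hr, hK, h⟩ | ⟨a, b, e, P, ha, hab, h⟩ |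
    ⟨F₀, r, P, hr, hF, h⟩ | ⟨r, R, hR, hE⟩ | ⟨m, t, e, P, hm, ht, h⟩ | ⟨f, hf, h⟩ | ⟨σ, f, hf, h⟩ |
    ⟨Q, hQ, ho, h⟩
  · exact c1 W h0 h1 h
  · by_cases e1 : m = 1 ∧ Fintype.card F = 2
    · obtain ⟨rfl, hq⟩ := e1
      obtain ⟨W, h0, h1, h2⟩ := frames_two hq hD
      exact c1 W h0 h1 (h.trans h2)
    by_cases e2 : m = 1 ∧ Fintype.card F = 3
    · obtain ⟨rfl, hq⟩ := e2
      obtain ⟨f, hf, h2⟩ := frames_sim (σ := RingHom.id F) (fun _ => rfl)
        (fun a ha => by rw [RingHom.id_apply, ← pow_two]; exact pow_card_sub_one hq ha) hD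
      have ho : Odd (Fintype.card F) := by rw [hq]; decide
      exact c8q _ (isQuad_diag (isSymmetricForm_of_hform hf) (two_ne_zero_of_odd ho)) ho
        (h.trans (h2.trans (similarityGroup_le_quad_diag f)))
    by_cases e3 : m = 1 ∧ Fintype.card F = 4
    · obtain ⟨rfl, hq⟩ := e3
      have hF : Fintype.card F = 2 ^ 2 := by rw [hq]; norm_num
      obtain ⟨σ, hσ⟩ := exists_qHom hF
      obtain ⟨f, hf, h2⟩ := frames_sim (qHom_invol hF hσ)
        (fun a ha => by rw [hσ, ← pow_succ']; exact pow_card_sub_one hq ha) hD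
      obtain ⟨σ', hf'⟩ := isUnitaryForm_of_hform (qHom_ne hF hσ) hf
      exact c8u σ' f hf' (h.trans h2)
    by_cases e4 : m = 1 ∧ t = 4 ∧ Fintype.card F = 5
    · obtain ⟨rfl, rfl, hq⟩ := e4
      exact (sl45 hq hH hD h).elim
    by_cases e5 : m = 2 ∧ Fintype.card F = 2
    · obtain ⟨rfl, hq⟩ := e5
      obtain ⟨f, hf, h2⟩ := planes_sim hD h fun g hg d hd _ =>
        ⟨1, fun i => (eq_zero_or_one hq _).resolve_left (hd i)⟩
      exact c8s f hf h2
    by_cases e6 : m = 2 ∧ t = 2 ∧ Fintype.card F = 3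
    · obtain ⟨rfl, rfl, hq⟩ := e6
      obtain ⟨f, hf, h2⟩ := planes_sim hD h fun g hg d hd h1 => ⟨d 0, fun i => by
        rw [mem_specialLinear_iff.1 (hH.1.le hg), Fin.prod_univ_two] at h1
        have h2 := pow_card_sub_one hq (hd 1)
        fin_cases i
        · rfl
        · change d 1 = d 0
          linear_combination (d 1) * h1 + (d 0) * h2⟩
      exact c8s f hf h2
    have h6 := card_ne_six (F := F)
    have := hD.pos
    exact Or.inr (Or.inl ⟨t, m, D, hD, hD.two_le, this, IsMDecomposition.mul_eq hD,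
      by omega, by omega, by omega, by omega, eq_inf_of_max hH h (SL_not_le_decomp hn hD)⟩)
  · exact c3 r K hr hK h
  · by_cases e1 : a = 2 ∧ Fintype.card F = 2
    · obtain ⟨rfl, hq⟩ := e1
      obtain ⟨K, hK, h2⟩ := tensor_two hq (by omega) e P
      exact c3 2 K Nat.prime_two hK (h.trans h2)
    refine Or.inr (Or.inr (Or.inr (Or.inl ⟨a, b, e, P, ha, hab, ?_, by omega,
      eq_inf_of_max hH h fun h' => ?_⟩)))
    · simpa using (Fintype.card_congr e).symm
    · obtain ⟨u, φ, hφu, hu, hφ, hm⟩ := exists_tv_SL hn h'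
      exact tv_not_mem_tensor hφu hu hφ ha (by omega) e P hm
  · exact c5 F₀ r P hr hF h
  · obtain ⟨k, hk, hk'⟩ := hE.exists_card_eq_pow (by omega)
    exact Or.inr (Or.inr (Or.inr (Or.inr (Or.inr (Or.inl ⟨r, k, R, hE.prime, hk, hk'.symm, hR,
      eq_inf_of_max hH hE.norm.le_normalizer (SL_not_le_extra hn hE)⟩)))))
  · refine Or.inr (Or.inr (Or.inr (Or.inr (Or.inr (Or.inr (Or.inl ⟨m, t, e, P, hm, ht, ?_,
      eq_inf_of_max hH h fun h' => ?_⟩))))))
    · simpa using (Fintype.card_congr e).symm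
    · obtain ⟨u, φ, hφu, hu, hφ, hm'⟩ := exists_tv_SL hn h'
      exact tv_not_mem_wreath hφu hu hφ (by omega) ht (Or.inl hm) e P hm'
  · exact c8s f hf h
  · exact c8u σ f hf h
  · exact c8q Q hQ ho h

/-! ### arithmetic of class 6 -/

/-- the order of `p` modulo `z` -/
lemma IsMinimalFieldFor.dvd_of_pow [Fintype F] {z p e : ℕ} (h : IsMinimalFieldFor z p e F)
    {k : ℕ} (hk : z ∣ p ^ k - 1) : e ∣ k := by
  obtain ⟨hp, -, hc, h1, h2⟩ := h
  have he : 0 < e := by
    rcases Nat.eq_zero_or_pos e with rfl | h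
    · have : 1 < Fintype.card F := Fintype.one_lt_card
      rw [pow_zero] at hc
      omega
    · exact h
  by_contra hne
  have h3 : 0 < k % e := Nat.pos_of_ne_zero fun h => hne (Nat.dvd_of_mod_eq_zero h)
  apply h2 _ h3 (Nat.mod_lt _ he)
  have a1 : p ^ e ≡ 1 [MOD z] := ((Nat.modEq_iff_dvd' (Nat.one_le_pow _ _ hp.pos)).2 h1).symm
  have a2 : p ^ k ≡ 1 [MOD z] := ((Nat.modEq_iff_dvd' (Nat.one_le_pow _ _ hp.pos)).2 hk).symm
  have a3 : p ^ k ≡ p ^ (k % e) [MOD z] := by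
    conv_lhs => rw [← Nat.div_add_mod k e, pow_add, pow_mul]
    have := (a1.pow (k / e)).mul_right (p ^ (k % e))
    rwa [one_pow, one_mul] at this
  exact (Nat.modEq_iff_dvd' (Nat.one_le_pow _ _ hp.pos)).1 (a2.symm.trans a3)

lemma dvd_pow_sub_one_of_prime {r p : ℕ} (hr : r.Prime) (hp : p.Prime) (h : r ≠ p) :
    r ∣ p ^ (r - 1) - 1 := by
  have := Nat.ModEq.pow_totient ((Nat.coprime_primes hp hr).2 h.symm)
  rw [Nat.totient_prime hr] at this
  exact (Nat.modEq_iff_dvd' (Nat.one_le_pow _ _ hp.pos)).1 this.symm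

lemma dvd_pow_sub_one_iff {z p k : ℕ} (hp : 0 < p) (hz : 1 < z) :
    z ∣ p ^ k - 1 ↔ (p % z) ^ k % z = 1 := by
  rw [← Nat.pow_mod, ← Nat.modEq_iff_dvd' (Nat.one_le_pow _ _ hp), Nat.ModEq, Nat.mod_eq_of_lt hz,
    eq_comm]

/-- the field of a linear class-6 subgroup -/
lemma IsLinearSymplecticTypeData.field_odd [Fintype F] {r : ℕ} {R : Subgroup (GL ι F)}
    (h : IsLinearSymplecticTypeData r R) (hr : r ≠ 2) : ∃ p e : ℕ, p.Prime ∧ CharP F p ∧
      Fintype.card F = p ^ e ∧ Odd e ∧ e ∣ r - 1 ∧ (p % r) ^ e % r = 1 ∧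
      ∀ d, 0 < d → d < e → (p % r) ^ d % r ≠ 1 := by
  obtain ⟨p, e, hrp, hmin, h1 | h1 | h1⟩ := h.field
  · have hr := h.symplecticType.prime
    rw [h1.2.2.1] at hmin
    refine ⟨p, e, hmin.1, hmin.2.1, hmin.2.2.1, h1.2.1, IsMinimalFieldFor.dvd_of_pow hmin
      (dvd_pow_sub_one_of_prime hr hmin.1 hrp),
      (dvd_pow_sub_one_iff hmin.1.pos hr.one_lt).1 hmin.2.2.2.1, fun d h0 h2 h3 =>
      hmin.2.2.2.2 d h0 h2 ((dvd_pow_sub_one_iff hmin.1.pos hr.one_lt).2 h3)⟩
  · exact absurd h1.1 hr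
  · exact absurd h1.1 hr

lemma IsLinearSymplecticTypeData.field_two [Fintype F] (hn : 3 ≤ Fintype.card ι)
    {R : Subgroup (GL ι F)} (h : IsLinearSymplecticTypeData 2 R) :
    ∃ p : ℕ, p.Prime ∧ Fintype.card F = p ∧ p % 4 = 1 := by
  obtain ⟨p, e, hrp, hmin, h1 | h1 | h1⟩ := h.field
  · exact absurd h1.1 (by decide)
  · rw [h1.2.2.1, h1.2.1] at hmin
    have := (dvd_pow_sub_one_iff hmin.1.pos (by norm_num)).1 hmin.2.2.2.1
    exact ⟨p, hmin.1, by rw [hmin.2.2.1, pow_one], by simpa using this⟩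
  · omega

lemma IsLinearSymplecticTypeData.field_fermat [Fintype F] {r : ℕ} {R : Subgroup (GL ι F)}
    (h : IsLinearSymplecticTypeData r R) (hr : r = 3 ∨ r = 5) :
    ∃ p : ℕ, p.Prime ∧ Fintype.card F = p ∧ p % r = 1 := by
  obtain ⟨p, e, hp, -, hc, ho, hd, h1, -⟩ :=
    IsLinearSymplecticTypeData.field_odd h (by omega)
  have he : e = 1 := by
    have : e ∣ 4 := by rcases hr with rfl | rfl <;> exact hd.trans (by norm_num)
    have h4 := Nat.le_of_dvd (by norm_num) this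
    interval_cases e <;> simp_all (config := {decide := true})
  subst he
  exact ⟨p, hp, by rw [hc, pow_one], by simpa using h1⟩

lemma prime_pow_eq {r k n : ℕ} (hr : r.Prime) (hk : 1 ≤ k) (h : r ^ k = n) {s : ℕ} (hs : s.Prime)
    (hd : s ∣ n) : r = s :=
  ((Nat.prime_dvd_prime_iff_eq hs hr).1 (hs.dvd_of_dvd_pow (h ▸ hd))).symm

end Cfsg.Agent.H7
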