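import Cfsg.Agent.H7.AschFormTensor

set_option autoImplicit false
set_option linter.unusedSectionVars false
set_option linter.unusedVariables false
set_option linter.unnecessarySimpa false
set_option linter.style.haveILetI false
set_option linter.unusedSimpArgs false

namespace Cfsg.Agent.H7

open Cfsg Cfsg.Geo Matrix
open scoped MatrixGroups Kronecker commutatorElement

variable {ι : Type} [Fintype ι] [DecidableEq ι] {F : Type*} [Field F]

/-! ### Perfect groups acting on at most four points -/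

lemma perm4_a : ∀ a b : Equiv.Perm (Fin 4), Equiv.Perm.sign a = 1 → Equiv.Perm.sign b = 1 →
    (a * b * a⁻¹ * b⁻¹) * (a * b * a⁻¹ * b⁻¹) = 1 := by decide +kernel

lemma perm4_b : ∀ a b : Equiv.Perm (Fin 4), Equiv.Perm.sign a = 1 → Equiv.Perm.sign b = 1 →
    a * a = 1 → b * b = 1 → a * b = b * a := by decide +kernel

lemma perm4_perfect {M : Subgroup (Equiv.Perm (Fin 4))} (hM : ⁅M, M⁆ = M) : M = ⊥ := by
  have h1 : M ≤ alternatingGroup (Fin 4) := by
    rw [← hM, Subgroup.commutator_le]
    intro a _ b _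
    rw [Equiv.Perm.mem_alternatingGroup, map_commutatorElement, commutatorElement_eq_one_iff_mul_comm]
    exact mul_comm _ _
  let V : Subgroup (Equiv.Perm (Fin 4)) :=
    { carrier := {a | Equiv.Perm.sign a = 1 ∧ a * a = 1}
      mul_mem' := fun {a b} ha hb => ⟨by rw [map_mul, ha.1, hb.1, one_mul], by
        rw [mul_assoc, ← mul_assoc b, ← perm4_b a b ha.1 hb.1 ha.2 hb.2, mul_assoc, hb.2, mul_one,
          ha.2]⟩
      one_mem' := ⟨map_one _, one_mul _⟩
      inv_mem' := fun {a} ha => ⟨by rw [map_inv, ha.1, inv_one], by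
        rw [← _root_.mul_inv_rev, ha.2, inv_one]⟩ }
  have h2 : M ≤ V := by
    rw [← hM, Subgroup.commutator_le]
    intro a ha b hb
    exact ⟨h1 (hM ▸ Subgroup.commutator_mem_commutator ha hb), perm4_a a b (h1 ha) (h1 hb)⟩
  rw [eq_bot_iff, ← hM, Subgroup.commutator_le]
  intro a ha b hb
  rw [Subgroup.mem_bot, commutatorElement_eq_one_iff_mul_comm]
  exact perm4_b a b (h2 ha).1 (h2 hb).1 (h2 ha).2 (h2 hb).2

lemma top_perfect_of_perfect {G : Type*} [Group G] {N : Subgroup G} (hN : ⁅N, N⁆ = N) :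
    ⁅(⊤ : Subgroup N), (⊤ : Subgroup N)⁆ = ⊤ := by
  apply Subgroup.map_injective N.subtype_injective
  rw [Subgroup.map_commutator, ← MonoidHom.range_eq_map, Subgroup.range_subtype, hN]

lemma perfect_hom_trivial {G X : Type*} [Group G] (hG : ⁅(⊤ : Subgroup G), (⊤ : Subgroup G)⁆ = ⊤)
    [Finite X] (hX : Nat.card X ≤ 4) (φ : G →* Equiv.Perm X) (g : G) : φ g = 1 := by
  haveI : Fintype X := Fintype.ofFinite X
  obtain ⟨j⟩ : Nonempty (X ↪ Fin 4) :=
    Function.Embedding.nonempty_of_card_le (by rwa [← Nat.card_eq_fintype_card, Fintype.card_fin])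
  have h1 := perm4_perfect (M := (⊤ : Subgroup G).map ((Equiv.Perm.viaEmbeddingHom j).comp φ))
    (by rw [← Subgroup.map_commutator, hG])
  apply Equiv.Perm.viaEmbeddingHom_injective j
  rw [map_one, ← Subgroup.mem_bot, ← h1]
  exact ⟨g, trivial, rfl⟩

/-- A perfect group fixes every member of an invariant set with at most four members. -/
lemma perfect_fix {G Y : Type*} [Group G] {N : Subgroup G} (hN : ⁅N, N⁆ = N) (act : G → Y → Y)
    (h1 : ∀ y, act 1 y = y) (hmul : ∀ g h y, act (g * h) y = act g (act h y)) {S : Set Y}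
    (hfin : S.Finite) (hS : S.ncard ≤ 4) (hinv : ∀ g ∈ N, ∀ y ∈ S, act g y ∈ S) :
    ∀ g ∈ N, ∀ y ∈ S, act g y = y := by
  letI : MulAction N S :=
    { smul := fun g y => ⟨act g y, hinv g g.2 y y.2⟩
      one_smul := fun y => Subtype.ext (h1 y)
      mul_smul := fun g h y => Subtype.ext (hmul g h y) }
  haveI : Finite S := hfin
  intro g hg y hy
  have := perfect_hom_trivial (top_perfect_of_perfect hN) (X := S) hS (MulAction.toPermHom N S)
    ⟨g, hg⟩
  exact congrArg Subtype.val (congrArg (fun s : Equiv.Perm S => s ⟨y, hy⟩) this)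

lemma perfect_fix_submodule {N : Subgroup (GL ι F)} (hN : ⁅N, N⁆ = N)
    {S : Set (Submodule F (ι → F))} (hfin : S.Finite) (hS : S.ncard ≤ 4)
    (hinv : ∀ g ∈ N, ∀ W ∈ S, W.map (Matrix.toLin' (g : Matrix ι ι F)) ∈ S) :
    ∀ g ∈ N, ∀ W ∈ S, W.map (Matrix.toLin' (g : Matrix ι ι F)) = W :=
  perfect_fix hN (fun g W => W.map (Matrix.toLin' (g : Matrix ι ι F))) (fun W => by simp)
    (fun g h W => by rw [Units.val_mul, Matrix.toLin'_mul, Submodule.map_comp]) hfin hS hinv

lemma not_irr_of_line (hn : 2 ≤ Fintype.card ι) {N : Subgroup (GL ι F)} {W : Submodule F (ι → F)}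
    (hW : Module.finrank F W = 1) (h : ∀ g ∈ N, W.map (Matrix.toLin' (g : Matrix ι ι F)) = W) :
    ¬ Irr N := by
  intro hirr
  rcases hirr W (fun g hg v hv => by rw [← h g hg]; exact ⟨v, hv, rfl⟩) with h0 | h0
  · rw [h0, finrank_bot] at hW
    exact zero_ne_one hW
  · rw [h0, finrank_top, Module.finrank_fintype_fun_eq_card] at hW
    omega

/-- No perfect irreducible subgroup of `GL₂(q)`, `q ≤ 3`. -/
lemma not_irr_of_perfect_two [Fintype F] (hq : Fintype.card F ≤ 3) {N : Subgroup (GL (Fin 2) F)}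
    (hN : ⁅N, N⁆ = N) : ¬ Irr N := by
  let S : Set (Submodule F (Fin 2 → F)) := {W | Module.finrank F W = 1}
  have hS : S.ncard ≤ 4 := by
    have h1 := Projectivization.card_of_finrank_two F (Fin 2 → F) (by simp)
    have h2 : S.ncard = Nat.card (Projectivization F (Fin 2 → F)) :=
      (Nat.card_congr (Projectivization.equivSubmodule F (Fin 2 → F))).symm
    rw [h2, h1, Nat.card_eq_fintype_card]
    omega
  have h := perfect_fix_submodule hN (Set.toFinite S) hS fun g hg W hW => by
    change Module.finrank F _ = 1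
    rw [finrank_map_val]
    exact hW
  have hW : Module.finrank F (Submodule.span F {(Pi.single 0 1 : Fin 2 → F)}) = 1 :=
    finrank_span_singleton (by simp)
  exact not_irr_of_line (by simp) hW fun g hg => h g hg _ hW

/-! ### The group acting on one tensor factor -/

section Slot

variable {T α : Type} [Fintype T] [DecidableEq T] [Fintype α] [DecidableEq α]

/-- The embedding of the general linear group of one factor. -/
noncomputable def slotGL (e : ι ≃ (T → α)) (P : GL ι F) (i : T) : GL α F →* GL ι F :=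
  Units.map (((frameEquiv e P : Matrix (T → α) (T → α) F →ₐ[F] Matrix ι ι F).comp
    (slot i)) : Matrix α α F →* Matrix ι ι F)

lemma slotGL_val (e : ι ≃ (T → α)) (P : GL ι F) (i : T) (X : GL α F) :
    (slotGL e P i X : Matrix ι ι F) = frameEquiv e P (slot i (X : Matrix α α F)) := rfl

lemma exists_factor_group [Nonempty α] {e : ι ≃ (T → α)} {P : GL ι F} {i : T}
    {N : Subgroup (GL ι F)} (hN : ⁅N, N⁆ = N)
    (hmem : ∀ x, x ∈ spanAlg N ↔ ∃ X, x = frameEquiv e P (slot i X)) :
    ∃ N' : Subgroup (GL α F), ⁅N', N'⁆ = N' ∧ AbsIrr N' ∧ ∀ X, X ∈ N' ↔ slotGL e P i X ∈ N := by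
  have hinj0 : Function.Injective fun X : Matrix α α F => frameEquiv e P (slot i X) :=
    (frameEquiv e P).injective.comp (slot_injective i)
  have hinj : Function.Injective (slotGL e P i) := fun X Y h =>
    Units.ext (hinj0 (congrArg Units.val h))
  have hle : N ≤ (slotGL e P i).range := by
    intro g hg
    obtain ⟨X, hX⟩ := (hmem _).1 (mem_spanAlg hg)
    obtain ⟨Y, hY⟩ := (hmem _).1 (mem_spanAlg (N.inv_mem hg))
    refine ⟨⟨X, Y, hinj0 ?_, hinj0 ?_⟩, Units.ext hX.symm⟩
    · simp only [map_mul, map_one, ← hX, ← hY, Units.mul_inv]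
    · simp only [map_mul, map_one, ← hX, ← hY, Units.inv_mul]
  have hmap := Subgroup.map_comap_eq_self hle
  refine ⟨N.comap (slotGL e P i), ?_, absIrr_of_spanAlg_eq_top fun X => ?_, fun X => Iff.rfl⟩
  · apply Subgroup.map_injective hinj
    rw [Subgroup.map_commutator, hmap, hN]
  · have : ∀ x ∈ spanAlg N, ∃ Y ∈ spanAlg (N.comap (slotGL e P i)),
        x = frameEquiv e P (slot i Y) := by
      intro x hx
      refine spanAlg_induction hx ?_ ⟨0, Subalgebra.zero_mem _, by simp⟩ ?_ ?_
      · intro g hg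
        obtain ⟨Y, rfl⟩ := hle hg
        exact ⟨Y, mem_spanAlg hg, rfl⟩
      · rintro _ _ - - ⟨Y, hY, rfl⟩ ⟨Z, hZ, rfl⟩
        exact ⟨Y + Z, Subalgebra.add_mem _ hY hZ, by simp⟩
      · rintro c _ - ⟨Y, hY, rfl⟩
        exact ⟨c • Y, Subalgebra.smul_mem _ hY c, by simp⟩
    obtain ⟨Y, hY, h1⟩ := this _ ((hmem _).2 ⟨X, rfl⟩)
    rwa [hinj0 h1]

end Slot

/-! ### Quadratic forms in characteristic two -/

lemma gform_id_self_congr {κ : Type} [Fintype κ] [DecidableEq κ] {M M' : Matrix κ κ F}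
    (h1 : M + Mᵀ = M' + M'ᵀ) (h2 : ∀ k, M k k = M' k k) (v : κ → F) :
    gform (RingHom.id F) M v v = gform (RingHom.id F) M' v v := by
  have := gform_self_eq_zero (G := M - M')
    (by rw [transpose_sub]; linear_combination (norm := abel) h1) (fun k => by simp [h2]) v
  rw [← sub_add_cancel M M', gform_add, this, zero_add]

lemma tw_id_transpose {κ : Type} [Fintype κ] [DecidableEq κ] (M X : Matrix κ κ F) :
    tw (RingHom.id F) Mᵀ X = (tw (RingHom.id F) M X)ᵀ := by
  simpa using tw_dagger (σ := RingHom.id F) (fun _ => rfl) M X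

lemma polar_gform {κ : Type} [Fintype κ] [DecidableEq κ] (M : Matrix κ κ F) (u v : κ → F) :
    gform (RingHom.id F) M (u + v) (u + v) - gform (RingHom.id F) M u u -
      gform (RingHom.id F) M v v = gform (RingHom.id F) (M + Mᵀ) u v := by
  have h1 := gform_swap (σ := RingHom.id F) (fun _ => rfl) M v u
  simp only [RingHom.id_apply, RingHom.coe_id, Matrix.map_id] at h1
  rw [gform_add, ← h1]
  simp only [gform, RingHom.coe_id, Function.id_comp, mulVec_add, add_dotProduct, dotProduct_add]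
  ring

/-- A quadratic form given by a matrix in a frame. -/
lemma exists_quad_of_gram {f : (ι → F) → (ι → F) → F} (hf : Sesq (RingHom.id F) f)
    {κ : Type} [Fintype κ] [DecidableEq κ] (e : ι ≃ κ) (P : GL ι F) {M : Matrix κ κ F}
    (hM : M + Mᵀ = frameGram f e P) :
    ∃ Q : (ι → F) → F, IsNondegenerateQuadraticForm Q ∧
      (∀ u v, QuadraticMap.polar Q u v = f u v) ∧
      ∀ X : Matrix κ κ F, (∀ u v, f (frameEquiv e P X *ᵥ u) (frameEquiv e P X *ᵥ v) = f u v) →
        (∀ k, tw (RingHom.id F) M X k k = M k k) → ∀ v, Q (frameEquiv e P X *ᵥ v) = Q v := by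
  have hpol : ∀ u v, QuadraticMap.polar (fun v => gform (RingHom.id F) M ((frameVec e P).symm v)
      ((frameVec e P).symm v)) u v = f u v := by
    intro u v
    rw [QuadraticMap.polar, map_add, polar_gform, hM, ← hf.frameGram_spec]
    simp
  have hpol' : QuadraticMap.polar (fun v => gform (RingHom.id F) M ((frameVec e P).symm v)
      ((frameVec e P).symm v)) = f := funext fun u => funext fun v => hpol u v
  refine ⟨_, ⟨fun c v => ?_, hpol'.symm ▸ hf.bilinear, hpol'.symm ▸ hf.nondeg⟩, hpol,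
    fun X hX hd v => ?_⟩
  · simp only [map_smul, gform, RingHom.coe_id, Function.id_comp, mulVec_smul, smul_dotProduct,
      dotProduct_smul, smul_eq_mul]
    ring
  · rw [frameVec_symm_mulVec, gform_tw]
    refine gform_id_self_congr ?_ hd _
    rw [← tw_id_transpose, ← tw_add, hM]
    simpa using hf.frameGram_sim e P (c := 1) (X := X) fun u v => by rw [hX, one_mul]

/-- The strictly upper triangular part of a matrix. -/
lemma exists_upper {n : ℕ} {A : Matrix (Fin n) (Fin n) F} (hs : Aᵀ = A) (hd : ∀ i, A i i = 0) :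
    ∃ U : Matrix (Fin n) (Fin n) F, U + Uᵀ = A := by
  refine ⟨Matrix.of fun i j => if i < j then A i j else 0, ?_⟩
  ext i j
  have := congrFun (congrFun hs i) j
  rw [transpose_apply] at this
  rcases lt_trichotomy i j with h | rfl | h
  · simp [h, not_lt.2 h.le]
  · simp [hd]
  · simp [h, not_lt.2 h.le, this]

lemma quad_add {Q : (ι → F) → F} (u v : ι → F) : Q (u + v) = Q u + Q v + QuadraticMap.polar Q u v := by
  rw [QuadraticMap.polar]
  ring

/-- A quadratic form fixed by an irreducible normal subgroup is fixed. -/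
lemma quad_fixed_of_normG [Finite F] (hn : 2 ≤ Fintype.card ι) (h2 : (2 : F) = 0)
    {Q : (ι → F) → F} (hQ : IsNondegenerateQuadraticForm Q) {H L : Subgroup (GL ι F)}
    (hL : Irr L) (hN : NormG H L) (hH : Isom (QuadraticMap.polar Q) H)
    (hfix : ∀ g ∈ L, ∀ v, Q ((g : Matrix ι ι F) *ᵥ v) = Q v) :
    ∀ h ∈ H, ∀ v, Q ((h : Matrix ι ι F) *ᵥ v) = Q v := by
  intro h hh v
  rw [← sub_eq_zero]
  refine hL.eq_zero_of_semilinear hn h2 (φ := fun v => Q ((h : Matrix ι ι F) *ᵥ v) - Q v)
    (fun u v => ?_) (fun c v => ?_) (fun g hg v hv => ?_) v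
  · rw [mulVec_add, quad_add (Q := Q), quad_add (Q := Q) u, hH h hh]
    ring
  · rw [mulVec_smul, hQ.smul, hQ.smul]
    ring
  · rw [← cj_mulVec, cj_val, hfix _ (hN h hh g hg), hfix g hg]
    exact hv

lemma gform_alt_add (h2 : (2 : F) = 0) {κ : Type} [Fintype κ] [DecidableEq κ] {A : Matrix κ κ F}
    (hs : Aᵀ = A) (u v : κ → F) : gform (RingHom.id F) A (u + v) (u + v) =
      gform (RingHom.id F) A u u + gform (RingHom.id F) A v v := by
  have := polar_gform A u v
  rw [hs, ← two_smul F, h2, zero_smul] at this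
  have h0 : gform (RingHom.id F) (0 : Matrix κ κ F) u v = 0 := by simp [gform]
  linear_combination this + h0

lemma gform_id_smul_self {κ : Type} [Fintype κ] [DecidableEq κ] (A : Matrix κ κ F) (c : F)
    (v : κ → F) : gform (RingHom.id F) A (c • v) (c • v) = c ^ 2 * gform (RingHom.id F) A v v := by
  simp only [gform, RingHom.coe_id, Function.id_comp, mulVec_smul, smul_dotProduct,
    dotProduct_smul, smul_eq_mul]
  ring

lemma Irr.alt_of_sym [Finite F] (hn : 2 ≤ Fintype.card ι) (h2 : (2 : F) = 0)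
    {L : Subgroup (GL ι F)} (hL : Irr L) {A : Matrix ι ι F} (hs : Aᵀ = A)
    (h : ∀ g ∈ L, ∃ μ : F, tw (RingHom.id F) A g = μ • A) (v : ι → F) :
    gform (RingHom.id F) A v v = 0 :=
  hL.eq_zero_of_semilinear hn h2 (φ := fun v => gform (RingHom.id F) A v v) (gform_alt_add h2 hs)
    (gform_id_smul_self A) (fun g hg v hv => by
      obtain ⟨μ, hμ⟩ := h g hg
      rw [gform_tw, hμ, gform_smul, hv, mul_zero]) v

lemma kron_mulVec_col {α β : Type} [Fintype α] [DecidableEq α] [Fintype β] [DecidableEq β]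
    (x : Matrix α α F) (y : Matrix β β F) (v : α × β → F) (j : β) :
    (fun i => ((x ⊗ₖ y) *ᵥ v) (i, j)) = ∑ l, y j l • (x *ᵥ fun i => v (i, l)) := by
  ext i
  simp only [mulVec, dotProduct, Fintype.sum_prod_type, kroneckerMap_apply, Finset.sum_apply,
    Pi.smul_apply, smul_eq_mul, Finset.mul_sum]
  rw [Finset.sum_comm]
  refine Finset.sum_congr rfl fun l _ => Finset.sum_congr rfl fun k _ => by ring

/-- In characteristic two the first factor of an invariant tensor decomposition is alternating. -/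
lemma Irr.alt_of_kron [Finite F] (h2 : (2 : F) = 0) {H : Subgroup (GL ι F)} (hirr : Irr H)
    {α β : Type} [Fintype α] [DecidableEq α] [Fintype β] [DecidableEq β] [Nonempty β]
    (ha : 2 ≤ Fintype.card α) (e : ι ≃ α × β) (P : GL ι F) {A : Matrix α α F} (hs : Aᵀ = A)
    (h : ∀ g ∈ H, ∃ (x : Matrix α α F) (y : Matrix β β F) (μ : F),
      (g : Matrix ι ι F) = frameEquiv e P (x ⊗ₖ y) ∧ tw (RingHom.id F) A x = μ • A) (u : α → F) :
    gform (RingHom.id F) A u u = 0 := by
  let W0 : Submodule F (α → F) :=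
    { carrier := {u | gform (RingHom.id F) A u u = 0}
      add_mem' := fun {a b} ha hb => by
        simp only [Set.mem_ofPred_eq] at *
        rw [gform_alt_add h2 hs, ha, hb, add_zero]
      zero_mem' := by simp [gform]
      smul_mem' := fun c a ha => by
        simp only [Set.mem_ofPred_eq] at *
        rw [gform_id_smul_self, ha, mul_zero] }
  let W : Submodule F (ι → F) :=
    { carrier := {v | ∀ j, (fun i => (frameVec e P).symm v (i, j)) ∈ W0}
      add_mem' := fun {a b} ha hb j => by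
        rw [map_add]
        exact W0.add_mem (ha j) (hb j)
      zero_mem' := fun j => by
        rw [map_zero]
        exact W0.zero_mem
      smul_mem' := fun c a ha j => by
        rw [map_smul]
        exact W0.smul_mem c (ha j) }
  have hmem : ∀ (u : α → F) (j : β),
      frameVec e P (fun p => if p.2 = j then u p.1 else 0) ∈ W ↔ u ∈ W0 := by
    intro u j
    constructor
    · intro h1
      have := h1 j
      simpa using this
    · intro h1 l
      rw [LinearEquiv.symm_apply_apply]
      by_cases hl : l = j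
      · simpa [hl] using h1
      · simp only [hl, if_false]
        exact W0.zero_mem
  obtain ⟨j⟩ := ‹Nonempty β›
  rcases hirr W (by
    intro g hg v hv l
    obtain ⟨x, y, μ, hg, hx⟩ := h g hg
    rw [hg, frameVec_symm_mulVec, kron_mulVec_col]
    refine W0.sum_mem fun k _ => W0.smul_mem _ ?_
    change gform _ _ _ _ = 0
    rw [gform_tw, hx, gform_smul, hv k, mul_zero]) with h0 | h0
  · exfalso
    have h1 : W0 = ⊥ := by
      rw [eq_bot_iff]
      intro w hw
      have := (hmem w j).2 hw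
      rw [h0, Submodule.mem_bot, LinearEquiv.map_eq_zero_iff] at this
      ext i
      simpa using congrFun this (i, j)
    obtain ⟨a, b, hab⟩ := Fintype.exists_pair_of_one_lt_card ha
    have hb : gform (RingHom.id F) A (Pi.single b 1) (Pi.single b 1) ≠ 0 := by
      intro h3
      have : (Pi.single b 1 : α → F) ∈ W0 := h3
      rw [h1, Submodule.mem_bot] at this
      simpa using congrFun this b
    obtain ⟨c, hc⟩ := exists_sq_eq_of_two_eq_zero h2
      (gform (RingHom.id F) A (Pi.single a 1) (Pi.single a 1) /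
        gform (RingHom.id F) A (Pi.single b 1) (Pi.single b 1))
    have : (Pi.single a 1 + c • Pi.single b 1 : α → F) ∈ W0 := by
      change gform _ _ _ _ = 0
      rw [gform_alt_add h2 hs, gform_id_smul_self, hc, div_mul_cancel₀ _ hb, ← two_mul, h2, zero_mul]
    rw [h1, Submodule.mem_bot] at this
    simpa [hab] using congrFun this a
  · exact (hmem u j).1 (by rw [h0]; trivial)

/-! ### The algebra generated by one matrix -/

lemma adjoin_comm (θ : Matrix ι ι F) :
    ∀ x ∈ Algebra.adjoin F {θ}, ∀ y ∈ Algebra.adjoin F {θ}, x * y = y * x := by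
  intro x hx y hy
  rw [Algebra.adjoin_singleton_eq_range_aeval] at hx hy
  obtain ⟨p, rfl⟩ := hx
  obtain ⟨q, rfl⟩ := hy
  simp only [AlgHom.toRingHom_eq_coe, RingHom.coe_coe]
  rw [← map_mul, ← map_mul, mul_comm]

lemma normA_adjoin {H : Subgroup (GL ι F)} {θ : Matrix ι ι F}
    (h : ∀ g ∈ H, cj g θ ∈ Algebra.adjoin F {θ}) : NormA H (Algebra.adjoin F {θ}) := by
  intro g hg x hx
  induction hx using Algebra.adjoin_induction with
  | mem x hx => rw [hx]; exact h g hg
  | algebraMap r => rw [AlgEquiv.commutes]; exact Subalgebra.algebraMap_mem _ r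
  | add x y _ _ h1 h2 => rw [map_add]; exact Subalgebra.add_mem _ h1 h2
  | mul x y _ _ h1 h2 => rw [map_mul]; exact Subalgebra.mul_mem _ h1 h2

lemma HForm.adj_mem_adjoin {σ : F →+* F} {ε : F} {f : (ι → F) → (ι → F) → F} (hf : HForm σ ε f)
    {θ : Matrix ι ι F} (h : adj σ f θ ∈ Algebra.adjoin F {θ}) :
    ∀ x ∈ Algebra.adjoin F {θ}, adj σ f x ∈ Algebra.adjoin F {θ} := by
  intro x hx
  induction hx using Algebra.adjoin_induction with
  | mem x hx => rw [hx]; exact h
  | algebraMap r =>
    rw [Algebra.algebraMap_eq_smul_one, hf.adj_smul, hf.adj_one]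
    exact Subalgebra.smul_mem _ (Subalgebra.one_mem _) _
  | add x y _ _ h1 h2 => rw [hf.adj_add]; exact Subalgebra.add_mem _ h1 h2
  | mul x y _ _ h1 h2 => rw [hf.adj_mul]; exact Subalgebra.mul_mem _ h2 h1

lemma isScal_one_kron {α β : Type} [Fintype α] [DecidableEq α] [Fintype β] [DecidableEq β]
    [Nonempty α] {θ : Matrix β β F} (h : IsScal ((1 : Matrix α α F) ⊗ₖ θ)) : IsScal θ := by
  obtain ⟨c, hc⟩ := h
  obtain ⟨a⟩ := ‹Nonempty α›
  refine ⟨c, ?_⟩
  ext i j
  have := congrFun (congrFun hc (a, i)) (a, j)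
  simpa [Matrix.one_apply] using this

/-- A symmetric two-dimensional tensor factor gives a normalised commutative algebra. -/
lemma HForm.comm_of_kron_two {ε : F} {f : (ι → F) → (ι → F) → F} (hf : HForm (RingHom.id F) ε f)
    (h2 : (2 : F) ≠ 0) {H : Subgroup (GL ι F)} {α : Type} [Fintype α] [DecidableEq α] [Nonempty α]
    {e : ι ≃ α × Fin 2} {P : GL ι F} {A : Matrix α α F} {B : Matrix (Fin 2) (Fin 2) F}
    (hB : B.det ≠ 0) (hs : Bᵀ = B) (hG : frameGram f e P = A ⊗ₖ B)
    (h : ∀ g ∈ H, ∃ (x : GL α F) (y : GL (Fin 2) F) (ν : F), (g : Matrix ι ι F) =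
      frameEquiv e P ((x : Matrix α α F) ⊗ₖ (y : Matrix (Fin 2) (Fin 2) F)) ∧
        tw (RingHom.id F) B y = ν • B) :
    ∃ Z : Subalgebra F (Matrix ι ι F), NormA H Z ∧ (∀ x ∈ Z, ∀ y ∈ Z, x * y = y * x) ∧
      (∀ x ∈ Z, adj (RingHom.id F) f x ∈ Z) ∧ ∃ x ∈ Z, ¬ IsScal x := by
  set θ := frameEquiv e P ((1 : Matrix α α F) ⊗ₖ (B⁻¹ * J2 F)) with hθ
  have hθm : θ ∈ Algebra.adjoin F {θ} := Algebra.self_mem_adjoin_singleton F θ
  refine ⟨Algebra.adjoin F {θ}, normA_adjoin fun g hg => ?_, adjoin_comm θ,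
    hf.adj_mem_adjoin ?_, θ, hθm, fun h0 => ?_⟩
  · obtain ⟨x, y, ν, hg, hy⟩ := h g hg
    have hd := val_det_ne_zero y
    have h1 : (y : Matrix (Fin 2) (Fin 2) F) * (B⁻¹ * J2 F) =
        ((ν / (y : Matrix (Fin 2) (Fin 2) F).det) • (B⁻¹ * J2 F)) * y := by
      have h3 := tw_J2 (y : Matrix (Fin 2) (Fin 2) F)
      simp only [tw, RingHom.coe_id, Matrix.map_id] at hy h3
      apply mul_left_cancel_det (z := (y : Matrix (Fin 2) (Fin 2) F)ᵀ * B)
        (by rw [det_mul, det_transpose]; exact mul_ne_zero hd hB)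
      rw [← mul_assoc, hy, Matrix.smul_mul, mul_nonsing_inv_cancel_left _ _ hB.isUnit,
        Matrix.smul_mul, Matrix.mul_smul, mul_assoc, mul_assoc,
        mul_nonsing_inv_cancel_left _ _ hB.isUnit, ← mul_assoc, h3, smul_smul, div_mul_cancel₀ _ hd]
    have h3 : cj g θ = (ν / (y : Matrix (Fin 2) (Fin 2) F).det) • θ := by
      apply mul_right_cancel_det (val_det_ne_zero g)
      rw [cj_mul_val, hθ, hg, ← map_smul, ← map_mul, ← map_mul, ← kronecker_smul,
        ← mul_kronecker_mul, ← mul_kronecker_mul, h1, one_mul, mul_one]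
    rw [h3]
    exact Subalgebra.smul_mem _ hθm _
  · have : adj (RingHom.id F) f θ = -θ := by
      rw [hθ, ← map_neg]
      apply hf.adj_frameEquiv
      rw [hG, kron_transpose, transpose_one, transpose_mul, J2_transpose, transpose_nonsing_inv, hs,
        RingHom.coe_id, Matrix.map_id, mul_neg, ← mul_kronecker_mul, ← mul_kronecker_mul, one_mul,
        mul_one, nonsing_inv_mul_cancel_right _ _ hB.isUnit,
        mul_nonsing_inv_cancel_left _ _ hB.isUnit]
      ext i j
      simp
    rw [this]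
    exact Subalgebra.neg_mem _ hθm
  · obtain ⟨c, hc⟩ := isScal_one_kron ((isScal_frameEquiv_iff e P).1 h0)
    have h3 : J2 F = c • B := by
      rw [← mul_nonsing_inv_cancel_left B (J2 F) hB.isUnit, hc, Matrix.mul_smul, mul_one]
    have h4 := congrFun (congrFun h3 0) 1
    have h5 := congrFun (congrFun h3 1) 0
    have h6 := congrFun (congrFun hs 1) 0
    simp [J2] at h4 h5 h6
    apply h2
    rw [← h6, ← h4] at h5
    linear_combination -h5

end Cfsg.Agent.H7
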