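import Cfsg.Agent.H7.AschSmall

set_option autoImplicit false
set_option linter.unusedSectionVars false
set_option linter.unusedVariables false
set_option linter.unnecessarySimpa false
set_option linter.style.haveILetI false
set_option linter.unusedSimpArgs false

namespace Cfsg.Agent.H7

open Cfsg Cfsg.Geo Matrix
open scoped MatrixGroups Kronecker commutatorElement

variable {ι : Type} [Fintype ι] [DecidableEq ι] {F : Type*} [Field F]

/-! ### Commuting self-adjoint involutions for a symplectic form -/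

lemma two_le_rank_of_selfAdjoint {f : (ι → F) → (ι → F) → F} (hs : IsSymplecticForm f)
    {e : Matrix ι ι F} (he : e * e = e) (ha : adj (RingHom.id F) f e = e) (h0 : e ≠ 0) :
    2 ≤ Module.finrank F (LinearMap.range (Matrix.toLin' e)) := by
  have hf := hform_of_symplectic hs
  by_contra hlt
  obtain ⟨w, hw⟩ := finrank_le_one_iff.1 (show Module.finrank F (LinearMap.range
    (Matrix.toLin' e)) ≤ 1 by omega)
  apply h0
  refine hf.mat_ext_left fun u v => ?_
  obtain ⟨c, hc⟩ := hw ⟨_, mem_range_toLin' e u⟩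
  obtain ⟨d, hd⟩ := hw ⟨_, mem_range_toLin' e v⟩
  have hc' : e *ᵥ u = c • (w : ι → F) := (congrArg Subtype.val hc).symm
  have hd' : e *ᵥ v = d • (w : ι → F) := (congrArg Subtype.val hd).symm
  rw [zero_mulVec, hf.zero_left, ← he, ← mulVec_mulVec, hf.adj_spec, ha, hc', hd', hf.smul_left,
    hf.smul_right, hs.alternating, mul_zero, mul_zero]

lemma two_mul_finrank_le {f : (ι → F) → (ι → F) → F} (hs : IsSymplecticForm f) (h2 : (2 : F) ≠ 0)
    {T : Set (Matrix ι ι F)} (hT : ∀ a ∈ T, a * a = 1 ∧ adj (RingHom.id F) f a = a)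
    (hc : ∀ a ∈ T, ∀ b ∈ T, a * b = b * a) (k : ℕ) :
    ∀ e : Matrix ι ι F, Module.finrank F (LinearMap.range (Matrix.toLin' e)) = k → e * e = e →
      adj (RingHom.id F) f e = e → (∀ a ∈ T, a * e = e * a) →
      2 * Module.finrank F (Submodule.span F ((· * e) '' T)) ≤ k := by
  have hf := hform_of_symplectic hs
  induction k using Nat.strong_induction_on with
  | _ k ih =>
  intro e hk he ha hce
  by_cases h1 : ∀ a ∈ T, a * e = e ∨ a * e = -e
  · have h3 : Submodule.span F ((· * e) '' T) ≤ Submodule.span F {e} := by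
      rw [Submodule.span_le]
      rintro _ ⟨a, haT, rfl⟩
      rcases h1 a haT with h | h
      · simp only [h]
        exact Submodule.mem_span_singleton_self e
      · simp only [h]
        exact Submodule.neg_mem _ (Submodule.mem_span_singleton_self e)
    have h4 := Submodule.finrank_mono h3
    by_cases h0 : e = 0
    · rw [h0, Submodule.span_zero_singleton, finrank_bot] at h4
      rw [h0]
      omega
    · rw [finrank_span_singleton h0] at h4
      have := two_le_rank_of_selfAdjoint hs he ha h0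
      omega
  push Not at h1
  obtain ⟨a, haT, ha1, ha2⟩ := h1
  obtain ⟨haa, had⟩ := hT a haT
  have key : ∀ s : F, s * s = 1 → ∀ e' : Matrix ι ι F, e' = (2 : F)⁻¹ • (e + s • (a * e)) →
      e' * e' = e' ∧ adj (RingHom.id F) f e' = e' ∧ (∀ b ∈ T, b * e' = e' * b) ∧ e * e' = e' := by
    intro s hs2 e' he'
    have h3 : e * (a * e) = a * e := by rw [← mul_assoc, ← hce a haT, mul_assoc, he]
    have h4 : a * e * (a * e) = e := by rw [mul_assoc, h3, ← mul_assoc, haa, one_mul]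
    have h5 : a * e * e = a * e := by rw [mul_assoc, he]
    refine ⟨?_, ?_, fun b hb => ?_, ?_⟩
    · rw [he']
      simp only [Matrix.smul_mul, Matrix.mul_smul, add_mul, mul_add, he, h3, h4, h5, smul_smul, hs2,
        smul_add, one_smul]
      match_scalars
      · field_simp
        linear_combination hs2
      · field_simp
        ring
    · rw [he', hf.adj_smul, hf.adj_add, hf.adj_smul, hf.adj_mul, ha, had, ← hce a haT]
      rfl
    · rw [he']
      simp only [Matrix.smul_mul, Matrix.mul_smul, add_mul, mul_add]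
      rw [hce b hb, ← mul_assoc, hc b hb a haT, mul_assoc, mul_assoc, hce b hb]
    · rw [he']
      simp only [Matrix.mul_smul, mul_add, he, h3]
  obtain ⟨p1, p2, p3, p4⟩ := key 1 (one_mul 1) _ rfl
  obtain ⟨q1, q2, q3, q4⟩ := key (-1) (by simp) _ rfl
  set e1 := (2 : F)⁻¹ • (e + (1 : F) • (a * e)) with he1
  set e2 := (2 : F)⁻¹ • (e + (-1 : F) • (a * e)) with he2
  have hsum : e1 + e2 = e := by
    rw [he1, he2]
    match_scalars
    · field_simp
      ring
    · ring
  have h12 : e1 * e2 = 0 := by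
    have : e1 * (e1 + e2) = e1 := by
      rw [hsum, ← p2, ← ha, ← hf.adj_mul, p4]
    rwa [mul_add, p1, add_eq_left] at this
  have h10 : e1 ≠ 0 := by
    intro h
    rw [he1, smul_eq_zero, one_smul] at h
    exact ha2 (eq_neg_of_add_eq_zero_right (h.resolve_left (inv_ne_zero h2)))
  have h20 : e2 ≠ 0 := by
    intro h
    rw [he2, smul_eq_zero, neg_smul, one_smul, ← sub_eq_add_neg, sub_eq_zero] at h
    exact ha1 (h.resolve_left (inv_ne_zero h2)).symm
  have r1 := two_le_rank_of_selfAdjoint hs p1 p2 h10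
  have r2 := two_le_rank_of_selfAdjoint hs q1 q2 h20
  have hle : LinearMap.range (Matrix.toLin' e1) ⊔ LinearMap.range (Matrix.toLin' e2) ≤
      LinearMap.range (Matrix.toLin' e) := by
    refine sup_le ?_ ?_
    · rintro _ ⟨v, rfl⟩
      rw [Matrix.toLin'_apply, ← p4, ← mulVec_mulVec]
      exact mem_range_toLin' _ _
    · rintro _ ⟨v, rfl⟩
      rw [Matrix.toLin'_apply, ← q4, ← mulVec_mulVec]
      exact mem_range_toLin' _ _
  have hinf : LinearMap.range (Matrix.toLin' e1) ⊓ LinearMap.range (Matrix.toLin' e2) = ⊥ := by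
    rw [eq_bot_iff]
    rintro v ⟨hv1, w, rfl⟩
    have := idem_mulVec_of_mem_range p1 hv1
    rw [Matrix.toLin'_apply, mulVec_mulVec, h12, zero_mulVec] at this
    rw [Matrix.toLin'_apply, ← this]
    exact Submodule.zero_mem _
  have h3 := Submodule.finrank_sup_add_finrank_inf_eq (LinearMap.range (Matrix.toLin' e1))
    (LinearMap.range (Matrix.toLin' e2))
  rw [hinf, finrank_bot] at h3
  have h4 := Submodule.finrank_mono hle
  have i1 := ih _ (by omega) e1 rfl p1 p2 p3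
  have i2 := ih _ (by omega) e2 rfl q1 q2 q3
  have h5 : Submodule.span F ((· * e) '' T) ≤
      Submodule.span F ((· * e1) '' T) ⊔ Submodule.span F ((· * e2) '' T) := by
    rw [Submodule.span_le]
    rintro _ ⟨b, hb, rfl⟩
    simp only
    rw [← hsum, mul_add]
    exact Submodule.add_mem_sup (Submodule.subset_span ⟨b, hb, rfl⟩)
      (Submodule.subset_span ⟨b, hb, rfl⟩)
  have h6 := Submodule.finrank_mono h5
  have h7 := Submodule.finrank_add_le_finrank_add_finrank (Submodule.span F ((· * e1) '' T))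
    (Submodule.span F ((· * e2) '' T))
  omega

lemma ExtraData.isOfMinusType [Fintype F] (hn : 2 ≤ Fintype.card ι) {f : (ι → F) → (ι → F) → F}
    (hs : IsSymplecticForm f) {H R : Subgroup (GL ι F)} (h : ExtraData H R 2) (hR : Isom f R)
    (hz : Nat.card (Subgroup.center R) = 2) {k : ℕ} (hk : Fintype.card ι = 2 ^ k) :
    IsOfMinusType k R := by
  haveI := nonempty_of_two_le hn
  have hf := hform_of_symplectic hs
  have h2 : (2 : F) ≠ 0 := by exact_mod_cast h.cast_ne_zero hn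
  intro A hcomm hinv
  let ρ : A →* Matrix ι ι F := ((Units.coeHom (Matrix ι ι F)).comp R.subtype).comp A.subtype
  have h1 := card_eq_finrank_mul ρ ((Subgroup.center R).subgroupOf A)
    (fun z hz => isScal_of_mem_scalars ((h.mem_center_iff z).1 hz))
    (fun x hx => h.trace_eq_zero x.1.2 (fun h' => hx ((h.mem_center_iff x.1).2 h'))) h.card_ne_zero
  have h3 : Nat.card ((Subgroup.center R).subgroupOf A) ≤ 2 := by
    rw [← hz]
    exact Nat.card_le_card_of_injective (fun z => (⟨z.1.1, z.2⟩ : Subgroup.center R))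
      fun x y hxy => Subtype.ext (Subtype.ext
        (congrArg (fun z : Subgroup.center R => (z : R)) hxy))
  have h4 := two_mul_finrank_le hs h2 (T := Set.range ρ) (by
      rintro _ ⟨a, rfl⟩
      have h5 : ρ a * ρ a = 1 := by
        rw [← map_mul, show a * a = 1 from Subtype.ext (hinv a a.2), map_one]
      refine ⟨h5, ?_⟩
      have h6 : adj (RingHom.id F) f (ρ a) = _ := hf.adj_val hR a.1.2
      rw [h6]
      exact Units.inv_eq_of_mul_eq_one_right h5)
    (by
      rintro _ ⟨a, rfl⟩ _ ⟨b, rfl⟩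
      rw [← map_mul, ← map_mul, hcomm.is_comm.comm])
    _ 1 rfl (one_mul 1) hf.adj_one (fun a _ => by rw [one_mul, mul_one])
  have h8 : (· * (1 : Matrix ι ι F)) '' Set.range ρ = Set.range ρ := by simp
  rw [h8, Matrix.toLin'_one, LinearMap.range_id, finrank_top,
    Module.finrank_fintype_fun_eq_card] at h4
  rw [h1, pow_succ, ← hk]
  nlinarith

/-- The geometric classes in the symplectic case. -/
def SpGeom [Fintype F] (f : (ι → F) → (ι → F) → F) (H : Subgroup (GL ι F)) : Prop :=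
  (∃ W : Submodule F (ι → F), W ≠ ⊥ ∧ IsTotallySingularFor f W ∧ H ≤ subspaceStabilizer W) ∨
  (∃ W : Submodule F (ι → F), W ≠ ⊥ ∧ IsNondegenerateOn f W ∧
    2 * Module.finrank F W < Fintype.card ι ∧ H ≤ subspaceStabilizer W) ∨
  (∃ (t k : ℕ) (D : Fin t → Submodule F (ι → F)), IsNondegenerateMDecomposition f k D ∧
    H ≤ decompositionStabilizer D) ∨
  (∃ (k : ℕ) (D : Fin 2 → Submodule F (ι → F)), Odd (Fintype.card F) ∧ 2 * k = Fintype.card ι ∧
    IsMDecomposition k D ∧ (∀ i, IsTotallySingularFor f (D i)) ∧ H ≤ decompositionStabilizer D) ∨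
  (∃ (r : ℕ) (K : Subalgebra F (Matrix ι ι F)), r.Prime ∧ IsFieldSubalgebra r K ∧
    IsSelfAdjointFor f K ∧ (∀ k ∈ K, ∀ v, f (k *ᵥ v) v = 0) ∧ H ≤ subalgebraNormalizer K) ∨
  (∃ K : Subalgebra F (Matrix ι ι F), Odd (Fintype.card F) ∧ IsFieldSubalgebra 2 K ∧
    IsAdjointClosedFor f K ∧ ¬ IsSelfAdjointFor f K ∧ H ≤ subalgebraNormalizer K) ∨
  (∃ (n₁ n₂ : ℕ) (e : ι ≃ Fin n₁ × Fin n₂) (P : GL ι F)
    (f₁ : (Fin n₁ → F) → (Fin n₁ → F) → F) (f₂ : (Fin n₂ → F) → (Fin n₂ → F) → F),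
    Odd (Fintype.card F) ∧ 2 ≤ n₁ ∧ 3 ≤ n₂ ∧ IsSymplecticForm f₁ ∧ IsSymmetricForm f₂ ∧
    IsTensorFormStructure id f f₁ f₂ e P ∧ H ≤ tensorProductSubgroup n₁ n₂ e P) ∨
  (∃ (F₀ : Subfield F) (r : ℕ) (P : GL ι F) (ζ : F), r.Prime ∧ Fintype.card F = Nat.card F₀ ^ r ∧
    ζ ≠ 0 ∧ IsFormRationalStructure f F₀ ζ P ∧ H ≤ subfieldSubgroup F₀ P) ∨
  (∃ (R : Subgroup (GL ι F)) (k : ℕ), ExtraData H R 2 ∧ Isom f R ∧ (Fintype.card F).Prime ∧
    Odd (Fintype.card F) ∧ Fintype.card ι = 2 ^ k ∧ Nat.card R = 2 ^ (1 + 2 * k) ∧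
    Nat.card (Subgroup.center R) = 2 ∧ IsOfMinusType k R) ∨
  (∃ (k t : ℕ) (e : ι ≃ (Fin t → Fin k)) (P : GL ι F) (f₁ : (Fin k → F) → (Fin k → F) → F),
    Odd (Fintype.card F) ∧ 2 ≤ k ∧ Odd t ∧ 3 ≤ t ∧ ¬ (Fintype.card F = 3 ∧ k = 2) ∧
    IsSymplecticForm f₁ ∧ IsTensorPowerFormStructure id f f₁ e P ∧
    H ≤ tensorWreathSubgroup k t e P) ∨
  (∃ Q : (ι → F) → F, ¬ Odd (Fintype.card F) ∧ IsNondegenerateQuadraticForm Q ∧
    (∀ u v, QuadraticMap.polar Q u v = f u v) ∧ H ≤ quadSimilarityGroup Q)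

namespace SpGeom

variable [Fintype F] {f : (ι → F) → (ι → F) → F} {H : Subgroup (GL ι F)}

lemma c8 (h2 : ¬ Odd (Fintype.card F)) (h : ∃ Q : (ι → F) → F, IsNondegenerateQuadraticForm Q ∧
    (∀ u v, QuadraticMap.polar Q u v = f u v) ∧
      ∀ g ∈ H, ∀ v, Q ((g : Matrix ι ι F) *ᵥ v) = Q v) : SpGeom f H := by
  obtain ⟨Q, h1, h3, h4⟩ := h
  iterate 10 right
  exact ⟨Q, h2, h1, h3, fun g hg => ⟨1, fun v => by rw [h4 g hg]; simp⟩⟩

lemma c5 [Nonempty ι] (hs : IsSymplecticForm f) {L : Subgroup (GL ι F)} (hL : AbsIrr L)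
    (hN : NormG H L) (hI : Isom f L) {F₀ : Subfield F} (h0 : F₀ ≠ ⊤)
    (hr : RealisableOver F₀ (matrixSet L)) : SpGeom f H := by
  obtain ⟨F₁, r, P, ζ, h1, -, h2, h3, h4, -, h5⟩ := hL.subfield_form hN h0 hr
    (hform_of_symplectic hs).toSesq fun g hg => ⟨1, F₀.one_mem, fun u v => by rw [hI g hg, one_mul]⟩
  iterate 7 right
  exact Or.inl ⟨F₁, r, P, ζ, h1, h2, h3, h4, h5⟩

end SpGeom

lemma exists_proj_mat {W U : Submodule F (ι → F)} (h : IsCompl W U) :
    ∃ e : Matrix ι ι F, (∀ v ∈ W, e *ᵥ v = v) ∧ ∀ v ∈ U, e *ᵥ v = 0 := by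
  refine ⟨LinearMap.toMatrix' (W.subtype ∘ₗ Submodule.projectionOnto W U h), fun v hv => ?_,
    fun v hv => ?_⟩
  · rw [← Matrix.toLin'_apply, Matrix.toLin'_toMatrix', LinearMap.comp_apply]
    exact congrArg Subtype.val (Submodule.projectionOnto_apply_left h ⟨v, hv⟩)
  · rw [← Matrix.toLin'_apply, Matrix.toLin'_toMatrix', LinearMap.comp_apply,
      Submodule.projectionOnto_apply_of_mem_right h hv, map_zero]

lemma isCompl_of_pair {k : ℕ} {D : Fin 2 → Submodule F (ι → F)} (hD : IsMDecomposition k D) :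
    IsCompl (D 0) (D 1) := by
  constructor
  · exact (iSupIndep_pair (i := 0) (j := 1) (by decide) (by decide)).1 hD.indep
  · rw [codisjoint_iff, eq_top_iff, ← hD.iSup_eq_top]
    refine iSup_le fun i => ?_
    fin_cases i
    · exact le_sup_left
    · exact le_sup_right

lemma mat_eq_of_compl {W U : Submodule F (ι → F)} (h : IsCompl W U) {x y : Matrix ι ι F}
    (h1 : ∀ v ∈ W, x *ᵥ v = y *ᵥ v) (h2 : ∀ v ∈ U, x *ᵥ v = y *ᵥ v) : x = y := by
  apply mat_eq_of_mulVec
  intro v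
  have : v ∈ W ⊔ U := by rw [h.sup_eq_top]; trivial
  obtain ⟨a, ha, b, hb, rfl⟩ := Submodule.mem_sup.1 this
  rw [mulVec_add, mulVec_add, h1 a ha, h2 b hb]

/-- The idempotent attached to a pair of complementary totally singular subspaces. -/
lemma HForm.exists_idem_of_pair {σ : F →+* F} {ε : F} {f : (ι → F) → (ι → F) → F}
    (hf : HForm σ ε f) {k : ℕ} {D : Fin 2 → Submodule F (ι → F)} (hD : IsMDecomposition k D)
    (hts : ∀ i, IsTotallySingularFor f (D i)) :
    ∃ e : Matrix ι ι F, (∀ v ∈ D 0, e *ᵥ v = v) ∧ (∀ v ∈ D 1, e *ᵥ v = 0) ∧ adj σ f e = 1 - e ∧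
      ∀ g ∈ decompositionStabilizer D, cj g e = e ∨ cj g e = 1 - e := by
  have hc := isCompl_of_pair hD
  obtain ⟨e, h0, h1⟩ := exists_proj_mat hc
  refine ⟨e, h0, h1, hf.adj_unique fun u v => ?_, ?_⟩
  · have hu : u ∈ D 0 ⊔ D 1 := by rw [hc.sup_eq_top]; trivial
    have hv : v ∈ D 0 ⊔ D 1 := by rw [hc.sup_eq_top]; trivial
    obtain ⟨a, ha, b, hb, rfl⟩ := Submodule.mem_sup.1 hu
    obtain ⟨c, hc, d, hd, rfl⟩ := Submodule.mem_sup.1 hv
    rw [sub_mulVec, one_mulVec, mulVec_add, mulVec_add, h0 a ha, h1 b hb, h0 c hc, h1 d hd, add_zero,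
      add_zero, add_sub_cancel_left, hf.add_right, hf.add_left, hts 0 a ha c hc, hts 1 b hb d hd,
      zero_add, add_zero]
  · rintro g ⟨s, hs⟩
    have key : ∀ i, ∀ v ∈ D (s i), ∃ w ∈ D i, v = (g : Matrix ι ι F) *ᵥ w := by
      intro i v hv
      rw [← hs i] at hv
      obtain ⟨w, hw, rfl⟩ := hv
      exact ⟨w, hw, rfl⟩
    have hs' : (s 0 = 0 ∧ s 1 = 1) ∨ (s 0 = 1 ∧ s 1 = 0) := by
      clear key hs
      revert s
      decide
    rcases hs' with ⟨s0, s1⟩ | ⟨s0, s1⟩
    · left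
      refine mat_eq_of_compl hc (fun v hv => ?_) (fun v hv => ?_)
      · obtain ⟨w, hw, rfl⟩ := key 0 v (s0.symm ▸ hv)
        rw [cj_mulVec, h0 w hw, h0 _ hv]
      · obtain ⟨w, hw, rfl⟩ := key 1 v (s1.symm ▸ hv)
        rw [cj_mulVec, h1 w hw, h1 _ hv, mulVec_zero]
    · right
      refine mat_eq_of_compl hc (fun v hv => ?_) (fun v hv => ?_)
      · obtain ⟨w, hw, rfl⟩ := key 1 v (s1.symm ▸ hv)
        rw [cj_mulVec, h1 w hw, sub_mulVec, one_mulVec, h0 _ hv, mulVec_zero, sub_self]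
      · obtain ⟨w, hw, rfl⟩ := key 0 v (s0.symm ▸ hv)
        rw [cj_mulVec, h0 w hw, sub_mulVec, one_mulVec, h1 _ hv, sub_zero]

lemma exists_quad_of_eta {f : (ι → F) → (ι → F) → F} (hs : IsSymplecticForm f) (h2 : (2 : F) = 0)
    {H : Subgroup (GL ι F)} (hH : Isom f H) {η : Matrix ι ι F}
    (hηa : η + adj (RingHom.id F) f η = 1) (hη : ∀ g ∈ H, ∃ c : F, cj g η = η + c • 1) :
    ∃ Q : (ι → F) → F, IsNondegenerateQuadraticForm Q ∧
      (∀ u v, QuadraticMap.polar Q u v = f u v) ∧ ∀ g ∈ H, ∀ v, Q ((g : Matrix ι ι F) *ᵥ v) = Q v := by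
  have hf := hform_of_symplectic hs
  have hb := hs.bilinear
  have hpol : ∀ u v, QuadraticMap.polar (fun v => f (η *ᵥ v) v) u v = f u v := by
    intro u v
    rw [QuadraticMap.polar, mulVec_add, hb.add_left, hb.add_right, hb.add_right,
      hf.adj_spec η v u, hs.skew v]
    conv_rhs => rw [← one_mulVec u, ← hηa, add_mulVec, hb.add_left]
    linear_combination (-f (adj (RingHom.id F) f η *ᵥ u) v) * h2
  have hpol' : QuadraticMap.polar (fun v => f (η *ᵥ v) v) = f :=
    funext fun u => funext fun v => hpol u v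
  refine ⟨fun v => f (η *ᵥ v) v, ⟨fun c v => ?_, hpol'.symm ▸ hb, hpol'.symm ▸ hs.nondegenerate⟩,
    hpol, fun g hg v => ?_⟩
  · rw [mulVec_smul, hb.smul_left, hb.smul_right]
    ring
  · obtain ⟨c, h3⟩ := hη _ (H.inv_mem hg)
    simp only
    conv_lhs => rw [← cj_cj_inv g η]
    rw [cj_mulVec, hH g hg, h3, add_mulVec, hb.add_left, smul_mulVec, one_mulVec,
      hb.smul_left, hs.alternating, mul_zero, add_zero]

lemma exists_quad_of_pair {f : (ι → F) → (ι → F) → F} (hs : IsSymplecticForm f) (h2 : (2 : F) = 0)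
    {H : Subgroup (GL ι F)} (hH : Isom f H) {k : ℕ} {D : Fin 2 → Submodule F (ι → F)}
    (hD : IsMDecomposition k D) (hts : ∀ i, IsTotallySingularFor f (D i))
    (hHD : H ≤ decompositionStabilizer D) :
    ∃ Q : (ι → F) → F, IsNondegenerateQuadraticForm Q ∧
      (∀ u v, QuadraticMap.polar Q u v = f u v) ∧ ∀ g ∈ H, ∀ v, Q ((g : Matrix ι ι F) *ᵥ v) = Q v := by
  obtain ⟨e, -, -, h3, h4⟩ := (hform_of_symplectic hs).exists_idem_of_pair hD hts
  refine exists_quad_of_eta hs h2 hH (η := e) (by rw [h3, add_sub_cancel]) fun g hg => ?_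
  rcases h4 g (hHD hg) with h | h
  · exact ⟨0, by rw [h, zero_smul, add_zero]⟩
  · refine ⟨1, ?_⟩
    have : e + e = 0 := by rw [← two_smul F, h2, zero_smul]
    rw [h, one_smul]
    linear_combination (norm := abel) -this

lemma SpGeom.of_comm [Fintype F] [Nonempty ι] {f : (ι → F) → (ι → F) → F} (hs : IsSymplecticForm f)
    {H : Subgroup (GL ι F)} (hH : Isom f H) (hirr : Irr H) {Z : Subalgebra F (Matrix ι ι F)}
    (hZ : NormA H Z) (hc : ∀ x ∈ Z, ∀ y ∈ Z, x * y = y * x)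
    (hadj : ∀ x ∈ Z, adj (RingHom.id F) f x ∈ Z) (hns : ∃ x ∈ Z, ¬ IsScal x) : SpGeom f H := by
  have hf := hform_of_symplectic hs
  rcases hf.decomp_or_field hH hirr hZ hc hadj with ⟨t, m, D, h1, h2, -⟩ | ⟨k, D, h1, h2, h3, h4⟩ |
    hinv
  · exact Or.inr (Or.inr (Or.inl ⟨t, m, D, h1, h2⟩))
  · by_cases hodd : Odd (Fintype.card F)
    · exact Or.inr (Or.inr (Or.inr (Or.inl ⟨k, D, hodd, h1, h2, h3, h4⟩)))
    · exact SpGeom.c8 hodd (exists_quad_of_pair hs (two_eq_zero_of_not_odd hodd) hH h2 h3 h4)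
  · rcases hf.field_bilinear hH hZ hc hinv hadj hns with ⟨r, K, h1, h2, h3, h4⟩ | ⟨h1, h2, h3⟩
    · iterate 4 right
      exact Or.inl ⟨r, K, h1, h2, h3, alt_of_selfAdjoint hs hH hirr h2 h3 h4, h4.le_normalizer⟩
    · by_cases hodd : Odd (Fintype.card F)
      · iterate 5 right
        exact Or.inl ⟨Z, hodd, h1, hf.isAdjointClosedFor hadj, h2, hZ.le_normalizer⟩
      · exact SpGeom.c8 hodd
          (exists_quad_of_field hs (two_eq_zero_of_not_odd hodd) hH hZ hadj h2 h3)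

lemma HForm.transpose_eq {κ : Type} [Fintype κ] [DecidableEq κ] {A : Matrix κ κ F} {δ : F}
    (h : HForm (RingHom.id F) δ (gform (RingHom.id F) A)) : Aᵀ = δ • A := by
  have := h.gram_herm
  rw [gramMatrix_gform, RingHom.coe_id, Matrix.map_id] at this
  conv_rhs => rw [this, smul_smul, h.eps_mul_self, one_smul]

lemma HForm.transpose_eq_of_two {κ : Type} [Fintype κ] [DecidableEq κ] {A : Matrix κ κ F} {δ : F}
    (h : HForm (RingHom.id F) δ (gform (RingHom.id F) A)) (h2 : (2 : F) = 0) : Aᵀ = A := by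
  rw [h.transpose_eq]
  rcases h.eps with rfl | rfl
  · rw [one_smul]
  · rw [show (-1 : F) = 1 by linear_combination -h2, one_smul]

lemma tw_diag {κ : Type} [Fintype κ] [DecidableEq κ] (B y : Matrix κ κ F) (j : κ) :
    tw (RingHom.id F) B y j j = gform (RingHom.id F) B (y *ᵥ Pi.single j 1) (y *ᵥ Pi.single j 1) := by
  rw [gform_tw, gform_single]

lemma frameGram_swap {f : (ι → F) → (ι → F) → F} {α β : Type} [Fintype α] [DecidableEq α]
    [Fintype β] [DecidableEq β] {e : ι ≃ α × β} {P : GL ι F} {A : Matrix α α F} {B : Matrix β β F}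
    (h : frameGram f e P = A ⊗ₖ B) : frameGram f (e.trans (Equiv.prodComm _ _)) P = B ⊗ₖ A := by
  ext ⟨a, b⟩ ⟨c, d⟩
  have := congrFun (congrFun h (b, a)) (d, c)
  rw [kroneckerMap_apply, mul_comm] at this
  rw [kroneckerMap_apply, ← this]
  have h1 : ∀ (a : β) (b : α), (Pi.single (a, b) (1 : F) : β × α → F) ∘ Equiv.prodComm α β =
      Pi.single (b, a) 1 := by
    intro a b
    ext ⟨i, j⟩
    simp [Pi.single_apply, and_comm]
  simp only [frameGram, gramMatrix, frameVec_trans, h1]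

lemma TensorCase.spGeom [Fintype F] [Nonempty ι] {f : (ι → F) → (ι → F) → F}
    (hs : IsSymplecticForm f) {H : Subgroup (GL ι F)} (hH : Isom f H) (hirr : Irr H)
    (h : TensorCase H) : SpGeom f H := by
  have hf := hform_of_symplectic hs
  obtain ⟨a, b, e, P, A, B, δ, ha, hb, hA, hB, h1, h2, -, hG, -, hel⟩ := hf.tensorCase hH h
  haveI : Nonempty (Fin a) := ⟨⟨0, by omega⟩⟩
  haveI : Nonempty (Fin b) := ⟨⟨0, by omega⟩⟩
  have hk := le_tensor_of_kron (H := H) (e := e) (P := P) fun g hg => by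
    obtain ⟨x, y, μ, h, -⟩ := hel g hg
    exact ⟨x, y, h⟩
  have hstr := isTensorFormStructure_of_gram hf.toSesq hG
  by_cases hodd : Odd (Fintype.card F)
  · have h2' := two_ne_zero_of_odd hodd
    rcases h2.eps with rfl | rfl
    · rw [mul_one] at h1
      by_cases hb3 : 3 ≤ b
      · iterate 6 right
        exact Or.inl ⟨a, b, e, P, _, _, hodd, ha, hb3, isSymplecticForm_of_hform h1 h2',
          isSymmetricForm_of_hform h2, hstr.1, hk.1⟩
      · obtain rfl : b = 2 := by omega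
        obtain ⟨Z, z1, z2, z3, z4⟩ := hf.comm_of_kron_two h2' (H := H) hB
          (by simpa using h2.transpose_eq) hG fun g hg => by
            obtain ⟨x, y, μ, h, -, -, h'⟩ := hel g hg
            exact ⟨x, y, _, h, h'⟩
        exact SpGeom.of_comm hs hH hirr z1 z2 z3 z4
    · rw [neg_mul_neg, mul_one] at h1
      by_cases ha3 : 3 ≤ a
      · iterate 6 right
        exact Or.inl ⟨b, a, _, P, _, _, hodd, hb, ha3, isSymplecticForm_of_hform h2 h2',
          isSymmetricForm_of_hform h1, hstr.2, hk.2⟩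
      · obtain rfl : a = 2 := by omega
        obtain ⟨Z, z1, z2, z3, z4⟩ := hf.comm_of_kron_two h2' (H := H) hA
          (by simpa using h1.transpose_eq) (frameGram_swap hG) fun g hg => by
            obtain ⟨x, y, μ, h, -, h', -⟩ := hel g hg
            exact ⟨y, x, _, by rw [frameEquiv_swap, h], h'⟩
        exact SpGeom.of_comm hs hH hirr z1 z2 z3 z4
  · have h2' := two_eq_zero_of_not_odd hodd
    have hAs := h1.transpose_eq_of_two h2'
    have hBs := h2.transpose_eq_of_two h2'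
    have hAa := hirr.alt_of_kron h2' (by simpa using ha) e P hAs fun g hg => by
      obtain ⟨x, y, μ, h, -, h', -⟩ := hel g hg
      exact ⟨x, y, _, h, h'⟩
    have hBa := hirr.alt_of_kron h2' (by simpa using hb) (e.trans (Equiv.prodComm _ _)) P hBs
      fun g hg => by
        obtain ⟨x, y, μ, h, -, -, h'⟩ := hel g hg
        exact ⟨y, x, _, by rw [frameEquiv_swap, h], h'⟩
    obtain ⟨U, hU⟩ := exists_upper hAs fun i => by rw [← gform_single (RingHom.id F) A, hAa]
    obtain ⟨Q, q1, q2, q3⟩ := exists_quad_of_gram hf.toSesq e P (M := U ⊗ₖ B)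
      (by rw [kron_transpose, hBs, ← add_kronecker, hU, hG])
    refine SpGeom.c8 hodd ⟨Q, q1, q2, fun g hg v => ?_⟩
    obtain ⟨x, y, μ, h, -⟩ := hel g hg
    rw [h]
    refine q3 _ (fun u v => by rw [← h, hH g hg]) (fun k => ?_) v
    rw [tw_kron, kroneckerMap_apply, kroneckerMap_apply, tw_diag B, hBa,
      ← gform_single (RingHom.id F) B, hBa, mul_zero, mul_zero]

lemma pt_update_add {T α : Type} [Fintype T] [DecidableEq T] [Fintype α] [DecidableEq α]
    (A : T → Matrix α α F) (i : T) (X Y : Matrix α α F) :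
    pt (Function.update A i (X + Y)) = pt (Function.update A i X) + pt (Function.update A i Y) := by
  ext x y
  simp only [pt_apply, Matrix.add_apply]
  rw [← Finset.mul_prod_erase _ _ (Finset.mem_univ i), ← Finset.mul_prod_erase _ _ (Finset.mem_univ i),
    ← Finset.mul_prod_erase _ _ (Finset.mem_univ i)]
  simp only [Function.update_self, Matrix.add_apply]
  have : ∀ Z : Matrix α α F, ∏ j ∈ Finset.univ.erase i, Function.update A i Z j (x j) (y j) =
      ∏ j ∈ Finset.univ.erase i, A j (x j) (y j) := fun Z =>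
    Finset.prod_congr rfl fun j hj => by rw [Function.update_of_ne (Finset.ne_of_mem_erase hj)]
  rw [this, this, this, add_mul]

lemma PowerCase.spGeom [Fintype F] (hn : 2 ≤ Fintype.card ι) {f : (ι → F) → (ι → F) → F}
    (hs : IsSymplecticForm f) {H : Subgroup (GL ι F)} (hH : Isom f H) (h : PowerCase H) :
    SpGeom f H := by
  have hf := hform_of_symplectic hs
  obtain ⟨t, m, e, P, A, c, δ, ht, hm, hc, hA, h1, -, h3, hG, hle, -, L, hLH, hL, habs, N, hperf,
    hsup, hmem, hel⟩ := hf.powerCase hH h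
  haveI : Nonempty (Fin m) := ⟨⟨0, by omega⟩⟩
  let i0 : Fin t := ⟨0, by omega⟩
  let i1 : Fin t := ⟨1, by omega⟩
  have h01 : i1 ≠ i0 := by simp [i0, i1]
  obtain ⟨N', hN1, hN2, hN3⟩ := exists_factor_group (hperf i0) (hmem i0)
  by_cases hodd : Odd (Fintype.card F)
  · have h2' := two_ne_zero_of_odd hodd
    have h4 : δ ^ t = -1 := by
      rw [RingHom.id_apply] at h3
      exact mul_left_cancel₀ hc (by linear_combination h3)
    have h5 : (1 : F) ≠ -1 := fun h => h2' (by linear_combination h)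
    obtain rfl : δ = -1 := h1.eps.resolve_left (by rintro rfl; exact h5 (by simpa using h4))
    have h6 : Odd t := by
      by_contra h6
      rw [(Nat.not_odd_iff_even.1 h6).neg_one_pow] at h4
      exact h5 h4
    iterate 9 right
    refine Or.inl ⟨m, t, e, P, _, hodd, hm, h6, by obtain ⟨k, rfl⟩ := h6; omega, ?_,
      isSymplecticForm_of_hform h1 h2', isTensorPowerFormStructure_of_gram hf.toSesq hc hG, hle⟩
    rintro ⟨h7, rfl⟩
    exact not_irr_of_perfect_two h7.le hN1 hN2.1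
  · have h2' := two_eq_zero_of_not_odd hodd
    have hAs := h1.transpose_eq_of_two h2'
    have hAa := hN2.1.alt_of_sym (by simpa using hm) h2' hAs fun g hg => by
      obtain ⟨X, h4, h5⟩ := hel i0 _ ((hN3 g).1 hg)
      rw [slotGL_val] at h4
      rw [slot_injective i0 ((frameEquiv e P).injective h4), h5]
      exact ⟨1, (one_smul _ _).symm⟩
    obtain ⟨U, hU⟩ := exists_upper hAs fun i => by rw [← gform_single (RingHom.id F) A, hAa]
    obtain ⟨Q, q1, q2, q3⟩ := exists_quad_of_gram hf.toSesq e P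
      (M := c • pt (Function.update (fun _ : Fin t => A) i0 U)) (by
        rw [hG, transpose_smul, ← smul_add, pt_transpose]
        have : (fun i => (Function.update (fun _ : Fin t => A) i0 U i)ᵀ) =
            Function.update (fun _ : Fin t => A) i0 Uᵀ := by
          funext j
          by_cases hj : j = i0
          · subst hj; simp
          · simp [hj, hAs]
        rw [this, ← pt_update_add, hU, Function.update_eq_self_iff.2 rfl])
    have hpol : QuadraticMap.polar Q = f := funext fun u => funext fun v => q2 u v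
    refine SpGeom.c8 hodd ⟨Q, q1, q2, quad_fixed_of_normG hn h2' q1 habs.1 hL (hpol ▸ hH) ?_⟩
    have : L ≤ isometryGroup F Q := by
      rw [hsup]
      refine iSup_le fun i g hg u _ => ?_
      obtain ⟨X, h4, -⟩ := hel i g hg
      change Q ((g : Matrix ι ι F) *ᵥ u) = Q u
      rw [h4]
      refine q3 _ (fun u v => by rw [← h4, hH g (hLH (hsup ▸ le_iSup N i hg))]) (fun k => ?_) u
      rw [tw_smul, slot_eq_pt, tw_pt, Matrix.smul_apply, Matrix.smul_apply, pt_apply, pt_apply,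
        Finset.prod_eq_zero (Finset.mem_univ i1), Finset.prod_eq_zero (Finset.mem_univ i1)]
      · rw [Function.update_of_ne h01, ← gform_single (RingHom.id F) A, hAa]
      · rw [Function.update_of_ne h01, tw_diag, hAa]
    exact fun g hg v => this hg v v

lemma Isom.scal_sq {σ : F →+* F} {f : (ι → F) → (ι → F) → F} [Nonempty ι] (hf : Sesq σ f)
    {H : Subgroup (GL ι F)} (hH : Isom f H) {c : Fˣ} (hc : scalGL ι c ∈ H) : (c : F) * σ c = 1 := by
  obtain ⟨i⟩ := ‹Nonempty ι›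
  obtain ⟨⟨x, hx⟩, -⟩ := hf.nondeg (Pi.single i 1) (by simp)
  have := hH _ hc x (Pi.single i 1)
  rw [scalGL_val, smul_mulVec, smul_mulVec, one_mulVec, one_mulVec, hf.smul_left,
    hf.smul_right] at this
  exact mul_right_cancel₀ hx (by linear_combination this)

lemma card_prime_of_forall [Fintype F] {p : ℕ} [CharP F p] (h : ∀ x : F, x ^ p = x) :
    Fintype.card F = p := by
  have hp : p.Prime := CharP.char_is_prime F p
  haveI : Fact p.Prime := ⟨hp⟩
  obtain ⟨e, -, he⟩ := FiniteField.card F p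
  by_contra hne
  obtain ⟨a, ha⟩ := exists_pow_ne (F := F) hp.two_le (lt_of_le_of_ne
    (by rw [he]; exact Nat.le_self_pow e.ne_zero p) (Ne.symm hne))
  exact ha (h a)

/-- The extraspecial case for a bilinear form. -/
lemma ExtraCase.bilinear [Fintype F] (hn : 2 ≤ Fintype.card ι) {f : (ι → F) → (ι → F) → F}
    (hf : Sesq (RingHom.id F) f) {H : Subgroup (GL ι F)} (hH : Isom f H) (h : ExtraCase H) :
    ∃ L ≤ H, ExtraData H L 2 ∧ (2 : F) ≠ 0 ∧ Nat.card (Subgroup.center L) = 2 ∧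
      ((Fintype.card F).Prime ∨ ∃ F₀ : Subfield F, F₀ ≠ ⊤ ∧ RealisableOver F₀ (matrixSet L)) := by
  haveI := nonempty_of_two_le hn
  obtain ⟨L, hLH, hN, habs, hcomm, r, hr, hpow, hmin⟩ := h
  have hsq : ∀ c : Fˣ, scalGL ι c ∈ L → c ^ 2 = 1 := fun c hc => Units.ext (by
    simpa [pow_two] using hH.scal_sq hf (hLH hc))
  obtain ⟨x, hx, y, hy, c, hc1, hcr, hxy⟩ := exists_root_of_comm hn habs hcomm hpow
  have hcL : scalGL ι c ∈ L := by
    have : scalGL ι c = x * y * (y * x)⁻¹ := by rw [hxy, mul_inv_cancel_right]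
    rw [this]
    exact L.mul_mem (L.mul_mem hx hy) (L.inv_mem (L.mul_mem hy hx))
  obtain rfl : r = 2 := by
    haveI : Fact r.Prime := ⟨hr⟩
    rw [← orderOf_eq_prime hcr hc1, orderOf_eq_prime (hsq c hcL) hc1]
  have hD : ExtraData H L 2 := ⟨hr, hN, habs, hcomm, hpow, fun x hx => by
    obtain ⟨d, hd⟩ := exists_scalGL (hpow x hx)
    change x ^ (2 * 2) = 1
    rw [pow_mul, hd, ← scalGL_pow, hsq d (hd ▸ L.pow_mem hx 2), scalGL_one],
    min_of_min hn hN habs fun M hM hMN =>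
      (hmin M hM hMN).imp_right fun h => by rw [h]; exact le_sup_left⟩
  have h2 : (2 : F) ≠ 0 := by exact_mod_cast hD.cast_ne_zero hn
  have hpm : ∀ d : Fˣ, scalGL ι d ∈ L → d = 1 ∨ d = -1 := fun d hd => by
    have := congrArg Units.val (hsq d hd)
    rw [Units.val_pow_eq_pow_val, Units.val_one, pow_two, mul_self_eq_one_iff] at this
    exact this.imp (fun h => Units.ext h) (fun h => Units.ext h)
  refine ⟨L, hLH, hD, h2, ?_, ?_⟩
  · rw [Nat.card_eq_two_iff]
    refine ⟨1, ⟨⟨_, hcL⟩, (hD.mem_center_iff _).2 (scalGL_mem c)⟩, fun h => hc1 ?_, ?_⟩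
    · rw [← scalGL_eq_one_iff (ι := ι)]
      exact (congrArg (fun z : Subgroup.center L => ((z : L) : GL ι F)) h).symm
    · rw [Set.eq_univ_iff_forall]
      intro z
      obtain ⟨d, hd⟩ := exists_scalGL ((hD.mem_center_iff _).1 z.2)
      rcases hpm d (hd ▸ z.1.2) with rfl | rfl
      · left
        exact Subtype.ext (Subtype.ext (by rw [hd, scalGL_one]; rfl))
      · right
        refine Subtype.ext (Subtype.ext ?_)
        rw [hd, ← (hpm c hcL).resolve_left hc1]
  · obtain ⟨p, hp⟩ := CharP.exists F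
    haveI : Fact p.Prime := ⟨CharP.char_is_prime F p⟩
    by_cases htop : powFixField F p 1 = ⊤
    · left
      rw [card_prime_of_forall (p := p) fun x => by
        have := mem_powFixField.1 (show x ∈ powFixField F p 1 from htop ▸ Subfield.mem_top x)
        rwa [pow_one] at this]
      exact CharP.char_is_prime F p
    · right
      refine ⟨_, htop, hD.realisableOver _ fun d hd => ?_⟩
      rcases hpm d hd with rfl | rfl
      · exact Subfield.one_mem _
      · exact Subfield.neg_mem _ (Subfield.one_mem _)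

lemma ExtraCase.spGeom [Fintype F] (hn : 2 ≤ Fintype.card ι) {f : (ι → F) → (ι → F) → F}
    (hs : IsSymplecticForm f) {H : Subgroup (GL ι F)} (hH : Isom f H) (h : ExtraCase H) :
    SpGeom f H := by
  haveI := nonempty_of_two_le hn
  obtain ⟨L, hLH, hD, h2, hz, hp | ⟨F₀, h0, hr⟩⟩ := h.bilinear hn (hform_of_symplectic hs).toSesq hH
  · obtain ⟨k, -, hk⟩ := hD.exists_card_eq_pow hn
    iterate 8 right
    refine Or.inl ⟨L, k, hD, hH.mono hLH, hp, ?_, hk, hD.card_eq_pow hk (k := 1) hz, hz,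
      hD.isOfMinusType hn hs (hH.mono hLH) hz hk⟩
    by_contra h3
    exact h2 (two_eq_zero_of_not_odd h3)
  · exact SpGeom.c5 hs hD.abs hD.norm (hH.mono hLH) h0 hr

lemma Isom.trace_inv {σ : F →+* F} {f : (ι → F) → (ι → F) → F} (hf : Sesq σ f)
    {H : Subgroup (GL ι F)} (hH : Isom f H) {g : GL ι F} (hg : g ∈ H) :
    σ (g : Matrix ι ι F).trace = ((g⁻¹ : GL ι F) : Matrix ι ι F).trace := by
  have h1 := (hf.isom_iff _).1 (hH g hg)
  have hG := hf.det_ne_zero
  have h2 : (g : Matrix ι ι F).map σ =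
      (gramMatrix f)⁻¹ * ((g⁻¹ : GL ι F) : Matrix ι ι F)ᵀ * gramMatrix f := by
    have h3 := congrArg (fun X => (gramMatrix f)⁻¹ * (((g⁻¹ : GL ι F) : Matrix ι ι F)ᵀ * X)) h1
    simp only [tw] at h3
    rw [← mul_assoc _ (_ * _), ← mul_assoc _ _ᵀ, ← transpose_mul, Units.mul_inv, transpose_one,
      one_mul, nonsing_inv_mul_cancel_left _ _ hG.isUnit] at h3
    rw [h3, mul_assoc]
  rw [← trace_transpose ((g⁻¹ : GL ι F) : Matrix ι ι F), AddMonoidHom.map_trace σ, h2,
    trace_mul_comm, mul_nonsing_inv_cancel_left _ _ hG.isUnit]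

/-- A group fixing a bilinear and a unitary form is written over the fixed field. -/
lemma AbsIrr.realisableOver_of_two [Finite F] [Nonempty ι] {L : Subgroup (GL ι F)} (hL : AbsIrr L)
    {σ : F →+* F} {f b : (ι → F) → (ι → F) → F} (hf : Sesq σ f) (hb : Sesq (RingHom.id F) b)
    (h1 : Isom f L) (h2 : Isom b L) : RealisableOver (fixField σ) (matrixSet L) :=
  hL.realisableOver _ fun g hg => by
    rw [mem_fixField, h1.trace_inv hf hg, ← h2.trace_inv hb hg, RingHom.id_apply]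

lemma IsUnitaryForm.exists_ne {σ : F ≃+* F} {f : (ι → F) → (ι → F) → F} (h : IsUnitaryForm σ f) :
    ∃ a, (σ : F →+* F) a ≠ a := by
  by_contra h1
  push Not at h1
  exact h.ne_refl (RingEquiv.ext h1)

lemma AbsIrr.exists_smul_form {L : Subgroup (GL ι F)} (hL : AbsIrr L) {σ : F →+* F}
    {f b : (ι → F) → (ι → F) → F} (hf : Sesq σ f) (hb : Sesq σ b) (h1 : Isom f L) (h2 : Isom b L) :
    ∃ c : F, ∀ u v, b u v = c * f u v := by
  obtain ⟨c, hc⟩ := hL.gram_unique σ hf.det_ne_zero (G' := gramMatrix b) fun g hg =>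
    ⟨1, by rw [one_smul]; exact (hf.isom_iff _).1 (h1 g hg),
      by rw [one_smul]; exact (hb.isom_iff _).1 (h2 g hg)⟩
  exact ⟨c, fun u v => by rw [hb.eq_gform, hf.eq_gform, hc, gform_smul]⟩

lemma QuasiCase.spGeom [Fintype F] (hn : 2 ≤ Fintype.card ι) {f : (ι → F) → (ι → F) → F}
    (hs : IsSymplecticForm f) {H : Subgroup (GL ι F)} (hH : Isom f H) (h : QuasiCase H) :
    SpGeom f H ∨ InSymplecticResidualClass H := by
  haveI := nonempty_of_two_le hn
  have hf := hform_of_symplectic hs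
  obtain ⟨P, hPH, hP, habs, ⟨F₀, h0, h1⟩ | hcore⟩ := h.exists_core
  · exact Or.inl (SpGeom.c5 hs habs hP (hH.mono hPH) h0 h1)
  by_cases hq : ∃ Q : (ι → F) → F, IsNondegenerateQuadraticForm Q ∧ FixesQuadForm (matrixSet P) Q
  · left
    obtain ⟨Q, h1, h2⟩ := hq
    have hb := isSymmetricForm_polar h1
    obtain ⟨c, hc⟩ := habs.exists_smul_form hf.toSesq (hform_of_symmetric hb).toSesq (hH.mono hPH)
      (isom_of_fixesForm (fixesForm_polar h2))
    obtain ⟨i⟩ := ‹Nonempty ι›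
    obtain ⟨⟨x, hx⟩, -⟩ := hb.nondegenerate (Pi.single i 1) (by simp)
    have hc0 : c ≠ 0 := by
      rintro rfl
      exact hx (by rw [hc, zero_mul])
    have h2' : (2 : F) = 0 := by
      have h3 := hb.symm x (Pi.single i 1)
      have h4 : QuadraticMap.polar Q (Pi.single i 1) x = -QuadraticMap.polar Q x (Pi.single i 1) := by
        rw [hc, hc, hs.skew, mul_neg]
      exact mul_right_cancel₀ hx (by linear_combination h3 + h4)
    have hodd : ¬ Odd (Fintype.card F) := fun h => two_ne_zero_of_odd h h2'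
    have hpol : ∀ u v, QuadraticMap.polar (fun v => c⁻¹ * Q v) u v = f u v := by
      intro u v
      have := hc u v
      rw [QuadraticMap.polar] at this ⊢
      field_simp
      linear_combination this
    have hpol' : QuadraticMap.polar (fun v => c⁻¹ * Q v) = f :=
      funext fun u => funext fun v => hpol u v
    have hQ' : IsNondegenerateQuadraticForm (fun v => c⁻¹ * Q v) :=
      ⟨fun d v => by rw [h1.smul]; ring, hpol'.symm ▸ hs.bilinear, hpol'.symm ▸ hs.nondegenerate⟩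
    exact SpGeom.c8 hodd ⟨_, hQ', hpol, quad_fixed_of_normG hn h2' hQ' habs.1 hP (hpol'.symm ▸ hH)
      fun g hg v => by rw [h2 _ ⟨g, hg, rfl⟩]⟩
  · refine Or.inr ⟨P, hcore, hq, ?_⟩
    rintro ⟨σ, b, h1, h2⟩
    exact hcore.no_subfield _ (fixField_ne_top (IsUnitaryForm.exists_ne h1))
      (habs.realisableOver_of_two (hform_of_unitary h1).toSesq hf.toSesq (isom_of_fixesForm h2)
        (hH.mono hPH))

/-- Aschbacher's theorem, symplectic case. -/
theorem asch_sp [Fintype F] (hn : 2 ≤ Fintype.card ι) {f : (ι → F) → (ι → F) → F}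
    (hs : IsSymplecticForm f) {H : Subgroup (GL ι F)} (hH : Isom f H) :
    SpGeom f H ∨ InSymplecticResidualClass H := by
  haveI := nonempty_of_two_le hn
  have hf := hform_of_symplectic hs
  by_cases hirr : Irr H
  swap
  · rcases hf.reducible hH hirr with h | h | ⟨k, D, h1, h2, -⟩
    · exact Or.inl (Or.inl h)
    · exact Or.inl (Or.inr (Or.inl h))
    · exact Or.inl (Or.inr (Or.inr (Or.inl ⟨2, k, D, h1, h2⟩)))
  by_cases hctr : ∀ L ≤ H, NormG H L → ∀ z ∈ ctr (spanAlg L), IsScal z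
  swap
  · push Not at hctr
    obtain ⟨L, hLH, hL, z, hz, hz'⟩ := hctr
    exact Or.inl (SpGeom.of_comm hs hH hirr hL.normA.ctr (ctr_comm _)
      (fun x hx => hf.adj_mem_ctr (fun y hy => hf.adj_mem_spanAlg (hH.mono hLH) hy) hx)
      ⟨z, hz, hz'⟩)
  rcases core hn hirr hctr with h | h | h | h
  · exact Or.inl (h.spGeom hs hH hirr)
  · exact Or.inl (h.spGeom hn hs hH)
  · exact Or.inl (h.spGeom hn hs hH)
  · exact h.spGeom hn hs hH

lemma isSymplecticForm_sympForm (m : ℕ) : IsSymplecticForm (sympForm m F) := by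
  have := isSymplecticForm_gform (G := Matrix.J (Fin m) F)
    (Matrix.isUnit_det_J (Fin m) F).ne_zero (Matrix.J_transpose _ _)
    (fun i => by rcases i with i | i <;> simp [Matrix.J])
  exact this

lemma isom_of_le_spGL {m : ℕ} {H : Subgroup (GL (Fin m ⊕ Fin m) F)} (h : H ≤ spGL m F) :
    Isom (sympForm m F) H := fun g hg => h hg

lemma SpGeom.inSymplecticClass [Fintype F] {m : ℕ} (hm : 1 ≤ m)
    {H : Subgroup (GL (Fin m ⊕ Fin m) F)} (hH : H ≤ spGL m F) (h : SpGeom (sympForm m F) H) :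
    ∃ M : Subgroup (GL (Fin m ⊕ Fin m) F), InSymplecticClass m F M ∧ H ≤ M := by
  have hcard : Fintype.card (Fin m ⊕ Fin m) = 2 * m := by simp [two_mul]
  rcases h with ⟨W, h0, h1, h⟩ | ⟨W, h0, h1, h2, h⟩ | ⟨t, k, D, h0, h⟩ | ⟨k, D, h0, h1, h2, h3, h⟩ |
    ⟨r, K, h0, h1, h2, h3, h⟩ | ⟨K, h0, h1, h2, h3, h⟩ | ⟨a, b, e, P, f₁, f₂, h0, -, h1, h2, h3, h4, h⟩ |
    ⟨F₀, r, P, ζ, h0, h1, h2, h3, h⟩ | ⟨R, k, h0, h1, h2, h3, h4, h5, h6, h7⟩ |
    ⟨k, t, e, P, f₁, h0, -, h1, h2, h3, h4, h5, h⟩ | ⟨Q, h0, h1, h2, h⟩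
  · exact ⟨_, Or.inl (Or.inl ⟨W, h0, h1, rfl⟩), le_inf h hH⟩
  · exact ⟨_, Or.inl (Or.inr (Or.inl ⟨W, h0, h1, by omega, rfl⟩)), le_inf h hH⟩
  · exact ⟨_, Or.inl (Or.inr (Or.inr (Or.inl ⟨t, k, D, h0, rfl⟩))), le_inf h hH⟩
  · obtain rfl : k = m := by omega
    exact ⟨_, Or.inl (Or.inr (Or.inr (Or.inr (Or.inl ⟨D, h0, h2, h3, rfl⟩)))), le_inf h hH⟩
  · exact ⟨_, Or.inr (Or.inl ⟨r, K, h0, h1, h2, h3, rfl⟩), le_inf h hH⟩
  · exact ⟨_, Or.inr (Or.inr (Or.inl ⟨K, h0, h1, h2, h3, rfl⟩)), le_inf h hH⟩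
  · exact ⟨_, Or.inr (Or.inr (Or.inr (Or.inl ⟨a, b, e, P, f₁, f₂, h0, h1, h2, h3, h4, rfl⟩))),
      le_inf h hH⟩
  · exact ⟨_, Or.inl (Or.inr (Or.inr (Or.inr (Or.inr (Or.inl ⟨F₀, r, P, ζ, h0, h1, h2, h3, rfl⟩))))),
      le_inf h hH⟩
  · exact ⟨_, Or.inl (Or.inr (Or.inr (Or.inr (Or.inr (Or.inr (Or.inl ⟨R, _, k,
      h0.isSymplecticTypeGroup (by omega), absIrr_iff.1 h0.abs, h1.le_similarityGroup, h2, h3, rfl,
      h5, h6, h7, rfl⟩)))))), le_inf h0.norm.le_normalizer hH⟩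
  · exact ⟨_, Or.inr (Or.inr (Or.inr (Or.inr ⟨k, t, e, P, f₁, h0, h1, h2, h3, h4, h5, rfl⟩))),
      le_inf h hH⟩
  · exact ⟨_, Or.inl (Or.inr (Or.inr (Or.inr (Or.inr (Or.inr (Or.inr ⟨Q, h0, h1, h2, rfl⟩)))))),
      le_inf h hH⟩

end Cfsg.Agent.H7
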