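import Cfsg.Agent.H7.AschSp

set_option autoImplicit false
set_option linter.unusedSectionVars false
set_option linter.unusedVariables false
set_option linter.unnecessarySimpa false
set_option linter.style.haveILetI false
set_option linter.unusedSimpArgs false

namespace Cfsg.Agent.H7

open Cfsg Cfsg.Geo Matrix
open scoped MatrixGroups Kronecker commutatorElement

variable {ι : Type} [Fintype ι] [DecidableEq ι] {F : Type*} [Field F]

/-! ### Rank -/

lemma rank_add_le' {α β : Type*} [Fintype α] [Fintype β] (A B : Matrix α β F) :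
    (A + B).rank ≤ A.rank + B.rank := by
  unfold Matrix.rank
  refine le_trans (Submodule.finrank_mono (t := LinearMap.range A.mulVecLin ⊔
    LinearMap.range B.mulVecLin) ?_) (Submodule.finrank_add_le_finrank_add_finrank _ _)
  rintro _ ⟨v, rfl⟩
  rw [mulVecLin_apply, add_mulVec]
  exact Submodule.add_mem_sup ⟨v, rfl⟩ ⟨v, rfl⟩

lemma rank_smul_le' {α β : Type*} [Fintype α] [Fintype β] (c : F) (A : Matrix α β F) :
    (c • A).rank ≤ A.rank := by
  by_cases hc : c = 0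
  · rw [hc, zero_smul, rank_zero]; exact Nat.zero_le _
  · rw [rank_smul_of_mem_nonZeroDivisors _ (mem_nonZeroDivisors_of_ne_zero hc)]

lemma rank_sub_le' {α β : Type*} [Fintype α] [Fintype β] (A B : Matrix α β F) :
    (A - B).rank ≤ A.rank + B.rank := by
  rw [sub_eq_add_neg, ← neg_one_smul F B]
  exact (rank_add_le' _ _).trans (Nat.add_le_add_left (rank_smul_le' _ _) _)

lemma rank_cj (g : GL ι F) (x : Matrix ι ι F) : (cj g x).rank = x.rank := by
  rw [cj_apply, rank_mul_eq_left_of_det_ne_zero _ _ (val_det_ne_zero _),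
    rank_mul_eq_right_of_det_ne_zero _ _ (val_det_ne_zero _)]

lemma rank_frameEquiv {κ : Type} [Fintype κ] [DecidableEq κ] (e : ι ≃ κ) (P : GL ι F)
    (X : Matrix κ κ F) : (frameEquiv e P X).rank = X.rank := by
  rw [frameEquiv_apply, rank_cj, rank_submatrix]

lemma le_rank_kron_one {α β κ : Type} [Fintype α] [DecidableEq α] [Fintype β] [DecidableEq β]
    [Fintype κ] [DecidableEq κ] {Z : Matrix α α F} (r c : κ → α) (h : (Z.submatrix r c).det ≠ 0) :
    Fintype.card κ * Fintype.card β ≤ (Z ⊗ₖ (1 : Matrix β β F)).rank := by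
  have h1 : (Z ⊗ₖ (1 : Matrix β β F)).submatrix (Prod.map r id) (Prod.map c id) =
      Z.submatrix r c ⊗ₖ (1 : Matrix β β F) := by
    ext ⟨i, j⟩ ⟨k, l⟩; simp
  have h2 := rank_submatrix_le (Z ⊗ₖ (1 : Matrix β β F)) (Prod.map r id) (Prod.map c id)
  rw [h1, rank_of_det_ne_zero (det_kron_ne_zero h (by simp)), Fintype.card_prod] at h2
  exact h2

lemma card_le_rank_kron_one {α β : Type} [Fintype α] [DecidableEq α] [Fintype β] [DecidableEq β]
    {Z : Matrix α α F} (h : Z ≠ 0) : Fintype.card β ≤ (Z ⊗ₖ (1 : Matrix β β F)).rank := by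
  obtain ⟨i, j, hij⟩ := exists_entry_ne_zero h
  have := le_rank_kron_one (β := β) (Z := Z) (fun _ : Unit => i) (fun _ => j) (by simpa using hij)
  simpa using this

lemma eq_zero_of_rank_smul_one {c : F} (h : (c • (1 : Matrix ι ι F)).rank < Fintype.card ι) :
    c = 0 := by
  by_contra hc
  rw [rank_smul_of_mem_nonZeroDivisors _ (mem_nonZeroDivisors_of_ne_zero hc), rank_one] at h
  exact lt_irrefl _ h

lemma rank_map_le (τ : F →+* F) (hτ : Function.Surjective τ) (u φ : ι → F) :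
    ((vecMulVec u φ).map τ).rank ≤ 1 := by
  have : (vecMulVec u φ).map τ = vecMulVec (τ ∘ u) (τ ∘ φ) := by
    ext i j; simp [vecMulVec_apply]
  rw [this]; exact rank_vecMulVec_le _ _

/-! ### Transvections -/

lemma vmv_mulVec (u φ v : ι → F) : vecMulVec u φ *ᵥ v = (φ ⬝ᵥ v) • u := by
  ext i
  simp [mulVec, dotProduct, vecMulVec, Finset.mul_sum, Finset.sum_mul, mul_comm, mul_left_comm]

lemma vmv_sq {u φ : ι → F} (h : φ ⬝ᵥ u = 0) : vecMulVec u φ * vecMulVec u φ = 0 := by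
  rw [vecMulVec_mul_vecMulVec, h, zero_smul, vecMulVec_zero]

/-- The transvection `x ↦ x + φ(x) u`. -/
def tv (u φ : ι → F) (h : φ ⬝ᵥ u = 0) : GL ι F where
  val := 1 + vecMulVec u φ
  inv := 1 - vecMulVec u φ
  val_inv := by
    rw [add_mul, mul_sub, mul_sub, vmv_sq h]; simp
  inv_val := by
    rw [sub_mul, mul_add, mul_add, vmv_sq h]; simp

lemma tv_val {u φ : ι → F} (h : φ ⬝ᵥ u = 0) : (tv u φ h : Matrix ι ι F) = 1 + vecMulVec u φ := rfl

lemma tv_inv_val {u φ : ι → F} (h : φ ⬝ᵥ u = 0) :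
    (((tv u φ h)⁻¹ : GL ι F) : Matrix ι ι F) = 1 - vecMulVec u φ := rfl

lemma tv_mulVec {u φ : ι → F} (h : φ ⬝ᵥ u = 0) (v : ι → F) :
    (tv u φ h : Matrix ι ι F) *ᵥ v = v + (φ ⬝ᵥ v) • u := by
  rw [tv_val, add_mulVec, one_mulVec, vmv_mulVec]

lemma tv_det {u φ : ι → F} (h : φ ⬝ᵥ u = 0) : (tv u φ h : Matrix ι ι F).det = 1 := by
  rw [tv_val, vecMulVec_eq Unit, det_one_add_replicateCol_mul_replicateRow, h, add_zero]

lemma mem_specialLinear_iff {g : GL ι F} : g ∈ specialLinear ι F ↔ (g : Matrix ι ι F).det = 1 := by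
  rw [specialLinear, MonoidHom.mem_ker, ← Units.val_eq_one]
  rfl

lemma tv_mem_SL {u φ : ι → F} (h : φ ⬝ᵥ u = 0) : tv u φ h ∈ specialLinear ι F :=
  mem_specialLinear_iff.2 (tv_det h)

lemma rank_cj_tv_sub {u φ : ι → F} (h : φ ⬝ᵥ u = 0) (x : Matrix ι ι F) :
    (cj (tv u φ h) x - x).rank ≤ 2 := by
  have h1 : cj (tv u φ h) x - x =
      (vecMulVec u φ * x - x * vecMulVec u φ) * (((tv u φ h)⁻¹ : GL ι F) : Matrix ι ι F) := by
    have : x = x * (tv u φ h : Matrix ι ι F) * (((tv u φ h)⁻¹ : GL ι F) : Matrix ι ι F) := by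
      rw [mul_assoc, Units.mul_inv, mul_one]
    rw [cj_apply]
    nth_rewrite 2 [this]
    rw [← sub_mul, tv_val]
    congr 1
    noncomm_ring
  rw [h1]
  refine (rank_mul_le_left _ _).trans ((rank_sub_le' _ _).trans ?_)
  have a := (rank_mul_le_left (vecMulVec u φ) x).trans (rank_vecMulVec_le u φ)
  have b := (rank_mul_le_right x (vecMulVec u φ)).trans (rank_vecMulVec_le u φ)
  omega

lemma exists_dot_eq_one {φ : ι → F} (hφ : φ ≠ 0) : ∃ v, φ ⬝ᵥ v = 1 := by
  obtain ⟨i, hi⟩ := Function.ne_iff.1 hφ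
  refine ⟨Pi.single i (φ i)⁻¹, ?_⟩
  rw [dotProduct_single, mul_inv_cancel₀ hi]

lemma eigen_of_cj_tv {u φ : ι → F} (h : φ ⬝ᵥ u = 0) (hφ : φ ≠ 0) {x : Matrix ι ι F}
    (hx : cj (tv u φ h) x = x) : ∃ c : F, x *ᵥ u = c • u := by
  rw [cj_eq_self_iff, tv_val, mul_add, add_mul, mul_one, one_mul, add_right_inj] at hx
  obtain ⟨v, hv⟩ := exists_dot_eq_one hφ
  have := congrArg (· *ᵥ v) hx
  simp only [← mulVec_mulVec, vmv_mulVec, hv, one_smul] at this
  exact ⟨_, this⟩

/-- class 3 -/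
lemma tv_not_mem_field (hn : 3 ≤ Fintype.card ι) {u φ : ι → F} (h : φ ⬝ᵥ u = 0) (hu : u ≠ 0)
    (hφ : φ ≠ 0) {r : ℕ} (hr : 2 ≤ r) {K : Subalgebra F (Matrix ι ι F)}
    (hK : IsFieldSubalgebra r K) : tv u φ h ∉ subalgebraNormalizer K := by
  intro hm
  haveI := nonempty_of_two_le (ι := ι) (by omega)
  have hs : ∀ k ∈ K, IsScal k := by
    intro k hk
    have h1 : cj (tv u φ h) k - k ∈ K := K.sub_mem ((hm k).1 hk) hk
    have h2 : cj (tv u φ h) k - k = 0 := by
      by_contra h0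
      obtain ⟨y, -, hy⟩ := hK.inv _ h1 h0
      have := rank_mul_le_left (cj (tv u φ h) k - k) y
      rw [hy, rank_one] at this
      have := rank_cj_tv_sub h k
      omega
    obtain ⟨c, hc⟩ := eigen_of_cj_tv h hφ (sub_eq_zero.1 h2)
    refine ⟨c, ?_⟩
    by_contra h0
    have h3 : k - c • 1 ∈ K := K.sub_mem hk (K.smul_mem K.one_mem c)
    obtain ⟨y, hyK, hy⟩ := hK.inv _ h3 (sub_ne_zero.2 h0)
    apply hu
    rw [hK.comm _ h3 _ hyK] at hy
    have := congrArg (· *ᵥ u) hy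
    simp only [← mulVec_mulVec, sub_mulVec, hc, smul_mulVec, one_mulVec, sub_self,
      mulVec_zero] at this
    exact this.symm
  have : K = ⊥ := by
    rw [eq_bot_iff]
    intro k hk
    obtain ⟨c, rfl⟩ := hs k hk
    exact Subalgebra.smul_mem _ (Subalgebra.one_mem _) c
  have h1 := hK.finrank_eq
  rw [this, Subalgebra.finrank_bot] at h1
  omega

/-- class 4, general frames -/
lemma tv_not_kron {u φ : ι → F} (h : φ ⬝ᵥ u = 0) (hu : u ≠ 0) (hφ : φ ≠ 0) {α β : Type}
    [Fintype α] [DecidableEq α] [Fintype β] [DecidableEq β] (ha : 2 ≤ Fintype.card α)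
    (hb : 3 ≤ Fintype.card β) (e : ι ≃ α × β) (P : GL ι F)
    (hN : ∀ X : Matrix α α F, ∃ Y : Matrix α α F,
      cj (tv u φ h) (frameEquiv e P (X ⊗ₖ (1 : Matrix β β F))) =
        frameEquiv e P (Y ⊗ₖ (1 : Matrix β β F))) : False := by
  have h1 : ∀ X : Matrix α α F, ∃ c : F,
      (X ⊗ₖ (1 : Matrix β β F)) *ᵥ (frameVec e P).symm u = c • (frameVec e P).symm u := by
    intro X
    obtain ⟨Y, hY⟩ := hN X
    have h2 := rank_cj_tv_sub h (frameEquiv e P (X ⊗ₖ (1 : Matrix β β F)))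
    have h4 : Y ⊗ₖ (1 : Matrix β β F) - X ⊗ₖ (1 : Matrix β β F) = (Y - X) ⊗ₖ 1 := by
      ext ⟨i, j⟩ ⟨k, l⟩; simp [sub_mul]
    rw [hY, ← map_sub, rank_frameEquiv, h4] at h2
    have h3 : Y = X := by
      by_contra hne
      have := card_le_rank_kron_one (β := β) (sub_ne_zero.2 hne)
      omega
    rw [h3] at hY
    obtain ⟨c, hc⟩ := eigen_of_cj_tv h hφ hY
    refine ⟨c, ?_⟩
    rw [← frameVec_symm_mulVec, hc, map_smul]
  set w := (frameVec e P).symm u with hw
  have hw0 : w ≠ 0 := by simpa [hw] using hu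
  obtain ⟨⟨i, j⟩, hij⟩ := Function.ne_iff.1 hw0
  have hij : w (i, j) ≠ 0 := hij
  obtain ⟨i', hi'⟩ : ∃ i', i' ≠ i := by
    haveI := Fintype.one_lt_card_iff_nontrivial.1 (show 1 < Fintype.card α by omega)
    exact exists_ne i
  obtain ⟨c, hc⟩ := h1 (Matrix.single i' i 1)
  have key : ∀ a b, ((Matrix.single i' i (1 : F) ⊗ₖ (1 : Matrix β β F)) *ᵥ w) (a, b) =
      if a = i' then w (i, b) else 0 := by
    intro a b
    simp only [mulVec, dotProduct, Fintype.sum_prod_type, kroneckerMap_apply, single_apply,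
      one_apply]
    by_cases hai : a = i'
    · subst hai
      simp [Finset.sum_ite_eq, eq_comm]
    · simp [hai, Ne.symm hai]
  have e1 := congrFun hc (i, j)
  have e2 := congrFun hc (i', j)
  rw [key] at e1 e2
  simp only [hi'.symm, if_false, Pi.smul_apply, smul_eq_mul, if_true] at e1 e2
  have : c = 0 := by
    rcases mul_eq_zero.1 e1.symm with h | h
    · exact h
    · exact absurd h hij
  rw [this, zero_mul] at e2
  exact hij e2

lemma cj_frameEquiv {κ : Type} [Fintype κ] [DecidableEq κ] (e : ι ≃ κ) (P : GL ι F) {g : GL ι F}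
    {x : GL κ F} (hg : (g : Matrix ι ι F) = frameEquiv e P x) (X : Matrix κ κ F) :
    cj g (frameEquiv e P X) = frameEquiv e P (cj x X) := by
  apply mul_right_cancel_det (val_det_ne_zero g)
  rw [cj_mul_val, hg, ← map_mul, ← map_mul, cj_mul_val]

/-- Kronecker product of invertible matrices -/
def kronGL {α β : Type} [Fintype α] [DecidableEq α] [Fintype β] [DecidableEq β] (a : GL α F)
    (b : GL β F) : GL (α × β) F where
  val := (a : Matrix α α F) ⊗ₖ (b : Matrix β β F)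
  inv := ((a⁻¹ : GL α F) : Matrix α α F) ⊗ₖ ((b⁻¹ : GL β F) : Matrix β β F)
  val_inv := by rw [← mul_kronecker_mul, Units.mul_inv, Units.mul_inv, one_kronecker_one]
  inv_val := by rw [← mul_kronecker_mul, Units.inv_mul, Units.inv_mul, one_kronecker_one]

lemma kronGL_val {α β : Type} [Fintype α] [DecidableEq α] [Fintype β] [DecidableEq β] (a : GL α F)
    (b : GL β F) : (kronGL a b : Matrix (α × β) (α × β) F) =
      (a : Matrix α α F) ⊗ₖ (b : Matrix β β F) := rfl

lemma cj_kronGL {α β : Type} [Fintype α] [DecidableEq α] [Fintype β] [DecidableEq β] (a : GL α F)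
    (b : GL β F) (X : Matrix α α F) (Y : Matrix β β F) :
    cj (kronGL a b) (X ⊗ₖ Y) = cj a X ⊗ₖ cj b Y := by
  rw [cj_apply, cj_apply, cj_apply, mul_kronecker_mul, mul_kronecker_mul]
  rfl

lemma tv_not_mem_tensor {u φ : ι → F} (h : φ ⬝ᵥ u = 0) (hu : u ≠ 0) (hφ : φ ≠ 0) {a b : ℕ}
    (ha : 2 ≤ a) (hb : 3 ≤ b) (e : ι ≃ Fin a × Fin b) (P : GL ι F) :
    tv u φ h ∉ tensorProductSubgroup a b e P := by
  intro hm
  obtain ⟨x, y, hxy⟩ := (mem_tensorProductSubgroup_iff _ _ _).1 hm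
  refine tv_not_kron h hu hφ (by simpa using ha) (by simpa using hb) e P fun X => ⟨cj x X, ?_⟩
  rw [cj_frameEquiv e P (x := kronGL x y) hxy, cj_kronGL, map_one]

/-! ### class 7 -/

section Slot
variable {T α : Type} [Fintype T] [DecidableEq T] [Fintype α] [DecidableEq α]

lemma slot_eq_kron (i : T) (X : Matrix α α F) :
    (slot i X : Matrix (T → α) (T → α) F) =
      (X ⊗ₖ (1 : Matrix ({j // j ≠ i} → α) ({j // j ≠ i} → α) F)).submatrix
        (Equiv.funSplitAt i α) (Equiv.funSplitAt i α) := by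
  ext x y
  rw [slot_apply]
  simp only [submatrix_apply, Equiv.funSplitAt_apply, kroneckerMap_apply, one_apply, mul_ite,
    mul_one, mul_zero]
  congr 1
  apply propext
  constructor
  · intro h; funext j; exact h j.1 j.2
  · intro h j hj; exact congrFun h ⟨j, hj⟩

lemma frameEquiv_slot (e : ι ≃ (T → α)) (P : GL ι F) (i : T) (X : Matrix α α F) :
    frameEquiv e P (slot i X) = frameEquiv (e.trans (Equiv.funSplitAt i α)) P
      (X ⊗ₖ (1 : Matrix ({j // j ≠ i} → α) ({j // j ≠ i} → α) F)) := by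
  rw [frameEquiv_trans, slot_eq_kron]

lemma ptGL_inv (a : T → GL α F) : (ptGL a)⁻¹ = ptGL fun i => (a i)⁻¹ := by
  apply Units.ext; rfl

lemma permGL_inv (s : Equiv.Perm T) : (permGL s : GL (T → α) F)⁻¹ = permGL s.symm := by
  apply Units.ext; rfl

lemma ptGL_norm (a : T → GL α F) (i : T) (X : Matrix α α F) :
    (ptGL a : Matrix (T → α) (T → α) F) * slot i X = slot i (cj (a i) X) * ptGL a :=
  pt_mul_slot _ i (cj_mul_val _ _).symm

end Slot

lemma exists_perm_of_mem_standard {m t : ℕ} {g : GL (Fin t → Fin m) F}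
    (hg : g ∈ tensorWreathStandard m t F) : ∃ s : Equiv.Perm (Fin t), ∀ i X, ∃ Y,
      (g : Matrix (Fin t → Fin m) (Fin t → Fin m) F) * slot i X =
        slot (s i) Y * (g : Matrix (Fin t → Fin m) (Fin t → Fin m) F) := by
  have hp : ∀ a : Fin t → GL (Fin m) F, ∃ s : Equiv.Perm (Fin t), ∀ i X, ∃ Y,
      (ptGL a : Matrix (Fin t → Fin m) (Fin t → Fin m) F) * slot i X =
        slot (s i) Y * (ptGL a : Matrix (Fin t → Fin m) (Fin t → Fin m) F) :=
    fun a => ⟨1, fun i X => ⟨_, ptGL_norm a i X⟩⟩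
  have hs : ∀ s : Equiv.Perm (Fin t), ∃ s' : Equiv.Perm (Fin t), ∀ i X, ∃ Y,
      ((permGL s : GL (Fin t → Fin m) F) : Matrix (Fin t → Fin m) (Fin t → Fin m) F) * slot i X =
        slot (s' i) Y *
          ((permGL s : GL (Fin t → Fin m) F) : Matrix (Fin t → Fin m) (Fin t → Fin m) F) :=
    fun s => ⟨s, fun i X => ⟨X, permMat_mul_slot s i X⟩⟩
  have e1 : ∀ x : GL (Fin t → Fin m) F, IsPureTensor m t x → ∃ a, x = ptGL a := by
    rintro x ⟨a, ha⟩
    exact ⟨a, Units.ext (by ext i j; exact ha i j)⟩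
  have e2 : ∀ x : GL (Fin t → Fin m) F, IsFactorPermutation m t x → ∃ s, x = permGL s := by
    rintro x ⟨s, ha⟩
    exact ⟨s, Units.ext (by ext i j; exact ha i j)⟩
  induction hg using Subgroup.closure_induction'' with
  | mem x hx =>
    rcases hx with hx | hx
    · obtain ⟨a, rfl⟩ := e1 x hx; exact hp a
    · obtain ⟨s, rfl⟩ := e2 x hx; exact hs s
  | inv_mem x hx =>
    rcases hx with hx | hx
    · obtain ⟨a, rfl⟩ := e1 x hx; rw [ptGL_inv]; exact hp _
    · obtain ⟨s, rfl⟩ := e2 x hx; rw [permGL_inv]; exact hs _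
  | one => exact ⟨1, fun i X => ⟨X, by simp⟩⟩
  | mul x y _ _ hx hy =>
    obtain ⟨s, hs⟩ := hx
    obtain ⟨s', hs'⟩ := hy
    refine ⟨s * s', fun i X => ?_⟩
    obtain ⟨Y, hY⟩ := hs' i X
    obtain ⟨Z, hZ⟩ := hs (s' i) Y
    exact ⟨Z, by rw [Units.val_mul, mul_assoc, hY, ← mul_assoc, hZ, mul_assoc]; rfl⟩

lemma exists_perm_pt_of_mem_wreath {m t : ℕ} (hm : 1 ≤ m) (ht : 1 ≤ t) {e : ι ≃ (Fin t → Fin m)}
    {P g : GL ι F} (hg : g ∈ tensorWreathSubgroup m t e P) :
    ∃ (s : Equiv.Perm (Fin t)) (a : Fin t → GL (Fin m) F), g = frameGL e P (permGL s * ptGL a) := by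
  haveI : Nonempty (Fin m) := ⟨⟨0, hm⟩⟩
  haveI : Nonempty (Fin t) := ⟨⟨0, ht⟩⟩
  rw [mem_tensorWreathSubgroup_iff] at hg
  obtain ⟨s, hs⟩ := exists_perm_of_mem_standard hg
  obtain ⟨a, ha⟩ := exists_perm_pt_of_normalizes _ s hs
  exact ⟨s, a, by rw [← ha]; simp⟩

lemma tv_not_mem_wreath {u φ : ι → F} (h : φ ⬝ᵥ u = 0) (hu : u ≠ 0) (hφ : φ ≠ 0) {m t : ℕ}
    (hm : 2 ≤ m) (ht : 2 ≤ t) (hmt : 3 ≤ m ∨ 3 ≤ t) (e : ι ≃ (Fin t → Fin m)) (P : GL ι F) :
    tv u φ h ∉ tensorWreathSubgroup m t e P := by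
  intro hg
  rw [mem_tensorWreathSubgroup_iff] at hg
  obtain ⟨s, hs⟩ := exists_perm_of_mem_standard hg
  let i : Fin t := ⟨0, by omega⟩
  have hc : ∀ X, ∃ Y, cj (tv u φ h) (frameEquiv e P (slot i X)) = frameEquiv e P (slot (s i) Y) := by
    intro X
    obtain ⟨Y, hY⟩ := hs i X
    refine ⟨Y, ?_⟩
    rw [cj_frameEquiv e P (frameEquiv_frameGL_symm e P _).symm]
    congr 1
    apply mul_right_cancel_det (val_det_ne_zero ((frameGL e P).symm (tv u φ h)))
    rw [cj_mul_val, hY]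
  have hcard : 3 ≤ Fintype.card ({j // j ≠ i} → Fin m) := by
    rw [Fintype.card_fun, Fintype.card_fin, Fintype.card_subtype_compl, Fintype.card_fin,
      Fintype.card_unique]
    rcases hmt with h3 | h3
    · calc 3 ≤ m := h3
        _ = m ^ 1 := (pow_one m).symm
        _ ≤ m ^ (t - 1) := Nat.pow_le_pow_right (by omega) (by omega)
    · calc 3 ≤ 2 ^ 2 := by norm_num
        _ ≤ m ^ 2 := Nat.pow_le_pow_left hm 2
        _ ≤ m ^ (t - 1) := Nat.pow_le_pow_right (by omega) (by omega)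
  by_cases hi : s i = i
  · refine tv_not_kron h hu hφ (by simpa using hm) hcard (e.trans (Equiv.funSplitAt i _)) P
      fun X => ?_
    obtain ⟨Y, hY⟩ := hc X
    rw [hi, frameEquiv_slot, frameEquiv_slot] at hY
    exact ⟨Y, hY⟩
  · let a : Fin m := ⟨0, by omega⟩
    let b : Fin m := ⟨1, by omega⟩
    have hab : a ≠ b := by simp [a, b]
    obtain ⟨Y, hY⟩ := hc (Matrix.single a b 1)
    set x := frameEquiv e P (slot i (Matrix.single a b (1 : F))) with hx
    set z := frameEquiv e P (slot i (Matrix.single b a (1 : F))) with hz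
    have h1 : (cj (tv u φ h) x) * z = z * cj (tv u φ h) x := by
      rw [hY, hz, ← map_mul, ← map_mul, slot_comm hi]
    have h2 : z * x - x * z = (cj (tv u φ h) x - x) * z - z * (cj (tv u φ h) x - x) := by
      rw [sub_mul, mul_sub, h1]; abel
    have h3 : (z * x - x * z).rank ≤ 4 := by
      rw [h2]
      have r1 := (rank_mul_le_left (cj (tv u φ h) x - x) z).trans (rank_cj_tv_sub h x)
      have r2 := (rank_mul_le_right z (cj (tv u φ h) x - x)).trans (rank_cj_tv_sub h x)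
      have := rank_sub_le' ((cj (tv u φ h) x - x) * z) (z * (cj (tv u φ h) x - x))
      omega
    rw [hx, hz, ← map_mul, ← map_mul, ← map_mul, ← map_mul, ← map_sub, ← map_sub, frameEquiv_slot,
      rank_frameEquiv] at h3
    have h4 := le_rank_kron_one (β := {j // j ≠ i} → Fin m) (Z := Matrix.single b a (1 : F) *
      Matrix.single a b 1 - Matrix.single a b 1 * Matrix.single b a 1) ![a, b] ![a, b] (by
        rw [single_mul_single_same, single_mul_single_same, det_fin_two]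
        simp [hab, hab.symm])
    rw [Fintype.card_fin] at h4
    omega

/-! ### class 5 -/

lemma tv_subfield [Finite F] (hn : 3 ≤ Fintype.card ι) {u φ : ι → F} (h : φ ⬝ᵥ u = 0)
    (hφ : φ ≠ 0) {F₀ : Subfield F} {P : GL ι F} (hm : tv u φ h ∈ subfieldSubgroup F₀ P) :
    ∃ s : F, s ≠ 0 ∧ ∀ i, s * (((P⁻¹ : GL ι F) : Matrix ι ι F) *ᵥ u) i ∈ F₀ := by
  haveI := nonempty_of_two_le (ι := ι) (by omega)
  obtain ⟨c, hc, hm⟩ := mem_subfieldSubgroup_iff.1 hm
  obtain ⟨τ, -, hτ⟩ := exists_fixHom F₀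
  set u' := ((P⁻¹ : GL ι F) : Matrix ι ι F) *ᵥ u
  set φ' := φ ᵥ* (P : Matrix ι ι F)
  have h1 : cj P⁻¹ (tv u φ h) = 1 + vecMulVec u' φ' := by
    rw [tv_val, map_add, map_one, cj_apply, mul_vecMulVec, vecMulVec_mul, inv_inv]
  rw [h1] at hm
  have h2 : (c - τ c) • (1 : Matrix ι ι F) =
      (c • vecMulVec u' φ').map τ - c • vecMulVec u' φ' := by
    ext i j
    have := (hτ _).2 (hm i j)
    simp only [Matrix.add_apply, map_mul, map_add, Matrix.one_apply] at this
    simp only [Matrix.smul_apply, Matrix.one_apply, Matrix.sub_apply, Matrix.map_apply,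
      smul_eq_mul, map_mul]
    split_ifs at this ⊢
    · rw [map_one] at this; linear_combination -this
    · rw [map_zero] at this; linear_combination -this
  have h3 : c - τ c = 0 := by
    apply eq_zero_of_rank_smul_one (ι := ι)
    rw [h2]
    have r1 := rank_sub_le' ((c • vecMulVec u' φ').map τ) (c • vecMulVec u' φ')
    have r2 := (rank_smul_le' c (vecMulVec u' φ')).trans (rank_vecMulVec_le u' φ')
    have r3 : ((c • vecMulVec u' φ').map τ).rank ≤ 1 := by
      rw [← smul_vecMulVec]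
      exact rank_map_le τ (Finite.surjective_of_injective τ.injective) _ _
    omega
  have hcF : c ∈ F₀ := (hτ c).1 (sub_eq_zero.1 h3).symm
  have hφ' : φ' ≠ 0 := by
    intro h0
    apply hφ
    have := congrArg (· ᵥ* ((P⁻¹ : GL ι F) : Matrix ι ι F)) h0
    simpa [φ', vecMul_vecMul] using this
  obtain ⟨j, hj⟩ := Function.ne_iff.1 hφ'
  refine ⟨φ' j, hj, fun i => ?_⟩
  have h4 := F₀.mul_mem (F₀.inv_mem hcF) (hm i j)
  rw [← mul_assoc, inv_mul_cancel₀ hc, one_mul, Matrix.add_apply, vecMulVec_apply] at h4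
  have h5 : (1 : Matrix ι ι F) i j ∈ F₀ := by
    rw [Matrix.one_apply]; split_ifs
    · exact F₀.one_mem
    · exact F₀.zero_mem
  have := F₀.sub_mem h4 h5
  rwa [add_sub_cancel_left, mul_comm] at this

lemma ne_top_of_card_pow [Fintype F] {F₀ : Subfield F} {r : ℕ} (hr : 2 ≤ r)
    (h : Fintype.card F = Nat.card F₀ ^ r) : F₀ ≠ ⊤ := by
  rintro rfl
  have h1 : Nat.card (⊤ : Subfield F) = Fintype.card F := by
    rw [← Nat.card_eq_fintype_card]
    exact Nat.card_congr Subfield.topEquiv.toEquiv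
  rw [h1] at h
  have h2 : 1 < Fintype.card F := Fintype.one_lt_card
  have := Nat.pow_lt_pow_right h2 (show 1 < r by omega)
  rw [pow_one] at this
  omega

/-- if all non-zero vectors are centres -/
lemma subfield_eq_top_of_forall (hn : 2 ≤ Fintype.card ι) {F₀ : Subfield F} {P : GL ι F}
    (h : ∀ u : ι → F, u ≠ 0 →
      ∃ s : F, s ≠ 0 ∧ ∀ i, s * (((P⁻¹ : GL ι F) : Matrix ι ι F) *ᵥ u) i ∈ F₀) : F₀ = ⊤ := by
  haveI := Fintype.one_lt_card_iff_nontrivial.1 (show 1 < Fintype.card ι by omega)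
  obtain ⟨i, j, hij⟩ := exists_pair_ne ι
  rw [eq_top_iff]
  intro c _
  obtain ⟨s, hs, hm⟩ := h ((P : Matrix ι ι F) *ᵥ (Pi.single i 1 + Pi.single j c)) (by
    rw [Ne, val_mulVec_eq_zero]
    intro h0
    have := congrFun h0 i
    simp [hij] at this)
  rw [inv_mulVec_val] at hm
  have h1 := hm i
  have h2 := hm j
  simp [hij, hij.symm] at h1 h2
  have := F₀.mul_mem (F₀.inv_mem h1) h2
  rwa [← mul_assoc, inv_mul_cancel₀ hs, one_mul] at this

/-! ### class 6 -/

lemma ExtraData.tv_trace [Finite F] (hn : 3 ≤ Fintype.card ι) {H R : Subgroup (GL ι F)} {r : ℕ}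
    (hR : ExtraData H R r) {u φ : ι → F} (h : φ ⬝ᵥ u = 0) (hφ : φ ≠ 0)
    (hm : tv u φ h ∈ subgroupNormalizer R) {x : GL ι F} (hx : x ∈ R)
    (hxu : ∀ c : F, (x : Matrix ι ι F) *ᵥ u ≠ c • u) :
    Fintype.card ι ≤ 4 ∧ (φ ⬝ᵥ ((x : Matrix ι ι F) *ᵥ u)) *
      (φ ⬝ᵥ (((x⁻¹ : GL ι F) : Matrix ι ι F) *ᵥ u)) = Fintype.card ι := by
  haveI := nonempty_of_two_le (ι := ι) (by omega)
  set t := tv u φ h with ht
  have hy : t * x * t⁻¹ * x⁻¹ ∈ R :=
    R.mul_mem (normG_of_le_normalizer le_rfl t hm x hx) (R.inv_mem hx)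
  set y := t * x * t⁻¹ * x⁻¹ with hydef
  have hyv : (y : Matrix ι ι F) - 1 = (cj t x - x) * ((x⁻¹ : GL ι F) : Matrix ι ι F) := by
    rw [sub_mul, Units.mul_inv, cj_val]; rfl
  have hrk : ((y : Matrix ι ι F) - 1).rank ≤ 2 := by
    rw [hyv]; exact (rank_mul_le_left _ _).trans (rank_cj_tv_sub h _)
  have hns : y ∉ scalars ι F := by
    intro hs
    obtain ⟨c, hc⟩ := isScal_of_mem_scalars hs
    have h1 : c - 1 = 0 := by
      apply eq_zero_of_rank_smul_one (ι := ι)
      rw [sub_smul, one_smul, ← hc]; omega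
    rw [sub_eq_zero.1 h1, one_smul] at hc
    rw [hc, sub_self] at hyv
    have h2 : cj t x - x = 0 := by
      have := congrArg (· * (x : Matrix ι ι F)) hyv
      simpa [mul_assoc] using this.symm
    obtain ⟨d, hd⟩ := eigen_of_cj_tv h hφ (sub_eq_zero.1 h2)
    exact hxu d hd
  constructor
  · by_contra hlt
    obtain ⟨z, hz, hzy⟩ : ∃ z ∈ R, z * y ≠ y * z := by
      by_contra hall
      push Not at hall
      exact hns (hR.abs.mem_scalars fun g hg => (hall g hg).symm)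
    obtain ⟨c, hc⟩ := exists_comm_scal (hR.comm z hz y hy)
    have h1 : cj z y = (c : F) • (y : Matrix ι ι F) := by
      apply mul_right_cancel_det (val_det_ne_zero z)
      rw [cj_mul_val, ← Units.val_mul, hc, Units.val_mul, scalGL_val, Units.val_mul, smul_mul_assoc,
        one_mul, smul_mul_assoc]
    have h2 : ((c : F) - 1) • (1 : Matrix ι ι F) =
        cj z ((y : Matrix ι ι F) - 1) - (c : F) • ((y : Matrix ι ι F) - 1) := by
      rw [map_sub, h1, map_one, smul_sub, sub_smul, one_smul]; abel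
    have h3 : (c : F) - 1 = 0 := by
      apply eq_zero_of_rank_smul_one (ι := ι)
      rw [h2]
      have r1 := rank_sub_le' (cj z ((y : Matrix ι ι F) - 1)) ((c : F) • ((y : Matrix ι ι F) - 1))
      have r2 := rank_smul_le' (c : F) ((y : Matrix ι ι F) - 1)
      rw [rank_cj] at r1
      omega
    apply hzy
    have : c = 1 := Units.ext (sub_eq_zero.1 h3)
    rw [hc, this, scalGL_one, one_mul]
  · have h1 := hR.trace_eq_zero hy hns
    have h2 : (y : Matrix ι ι F) = 1 + vecMulVec u φ -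
        (x : Matrix ι ι F) * vecMulVec u φ * ((x⁻¹ : GL ι F) : Matrix ι ι F) -
        vecMulVec u φ * x * vecMulVec u φ * ((x⁻¹ : GL ι F) : Matrix ι ι F) := by
      rw [hydef, Units.val_mul, Units.val_mul, Units.val_mul, ht, tv_val, tv_inv_val]
      have := Units.mul_inv x
      calc (1 + vecMulVec u φ) * (x : Matrix ι ι F) * (1 - vecMulVec u φ) *
            ((x⁻¹ : GL ι F) : Matrix ι ι F)
          = (1 + vecMulVec u φ) * ((x : Matrix ι ι F) * ((x⁻¹ : GL ι F) : Matrix ι ι F)) -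
            (x : Matrix ι ι F) * vecMulVec u φ * ((x⁻¹ : GL ι F) : Matrix ι ι F) -
            vecMulVec u φ * x * vecMulVec u φ * ((x⁻¹ : GL ι F) : Matrix ι ι F) := by noncomm_ring
        _ = _ := by rw [this, mul_one]
    rw [h2, trace_sub, trace_sub, trace_add, trace_one, trace_mul_cycle, Units.inv_mul, one_mul,
      mul_assoc (vecMulVec u φ) (x : Matrix ι ι F), mul_vecMulVec, vecMulVec_mul_vecMulVec,
      vecMulVec_mul, trace_vecMulVec, trace_vecMulVec] at h1
    rw [dotProduct_comm u (_ ᵥ* _), ← dotProduct_mulVec, smul_dotProduct, smul_eq_mul] at h1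
    linear_combination -h1

lemma ExtraData.exists_not_eigen [Finite F] (hn : 2 ≤ Fintype.card ι) {H R : Subgroup (GL ι F)}
    {r : ℕ} (hR : ExtraData H R r) {u : ι → F} (hu : u ≠ 0) :
    ∃ x ∈ R, ∀ c : F, (x : Matrix ι ι F) *ᵥ u ≠ c • u := by
  by_contra hall
  push Not at hall
  refine not_irr_of_line hn (W := Submodule.span F {u}) (finrank_span_singleton hu)
    (fun g hg => map_eq_of_invariant fun v hv => ?_) hR.abs.1
  obtain ⟨d, rfl⟩ := Submodule.mem_span_singleton.1 hv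
  obtain ⟨c, hc⟩ := hall g hg
  rw [mulVec_smul, hc, smul_smul]
  exact Submodule.smul_mem _ _ (Submodule.mem_span_singleton_self u)

/-! ### classes 1, 2 -/

lemma tv_mem_stab {u φ : ι → F} (h : φ ⬝ᵥ u = 0) {W : Submodule F (ι → F)}
    (hm : tv u φ h ∈ subspaceStabilizer W) {w : ι → F} (hw : w ∈ W) (hφ : φ ⬝ᵥ w ≠ 0) : u ∈ W := by
  have h1 := (mem_subspaceStabilizer_iff.1 hm w).1 hw
  rw [tv_mulVec] at h1
  have h2 := W.smul_mem (φ ⬝ᵥ w)⁻¹ (W.sub_mem h1 hw)
  rwa [add_sub_cancel_left, smul_smul, inv_mul_cancel₀ hφ, one_smul] at h2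

lemma IsMDecomposition.disjoint {t m : ℕ} {D : Fin t → Submodule F (ι → F)}
    (hD : IsMDecomposition m D) {i j : Fin t} (hij : i ≠ j) {v : ι → F} (hi : v ∈ D i)
    (hj : v ∈ D j) : v = 0 :=
  (Submodule.disjoint_def.1 (hD.indep.pairwiseDisjoint hij)) v hi hj

lemma tv_mem_decomp {u φ : ι → F} (h : φ ⬝ᵥ u = 0) (hφ : φ ≠ 0) {t m : ℕ}
    {D : Fin t → Submodule F (ι → F)} (hD : IsMDecomposition m D)
    (hm : tv u φ h ∈ decompositionStabilizer D) :
    (∃ i, u ∈ D i) ∨ (m = 1 ∧ ∃ i j, u ∈ D i ⊔ D j) := by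
  obtain ⟨s, hs⟩ := hm
  obtain ⟨i, w, hw, hφw⟩ : ∃ i, ∃ w ∈ D i, φ ⬝ᵥ w ≠ 0 := by
    by_contra hall
    push Not at hall
    obtain ⟨v, hv⟩ := exists_dot_eq_one hφ
    have hv' : v ∈ iSup D := by rw [hD.iSup_eq_top]; trivial
    have : φ ⬝ᵥ v = 0 := by
      clear hv
      induction hv' using Submodule.iSup_induction' with
      | mem i x hx => exact hall i x hx
      | zero => simp
      | add x y _ _ hx hy => rw [dotProduct_add, hx, hy, add_zero]
    rw [this] at hv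
    exact zero_ne_one hv
  have hmap : ∀ v ∈ D i, v + (φ ⬝ᵥ v) • u ∈ D (s i) := by
    intro v hv
    rw [← hs i, ← tv_mulVec h]
    exact ⟨v, hv, toLin'_apply _ _⟩
  have hu : u ∈ D i ⊔ D (s i) := by
    have h2 := Submodule.smul_mem _ (φ ⬝ᵥ w)⁻¹ (Submodule.sub_mem _
      (Submodule.mem_sup_right (S := D i) (hmap w hw)) (Submodule.mem_sup_left hw))
    rwa [add_sub_cancel_left, smul_smul, inv_mul_cancel₀ hφw, one_smul] at h2
  by_cases hi : s i = i
  · left; exact ⟨i, by rwa [hi, sup_idem] at hu⟩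
  · right
    refine ⟨?_, i, s i, hu⟩
    have h1 : Module.finrank F (D i) ≤ 1 := by
      let L : D i →ₗ[F] F := (dotProductBilin F F φ).comp (D i).subtype
      have hL : Function.Injective L := by
        rw [injective_iff_map_eq_zero]
        rintro ⟨v, hv⟩ h0
        have h0 : φ ⬝ᵥ v = 0 := h0
        have := hmap v hv
        rw [h0, zero_smul, add_zero] at this
        exact Subtype.ext (IsMDecomposition.disjoint hD hi this hv)
      simpa using LinearMap.finrank_le_finrank_of_injective hL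
    have := hD.pos
    rw [hD.finrank_eq] at h1
    omega

/-- a sum of non-zero vectors from three different parts is not in the sum of two parts -/
lemma IsMDecomposition.not_mem_sup {t m : ℕ} {D : Fin t → Submodule F (ι → F)}
    (hD : IsMDecomposition m D) {S : Finset (Fin t)} {v : Fin t → ι → F} (hv : ∀ i, v i ∈ D i)
    (hv0 : ∀ i ∈ S, v i ≠ 0) {i j : Fin t} (h : ∑ k ∈ S, v k ∈ D i ⊔ D j) : S ⊆ {i, j} := by
  intro k hk
  by_contra hkij
  simp only [Finset.mem_insert, Finset.mem_singleton, not_or] at hkij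
  apply hv0 k hk
  have hdis : Disjoint (D k) (⨆ l, ⨆ (_ : l ≠ k), D l) := hD.indep k
  refine Submodule.disjoint_def.1 hdis _ (hv k) ?_
  have h0 : ∀ l, l ≠ k → D l ≤ ⨆ l, ⨆ (_ : l ≠ k), D l := fun l hl =>
    le_iSup₂ (f := fun l (_ : l ≠ k) => D l) l hl
  generalize (⨆ l, ⨆ (_ : l ≠ k), D l) = U at h0 ⊢
  have h1 : D i ⊔ D j ≤ U := sup_le (h0 i (Ne.symm hkij.1)) (h0 j (Ne.symm hkij.2))
  have h2 : ∑ l ∈ S.erase k, v l ∈ U :=
    Submodule.sum_mem _ fun l hl => h0 l (Finset.ne_of_mem_erase hl) (hv l)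
  have := Submodule.sub_mem _ (h1 h) h2
  rwa [← Finset.add_sum_erase S v hk, add_sub_cancel_right] at this

lemma IsMDecomposition.exists_ne_zero {t m : ℕ} {D : Fin t → Submodule F (ι → F)}
    (hD : IsMDecomposition m D) (i : Fin t) : ∃ v ∈ D i, v ≠ 0 := by
  apply Submodule.exists_mem_ne_zero_of_ne_bot
  intro h0
  have := hD.finrank_eq i
  rw [h0, finrank_bot] at this
  exact absurd hD.pos (by omega)

/-- The transvection with centre a sum of non-zero vectors from a set `S` of parts. -/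
lemma tv_not_mem_decomp {φ : ι → F} (hφ : φ ≠ 0) {t m : ℕ}
    {D : Fin t → Submodule F (ι → F)} (hD : IsMDecomposition m D) {S : Finset (Fin t)}
    {v : Fin t → ι → F} (hv : ∀ i, v i ∈ D i) (hv0 : ∀ i ∈ S, v i ≠ 0)
    (hS : 2 ≤ S.card) (hS' : m = 1 → 3 ≤ S.card) {u : ι → F} (hu : u = ∑ k ∈ S, v k)
    (h : φ ⬝ᵥ u = 0) : tv u φ h ∉ decompositionStabilizer D := by
  intro hm
  rcases tv_mem_decomp h hφ hD hm with ⟨i, hi⟩ | ⟨h1, i, j, hij⟩
  · have := IsMDecomposition.not_mem_sup hD hv hv0 (i := i) (j := i) (by rwa [sup_idem, ← hu])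
    have := Finset.card_le_card this
    simp at this
    omega
  · have := Finset.card_le_card (IsMDecomposition.not_mem_sup hD hv hv0 (hu ▸ hij))
    have h2 := Finset.card_le_two (a := i) (b := j)
    have := hS' h1
    omega

/-! ### functionals vanishing on two vectors -/

lemma exists_dot_eq_zero_two (hn : 3 ≤ Fintype.card ι) (u v : ι → F) :
    ∃ φ : ι → F, φ ≠ 0 ∧ φ ⬝ᵥ u = 0 ∧ φ ⬝ᵥ v = 0 := by
  let L : (ι → F) →ₗ[F] F × F :=
    ((dotProductBilin F F).flip u).prod ((dotProductBilin F F).flip v)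
  have hL : LinearMap.ker L ≠ ⊥ := by
    apply LinearMap.ker_ne_bot_of_finrank_lt
    simp; omega
  obtain ⟨φ, hφ, h0⟩ := Submodule.exists_mem_ne_zero_of_ne_bot hL
  have := LinearMap.mem_ker.1 hφ
  exact ⟨φ, h0, congrArg Prod.fst this, congrArg Prod.snd this⟩

lemma exists_dot_sep {u w : ι → F} (h : ∀ c : F, w ≠ c • u) :
    ∃ φ : ι → F, φ ⬝ᵥ u = 0 ∧ φ ⬝ᵥ w ≠ 0 := by
  have hw : w ∉ Submodule.span F {u} := by
    intro hm
    obtain ⟨c, hc⟩ := Submodule.mem_span_singleton.1 hm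
    exact h c hc.symm
  obtain ⟨f, hf, hmap⟩ := Submodule.exists_dual_map_eq_bot_of_notMem hw inferInstance
  have key : ∀ v, (fun i => f (Pi.single i 1)) ⬝ᵥ v = f v := by
    intro v
    conv_rhs => rw [pi_eq_sum_univ' v, map_sum]
    simp [dotProduct, mul_comm]
  refine ⟨fun i => f (Pi.single i 1), ?_, ?_⟩
  · rw [key]
    have : f u ∈ (Submodule.span F {u}).map f :=
      Submodule.mem_map_of_mem (Submodule.mem_span_singleton_self u)
    rwa [hmap] at this
  · rwa [key]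

/-! ### maximal subgroups -/

lemma eq_inf_of_max {G : Type*} [Group G] {K H M : Subgroup G} (h : IsMaximalIn K H) (hM : H ≤ M)
    (hK : ¬ K ≤ M) : H = M ⊓ K := by
  rcases h.2 (M ⊓ K) (le_inf hM h.1.le) inf_le_right with h1 | h1
  · exact h1.symm
  · exact absurd (h1 ▸ inf_le_left) hK

/-- the stabiliser of a set of vectors -/
def setStab (S : Set (ι → F)) : Subgroup (GL ι F) := stabilizing (glToMat ι F) S

lemma mem_setStab {S : Set (ι → F)} {g : GL ι F} :
    g ∈ setStab S ↔ ∀ v, v ∈ S ↔ (g : Matrix ι ι F) *ᵥ v ∈ S := Iff.rfl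

lemma mem_setStab_of_finite [Finite F] {S : Set (ι → F)} {g : GL ι F}
    (h : ∀ v ∈ S, (g : Matrix ι ι F) *ᵥ v ∈ S) : g ∈ setStab S := by
  refine mem_setStab.2 fun v => ⟨h v, fun hv => ?_⟩
  have hinj : Function.Injective fun x : S => (⟨(g : Matrix ι ι F) *ᵥ x.1, h _ x.2⟩ : S) := by
    intro x y hxy
    have := congrArg (fun z : S => ((g⁻¹ : GL ι F) : Matrix ι ι F) *ᵥ z.1) hxy
    simp only [inv_mulVec_val] at this
    exact Subtype.ext this
  obtain ⟨x, hx⟩ := Finite.surjective_of_injective hinj ⟨_, hv⟩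
  have := congrArg (fun z : S => ((g⁻¹ : GL ι F) : Matrix ι ι F) *ᵥ z.1) hx
  simp only [inv_mulVec_val] at this
  exact this ▸ x.2

/-- a strict overgroup contradicts maximality -/
lemma false_of_overgroup {G : Type*} [Group G] {K H M N : Subgroup G} (h : IsMaximalIn K H)
    (hM : H ≤ M) (hN : H ≤ N) (hK : ¬ K ≤ M) {g : G} (hgM : g ∈ M) (hgK : g ∈ K) (hgN : g ∉ N) :
    False := by
  have := eq_inf_of_max h hM hK
  exact hgN (hN (this ▸ ⟨hgM, hgK⟩))

end Cfsg.Agent.H7
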