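import Cfsg.Agent.H8.M3A
import Cfsg.Agent.H8.M3PartA
import Cfsg.Agent.H7.AschSubfield

/-! Groups generated by transvections in dimension three: the calculus of flags. -/

set_option autoImplicit false
set_option linter.unusedSectionVars false
set_option linter.unusedVariables false
set_option linter.unnecessarySimpa false
set_option linter.style.haveILetI false
set_option linter.unusedSimpArgs false

namespace Cfsg.Agent.H7.PA

open Cfsg.Geo Matrix Cfsg.Agent.H8 Cfsg.Agent.H8.M3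
open scoped MatrixGroups

variable {F : Type*} [Field F]

abbrev V3 (F : Type*) := Fin 3 → F

abbrev GL3 (F : Type*) [Field F] := GL (Fin 3) F

lemma dot3 (u v : V3 F) : u ⬝ᵥ v = u 0 * v 0 + u 1 * v 1 + u 2 * v 2 := by
  simp [dotProduct, Fin.sum_univ_three]

lemma ext3 {u v : V3 F} (h0 : u 0 = v 0) (h1 : u 1 = v 1) (h2 : u 2 = v 2) : u = v := by
  ext i; fin_cases i <;> assumption

lemma par_of_cross {v w : V3 F} (hv : v ≠ 0) (h : v ⨯₃ w = 0) : ∃ c : F, w = c • v := by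
  obtain ⟨i, hi⟩ := Function.ne_iff.1 hv
  have h0 := congrFun h 0
  have h1 := congrFun h 1
  have h2 := congrFun h 2
  simp [cross_apply] at h0 h1 h2
  refine ⟨w i / v i, ?_⟩
  ext j
  rw [Pi.smul_apply, smul_eq_mul, div_mul_eq_mul_div, eq_div_iff hi]
  fin_cases i <;> fin_cases j <;> simp <;> grind

lemma par_cross {φ v w : V3 F} (h1 : φ ⬝ᵥ v = 0) (h2 : φ ⬝ᵥ w = 0) (h : v ⨯₃ w ≠ 0) :
    ∃ c : F, φ = c • v ⨯₃ w := by
  refine par_of_cross h ?_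
  rw [← cross_anticomm, cross_cross_eq_smul_sub_smul', dotProduct_comm v, h1, h2]
  simp

/-- two distinct lines meet in one point only -/
lemma perp2 {φ ψ v w : V3 F} (h1 : φ ⬝ᵥ v = 0) (h2 : φ ⬝ᵥ w = 0) (h3 : ψ ⬝ᵥ v = 0)
    (h4 : ψ ⬝ᵥ w = 0) (hφ : φ ≠ 0) (hv : v ≠ 0) : (∃ c : F, ψ = c • φ) ∨ ∃ c : F, w = c • v := by
  by_cases h : v ⨯₃ w = 0
  · exact Or.inr (par_of_cross hv h)
  obtain ⟨a, rfl⟩ := par_cross h1 h2 h
  obtain ⟨b, rfl⟩ := par_cross h3 h4 h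
  have ha : a ≠ 0 := by rintro rfl; simp at hφ
  exact Or.inl ⟨b / a, by rw [smul_smul, div_mul_cancel₀ _ ha]⟩

lemma cross_ne {φ v w : V3 F} (hv : v ≠ 0) (h1 : φ ⬝ᵥ v = 0) (h2 : φ ⬝ᵥ w ≠ 0) : v ⨯₃ w ≠ 0 := fun h => by
  obtain ⟨c, rfl⟩ := par_of_cross hv h
  simp [h1] at h2

lemma ne_of_dot {φ v : V3 F} (h : φ ⬝ᵥ v ≠ 0) : φ ≠ 0 ∧ v ≠ 0 :=
  ⟨by rintro rfl; simp at h, by rintro rfl; simp at h⟩

lemma det_tv {v φ : V3 F} : (1 + vv v φ).det = 1 + φ ⬝ᵥ v := by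
  simp [det_fin_three, dot3]; ring

lemma tv_mulVec (v φ w : V3 F) : (1 + vv v φ) *ᵥ w = w + (φ ⬝ᵥ w) • v := by
  rw [add_mulVec, one_mulVec, vv_mulVec]

lemma vecMul_tv (ψ v φ : V3 F) : ψ ᵥ* (1 + vv v φ) = ψ + (ψ ⬝ᵥ v) • φ := by
  rw [vecMul_add, vecMul_one, vecMul_vv]

lemma tv_mul_tv (v φ w ψ : V3 F) :
    (1 + vv v φ) * (1 + vv w ψ) = 1 + vv v φ + vv w ψ + (φ ⬝ᵥ w) • vv v ψ := by
  rw [mul_add, mul_one, add_mul, one_mul, vv_mul_vv, add_assoc, add_assoc, add_assoc]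

lemma vv_neg (v φ : V3 F) : vv v (-φ) = -vv v φ := by ext; simp

/-- a transvection -/
def tvU (v φ : V3 F) (h : φ ⬝ᵥ v = 0) : GL3 F :=
  ⟨1 + vv v φ, 1 + vv v (-φ), by rw [tv_mul_tv, h, vv_neg]; simp,
    by rw [tv_mul_tv, neg_dotProduct, h, vv_neg]; simp⟩

/-- `P` contains the transvection with centre `v` and axis `φ` -/
def HT (P : Subgroup (GL3 F)) (v φ : V3 F) : Prop :=
  φ ⬝ᵥ v = 0 ∧ ∃ g ∈ P, (g : Mt F) = 1 + vv v φ

variable {P Q : Subgroup (GL3 F)} {u v w φ ψ χ : V3 F}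

lemma HT.mem (h : HT P v φ) : tvU v φ h.1 ∈ P := by
  obtain ⟨h, g, hg, e⟩ := h
  rwa [show tvU v φ h = g from Units.ext e.symm]

lemma HT.mono (h : HT P v φ) (hle : P ≤ Q) : HT Q v φ := ⟨h.1, _, hle h.mem, rfl⟩

lemma HT.congr (h : HT P v φ) (e : vv v φ = vv w ψ) : HT P w ψ :=
  ⟨by rw [← trace_vv, ← e, trace_vv, h.1], _, h.mem, e ▸ rfl⟩

lemma ht_zero (v : V3 F) : HT P v 0 := ⟨by simp, 1, P.one_mem, by ext; simp⟩

lemma ht_zero' (φ : V3 F) : HT P 0 φ := (ht_zero 0).congr (by ext; simp)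

lemma ht_smul {c : F} : HT P (c • v) φ ↔ HT P v (c • φ) :=
  ⟨fun h => h.congr (by rw [vv_smul, smul_vv]), fun h => h.congr (by rw [vv_smul, smul_vv])⟩

lemma HT.resc (h : HT P v φ) {c : F} (hc : c ≠ 0) : HT P (c⁻¹ • v) (c • φ) :=
  h.congr (by rw [vv_smul, smul_vv, smul_smul, mul_inv_cancel₀ hc, one_smul])

lemma HT.resc' (h : HT P v φ) {c : F} (hc : c ≠ 0) : HT P (c • v) (c⁻¹ • φ) := by
  simpa using h.resc (inv_ne_zero hc)

lemma HT.add (h : HT P v φ) (h' : HT P v ψ) : HT P v (φ + ψ) :=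
  ⟨by rw [add_dotProduct, h.1, h'.1, add_zero], _, P.mul_mem h.mem h'.mem, by
    change (1 + vv v φ) * (1 + vv v ψ) = _
    rw [tv_mul_tv, h.1, vv_add, zero_smul, add_zero, add_assoc]⟩

lemma HT.add' (h : HT P v φ) (h' : HT P w φ) : HT P (v + w) φ :=
  ⟨by rw [dotProduct_add, h.1, h'.1, add_zero], _, P.mul_mem h.mem h'.mem, by
    change (1 + vv v φ) * (1 + vv w φ) = _
    rw [tv_mul_tv, h'.1, add_vv, zero_smul, add_zero, add_assoc]⟩

lemma HT.neg (h : HT P v φ) : HT P v (-φ) :=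
  ⟨by rw [neg_dotProduct, h.1, neg_zero], _, P.inv_mem h.mem, rfl⟩

lemma HT.neg' (h : HT P v φ) : HT P (-v) φ := h.neg.congr (by ext; simp)

lemma HT.sub (h : HT P v φ) (h' : HT P v ψ) : HT P v (φ - ψ) := by
  rw [sub_eq_add_neg]; exact h.add h'.neg

lemma HT.sub' (h : HT P v φ) (h' : HT P w φ) : HT P (v - w) φ := by
  rw [sub_eq_add_neg]; exact h.add' h'.neg'

lemma HT.int (h : HT P v φ) (n : ℤ) : HT P v ((n : F) • φ) := by
  induction n using Int.induction_on with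
  | zero => simpa using ht_zero v
  | succ n ih => simpa [add_smul] using ih.add h
  | pred n ih => simpa [sub_smul] using ih.sub h

lemma HT.bot (h : HT P v φ) (p : ℕ) [Fact p.Prime] [CharP F p] {s : F} (hs : s ∈ (⊥ : Subfield F)) :
    HT P v (s • φ) := by
  obtain ⟨n, rfl⟩ := (_root_.mem_bot_iff_intCast p F).1 hs
  exact h.int n

lemma HT.conj (h : HT P v φ) {g : GL3 F} (hg : g ∈ P) :
    HT P ((g : Mt F) *ᵥ v) (φ ᵥ* ((g⁻¹ : GL3 F) : Mt F)) :=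
  ⟨by rw [← dotProduct_mulVec, mulVec_mulVec, Units.inv_mul, one_mulVec, h.1], _,
    P.mul_mem (P.mul_mem hg h.mem) (P.inv_mem hg), by
      change (g : Mt F) * (1 + vv v φ) * _ = _
      rw [mul_add, add_mul, mul_one, Units.mul_inv, conj_vv]⟩

lemma HT.conjT (h : HT P v φ) (h' : HT P w ψ) :
    HT P (v + (ψ ⬝ᵥ v) • w) (φ - (φ ⬝ᵥ w) • ψ) := by
  have := h.conj h'.mem
  change HT P ((1 + vv w ψ) *ᵥ v) (φ ᵥ* (1 + vv w (-ψ))) at this
  rwa [tv_mulVec, vecMul_tv, smul_neg, ← sub_eq_add_neg] at this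

lemma HT.comm (h : HT P v φ) (h' : HT P w ψ) (e : φ ⬝ᵥ w = 0) : HT P w ((ψ ⬝ᵥ v) • φ) := by
  have := h.conjT h'
  rw [e, zero_smul, sub_zero] at this
  have := this.sub' h
  rwa [add_sub_cancel_left, ht_smul] at this

/-! ### change of frame and duality -/

/-- conjugate subgroup -/
def cjP (P : Subgroup (GL3 F)) (g : GL3 F) : Subgroup (GL3 F) :=
  P.comap (MulAut.conj g).toMonoidHom

lemma mem_cjP {g A : GL3 F} : A ∈ cjP P g ↔ g * A * g⁻¹ ∈ P := Iff.rfl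

lemma mem_cjP' {g A : GL3 F} : g⁻¹ * A * g ∈ cjP P g ↔ A ∈ P := by
  rw [mem_cjP]; simp [mul_assoc]

lemma cjP_cjP (g : GL3 F) : cjP (cjP P g) g⁻¹ = P := by
  ext A; rw [mem_cjP, inv_inv, mem_cjP']

lemma HT.cj (h : HT P v φ) (g : GL3 F) :
    HT (cjP P g) (((g⁻¹ : GL3 F) : Mt F) *ᵥ v) (φ ᵥ* (g : Mt F)) :=
  ⟨by rw [← dotProduct_mulVec, mulVec_mulVec, Units.mul_inv, one_mulVec, h.1], _,
    mem_cjP'.2 h.mem, by
      change ((g⁻¹ : GL3 F) : Mt F) * (1 + vv v φ) * _ = _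
      rw [mul_add, add_mul, mul_one, Units.inv_mul, conj_vv]⟩

lemma HT.of_cj {g : GL3 F} (h : HT (cjP P g) v φ) :
    HT P ((g : Mt F) *ᵥ v) (φ ᵥ* ((g⁻¹ : GL3 F) : Mt F)) := by
  have := h.cj g⁻¹
  rwa [cjP_cjP, inv_inv] at this

lemma ht_cj {g : GL3 F} : HT (cjP P g) v (φ ᵥ* (g : Mt F)) ↔ HT P ((g : Mt F) *ᵥ v) φ :=
  ⟨fun h => by simpa using h.of_cj, fun h => by simpa using h.cj g⟩

lemma ht_cj' {g : GL3 F} : HT (cjP P g⁻¹) ((g : Mt F) *ᵥ v) φ ↔ HT P v (φ ᵥ* (g : Mt F)) :=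
  ⟨fun h => by simpa using h.of_cj, fun h => by simpa using h.cj g⁻¹⟩

/-- inverse transpose -/
def trI : GL3 F ≃* GL3 F where
  toFun g := ⟨((g⁻¹ : GL3 F) : Mt F)ᵀ, (g : Mt F)ᵀ, by rw [← transpose_mul, Units.mul_inv, transpose_one],
    by rw [← transpose_mul, Units.inv_mul, transpose_one]⟩
  invFun g := ⟨((g⁻¹ : GL3 F) : Mt F)ᵀ, (g : Mt F)ᵀ, by rw [← transpose_mul, Units.mul_inv, transpose_one],
    by rw [← transpose_mul, Units.inv_mul, transpose_one]⟩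
  left_inv g := Units.ext (transpose_transpose _)
  right_inv g := Units.ext (transpose_transpose _)
  map_mul' g h := Units.ext (by
    change (((g * h)⁻¹ : GL3 F) : Mt F)ᵀ = ((g⁻¹ : GL3 F) : Mt F)ᵀ * ((h⁻¹ : GL3 F) : Mt F)ᵀ
    rw [_root_.mul_inv_rev, Units.val_mul, transpose_mul])

/-- the dual subgroup -/
def trP (P : Subgroup (GL3 F)) : Subgroup (GL3 F) := P.comap trI.toMonoidHom

lemma trP_trP : trP (trP P) = P := by
  ext A
  change trI (trI A) ∈ P ↔ _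
  rw [show trI (trI A) = A from trI.left_inv A]

lemma HT.tr (h : HT P v φ) : HT (trP P) φ v :=
  ⟨by rw [dotProduct_comm, h.1], trI (tvU v φ h.1)⁻¹, by
    change trI (trI _) ∈ P
    rw [show trI (trI (tvU v φ h.1)⁻¹) = _ from trI.left_inv _]
    exact P.inv_mem h.mem, by
    change (1 + vv v φ)ᵀ = _
    ext i j
    simp [one_apply, eq_comm, mul_comm]⟩

lemma ht_tr : HT (trP P) φ v ↔ HT P v φ := ⟨fun h => trP_trP (P := P) ▸ h.tr, HT.tr⟩

lemma mem_sc {g : GL3 F} : g ∈ scalars (Fin 3) F ↔ ∃ c : F, (g : Mt F) = c • 1 := by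
  rw [mem_scalars_iff]
  refine ⟨fun ⟨c, h⟩ => ⟨c, h⟩, fun ⟨c, h⟩ => ⟨Units.mk0 c ?_, h⟩⟩
  rintro rfl
  have := g.det_ne_zero
  rw [h] at this
  simp at this

/-- transport of the quotient by scalars -/
noncomputable def modScEquiv (α : GL3 F ≃* GL3 F)
    (hα : ∀ g, α g ∈ scalars (Fin 3) F ↔ g ∈ scalars (Fin 3) F) (P : Subgroup (GL3 F)) :
    ModSc (P.comap α.toMonoidHom) ≃* ModSc P :=
  QuotientGroup.congr _ _
    { toFun := fun x => ⟨α x, x.2⟩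
      invFun := fun x => ⟨α.symm x, show α (α.symm x) ∈ P by simp⟩
      left_inv := fun x => Subtype.ext (α.symm_apply_apply _)
      right_inv := fun x => Subtype.ext (α.apply_symm_apply _)
      map_mul' := fun x y => Subtype.ext (map_mul α _ _) } (by
      ext x
      constructor
      · rintro ⟨y, hy, rfl⟩
        exact (hα _).2 hy
      · intro hx
        exact ⟨⟨α.symm x, show α (α.symm x) ∈ P by simp⟩, (hα _).1 (show α (α.symm x) ∈ _ by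
          rw [α.apply_symm_apply]; exact hx), Subtype.ext (α.apply_symm_apply _)⟩)

lemma conj_sc (g x : GL3 F) : MulAut.conj g x ∈ scalars (Fin 3) F ↔ x ∈ scalars (Fin 3) F := by
  have k : ∀ g x : GL3 F, x ∈ scalars (Fin 3) F → g * x * g⁻¹ ∈ scalars (Fin 3) F := fun g x h => by
    obtain ⟨c, h⟩ := mem_sc.1 h
    exact mem_sc.2 ⟨c, by simp [h]⟩
  exact ⟨fun h => by simpa [mul_assoc] using k g⁻¹ _ h, k g x⟩

lemma trI_sc (x : GL3 F) : trI x ∈ scalars (Fin 3) F ↔ x ∈ scalars (Fin 3) F := by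
  have k : ∀ x : GL3 F, x ∈ scalars (Fin 3) F → trI x ∈ scalars (Fin 3) F := fun x h => by
    obtain ⟨c, h⟩ := mem_sc.1 (inv_mem h)
    exact mem_sc.2 ⟨c, by
      change ((x⁻¹ : GL3 F) : Mt F)ᵀ = _
      simp [h]⟩
  exact ⟨fun h => trI.left_inv x ▸ k _ h, k x⟩

lemma sn_equiv {G H : Type*} [Group G] [Group H] (e : G ≃* H) (h : SN H) : SN G :=
  ⟨by have := h.simple; exact e.isSimpleGroup, fun k => h.nc fun a b => by
    rw [← e.apply_symm_apply a, ← e.apply_symm_apply b, ← map_mul, k, map_mul]⟩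

/-- generated by transvections and projectively simple -/
structure Hyp0 (P : Subgroup (GL3 F)) : Prop where
  le : ∀ Q : Subgroup (GL3 F), (∀ v φ, HT P v φ → HT Q v φ) → P ≤ Q
  sn : SN (ModSc P)

/-- irreducibility -/
def Irr (P : Subgroup (GL3 F)) : Prop :=
  ∀ v φ : V3 F, v ≠ 0 → φ ≠ 0 → ∃ g ∈ P, φ ⬝ᵥ (g : Mt F) *ᵥ v ≠ 0

lemma Hyp0.cj (h : Hyp0 P) (g : GL3 F) : Hyp0 (cjP P g) :=
  ⟨fun Q hQ A hA => by
    have := h.le (cjP Q g⁻¹) (fun v φ k => by simpa using (hQ _ _ (k.cj g)).cj g⁻¹) hA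
    simpa [mem_cjP, mul_assoc] using this,
  sn_equiv (modScEquiv _ (conj_sc g) P) h.sn⟩

lemma Hyp0.tr (h : Hyp0 P) : Hyp0 (trP P) :=
  ⟨fun Q hQ A hA => by
    have := h.le (trP Q) (fun v φ k => (hQ _ _ k.tr).tr) hA
    change trI (trI A) ∈ Q at this
    rwa [show trI (trI A) = A from trI.left_inv A] at this,
  sn_equiv (modScEquiv _ trI_sc P) h.sn⟩

lemma Irr.cj (h : Irr P) (g : GL3 F) : Irr (cjP P g) := fun v φ hv hφ => by
  obtain ⟨x, hx, e⟩ := h ((g : Mt F) *ᵥ v) (φ ᵥ* ((g⁻¹ : GL3 F) : Mt F))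
    (fun e => hv (by simpa using congrArg (((g⁻¹ : GL3 F) : Mt F) *ᵥ ·) e))
    (fun e => hφ (by simpa using congrArg (· ᵥ* (g : Mt F)) e))
  exact ⟨_, mem_cjP'.2 hx, by
    rwa [← dotProduct_mulVec, mulVec_mulVec, mulVec_mulVec] at e⟩

lemma Irr.tr (h : Irr P) : Irr (trP P) := fun v φ hv hφ => by
  obtain ⟨x, hx, e⟩ := h φ v hφ hv
  refine ⟨trI x⁻¹, ?_, ?_⟩
  · change trI (trI _) ∈ P
    rw [show trI (trI x⁻¹) = _ from trI.left_inv _]
    exact P.inv_mem hx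
  · change φ ⬝ᵥ (x : Mt F)ᵀ *ᵥ v ≠ 0
    rwa [mulVec_transpose, dotProduct_comm, ← dotProduct_mulVec]

lemma Hyp0.ind (h : Hyp0 P) {p : Mt F → Prop} (h1 : p 1)
    (hm : ∀ v φ A, HT P v φ → p A → p ((1 + vv v φ) * A)) {g : GL3 F} (hg : g ∈ P) : p g := by
  let Q : Subgroup (GL3 F) :=
    { carrier := {g | ∀ A, p A ↔ p (g * A)}
      one_mem' := fun A => by simp
      mul_mem' := fun {a b} ha hb A => by rw [hb, ha, Units.val_mul, mul_assoc]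
      inv_mem' := fun {a} ha A => by rw [ha (_ * A), ← mul_assoc, Units.mul_inv, one_mul] }
  have := h.le Q (fun v φ k => ⟨k.1, tvU v φ k.1, fun A => ⟨hm v φ A k, fun e => by
    have := hm v _ _ k.neg e
    rwa [← mul_assoc, show (1 + vv v (-φ)) * (tvU v φ k.1 : Mt F) = 1 from (tvU v φ k.1).inv_mul,
      one_mul] at this⟩, rfl⟩) hg
  simpa using (this 1).1 h1

lemma Hyp0.det (h : Hyp0 P) {g : GL3 F} (hg : g ∈ P) : (g : Mt F).det = 1 :=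
  h.ind (p := fun A => A.det = 1) det_one
    (fun v φ A k e => by rw [det_mul, det_tv, k.1, e, add_zero, mul_one]) hg

lemma mk_eq {a b : P} : (a : ModSc P) = b ↔ ∃ c : F, ((b : GL3 F) : Mt F) = c • ((a : GL3 F) : Mt F) := by
  rw [QuotientGroup.eq, Subgroup.mem_subgroupOf, mem_sc]
  refine exists_congr fun c => ?_
  change (((a : GL3 F)⁻¹ : GL3 F) : Mt F) * ((b : GL3 F) : Mt F) = _ ↔ _
  rw [Units.inv_mul_eq_iff_eq_mul, mul_smul_comm, mul_one]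

lemma mk_eq_one {a : P} : (a : ModSc P) = 1 ↔ ∃ c : F, ((a : GL3 F) : Mt F) = c • 1 := by
  rw [QuotientGroup.eq_one_iff, Subgroup.mem_subgroupOf, mem_sc]

lemma Hyp0.central (h : Hyp0 P) {x : GL3 F} (hx : x ∈ P) (hc : ∀ v φ, HT P v φ →
    ∃ c : F, (x : Mt F) * (1 + vv v φ) = c • ((1 + vv v φ) * x)) : ∃ c : F, (x : Mt F) = c • 1 := by
  refine (mk_eq_one (a := ⟨x, hx⟩)).1 (h.sn.center_eq fun g => ?_)
  obtain ⟨g, rfl⟩ := QuotientGroup.mk_surjective g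
  rw [← QuotientGroup.mk_mul, ← QuotientGroup.mk_mul, mk_eq]
  exact h.ind (p := fun A => ∃ c : F, (x : Mt F) * A = c • (A * x)) ⟨1, by simp⟩
    (fun v φ A k ⟨c, e⟩ => by
      obtain ⟨d, e'⟩ := hc v φ k
      exact ⟨d * c, by rw [← mul_assoc, e', smul_mul_assoc, mul_assoc, e, mul_smul_comm, smul_smul,
        mul_assoc]⟩) g.2

lemma tv_not_sc (h : φ ⬝ᵥ v = 0) (hv : v ≠ 0) (hφ : φ ≠ 0) (c : F) : 1 + vv v φ ≠ c • 1 := fun e => by
  have h1 := congrArg (· *ᵥ v) e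
  simp only [tv_mulVec, h, zero_smul, add_zero, smul_mulVec, one_mulVec] at h1
  have : c = 1 := smul_left_injective F hv (h1.symm.trans (one_smul F v).symm)
  rw [this, one_smul, add_eq_left, vv_eq_zero] at e
  tauto

lemma Hyp0.flag (h : Hyp0 P) : ∃ v φ, v ≠ 0 ∧ φ ≠ 0 ∧ HT P v φ := by
  by_contra k
  push Not at k
  have : ∀ a : ModSc P, a = 1 := fun a => by
    obtain ⟨g, rfl⟩ := QuotientGroup.mk_surjective a
    refine mk_eq_one.2 ⟨1, h.ind (p := fun A => A = (1 : F) • 1) (by simp) (fun v φ A k' e => ?_) g.2⟩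
    rw [e, vv_eq_zero.2 (by by_contra! h; exact k v φ h.1 h.2 k')]
    simp
  exact h.sn.nc fun a b => by rw [this a, this b]

lemma Hyp0.not_comm (h : Hyp0 P) (hc : ∀ v φ w ψ, HT P v φ → HT P w ψ →
    ∃ c : F, (1 + vv v φ) * (1 + vv w ψ) = c • ((1 + vv w ψ) * (1 + vv v φ))) : False := by
  obtain ⟨v, φ, hv, hφ, k⟩ := h.flag
  obtain ⟨c, e⟩ := h.central k.mem fun w ψ k' => hc v φ w ψ k k'
  exact tv_not_sc k.1 hv hφ c e

lemma lift_hom {X : Type*} [Group X] (β : P →* X)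
    (hβ : ∀ (x : P) (c : F), ((x : GL3 F) : Mt F) = c • 1 → β x = 1) :
    ∃ f : ModSc P →* X, ∀ x : P, f x = β x :=
  ⟨QuotientGroup.lift _ β fun x hx => by
    obtain ⟨c, e⟩ := mem_sc.1 (Subgroup.mem_subgroupOf.1 hx)
    exact hβ x c e, fun x => rfl⟩

/-- the conclusion -/
def Concl (P : Subgroup (GL3 F)) : Prop :=
  (∃ g F₀, IsSL3 P g F₀) ∨ (∃ g F₁ q, IsSU3 P g F₁ q) ∨
    ((2 : F) = 0 ∧ Nonempty (ModSc P ≃* alternatingGroup (Fin 6)) ∧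
      ∀ A ∈ P, (A : Mt F).trace ^ 4 = (A : Mt F).trace)

lemma Concl.of_cj {g : GL3 F} (h : Concl (cjP P g)) : Concl P := by
  have k : ∀ x A : GL3 F, (g * x)⁻¹ * A * (g * x) = x⁻¹ * (g⁻¹ * A * g) * x := fun x A => by group
  have d : ∀ A : GL3 F, ((g⁻¹ * A * g : GL3 F) : Mt F).det = (A : Mt F).det := fun A => by
    rw [Units.val_mul, Units.val_mul, det_units_conj']
  rcases h with ⟨x, k', h⟩ | ⟨x, k', q, h, h'⟩ | ⟨h1, ⟨e⟩, h⟩
  · exact Or.inl ⟨g * x, k', fun A => by rw [← mem_cjP' (g := g), h, k, d]⟩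
  · exact Or.inr (Or.inl ⟨g * x, k', q, h, fun A => by rw [← mem_cjP' (g := g), h', k, d]⟩)
  · refine Or.inr (Or.inr ⟨h1, ⟨(modScEquiv _ (conj_sc g) P).symm.trans e⟩, fun A hA => ?_⟩)
    have := h _ (mem_cjP'.2 hA)
    rwa [Units.val_mul, Units.val_mul, trace_units_conj'] at this

/-! ### frames -/

/-- the frame with given columns -/
noncomputable def fr (u v w : V3 F) (h : (cols u v w).det ≠ 0) : GL3 F :=
  GeneralLinearGroup.mkOfDetNeZero _ h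

lemma fr_mulVec (h : (cols u v w).det ≠ 0) (x : V3 F) :
    (fr u v w h : Mt F) *ᵥ x = x 0 • u + x 1 • v + x 2 • w := cols_mulVec _ _ _ _

lemma vecMul_fr (h : (cols u v w).det ≠ 0) (φ : V3 F) :
    φ ᵥ* (fr u v w h : Mt F) = ![φ ⬝ᵥ u, φ ⬝ᵥ v, φ ⬝ᵥ w] := by
  ext i
  fin_cases i <;> simp [fr, cols, vecMul, dot3]

lemma ht_fr (h : (cols u v w).det ≠ 0) {x φ : V3 F} :
    HT (cjP P (fr u v w h)) x ![φ ⬝ᵥ u, φ ⬝ᵥ v, φ ⬝ᵥ w] ↔ HT P (x 0 • u + x 1 • v + x 2 • w) φ := by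
  rw [← vecMul_fr h, ht_cj, fr_mulVec]

lemma det_cols (u v w : V3 F) : (cols u v w).det = (u ⨯₃ v) ⬝ᵥ w := by
  rw [dot3]; simp [cols, det_fin_three, cross_apply]; ring

lemma ext_cols {A B : Mt F} (h : (cols u v w).det ≠ 0) (h1 : A *ᵥ u = B *ᵥ u) (h2 : A *ᵥ v = B *ᵥ v)
    (h3 : A *ᵥ w = B *ᵥ w) : A = B := by
  have : A * (fr u v w h : Mt F) = B * (fr u v w h : Mt F) := by
    change A * cols u v w = B * cols u v w
    rw [mul_cols, mul_cols, h1, h2, h3]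
  exact (Units.mul_left_inj _).1 this

/-- opposite flags: centres and pole form a frame -/
lemma det_opp (h1 : φ ⬝ᵥ v = 0) (h2 : ψ ⬝ᵥ w = 0) (h3 : φ ⬝ᵥ w ≠ 0) (h4 : ψ ⬝ᵥ v ≠ 0) :
    (cols v w (φ ⨯₃ ψ)).det ≠ 0 := by
  rw [det_cols, cross_dot_cross, dotProduct_comm v φ, h1, dotProduct_comm v ψ, dotProduct_comm w φ]
  simp [h3, h4]

end Cfsg.Agent.H7.PA
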