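import Cfsg.Agent.H7.PA1
import Cfsg.Agent.H8.M3D
import Cfsg.Agent.H8.DicksonCore

/-! Groups generated by transvections: two-dimensional lemmas. -/

set_option autoImplicit false
set_option linter.unusedSectionVars false
set_option linter.unusedVariables false
set_option linter.unnecessarySimpa false
set_option linter.style.haveILetI false
set_option linter.unusedSimpArgs false

namespace Cfsg.Agent.H7.PA

open Cfsg.Geo Matrix Cfsg.Agent.H8 Cfsg.Agent.H8.M3 MulAction OnePoint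
open Matrix.ProjGenLinGroup (mk)
open scoped MatrixGroups

variable {F : Type*} [Field F]

abbrev up (s : F) : GL (Fin 2) F := mat 1 s 0 1 (by simp)

abbrev lo (t : F) : GL (Fin 2) F := mat 1 0 t 1 (by simp)

lemma fix_lemma {H X : Type*} [Group H] [MulAction H X] [Finite X] (p : ℕ) [Fact p.Prime] {u l : H}
    (hu : u ^ p = 1) (hl : l ^ p = 1) {a : X} (ha : u • a = a) (hu' : ∀ x : X, u • x = x → x = a) :
    ∃ x : X, l • x = x := by
  have k : ∀ u : H, u ^ p = 1 → IsPGroup p (Subgroup.zpowers u) := fun u hu ⟨_, n, rfl⟩ =>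
    ⟨1, Subtype.ext (by
      change (u ^ n) ^ p ^ 1 = 1
      rw [pow_one, ← _root_.zpow_natCast, ← _root_.zpow_mul, mul_comm, _root_.zpow_mul,
        _root_.zpow_natCast, hu, _root_.one_zpow])⟩
  by_cases h : p ∣ Nat.card X
  · obtain ⟨b, hb, hab⟩ := (k u hu).exists_fixed_point_of_prime_dvd_card_of_fixed_point X h (a := a)
      fun ⟨g, hg⟩ => (Subgroup.zpowers_le (H := stabilizer H a)).2 ha hg
    exact absurd (hu' b (hb ⟨u, Subgroup.mem_zpowers u⟩)).symm hab
  · obtain ⟨b, hb⟩ := (k l hl).nonempty_fixed_point_of_prime_not_dvd_card X h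
    exact ⟨b, hb ⟨l, Subgroup.mem_zpowers l⟩⟩

lemma up_pow (p : ℕ) [CharP F p] (s : F) : up s ^ p = 1 := by
  rw [upper_pow]; ext i j; fin_cases i <;> fin_cases j <;> simp

lemma lo_pow (p : ℕ) [CharP F p] (s : F) : lo s ^ p = 1 := by
  rw [lower_pow]; ext i j; fin_cases i <;> fin_cases j <;> simp

lemma exists_char (F : Type*) [Field F] [Finite F] : ∃ p : ℕ, p.Prime ∧ CharP F p := by
  obtain ⟨p, hp⟩ := CharP.exists F
  exact ⟨p, CharP.char_is_prime F p, hp⟩

variable [Finite F] {G : Subgroup (GL (Fin 2) F)}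

instance finPGL : Finite PGL(2, F) := Finite.of_surjective _ ProjGenLinGroup.mk_surjective

instance finOP : Finite (OnePoint F) := inferInstanceAs (Finite (Option F))

lemma up_mem_iff {s : F} : transl s ∈ G.map mk ↔ up s ∈ G := by
  obtain ⟨p, hp, _⟩ := exists_char F
  haveI := Fact.mk hp
  exact ⟨mem_of_mk_mem_map p (up_pow p s), fun h => ⟨_, h, rfl⟩⟩

lemma exists_swap {s t : F} (hs : s ≠ 0) (ht : t ≠ 0) (h1 : up s ∈ G) (h2 : lo t ∈ G) :
    ∃ B ∈ G, B 0 0 = 0 := by
  obtain ⟨p, hp, _⟩ := exists_char F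
  haveI := Fact.mk hp
  obtain ⟨⟨_, ⟨_, B, hB, rfl⟩, rfl⟩, hx⟩ := fix_lemma (H := G.map mk)
    (X := orbit (G.map mk) (∞ : OnePoint F)) p (u := ⟨_, _, h1, rfl⟩) (l := ⟨_, _, h2, rfl⟩)
    (Subtype.ext (by simp [← map_pow, up_pow])) (Subtype.ext (by simp [← map_pow, lo_pow]))
    (a := ⟨∞, mem_orbit_self _⟩) (Subtype.ext (transl_smul_infty s))
    (fun x hx => Subtype.ext (transl_fix hs (congrArg Subtype.val hx)))
  refine ⟨B, hB, ?_⟩
  have hx : mk (lo t) • mk B • (∞ : OnePoint F) = mk B • ∞ := congrArg Subtype.val hx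
  have : mk B • (∞ : OnePoint F) = (0 : F) := by
    generalize mk B • (∞ : OnePoint F) = x at hx
    induction x using OnePoint.rec with
    | infty => exact absurd (smul_infty_eq_infty.1 hx) ht
    | coe z =>
      rw [smul_coe_eq_coe] at hx
      simp at hx
      rw [show z = 0 by grind]
  simpa using smul_infty_eq_coe.1 this

theorem core_alt (H : Subgroup PGL(2, F)) (h4 : 3 ≤ Nat.card (translSub H))
    (hne : ∃ γ ∈ H, γ • (∞ : OnePoint F) ≠ ∞) :
    ((3 : F) = 0 ∧ Nat.card (translSub H) = 3 ∧ ∀ g : H, g ^ 2 = 1 ∨ g ^ 3 = 1 ∨ g ^ 5 = 1) ∨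
    ∃ (k : Subfield F) (α β : F) (hα : α ≠ 0), (∀ s, transl s ∈ H ↔ s / α ∈ k) ∧
      H ≤ H8.cj (mk (mat α β 0 1 (by simpa using hα))) (PG k) := by
  have := Fintype.ofFinite F
  obtain ⟨p, hp⟩ := CharP.exists F
  obtain ⟨n, hpp, hn⟩ := FiniteField.card F p
  have : Fact p.Prime := ⟨hpp⟩
  have : Nontrivial (translSub H) := Finite.one_lt_card_iff_nontrivial.mp (by omega)
  obtain ⟨s₀, hs₀⟩ := exists_ne (0 : translSub H)
  have hs₀' : (s₀ : F) ≠ 0 := fun e => hs₀ (Subtype.ext e)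
  rcases dickson p H with ⟨x, hx⟩ | ⟨x, y, hxy, hx⟩ | ⟨t, a, b, ht, hx⟩ | ⟨k, hk, hk2, hk'⟩ |
    ⟨k, g, -, hk⟩
  · obtain ⟨γ, hγ, hγ'⟩ := hne
    have := transl_fix hs₀' (hx s₀.2)
    subst this
    exact absurd (hx hγ) hγ'
  · have := card_translSub_le_two_of_le_pairStab hxy hx
    omega
  · have := card_translSub_le_two_of_le_pairStab (fun e => ht.ne_conj (coe_eq_coe.mp e)) hx
    omega
  · left
    have h1 := card_translSub_dvd H
    obtain ⟨s, -, hs⟩ : ∃ s ≤ (n : ℕ), Nat.card (translSub H) = p ^ s := by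
      rw [← Nat.dvd_prime_pow hpp, ← hn, ← Nat.card_eq_fintype_card]
      exact AddSubgroup.card_addSubgroup_dvd_card _
    rw [hs] at h1 h4 ⊢
    rcases hk' with hk' | ⟨rfl, rfl⟩
    · rcases s with _ | s
      · simp at h4
      · exact absurd ((dvd_pow_self p s.succ_ne_zero).trans h1) hk'
    · have h60 : Nat.card H = 60 := by omega
      rw [h60] at h1
      refine ⟨by exact_mod_cast CharP.cast_eq_zero F 3, ?_, hk2⟩
      rcases s with _ | _ | s
      · omega
      · rfl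
      · have : 9 ∣ 60 := (Dvd.intro_left (3 ^ s) (by ring)).trans h1
        omega
  · right
    have hle : H ≤ H8.cj g (PG k) := by
      rcases hk with rfl | rfl
      · exact cj_mono g (PS_le_PG k)
      · exact le_rfl
    have h1 : RatOver k (g⁻¹ • (∞ : OnePoint F)) := by
      refine ratOver_of_isUnip (mem_cj.mp (hle s₀.2)) ?_ ?_
      · intro e
        apply hs₀'
        rw [← transl_eq_one_iff]
        have : transl (s₀ : F) = g * (g⁻¹ * transl (s₀ : F) * g) * g⁻¹ := by group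
        rw [this, e]; simp
      · simpa using (isUnip_transl (s₀ : F)).conj g⁻¹
    obtain ⟨γ, hγ, hγ'⟩ := exists_PG_smul_infty h1
    have h2 : (g * γ) • (∞ : OnePoint F) = ∞ := by rw [mul_smul, hγ', smul_inv_smul]
    obtain ⟨a, ha⟩ := ProjGenLinGroup.mk_surjective (g * γ)
    rw [← ha, smul_infty_eq_infty] at h2
    have hd := a.det_ne_zero
    rw [det_fin_two, h2, mul_zero, sub_zero] at hd
    obtain ⟨a00, a11⟩ := mul_ne_zero_iff.mp hd
    have hα : a 0 0 / a 1 1 ≠ 0 := div_ne_zero a00 a11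
    have h3 : mk (mat (a 0 0 / a 1 1) (a 0 1 / a 1 1) 0 1 (by simpa using hα)) = g * γ := by
      rw [← ha]
      refine mk_eq_of_smul (a 1 1) a11 fun i j => ?_
      fin_cases i <;> fin_cases j <;> simp [h2, mul_div_cancel₀ _ a11]
    have hk2 : H = H8.cj (g * γ) (PS k) ∨ H = H8.cj (g * γ) (PG k) := by
      rwa [← H8.cj_cj, ← H8.cj_cj, cj_PS_of_mem hγ, cj_PG_of_mem hγ]
    refine ⟨k, a 0 0 / a 1 1, a 0 1 / a 1 1, hα, fun s => ?_, ?_⟩
    · have h5 : (g * γ)⁻¹ * transl s * (g * γ) = transl (s / (a 0 0 / a 1 1)) := by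
        rw [mul_assoc, inv_mul_eq_iff_eq_mul, ← h3, transl, transl, ← map_mul, ← map_mul]
        congr 1
        ext i j
        fin_cases i <;> fin_cases j <;> simp [Matrix.mul_apply, Fin.sum_univ_two]
        field_simp
        ring
      rcases hk2 with rfl | rfl
      · rw [mem_cj, h5]
        exact ⟨fun h => transl_mem_PG.mp (PS_le_PG k h), transl_mem_PS⟩
      · rw [mem_cj, h5, transl_mem_PG]
    · rw [h3, ← H8.cj_cj, cj_PG_of_mem hγ]
      exact hle

lemma mem_of_two_sq {k : Subfield F} {c : F} (h1 : 2 * c ∈ k) (h2 : c * c ∈ k) : c ∈ k := by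
  by_cases h : (2 : F) = 0
  · rw [mem_subfield_iff_pow] at h2 ⊢
    rw [mul_pow] at h2
    have : (c ^ Nat.card k - c) ^ 2 = 0 := by linear_combination h2 + (c * c - c ^ Nat.card k * c) * h
    exact sub_eq_zero.1 (eq_zero_of_pow_eq_zero this)
  · simpa [h] using k.div_mem h1 (ofNat_mem k 2)

lemma pow_scal {B : GL (Fin 2) F} {n : ℕ} (h : mk B ^ n = 1) : ∃ c : F, (B : M2 F) ^ n = c • 1 := by
  rw [← map_pow, H8.mk_eq_one_iff] at h
  refine ⟨(B ^ n) 0 0, ?_⟩
  rw [← Units.val_pow_eq_pow_val]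
  ext i j
  fin_cases i <;> fin_cases j <;> simp [h.1, h.2.1, h.2.2, -Units.val_pow_eq_pow_val]

theorem core2 (h3 : 3 ≤ Nat.card {s : F // up s ∈ G}) {t : F} (ht : t ≠ 0) (hl : lo t ∈ G) :
    (∃ (k : Subfield F) (α : F), α ≠ 0 ∧ (∀ s, up s ∈ G ↔ s / α ∈ k) ∧ α * t ∈ k) ∨
    ((3 : F) = 0 ∧ Nat.card {s : F // up s ∈ G} = 3 ∧ ∀ s, up s ∈ G → (s * t) ^ 5 = s * t) := by
  have hc : Nat.card (translSub (G.map mk)) = Nat.card {s : F // up s ∈ G} :=
    Nat.card_congr (Equiv.subtypeEquivRight fun s => up_mem_iff)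
  rcases core_alt (G.map mk) (hc ▸ h3) ⟨_, ⟨_, hl, rfl⟩, fun h => ht (smul_infty_eq_infty.1 h)⟩ with
    ⟨h1, h2, h⟩ | ⟨k, α, β, hα, h1, h2⟩
  · refine Or.inr ⟨h1, hc ▸ h2, fun s hs => ?_⟩
    have key : ∀ s, up s ∈ G → 2 + s * t = 0 ∨ (2 + s * t) ^ 2 = 1 ∨
        (2 + s * t) ^ 4 - 3 * (2 + s * t) ^ 2 + 1 = 0 := fun s hs => by
      have e1 : ((up s * lo t : GL (Fin 2) F) : M2 F).trace = 2 + s * t := by
        simp [trace_fin_two, mul_apply, Fin.sum_univ_two]; ring
      have e2 : ((up s * lo t : GL (Fin 2) F) : M2 F).det = 1 := by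
        simp [det_fin_two, mul_apply, Fin.sum_univ_two]
      have e3 : ((up s * lo t : GL (Fin 2) F) : M2 F) 1 0 ≠ 0 := by
        simpa [mul_apply, Fin.sum_univ_two] using ht
      rcases h ⟨_, _, G.mul_mem hs hl, rfl⟩ with h | h | h <;>
        obtain ⟨c, h⟩ := pow_scal (congrArg Subtype.val h)
      · exact Or.inl (e1 ▸ (u2 e3).1 h)
      · exact Or.inr (Or.inl (by simpa only [e1, e2] using (u2 e3).2.1 h))
      · exact Or.inr (Or.inr (by simpa only [e1, e2, mul_one, one_pow] using (u2 e3).2.2.2 h))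
    have k1 := key s hs
    have k2 := key (-s) (up_mem_iff.1 ((translSub (G.map mk)).neg_mem (x := s) (up_mem_iff.2 hs)))
    rw [neg_mul] at k2
    generalize s * t = τ at *
    rcases k1 with k1 | k1 | k1 <;> rcases k2 with k2 | k2 | k2 <;> grind
  · refine Or.inl ⟨k, α, hα, fun s => up_mem_iff.symm.trans (h1 s), ?_⟩
    obtain ⟨g, e, hg⟩ := mem_PG.1 (mem_cj.1 (h2 ⟨_, hl, rfl⟩))
    rw [eq_comm, mul_assoc, inv_mul_eq_iff_eq_mul, ← map_mul, ← map_mul] at e
    obtain ⟨c, hc0, e⟩ := exists_smul_of_mk_eq e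
    have e00 := e 0 0
    have e01 := e 0 1
    have e10 := e 1 0
    have e11 := e 1 1
    simp [mul_apply, Fin.sum_univ_two] at e00 e01 e10 e11
    have : c ∈ k := mem_of_two_sq
      (by
        convert k.add_mem (hg 0 0) (hg 1 1) using 1
        apply mul_left_cancel₀ hα
        grind)
      (by
        convert k.sub_mem (k.mul_mem (hg 0 0) (hg 1 1)) (k.mul_mem (hg 0 1) (hg 1 0)) using 1
        apply mul_left_cancel₀ hα
        grind)
    convert k.div_mem (hg 1 0) this using 1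
    rw [e10]
    field_simp

lemma dih {H : Type*} [Group H] [Finite H] {t : H} (h1 : t ≠ 1) (h2 : t * t = 1)
    (hc : ∀ c, c * t = t * c → c = 1 ∨ c = t) (h : H) : h * h = 1 ∨ t * h * (t * h) = 1 := by
  classical
  haveI := Fintype.ofFinite H
  let I : Finset H := Finset.univ.filter fun s => s * s = 1 ∧ s ≠ 1
  have k1 : Fintype.card H ≤ 2 * I.card := by
    refine Finset.card_le_mul_card_image_of_maps_to (s := Finset.univ) (f := fun g => g * t * g⁻¹)
      (fun g _ => Finset.mem_filter.2 ⟨Finset.mem_univ _, by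
        rw [show g * t * g⁻¹ * (g * t * g⁻¹) = g * (t * t) * g⁻¹ by group, h2]; simp,
        conj_ne_one h1⟩) 2 fun b _ => ?_
    rcases (Finset.univ.filter fun g => g * t * g⁻¹ = b).eq_empty_or_nonempty with e | ⟨g, hg⟩
    · simp [e]
    refine (Finset.card_le_card (t := {g, g * t}) fun x hx => ?_).trans Finset.card_le_two
    have e := (Finset.mem_filter.1 hx).2.trans (Finset.mem_filter.1 hg).2.symm
    rcases hc (g⁻¹ * x) (by
      rw [show g⁻¹ * x * t = g⁻¹ * (x * t * x⁻¹) * x by group, e]; group) with e | e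
    · simp [inv_mul_eq_one.1 e]
    · simp [inv_mul_eq_iff_eq_mul.1 e]
  have k2 : Disjoint I (I.image (t * ·)) := by
    rw [Finset.disjoint_left]
    intro x hx hx'
    obtain ⟨s, hs, rfl⟩ := Finset.mem_image.1 hx'
    obtain ⟨-, a1, a2⟩ := Finset.mem_filter.1 hx
    obtain ⟨-, b1, b2⟩ := Finset.mem_filter.1 hs
    rcases hc s (by
      rw [show s * t = t⁻¹ * (t * s * (t * s)) * s⁻¹ by group, a1, inv_eq_of_mul_eq_one_right h2,
        inv_eq_of_mul_eq_one_right b1, mul_one]) with e | e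
    · exact b2 e
    · exact a2 (e ▸ h2)
  have k3 : I ∪ I.image (t * ·) = Finset.univ := by
    refine Finset.eq_univ_of_card _ (le_antisymm (Finset.card_le_univ _) ?_)
    rw [Finset.card_union_of_disjoint k2, Finset.card_image_of_injective _ (mul_right_injective t)]
    omega
  rcases Finset.mem_union.1 (k3 ▸ Finset.mem_univ h) with e | e
  · exact Or.inl (Finset.mem_filter.1 e).2.1
  · obtain ⟨s, hs, rfl⟩ := Finset.mem_image.1 e
    rw [← mul_assoc t t, h2, one_mul]
    exact Or.inr (Finset.mem_filter.1 hs).2.1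

lemma dih2 (h2 : (2 : F) = 0) (h1 : up 1 ∈ G) (hT : ∀ s, up s ∈ G → s = 0 ∨ s = 1) {B : GL (Fin 2) F}
    (hB : B ∈ G) (h0 : B 0 1 = 0) : B 0 0 = B 1 1 ∨ B 1 0 = B 0 0 + B 1 1 := by
  have hd := B.det_ne_zero
  rw [det_fin_two, h0, zero_mul, sub_zero] at hd
  rcases dih (H := G.map mk) (t := ⟨transl 1, _, h1, rfl⟩)
    (fun e => one_ne_zero (transl_eq_one_iff.1 (congrArg Subtype.val e)))
    (Subtype.ext (by
      change transl 1 * transl 1 = 1
      rw [← transl_add, one_add_one_eq_two, h2, transl_zero])) (by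
      rintro ⟨_, g, hg, rfl⟩ e
      have e : mk g * mk (up 1) = mk (up 1) * mk g := congrArg Subtype.val e
      rw [← map_mul, ← map_mul] at e
      obtain ⟨c, hc0, e⟩ := exists_smul_of_mk_eq e
      have e00 := e 0 0
      have e10 := e 1 0
      have e01 := e 0 1
      have hd := g.det_ne_zero
      rw [det_fin_two] at hd
      simp [mul_apply, Fin.sum_univ_two] at e00 e01 e10
      have a1 : g 1 0 = 0 := by grind
      have a2 : g 0 0 ≠ 0 := by grind
      have a3 : g 1 1 = g 0 0 := by grind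
      have a4 : transl (g 0 1 / g 0 0) = mk g := mk_eq_of_smul (g 0 0) a2 fun i j => by
        fin_cases i <;> fin_cases j <;> simp [a1, a3, mul_div_cancel₀ _ a2]
      rcases hT _ (up_mem_iff.1 ⟨g, hg, a4.symm⟩) with e | e <;> rw [e] at a4
      · exact Or.inl (Subtype.ext (a4.symm.trans transl_zero))
      · exact Or.inr (Subtype.ext a4.symm)) ⟨_, B, hB, rfl⟩ with e | e
  · have e : mk B * mk B = 1 := congrArg Subtype.val e
    rw [← map_mul, H8.mk_eq_one_iff] at e
    simp [mul_apply, Fin.sum_univ_two, h0] at e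
    left
    grind
  · have e : mk (up 1) * mk B * (mk (up 1) * mk B) = 1 := congrArg Subtype.val e
    rw [← map_mul, ← map_mul, H8.mk_eq_one_iff] at e
    have e := e.1
    simp [mul_apply, Fin.sum_univ_two, h0] at e
    right
    grind

end Cfsg.Agent.H7.PA
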