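import Cfsg.Agent.H7.PA2
import Cfsg.Agent.H9.Sp.SL2

/-! Groups generated by transvections: plane groups, conjugacy of flags, the reducible case. -/

set_option autoImplicit false
set_option linter.unusedSectionVars false
set_option linter.unusedVariables false
set_option linter.unnecessarySimpa false
set_option linter.style.haveILetI false
set_option linter.unusedSimpArgs false

namespace Cfsg.Agent.H7.PA

open Cfsg.Geo Matrix Cfsg.Agent.H8 Cfsg.Agent.H8.M3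
open scoped MatrixGroups

variable {F : Type*} [Field F] {P Q : Subgroup (GL3 F)} {u v w o φ ψ χ θ : V3 F}

lemma inv_mulVec_mulVec (g : GL3 F) (x : V3 F) : ((g⁻¹ : GL3 F) : Mt F) *ᵥ (g : Mt F) *ᵥ x = x := by
  rw [mulVec_mulVec, Units.inv_mul, one_mulVec]

lemma mulVec_inv_mulVec (g : GL3 F) (x : V3 F) : (g : Mt F) *ᵥ ((g⁻¹ : GL3 F) : Mt F) *ᵥ x = x := by
  rw [mulVec_mulVec, Units.mul_inv, one_mulVec]

lemma gl_inj (g : GL3 F) {x y : V3 F} (h : (g : Mt F) *ᵥ x = (g : Mt F) *ᵥ y) : x = y := by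
  rw [← inv_mulVec_mulVec g x, h, inv_mulVec_mulVec]

lemma gl_ne (g : GL3 F) (h : v ≠ 0) : (g : Mt F) *ᵥ v ≠ 0 := fun e =>
  h (gl_inj g (by rw [e, mulVec_zero]))

lemma gl_ne' (g : GL3 F) (h : φ ≠ 0) : φ ᵥ* (g : Mt F) ≠ 0 := fun e =>
  h (by simpa using congrArg (· ᵥ* ((g⁻¹ : GL3 F) : Mt F)) e)

lemma dot_conj (g : GL3 F) (φ v : V3 F) :
    (φ ᵥ* ((g⁻¹ : GL3 F) : Mt F)) ⬝ᵥ (g : Mt F) *ᵥ v = φ ⬝ᵥ v := by
  rw [← dotProduct_mulVec, inv_mulVec_mulVec]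

lemma inv_eig {g : GL3 F} {c : F} (h : (g : Mt F) *ᵥ v = c • v) :
    ((g⁻¹ : GL3 F) : Mt F) *ᵥ v = c⁻¹ • v := by
  apply gl_inj g
  rw [mulVec_inv_mulVec, mulVec_smul, h, smul_smul]
  by_cases hc : c = 0
  · rw [hc, zero_smul] at h
    rw [gl_inj g (h.trans (mulVec_zero _).symm), smul_zero]
  · rw [inv_mul_cancel₀ hc, one_smul]

/-- the action on the plane spanned by two vectors -/
def Pl (P : Subgroup (GL3 F)) (u v : V3 F) : Subgroup (GL (Fin 2) F) where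
  carrier := {A | ∃ g ∈ P, (g : Mt F) *ᵥ u = A 0 0 • u + A 1 0 • v ∧
    (g : Mt F) *ᵥ v = A 0 1 • u + A 1 1 • v}
  one_mem' := ⟨1, one_mem _, by simp, by simp⟩
  mul_mem' := by
    rintro A B ⟨g, hg, h1, h2⟩ ⟨h, hh, h3, h4⟩
    refine ⟨g * h, mul_mem hg hh, ?_, ?_⟩ <;>
    · simp only [Units.val_mul, ← mulVec_mulVec, h3, h4, mulVec_add, mulVec_smul, h1, h2,
        Matrix.mul_apply, Fin.sum_univ_two]
      module
  inv_mem' := by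
    rintro A ⟨g, hg, h1, h2⟩
    have h := A.mul_inv
    have h00 := congrFun (congrFun h 0) 0
    have h01 := congrFun (congrFun h 0) 1
    have h10 := congrFun (congrFun h 1) 0
    have h11 := congrFun (congrFun h 1) 1
    simp only [Matrix.mul_apply, Fin.sum_univ_two, Matrix.one_apply_eq, ne_eq, zero_ne_one,
      one_ne_zero, not_false_eq_true, Matrix.one_apply_ne] at h00 h01 h10 h11
    refine ⟨g⁻¹, inv_mem hg, gl_inj g ?_, gl_inj g ?_⟩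
    · rw [mulVec_inv_mulVec, mulVec_add, mulVec_smul, mulVec_smul, h1, h2]
      linear_combination (norm := module) -(h00 • u) - h10 • v
    · rw [mulVec_inv_mulVec, mulVec_add, mulVec_smul, mulVec_smul, h1, h2]
      linear_combination (norm := module) -(h01 • u) - h11 • v

/-- the stabiliser of a point -/
def ptSt (o : V3 F) : Subgroup (GL3 F) where
  carrier := {g | ∃ c : F, (g : Mt F) *ᵥ o = c • o}
  one_mem' := ⟨1, by simp⟩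
  mul_mem' := fun ⟨c, h⟩ ⟨d, h'⟩ =>
    ⟨d * c, by rw [Units.val_mul, ← mulVec_mulVec, h', mulVec_smul, h, smul_smul]⟩
  inv_mem' := fun ⟨c, h⟩ => ⟨c⁻¹, inv_eig h⟩

/-- all determinants are one -/
def Det (P : Subgroup (GL3 F)) : Prop := ∀ g ∈ P, (g : Mt F).det = 1

lemma Det.cj (h : Det P) (g : GL3 F) : Det (cjP P g) := fun A hA => by
  have := h _ hA
  change ((g * A * g⁻¹ : GL3 F) : Mt F).det = 1 at this
  rwa [Units.val_mul, Units.val_mul, det_units_conj] at this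

lemma det_eig {A : Mt F} {a b c d e : F} (h : (cols u v w).det ≠ 0) (h1 : A *ᵥ u = a • u + b • v)
    (h2 : A *ᵥ v = c • u + d • v) (h3 : A *ᵥ w = e • w) : A.det = (a * d - c * b) * e := by
  have := det_mul A (cols u v w)
  rw [mul_cols, h1, h2, h3] at this
  apply mul_right_cancel₀ h
  rw [← this, det_cols, det_cols, dot3, dot3]
  simp [cross_apply]
  ring

lemma up_iff (hd : Det P) (h : (cols v w o).det ≠ 0) (h1 : φ ⬝ᵥ v = 0) (h2 : φ ⬝ᵥ w = 1)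
    (h3 : φ ⬝ᵥ o = 0) (s : F) : up s ∈ Pl (P ⊓ ptSt o) v w ↔ HT P v (s • φ) := by
  constructor
  · rintro ⟨g, ⟨hg, d, a3⟩, a1, a2⟩
    have := (hd g hg).symm.trans (det_eig h a1 a2 a3)
    simp at this a1 a2
    refine ⟨by simp [h1], g, hg, ext_cols h ?_ ?_ ?_⟩ <;> rw [tv_mulVec] <;>
      simp [h1, h2, h3, a1, a2, a3, ← this, add_comm]
  · rintro ⟨-, g, hg, e⟩
    exact ⟨g, ⟨hg, 1, by simp [e, tv_mulVec, h3]⟩, by simp [e, tv_mulVec, h1],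
      by simp [e, tv_mulVec, h2, add_comm]⟩

lemma lo_mem (h : HT P w ψ) (h3 : ψ ⬝ᵥ o = 0) : lo (ψ ⬝ᵥ v) ∈ Pl (P ⊓ ptSt o) v w := by
  obtain ⟨h1, g, hg, e⟩ := h
  exact ⟨g, ⟨hg, 1, by simp [e, tv_mulVec, h3]⟩, by simp [e, tv_mulVec], by simp [e, tv_mulVec, h1]⟩

lemma exists_opp (hi : Irr P) (h : HT P v φ) (hv : v ≠ 0) (hφ : φ ≠ 0) (hw : w ≠ 0) (hψ : ψ ≠ 0)
    (e : ψ ⬝ᵥ w = 0) :
    ∃ g ∈ P, ψ ⬝ᵥ (g : Mt F) *ᵥ v ≠ 0 ∧ (φ ᵥ* ((g⁻¹ : GL3 F) : Mt F)) ⬝ᵥ w ≠ 0 := by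
  by_contra k
  push Not at k
  obtain ⟨g₂, h2, a2⟩ := hi v ψ hv hψ
  obtain ⟨g₁, h1, a1⟩ := hi w φ hw hφ
  have b2 := k g₂ h2 a2
  rw [dotProduct_mulVec, ← inv_inv g₁] at a1
  have b1 : ψ ⬝ᵥ ((g₁⁻¹ : GL3 F) : Mt F) *ᵥ v = 0 := by
    by_contra k'
    exact a1 (k _ (P.inv_mem h1) k')
  have t := h.conj (P.inv_mem h1)
  have := k _ (P.mul_mem t.mem h2) (by
    rw [Units.val_mul, ← mulVec_mulVec]
    change ψ ⬝ᵥ (1 + vv _ _) *ᵥ _ ≠ 0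
    rwa [tv_mulVec, dotProduct_add, dotProduct_smul, b1, smul_zero, add_zero])
  rw [_root_.mul_inv_rev, Units.val_mul, ← vecMul_vecMul] at this
  change (_ ᵥ* (1 + vv _ _)) ⬝ᵥ _ = 0 at this
  rw [vecMul_tv, add_dotProduct, b2, zero_add, smul_dotProduct, neg_dotProduct, smul_eq_mul,
    mul_eq_zero, neg_eq_zero] at this
  rcases perp2 e b1 b2 (this.resolve_right a1) hψ hw with ⟨c, e'⟩ | ⟨c, e'⟩
  · have := (h.conj h2).1
    rw [e', smul_dotProduct, smul_eq_mul, mul_eq_zero] at this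
    rw [this.resolve_right a2, zero_smul] at e'
    exact gl_ne' _ hφ e'
  · have := t.1
    rw [e', dotProduct_smul, smul_eq_mul, mul_eq_zero] at this
    rw [this.resolve_right a1, zero_smul] at e'
    exact gl_ne _ hv e'

lemma exists_opp' (hi : Irr P) (h : HT P v φ) (hv : v ≠ 0) (hφ : φ ≠ 0) :
    ∃ w ψ, HT P w ψ ∧ φ ⬝ᵥ w = 1 ∧ ψ ⬝ᵥ v ≠ 0 := by
  obtain ⟨g, hg, a, b⟩ := exists_opp hi h hv hφ hv hφ h.1
  exact ⟨_, _, (h.conj hg).resc a, by rw [dotProduct_smul, smul_eq_mul, inv_mul_cancel₀ a],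
    by rw [smul_dotProduct]; exact mul_ne_zero a b⟩

variable [Finite F]

lemma opp_swap (hd : Det P) (h : HT P v φ) (h' : HT P w ψ) (h1 : φ ⬝ᵥ w ≠ 0) (h2 : ψ ⬝ᵥ v ≠ 0) :
    ∃ g ∈ P, ∃ a b : F, (g : Mt F) *ᵥ v = a • w ∧ φ ᵥ* ((g⁻¹ : GL3 F) : Mt F) = b • ψ := by
  have hD := det_opp h.1 h'.1 h1 h2
  obtain ⟨B, ⟨g, ⟨hg, d, a3⟩, a1, -⟩, hB⟩ := exists_swap h1 h2
    ((up_iff hd hD (φ := (φ ⬝ᵥ w)⁻¹ • φ) (by simp [h.1]) (by simp [h1]) (by simp) _).2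
      (by simpa [smul_smul, h1] using h)) (lo_mem h' (by simp))
  rw [hB, zero_smul, zero_add] at a1
  have ho : φ ⨯₃ ψ ≠ 0 := fun e => hD (by rw [e, det_cols, dotProduct_zero])
  have b1 := dot_conj g φ v
  have b3 := dot_conj g φ (φ ⨯₃ ψ)
  rw [a1, h.1, dotProduct_smul, smul_eq_zero] at b1
  rw [a3, dot_self_cross, dotProduct_smul, smul_eq_zero] at b3
  rcases perp2 h'.1 (dot_cross_self φ ψ)
    (b1.resolve_left fun e => gl_ne g (ne_of_dot h2).2 (by rw [a1, e, zero_smul]))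
    (b3.resolve_left fun e => gl_ne g ho (by rw [a3, e, zero_smul])) (ne_of_dot h2).1
    (ne_of_dot h1).2 with ⟨c, e⟩ | ⟨c, e⟩
  · exact ⟨g, hg, _, c, a1, e⟩
  · have := dot_self_cross φ ψ
    rw [e, dotProduct_smul, smul_eq_zero] at this
    exact absurd (by rw [e, this.resolve_right h1, zero_smul]) ho

lemma flag_conj (hd : Det P) (hi : Irr P) (h : HT P v φ) (hv : v ≠ 0) (hφ : φ ≠ 0) (h' : HT P w ψ)
    (hw : w ≠ 0) (hψ : ψ ≠ 0) : ∃ g ∈ P, ∃ a b : F, a ≠ 0 ∧ b ≠ 0 ∧ (g : Mt F) *ᵥ v = a • w ∧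
      φ ᵥ* ((g⁻¹ : GL3 F) : Mt F) = b • ψ := by
  obtain ⟨g, hg, a1, a2⟩ := exists_opp hi h hv hφ hw hψ h'.1
  obtain ⟨x, hx, a, b, b1, b2⟩ := opp_swap hd (h.conj hg) h' a2 a1
  rw [mulVec_mulVec, ← Units.val_mul] at b1
  rw [vecMul_vecMul, ← Units.val_mul, ← _root_.mul_inv_rev] at b2
  exact ⟨_, P.mul_mem hx hg, a, b, fun e => gl_ne _ hv (by rw [b1, e, zero_smul]),
    fun e => gl_ne' _ hφ (by rw [b2, e, zero_smul]), b1, b2⟩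

lemma ht_conj {g : GL3 F} (hg : g ∈ P) :
    HT P ((g : Mt F) *ᵥ v) (φ ᵥ* ((g⁻¹ : GL3 F) : Mt F)) ↔ HT P v φ :=
  ⟨fun h => by simpa using h.conj (P.inv_mem hg), fun h => h.conj hg⟩

/-- order of a root group -/
noncomputable def nT (P : Subgroup (GL3 F)) (v φ : V3 F) : ℕ := Nat.card {s : F // HT P v (s • φ)}

/-- order of the group of elations with a given centre -/
noncomputable def nA (P : Subgroup (GL3 F)) (v : V3 F) : ℕ := Nat.card {χ : V3 F // HT P v χ}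

lemma nT_eq (hd : Det P) (hi : Irr P) (h : HT P v φ) (hv : v ≠ 0) (hφ : φ ≠ 0) (h' : HT P w ψ)
    (hw : w ≠ 0) (hψ : ψ ≠ 0) : nT P v φ = nT P w ψ := by
  obtain ⟨g, hg, a, b, ha, hb, a1, a2⟩ := flag_conj hd hi h hv hφ h' hw hψ
  refine Nat.card_congr ((Equiv.mulRight₀ _ (mul_ne_zero ha hb)).subtypeEquiv fun s => ?_)
  rw [← ht_conj hg, smul_vecMul, a1, a2, ht_smul, smul_smul, smul_smul, mul_comm a, mul_assoc]
  rfl

lemma nA_eq (hd : Det P) (hi : Irr P) (h : HT P v φ) (hv : v ≠ 0) (hφ : φ ≠ 0) (h' : HT P w ψ)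
    (hw : w ≠ 0) (hψ : ψ ≠ 0) : nA P v = nA P w := by
  obtain ⟨g, hg, a, b, ha, hb, a1, -⟩ := flag_conj hd hi h hv hφ h' hw hψ
  refine Nat.card_congr (Equiv.subtypeEquiv
    ⟨fun χ => a • χ ᵥ* ((g⁻¹ : GL3 F) : Mt F), fun χ => a⁻¹ • χ ᵥ* (g : Mt F), fun χ => ?_,
      fun χ => ?_⟩ fun s => ?_)
  · simp [smul_vecMul, smul_smul, ha]
  · simp [smul_vecMul, smul_smul, ha]
  · rw [← ht_conj hg, a1, ht_smul]
    rfl

lemma opp_core (hd : Det P) (h : HT P v φ) (h' : HT P w ψ) (h1 : φ ⬝ᵥ w ≠ 0) (h2 : ψ ⬝ᵥ v ≠ 0)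
    (h3 : 3 ≤ nT P v φ) : (∃ k : Subfield F, (∀ s, HT P v (s • φ) ↔ s ∈ k) ∧ φ ⬝ᵥ w * ψ ⬝ᵥ v ∈ k) ∨
      ((3 : F) = 0 ∧ nT P v φ = 3 ∧ (φ ⬝ᵥ w * ψ ⬝ᵥ v) ^ 5 = φ ⬝ᵥ w * ψ ⬝ᵥ v) := by
  have k1 := h'.resc h1
  have k2 : φ ⬝ᵥ (φ ⬝ᵥ w)⁻¹ • w = 1 := by simp [h1]
  have k3 : ((φ ⬝ᵥ w) • ψ) ⬝ᵥ v = φ ⬝ᵥ w * ψ ⬝ᵥ v := by simp
  rw [← k3]
  have k4 := k3 ▸ mul_ne_zero h1 h2
  generalize (φ ⬝ᵥ w)⁻¹ • w = w' at *
  generalize (φ ⬝ᵥ w) • ψ = ψ' at *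
  have e := up_iff hd (det_opp h.1 k1.1 (k2 ▸ one_ne_zero) k4) h.1 k2 (dot_self_cross _ _)
  have hc : Nat.card {s // up s ∈ _} = nT P v φ := Nat.card_congr (Equiv.subtypeEquivRight e)
  rcases core2 (hc ▸ h3) k4 (lo_mem k1 (dot_cross_self _ _)) with ⟨k, α, hα, a1, a2⟩ | ⟨a1, a2, a3⟩
  · have hk : α ∈ k := by simpa using k.inv_mem ((a1 1).1 ((e 1).2 (by simpa using h)))
    refine Or.inl ⟨k, fun s => (e s).symm.trans ((a1 s).trans ⟨fun h => ?_, fun h => k.div_mem h hk⟩),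
      ?_⟩
    · simpa [hα] using k.mul_mem h hk
    · simpa [hα] using k.mul_mem (k.inv_mem hk) a2
  · exact Or.inr ⟨a1, hc ▸ a2, by simpa using a3 1 ((e 1).2 (by simpa using h))⟩

omit [Finite F] in
lemma Hyp0.normal (h : Hyp0 P) (K : Subgroup (GL3 F))
    (hK : ∀ g ∈ P, ∀ x ∈ K, g * x * g⁻¹ ∈ K) (hs : scalars (Fin 3) F ≤ K) :
    P ≤ K ∨ ∀ x ∈ P, x ∈ K → ∃ c : F, (x : Mt F) = c • 1 := by
  haveI : (K.subgroupOf P).Normal := ⟨fun x hx g => hK g g.2 x hx⟩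
  rcases h.sn.normal_cases ((K.subgroupOf P).map (QuotientGroup.mk' _))
    (Subgroup.Normal.map inferInstance _ (QuotientGroup.mk'_surjective _)) with e | e
  · refine Or.inr fun x hx hx' => (mk_eq_one (a := ⟨x, hx⟩)).1 (Subgroup.mem_bot.1 ?_)
    exact e ▸ ⟨⟨x, hx⟩, hx', rfl⟩
  · refine Or.inl fun x hx => ?_
    obtain ⟨y, hy, e⟩ := e ▸ Subgroup.mem_top ((⟨x, hx⟩ : P) : ModSc P)
    simpa using K.mul_mem hy (hs (Subgroup.mem_subgroupOf.1 (QuotientGroup.eq.1 e)))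

lemma red_line (h : Hyp0 P) (h2 : (2 : F) ≠ 0) (hθ : θ ≠ 0)
    (hR : ∀ v φ, HT P v φ → φ ≠ 0 → θ ⬝ᵥ v = 0) : False := by
  have hfix : ∀ g ∈ P, θ ᵥ* (g : Mt F) = θ := fun g hg =>
    h.ind (p := fun A => θ ᵥ* A = θ) (vecMul_one _) (fun v φ A k e => by
      rw [← vecMul_vecMul, vecMul_tv]
      by_cases h0 : φ = 0
      · simp [h0, e]
      · simp [hR v φ k h0, e]) hg
  have comm : ∀ v φ w ψ : V3 F, φ ⬝ᵥ w = 0 → ψ ⬝ᵥ v = 0 →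
      ∃ c : F, (1 + vv v φ) * (1 + vv w ψ) = c • ((1 + vv w ψ) * (1 + vv v φ)) := fun v φ w ψ a b =>
    ⟨1, by rw [tv_mul_tv, tv_mul_tv, a, b, one_smul, zero_smul, zero_smul, add_right_comm 1]⟩
  have comm0 : ∀ v φ w ψ : V3 F, vv v φ = 0 ∨ vv w ψ = 0 →
      ∃ c : F, (1 + vv v φ) * (1 + vv w ψ) = c • ((1 + vv w ψ) * (1 + vv v φ)) := by
    rintro v φ w ψ (e | e) <;> exact ⟨1, by simp [e]⟩
  let K : Subgroup (GL3 F) :=
    { carrier := {g | ∃ c : F, ∀ x, θ ⬝ᵥ x = 0 → (g : Mt F) *ᵥ x = c • x}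
      one_mem' := ⟨1, by simp⟩
      mul_mem' := fun ⟨c, a⟩ ⟨d, b⟩ => ⟨d * c, fun x hx => by
        rw [Units.val_mul, ← mulVec_mulVec, b x hx, mulVec_smul, a x hx, smul_smul]⟩
      inv_mem' := fun ⟨c, a⟩ => ⟨c⁻¹, fun x hx => inv_eig (a x hx)⟩ }
  rcases h.normal K (fun g hg x ⟨c, a⟩ => ⟨c, fun y hy => by
      rw [Units.val_mul, Units.val_mul, ← mulVec_mulVec, ← mulVec_mulVec, a, mulVec_smul,
        mulVec_inv_mulVec]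
      rw [dotProduct_mulVec, hfix _ (P.inv_mem hg), hy]⟩) (fun g hg => by
      obtain ⟨c, e⟩ := mem_sc.1 hg
      exact ⟨c, fun x _ => by rw [e, smul_mulVec, one_mulVec]⟩) with hK | hK
  · have k : ∀ v φ w ψ, HT P v φ → HT P w ψ → v ≠ 0 → φ ≠ 0 → ψ ≠ 0 → φ ⬝ᵥ w = 0 := by
      intro v φ w ψ a b hv hφ hψ
      obtain ⟨c, e⟩ := hK a.mem
      have e1 : (1 + vv v φ) *ᵥ v = c • v := e v (hR v φ a hφ)
      have e2 : (1 + vv v φ) *ᵥ w = c • w := e w (hR w ψ b hψ)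
      rw [tv_mulVec, a.1, zero_smul, add_zero] at e1
      obtain rfl : c = 1 := smul_left_injective F hv (e1.symm.trans (one_smul F v).symm)
      simpa [tv_mulVec, hv] using e2
    refine h.not_comm fun v φ w ψ a b => ?_
    by_cases h0 : vv v φ = 0 ∨ vv w ψ = 0
    · exact comm0 _ _ _ _ h0
    simp only [vv_eq_zero, not_or] at h0
    exact comm _ _ _ _ (k _ _ _ _ a b h0.1.1 h0.1.2 h0.2.2) (k _ _ _ _ b a h0.2.1 h0.2.2 h0.1.2)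
  have k : ∀ v φ w ψ, HT P v φ → HT P w ψ → v ≠ 0 → φ ≠ 0 → w ≠ 0 → ψ ≠ 0 → φ ⬝ᵥ w = 0 →
      ψ ⬝ᵥ v = 0 := by
    intro v φ w ψ a b hv hφ hw hψ e
    rcases perp2 (hR w ψ b hψ) (hR v φ a hφ) e a.1 hθ hw with ⟨c, rfl⟩ | ⟨c, rfl⟩
    · obtain ⟨d, e⟩ := hK _ a.mem ⟨1, fun x hx => by
        change (1 + vv _ _) *ᵥ _ = _
        simp [tv_mulVec, hx]⟩
      exact absurd e (tv_not_sc a.1 hv hφ d)
    · simp [b.1]
  refine h.not_comm fun v φ w ψ a b => ?_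
  by_cases h0 : vv v φ = 0 ∨ vv w ψ = 0
  · exact comm0 _ _ _ _ h0
  simp only [vv_eq_zero, not_or] at h0
  obtain ⟨⟨hv, hφ⟩, hw, hψ⟩ := h0
  by_cases h1 : φ ⬝ᵥ w = 0
  · exact comm _ _ _ _ h1 (k _ _ _ _ a b hv hφ hw hψ h1)
  have h3 : ψ ⬝ᵥ v ≠ 0 := fun e => h1 (k _ _ _ _ b a hw hψ hv hφ e)
  exfalso
  have tv := hR v φ a hφ
  have tw := hR w ψ b hψ
  have k1 := b.resc h1
  have k2 : φ ⬝ᵥ (φ ⬝ᵥ w)⁻¹ • w = 1 := by simp [h1]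
  have k4 : ((φ ⬝ᵥ w) • ψ) ⬝ᵥ v ≠ 0 := by simp [h1, h3]
  have k5 : θ ⬝ᵥ (φ ⬝ᵥ w)⁻¹ • w = 0 := by simp [tw]
  generalize (φ ⬝ᵥ w)⁻¹ • w = w' at *
  generalize (φ ⬝ᵥ w) • ψ = ψ' at *
  have hD := det_opp a.1 k1.1 (k2 ▸ one_ne_zero) k4
  obtain ⟨t, ht⟩ := par_cross tv k5 (cross_ne hv a.1 (k2 ▸ one_ne_zero))
  have ho : θ ⬝ᵥ φ ⨯₃ ψ' ≠ 0 := by
    rw [ht, smul_dotProduct, ← det_cols]
    exact smul_ne_zero (by rintro rfl; simp [hθ] at ht) hD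
  have hd1 : ∀ g ∈ P, ∀ d : F, (g : Mt F) *ᵥ (φ ⨯₃ ψ') = d • φ ⨯₃ ψ' → d = 1 := fun g hg d e => by
    have := congrArg (θ ⬝ᵥ ·) e
    simp only [dotProduct_mulVec, hfix g hg, dotProduct_smul, smul_eq_mul] at this
    exact mul_right_cancel₀ ho (by rw [← this, one_mul])
  obtain ⟨B, ⟨g, ⟨hg, d, a3⟩, a1, a2⟩, b1, b2, b3, b4⟩ := H9.Sp.neg_one_mem h2
    (Pl (P ⊓ ptSt (φ ⨯₃ ψ')) v w') (by
      rintro B ⟨g, ⟨hg, d, a3⟩, a1, a2⟩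
      have := (h.det hg).symm.trans (det_eig hD a1 a2 a3)
      rw [hd1 g hg d a3, mul_one] at this
      exact this.symm)
    ((up_iff (fun g hg => h.det hg) hD a.1 k2 (dot_self_cross _ _) 1).2 (by simpa using a)) k4
    (lo_mem k1 (dot_cross_self _ _))
  simp [b1, b2, b3, b4] at a1 a2
  obtain ⟨c, e⟩ := hK g hg ⟨-1, fun x hx => by
    have : x = (φ ⬝ᵥ x) • w' + ((ψ' ⬝ᵥ v)⁻¹ * ψ' ⬝ᵥ x) • v := by
      rw [← sub_eq_zero]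
      by_contra h0
      rcases perp2 (φ := φ) (ψ := ψ') (v := x - ((φ ⬝ᵥ x) • w' + ((ψ' ⬝ᵥ v)⁻¹ * ψ' ⬝ᵥ x) • v))
        (w := φ ⨯₃ ψ') (by simp [k2, a.1]) (by simp) (by simp [k1.1]; field_simp; ring) (by simp) hφ h0 with
        ⟨c, e⟩ | ⟨c, e⟩
      · simp [e, a.1] at k4
      · simp [e, hx, tv, k5] at ho
    rw [this, mulVec_add, mulVec_smul, mulVec_smul, a1, a2]
    module⟩
  rw [e, smul_mulVec, one_mulVec] at a1 a3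
  have e1 : c = -1 := smul_left_injective F hv (a1.trans (neg_one_smul F v).symm)
  have e2 := hd1 g hg c (by rw [e, smul_mulVec, one_mulVec])
  exact h2 (by linear_combination e1 - e2)

theorem Hyp0.irr (h : Hyp0 P) (h2 : (2 : F) ≠ 0) : Irr P := by
  intro v θ hv hθ
  by_contra k
  push Not at k
  by_cases h1 : ∀ u χ, HT P u χ → u ≠ 0 → χ ⬝ᵥ v = 0
  · exact red_line h.tr h2 hv fun χ u a b => by rw [dotProduct_comm]; exact h1 u χ (ht_tr.1 a) b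
  push Not at h1
  obtain ⟨u, χ, a, hu, b⟩ := h1
  have k0 : θ ⬝ᵥ v = 0 := by simpa using k 1 P.one_mem
  have k1 : ∀ x ψ, HT P x ψ → ∀ g ∈ P, ψ ⬝ᵥ (g : Mt F) *ᵥ v = 0 ∨ θ ⬝ᵥ x = 0 := fun x ψ c g hg => by
    have := k _ (P.mul_mem c.mem hg)
    rw [Units.val_mul, ← mulVec_mulVec] at this
    change θ ⬝ᵥ (1 + vv _ _) *ᵥ _ = 0 at this
    rw [tv_mulVec, dotProduct_add, k g hg, zero_add, dotProduct_smul] at this
    exact mul_eq_zero.1 this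
  have k2 : θ ⬝ᵥ u = 0 := by simpa [b] using k1 u χ a 1 P.one_mem
  refine red_line h h2 hθ fun x ψ c hψ => ?_
  by_contra h0
  have c1 : ψ ⬝ᵥ v = 0 := by simpa [h0] using k1 x ψ c 1 P.one_mem
  have c2 : ψ ⬝ᵥ (1 + vv u χ) *ᵥ v = 0 := (k1 x ψ c _ a.mem).resolve_right h0
  have c3 : ψ ⬝ᵥ u = 0 := by simpa [tv_mulVec, c1, b] using c2
  rcases perp2 c3 c1 k2 k0 hψ hu with ⟨d, e⟩ | ⟨d, e⟩
  · simp [e, c.1] at h0
  · simp [e, a.1] at b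

end Cfsg.Agent.H7.PA
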