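import Cfsg.Agent.H7.PA3
import Cfsg.Agent.H6.Basic

/-! Groups generated by transvections: the field of definition and the linear case. -/

set_option autoImplicit false
set_option linter.unusedSectionVars false
set_option linter.unusedVariables false
set_option linter.unnecessarySimpa false
set_option linter.style.haveILetI false
set_option linter.unusedSimpArgs false

namespace Cfsg.Agent.H7.PA

open Cfsg.Geo Matrix Cfsg.Agent.H8 Cfsg.Agent.H8.M3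
open scoped MatrixGroups

attribute [-simp] cons_dotProduct dotProduct_cons

variable {F : Type*} [Field F] {P Q : Subgroup (GL3 F)} {u v w o φ ψ χ θ : V3 F}

lemma f9 {i A D E : F} (h3 : (3 : F) = 0) (hi : i * i = -1) (hA : A ^ 5 = A) (hD : D ^ 5 = D)
    (hE : E ^ 5 = E) (h : ∀ z ∈ [2 * A - E + 2 * i * D,
      A * (1 + i) ^ 2 + (E - A - i * D) * (1 + i) + i * D,
      A * (1 - i) ^ 2 - (E - A - i * D) * (1 - i) + i * D], z ^ 5 = z) :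
    (E - A - i * D) ^ 2 - 4 * i * A * D = 0 := by
  haveI : CharP F 3 := (CharP.charP_iff_prime_eq_zero Nat.prime_three).2 (by exact_mod_cast h3)
  let f : ℤ√(-1) →+* F := Zsqrtd.lift ⟨i, by simpa using hi⟩
  have hf : ∀ z, f z = z.re + z.im * i := fun z => rfl
  have k : ∀ z, f z = 0 ↔ z.re % 3 = 0 ∧ z.im % 3 = 0 := fun z => by
    rw [hf]
    constructor
    · intro e
      have : ((z.re * z.re + z.im * z.im : ℤ) : F) = 0 := by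
        push_cast
        linear_combination (z.re - z.im * i) * e + (z.im : F) ^ 2 * hi
      rw [CharP.intCast_eq_zero_iff F 3] at this
      have h1 := Int.emod_emod_of_dvd (z.re * z.re + z.im * z.im) (dvd_refl 3)
      have h2 := Int.emod_eq_zero_of_dvd this
      have : z.re % 3 = 0 ∨ z.re % 3 = 1 ∨ z.re % 3 = 2 := by omega
      have : z.im % 3 = 0 ∨ z.im % 3 = 1 ∨ z.im % 3 = 2 := by omega
      rcases ‹z.re % 3 = 0 ∨ _› with a | a | a <;> rcases this with b | b | b <;>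
        simp [Int.add_emod, Int.mul_emod, a, b] at h2 ⊢
    · rintro ⟨a, b⟩
      rw [(CharP.intCast_eq_zero_iff F 3 _).2 (Int.dvd_of_emod_eq_zero a),
        (CharP.intCast_eq_zero_iff F 3 _).2 (Int.dvd_of_emod_eq_zero b)]
      simp
  have five : ∀ z : F, z ^ 5 = z → ∃ a ∈ [(⟨0, 0⟩ : ℤ√(-1)), ⟨1, 0⟩, ⟨-1, 0⟩, ⟨0, 1⟩, ⟨0, -1⟩], z = f a := by
    intro z h
    have : z * (z - 1) * (z + 1) * (z - i) * (z + i) = 0 := by
      linear_combination h - z * (z ^ 2 - 1) * hi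
    simp only [mul_eq_zero, sub_eq_zero, add_eq_zero_iff_eq_neg] at this
    simp [hf]
    tauto
  obtain ⟨a, ha, rfl⟩ := five A hA
  obtain ⟨d, hd, rfl⟩ := five D hD
  obtain ⟨e, he, rfl⟩ := five E hE
  have hj : i = f ⟨0, 1⟩ := by simp [hf]
  clear_value f
  subst hj
  have key : ∀ a ∈ [(⟨0, 0⟩ : ℤ√(-1)), ⟨1, 0⟩, ⟨-1, 0⟩, ⟨0, 1⟩, ⟨0, -1⟩],
      ∀ d ∈ [(⟨0, 0⟩ : ℤ√(-1)), ⟨1, 0⟩, ⟨-1, 0⟩, ⟨0, 1⟩, ⟨0, -1⟩],
      ∀ e ∈ [(⟨0, 0⟩ : ℤ√(-1)), ⟨1, 0⟩, ⟨-1, 0⟩, ⟨0, 1⟩, ⟨0, -1⟩],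
      (∀ z ∈ [2 * a - e + 2 * ⟨0, 1⟩ * d,
        a * (1 + ⟨0, 1⟩) ^ 2 + (e - a - ⟨0, 1⟩ * d) * (1 + ⟨0, 1⟩) + ⟨0, 1⟩ * d,
        a * (1 - ⟨0, 1⟩) ^ 2 - (e - a - ⟨0, 1⟩ * d) * (1 - ⟨0, 1⟩) + ⟨0, 1⟩ * d],
        (z ^ 5 - z).re % 3 = 0 ∧ (z ^ 5 - z).im % 3 = 0) →
      ((e - a - ⟨0, 1⟩ * d) ^ 2 - 4 * ⟨0, 1⟩ * a * d : ℤ√(-1)).re % 3 = 0 ∧
        ((e - a - ⟨0, 1⟩ * d) ^ 2 - 4 * ⟨0, 1⟩ * a * d : ℤ√(-1)).im % 3 = 0 := by decide +kernel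
  have := (k _).2 (key a ha d hd e he fun z hz => (k _).1 (by
    rw [map_sub, map_pow, h _ (by
      simp only [List.mem_cons, List.not_mem_nil, or_false] at hz ⊢
      rcases hz with rfl | rfl | rfl <;> simp [map_ofNat]), sub_self]))
  simpa [map_ofNat] using this

/-- all pair traces lie in `S` -/
def Pr (P : Subgroup (GL3 F)) (S : Set F) : Prop :=
  ∀ ⦃v φ w ψ : V3 F⦄, HT P v φ → HT P w ψ → φ ⬝ᵥ w * ψ ⬝ᵥ v ∈ S

lemma Pr.cj {S : Set F} (h : Pr P S) (g : GL3 F) : Pr (cjP P g) S := fun v φ w ψ a b => by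
  simpa only [dot_conj] using h a.of_cj b.of_cj

lemma ne3 (h : v ≠ 0) : v 0 ≠ 0 ∨ v 1 ≠ 0 ∨ v 2 ≠ 0 := by
  by_contra! k
  exact h (ext3 k.1 k.2.1 k.2.2)

lemma no25_std (hi : Irr P) (h3 : (3 : F) = 0) (h5 : Pr P {z | z ^ 5 = z}) {i : F} (hi2 : i * i = -1)
    (h1 : HT P ![1, 0, 0] ![0, 1, 0]) (h2 : HT P ![0, 1, 0] ![i, 0, 0]) : False := by
  have i0 : i ≠ 0 := by rintro rfl; simp at hi2
  have ml : ∀ x y s, HT P ![0, 1, 0] ![s, 0, 0] → HT P ![x, y, 0] ![-y, x, 0] →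
      HT P ![x, y + s * x, 0] ![-(y + s * x), x, 0] := fun x y s a b => by
    convert b.conjT a using 1 <;> refine ext3 ?_ ?_ ?_ <;> simp [dot3] <;> ring
  have mu : ∀ x y, HT P ![x, y, 0] ![-y, x, 0] → HT P ![x + y, y, 0] ![-y, x + y, 0] := fun x y b => by
    convert b.conjT h1 using 1 <;> refine ext3 ?_ ?_ ?_ <;> simp [dot3]
  have a0 : HT P ![1, 0, 0] ![-0, 1, 0] := by simpa using h1
  have a1 := ml _ _ _ h2 a0
  have a2 := ml _ _ (-i) (by simpa using h2.neg) a0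
  have key : ∀ c χ, HT P c χ → c 2 * χ 2 = 0 := fun c χ h => by
    have b0 : _ ^ 5 = _ := h5 h1 h
    have b1 : _ ^ 5 = _ := h5 h2.neg h
    have b2 : _ ^ 5 = _ := h5 a1 h
    have b3 : _ ^ 5 = _ := h5 a2 h
    have b4 : _ ^ 5 = _ := h5 (mu _ _ a1) h
    have b5 : _ ^ 5 = _ := h5 (mu _ _ a2) h
    have := f9 h3 hi2 b0 b1 b2 (fun z hz => by
      simp only [List.mem_cons, List.not_mem_nil, or_false] at hz
      rcases hz with rfl | rfl | rfl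
      · convert b3 using 1 <;> [congr 1; skip] <;> simp [dot3] <;> (clear * - hi2; grind)
      · convert b4 using 1 <;> [congr 1; skip] <;> simp [dot3] <;> (clear * - hi2; grind)
      · convert b5 using 1 <;> [congr 1; skip] <;> simp [dot3] <;> (clear * - hi2; grind))
    have h0 := h.1
    simp [dot3] at this h0
    have : (c 2 * χ 2) ^ 2 = 0 := by
      clear * - this h0 hi2
      grind
    exact eq_zero_of_pow_eq_zero this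
  obtain ⟨g, hg, e⟩ := hi ![1, 0, 0] ![0, 0, 1] (by simp) (by simp)
  have d1 := h1.conj hg
  have n1 := gl_ne' g⁻¹ (φ := ![0, 1, 0]) (by simp)
  obtain ⟨x, hx, e'⟩ := hi ![0, 0, 1] ![0, 1, 0] (by simp) (by simp)
  have d2 := h1.conj (P.inv_mem hx)
  have n2 := gl_ne x⁻¹ (v := ![1, 0, 0]) (by simp)
  rw [dotProduct_mulVec] at e'
  rw [inv_inv] at d2
  generalize (g : Mt F) *ᵥ _ = c₁ at *
  generalize _ ᵥ* ((g⁻¹ : GL3 F) : Mt F) = χ₁ at *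
  generalize ((x⁻¹ : GL3 F) : Mt F) *ᵥ _ = c at *
  generalize _ ᵥ* (x : Mt F) = χ at *
  simp [dot3] at e e'
  have k1 := (mul_eq_zero.1 (key _ _ d1)).resolve_left e
  have k2 : ∀ c χ, HT P c χ → χ 2 ≠ 0 → χ₁ ⬝ᵥ c = 0 := fun c χ h h' => by
    have := key _ _ (d1.conjT h)
    simpa [(mul_eq_zero.1 (key _ _ h)).resolve_right h', e, k1, h'] using this
  have k3 := k2 _ _ d2 e'
  have k4 := k2 _ _ (d2.conjT h1) (by simpa using e')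
  have k5 := k2 _ _ (d2.conjT h2) (by simpa using e')
  have k6 := (mul_eq_zero.1 (key _ _ d2)).resolve_right e'
  simp [dot3, k1, k6, vecHead, vecTail] at k3 k4 k5
  have k7 := ne3 n1
  have k8 := ne3 n2
  clear * - k1 k3 k4 k5 k6 k7 k8 i0
  grind

lemma no25 (hi : Irr P) (h3 : (3 : F) = 0) (h5 : Pr P {z | z ^ 5 = z}) (h : HT P v φ) (h' : HT P w ψ) :
    φ ⬝ᵥ w * ψ ⬝ᵥ v * (φ ⬝ᵥ w * ψ ⬝ᵥ v) ≠ -1 := fun e => by
  have h1 : φ ⬝ᵥ w ≠ 0 := fun k => by simp [k] at e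
  have h2 : ψ ⬝ᵥ v ≠ 0 := fun k => by simp [k] at e
  have k1 := h'.resc h1
  have k2 : φ ⬝ᵥ (φ ⬝ᵥ w)⁻¹ • w = 1 := by simp [h1]
  have k3 : ((φ ⬝ᵥ w) • ψ) ⬝ᵥ v = φ ⬝ᵥ w * ψ ⬝ᵥ v := by simp
  have k4 := k3 ▸ mul_ne_zero h1 h2
  rw [← k3] at e
  generalize (φ ⬝ᵥ w)⁻¹ • w = w' at *
  generalize (φ ⬝ᵥ w) • ψ = ψ' at *
  have hD := det_opp h.1 k1.1 (k2 ▸ one_ne_zero) k4
  refine no25_std (hi.cj (fr _ _ _ hD)) h3 (h5.cj _) e ?_ ?_
  · simpa [h.1, k2] using (ht_fr hD (P := P) (x := ![1, 0, 0]) (φ := φ)).2 (by simpa using h)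
  · simpa [k1.1] using (ht_fr hD (P := P) (x := ![0, 1, 0]) (φ := ψ')).2 (by simpa using k1)

/-- the root groups are lines over `k` -/
structure KS (P : Subgroup (GL3 F)) (k : Subfield F) : Prop where
  smul : ∀ ⦃v φ : V3 F⦄ ⦃s : F⦄, HT P v φ → s ∈ k → HT P v (s • φ)
  pair : Pr P k

lemma KS.cj {k : Subfield F} (h : KS P k) (g : GL3 F) : KS (cjP P g) k :=
  ⟨fun v φ s a b => by simpa [smul_vecMul] using (h.smul a.of_cj b).cj g, h.pair.cj g⟩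

lemma subfield_eq_of_card [Finite F] {k k' : Subfield F} (h : Nat.card k = Nat.card k') : k = k' := by
  ext x; rw [mem_subfield_iff_pow, mem_subfield_iff_pow, h]

theorem exists_KS [Finite F] (hd : Det P) (hi : Irr P) (h : HT P v φ) (hv : v ≠ 0) (hφ : φ ≠ 0)
    (h3 : 3 ≤ nT P v φ) : ∃ k, KS P k ∧ 3 ≤ Nat.card k := by
  have hc : ∀ {v φ} {k : Subfield F}, (∀ s, HT P v (s • φ) ↔ s ∈ k) → nT P v φ = Nat.card k :=
    fun e => Nat.card_congr (Equiv.subtypeEquivRight e)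
  have op := fun v' φ' w ψ (a : HT P v' φ') (b : HT P w ψ) (c : φ' ⬝ᵥ w ≠ 0) (d : ψ ⬝ᵥ v' ≠ 0) =>
    opp_core hd a b c d (nT_eq hd hi h hv hφ a (ne_of_dot d).2 (ne_of_dot c).1 ▸ h3)
  by_cases h4 : (3 : F) = 0 ∧ nT P v φ = 3
  · haveI : CharP F 3 := (CharP.charP_iff_prime_eq_zero Nat.prime_three).2 (by exact_mod_cast h4.1)
    haveI := Fact.mk Nat.prime_three
    have h5 : Pr P {z | z ^ 5 = z} := fun v' φ' w ψ a b => by
      by_cases c : φ' ⬝ᵥ w = 0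
      · simp [c]
      by_cases d : ψ ⬝ᵥ v' = 0
      · simp [d]
      rcases op _ _ _ _ a b c d with ⟨k, e, e'⟩ | e
      · rw [mem_subfield_iff_pow, ← hc e, ← nT_eq hd hi h hv hφ a (ne_of_dot d).2 (ne_of_dot c).1,
          h4.2] at e'
        change _ ^ 5 = _
        rw [show 5 = 2 + 3 by rfl, pow_add, e', ← pow_succ, e']
      · exact e.2.2
    refine ⟨⊥, ⟨fun v φ s a b => a.bot 3 b, fun v φ w ψ a b => ?_⟩, ?_⟩
    · have k1 : _ ^ 5 = _ := h5 a b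
      have k2 := no25 hi h4.1 h5 a b
      rw [SetLike.mem_coe, Subfield.mem_bot_iff_pow_eq_self F 3]
      generalize φ ⬝ᵥ w * ψ ⬝ᵥ v = z at *
      exact sub_eq_zero.1 (mul_left_cancel₀ (add_eq_zero_iff_eq_neg.not.2 k2) (by linear_combination k1))
    · rw [Subfield.card_bot F 3]
  have op' := fun v' φ' w ψ (a : HT P v' φ') (b : HT P w ψ) (c : φ' ⬝ᵥ w ≠ 0) (d : ψ ⬝ᵥ v' ≠ 0) =>
    (op _ _ _ _ a b c d).resolve_right fun e =>
      h4 ⟨e.1, (nT_eq hd hi h hv hφ a (ne_of_dot d).2 (ne_of_dot c).1).trans e.2.1⟩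
  obtain ⟨w, ψ, a, b, c⟩ := exists_opp' hi h hv hφ
  obtain ⟨k, e, -⟩ := op' _ _ _ _ h a (b ▸ one_ne_zero) c
  refine ⟨k, ⟨fun v' φ' s a' hs => ?_, fun v' φ' w ψ a b => ?_⟩, hc e ▸ h3⟩
  · by_cases hv' : v' = 0
    · exact hv' ▸ ht_zero' _
    by_cases hφ' : φ' = 0
    · simpa [hφ'] using ht_zero v'
    obtain ⟨w, ψ, a, b, c⟩ := exists_opp' hi a' hv' hφ'
    obtain ⟨k', e', -⟩ := op' _ _ _ _ a' a (b ▸ one_ne_zero) c
    rwa [e', subfield_eq_of_card ((hc e').symm.trans ((nT_eq hd hi a' hv' hφ' h hv hφ).trans (hc e)))]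
  · by_cases c : φ' ⬝ᵥ w = 0
    · simp [c]
    by_cases d : ψ ⬝ᵥ v' = 0
    · simp [d]
    obtain ⟨k', e', e''⟩ := op' _ _ _ _ a b c d
    rwa [subfield_eq_of_card ((hc e').symm.trans
      ((nT_eq hd hi a (ne_of_dot d).2 (ne_of_dot c).1 h hv hφ).trans (hc e)))] at e''

/-! ### rational subgroups -/

/-- extension of scalars -/
abbrev gm (k : Subfield F) : GL3 k →* GL3 F := GeneralLinearGroup.map k.subtype

lemma gm_val {k : Subfield F} (g : GL3 k) : (gm k g : Mt F) = (g : Mt k).map k.subtype := rfl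

lemma gm_det {k : Subfield F} (g : GL3 k) : (gm k g : Mt F).det = (g : Mt k).det :=
  (k.subtype.map_det _).symm

lemma mem_rat {k : Subfield F} {g : GL3 F} : g ∈ (gm k).range ↔ ∀ i j, g i j ∈ k := by
  refine ⟨fun ⟨x, e⟩ i j => e ▸ (x i j).2, fun h => ?_⟩
  have e : (of fun i j => (⟨g i j, h i j⟩ : k)).map k.subtype = g := rfl
  refine ⟨GeneralLinearGroup.mkOfDetNeZero (of fun i j => ⟨g i j, h i j⟩) fun e' => ?_, Units.ext e⟩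
  apply g.det_ne_zero
  rw [← e, ← RingHom.mapMatrix_apply, ← RingHom.map_det, e', map_zero]

lemma hasT_of {k : Subfield F} {v φ : V3 k} (h : HT P (k.subtype ∘ v) (k.subtype ∘ φ)) :
    ∃ g ∈ (P.comap (gm k)).map H6.gl0.toMonoidHom, ∀ x, g x = x + (φ ⬝ᵥ x) • v := by
  have h0 : φ ⬝ᵥ v = 0 := k.subtype.injective (by rw [RingHom.map_dotProduct, h.1, map_zero])
  refine ⟨_, ⟨tvU v φ h0, ?_, rfl⟩, fun x => tv_mulVec _ _ _⟩
  have : gm k (tvU v φ h0) = tvU _ _ h.1 := Units.ext (by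
    change (1 + vv v φ).map k.subtype = 1 + vv _ _
    ext i j
    simp [one_apply, apply_ite])
  change gm k _ ∈ P
  rw [this]
  exact h.mem

lemma Hyp0.rat {k : Subfield F} (h : Hyp0 P) (h1 : ∀ v φ, HT P v φ → ∀ i j, v i * φ j ∈ k) :
    P ≤ (gm k).range := h.le _ fun v φ a => ⟨a.1, tvU v φ a.1, mem_rat.2 fun i j => by
  change (1 : Mt F) i j + v i * φ j ∈ k
  refine k.add_mem ?_ (h1 v φ a i j)
  rw [one_apply]
  split_ifs
  exacts [k.one_mem, k.zero_mem], rfl⟩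

lemma isSL3_std {k : Subfield F} (hd : Det P) (h1 : P ≤ (gm k).range)
    (h2 : ∀ i j : Fin 3, i ≠ j → ∀ s ∈ k, HT P (Pi.single i 1) (s • Pi.single j 1)) : IsSL3 P 1 k := by
  intro A
  simp only [inv_one, one_mul, mul_one]
  refine ⟨fun h => ⟨hd A h, mem_rat.1 (h1 h)⟩, fun ⟨a, b⟩ => ?_⟩
  obtain ⟨A, rfl⟩ := mem_rat.2 b
  have k1 : ∀ i, H6.Full ((P.comap (gm k)).map H6.gl0.toMonoidHom) (Pi.single i 1) := fun i φ hφ => by
    have : HT P (k.subtype ∘ Pi.single i 1) (k.subtype ∘ fun j => φ (Pi.single j 1)) := by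
      have e : (k.subtype ∘ fun j => φ (Pi.single j 1)) =
          ∑ j, ((φ (Pi.single j 1) : k) : F) • (Pi.single j 1 : V3 F) := by
        ext l; simp [Finset.sum_apply, Pi.single_apply]
      rw [e, show k.subtype ∘ Pi.single i 1 = Pi.single i 1 by
        ext l; simp [Pi.single_apply, apply_ite]]
      refine Finset.sum_induction _ _ (fun _ _ => HT.add) (ht_zero _) fun j _ => ?_
      by_cases hj : i = j
      · simpa [← hj, hφ] using ht_zero _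
      · exact h2 i j hj _ (SetLike.coe_mem _)
    obtain ⟨g, hg, e⟩ := hasT_of this
    refine ⟨g, hg, fun x => ?_⟩
    rw [e, φ.pi_apply_eq_sum_univ x, dotProduct]
    congr 3
    funext j
    rw [smul_eq_mul, mul_comm, show (fun l => if j = l then 1 else 0 : V3 k) = Pi.single j 1 from
      funext fun l => by simp [Pi.single_apply, eq_comm]]
  obtain ⟨B, hB, e⟩ := H6.SLV_le_of_full (M := (P.comap (gm k)).map H6.gl0.toMonoidHom) (fun v => by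
    rw [← Finset.univ_sum_single v]
    refine (H6.fullSub _).sum_mem fun i _ => ?_
    rw [show Pi.single i (v i) = v i • (Pi.single i 1 : V3 k) by rw [← Pi.single_smul']; simp]
    exact (k1 i).smul _) ((H6.glEquiv_mem_SLV _ A).2 (by
      change GeneralLinearGroup.det A = 1
      exact Units.ext (k.subtype.injective ((gm_det A).symm.trans (a.trans (map_one _).symm)))))
  exact H6.gl0.injective e ▸ hB

lemma sl_frame {k : Subfield F} (h : Hyp0 P) (hk : KS P k) (h01 : HT P ![1, 0, 0] ![0, 1, 0])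
    (h02 : HT P ![1, 0, 0] ![0, 0, 1]) {a b c d : F} (ha : a ≠ 0) (hb : b ≠ 0) (hc : c ≠ 0) (hd : d ≠ 0)
    (h10 : HT P ![0, 1, 0] ![a, 0, 0]) (h12 : HT P ![0, 1, 0] ![0, 0, b])
    (h20 : HT P ![0, 0, 1] ![c, 0, 0]) (h21 : HT P ![0, 0, 1] ![0, d, 0]) : IsSL3 P 1 k := by
  have ka : a ∈ k := by simpa [dot3] using hk.pair h01 h10
  have kc : c ∈ k := by simpa [dot3] using hk.pair h02 h20
  have kb : b ∈ k := by
    simpa [dot3, hc] using k.div_mem (hk.pair (h12.comm h01 (by simp [dot3])) h20) kc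
  have kd : d ∈ k := by
    simpa [dot3, ha] using k.div_mem (hk.pair (h21.comm h02 (by simp [dot3])) h10) ka
  have e10 : HT P ![0, 1, 0] ![1, 0, 0] := by simpa [ha] using hk.smul h10 (k.inv_mem ka)
  have e12 : HT P ![0, 1, 0] ![0, 0, 1] := by simpa [hb] using hk.smul h12 (k.inv_mem kb)
  have e20 : HT P ![0, 0, 1] ![1, 0, 0] := by simpa [hc] using hk.smul h20 (k.inv_mem kc)
  have e21 : HT P ![0, 0, 1] ![0, 1, 0] := by simpa [hd] using hk.smul h21 (k.inv_mem kd)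
  refine isSL3_std (fun g hg => h.det hg) (h.rat fun w ψ a => ?_) fun i j hij s hs => hk.smul ?_ hs
  · have n10 : w 1 * ψ 0 ∈ k := by simpa [dot3] using hk.pair h01 a
    have n20 : w 2 * ψ 0 ∈ k := by simpa [dot3] using hk.pair h02 a
    have n01 : w 0 * ψ 1 ∈ k := by simpa [dot3] using hk.pair e10 a
    have n21 : w 2 * ψ 1 ∈ k := by simpa [dot3] using hk.pair e12 a
    have n02 : w 0 * ψ 2 ∈ k := by simpa [dot3] using hk.pair e20 a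
    have n12 : w 1 * ψ 2 ∈ k := by simpa [dot3] using hk.pair e21 a
    have d1 : w 1 * ψ 1 - w 0 * ψ 0 ∈ k := by
      convert k.add_mem (k.sub_mem (hk.pair (h01.conjT e10) a) n10) n01 using 1
      simp [dot3]; ring
    have d2 : w 2 * ψ 2 - w 0 * ψ 0 ∈ k := by
      convert k.add_mem (k.sub_mem (hk.pair (h02.conjT e20) a) n20) n02 using 1
      simp [dot3]; ring
    have n00 : w 0 * ψ 0 ∈ k := by
      by_cases z1 : w 1 * ψ 1 = 0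
      · simpa [z1] using d1
      by_cases z2 : w 2 * ψ 2 = 0
      · simpa [z2] using d2
      convert k.div_mem (k.mul_mem (k.mul_mem n01 n12) n20) (k.mul_mem n12 n21) using 1
      rw [eq_div_iff (by convert mul_ne_zero z1 z2 using 1; ring)]
      ring
    have n11 : w 1 * ψ 1 ∈ k := by simpa using k.add_mem d1 n00
    have n22 : w 2 * ψ 2 ∈ k := by simpa using k.add_mem d2 n00
    intro i j
    fin_cases i <;> fin_cases j <;> assumption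
  · have e0 : (Pi.single 0 1 : V3 F) = ![1, 0, 0] := ext3 rfl rfl rfl
    have e1 : (Pi.single 1 1 : V3 F) = ![0, 1, 0] := ext3 rfl rfl rfl
    have e2 : (Pi.single 2 1 : V3 F) = ![0, 0, 1] := ext3 rfl rfl rfl
    fin_cases i <;> fin_cases j <;> simp [e0, e1, e2] at hij ⊢ <;> assumption

/-- no centre lies on the axis of another centre -/
def AO (P : Subgroup (GL3 F)) : Prop :=
  ∀ ⦃v φ w ψ : V3 F⦄, HT P v φ → HT P w ψ → v ≠ 0 → φ ≠ 0 → ψ ≠ 0 → φ ⬝ᵥ w = 0 → ∃ c : F, w = c • v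

lemma three_centres (hi : Irr P) (h : HT P v φ) (hv : v ≠ 0) (hφ : φ ≠ 0) :
    ∃ w ψ u χ, HT P w ψ ∧ φ ⬝ᵥ w = 1 ∧ ψ ⬝ᵥ v ≠ 0 ∧ HT P u χ ∧ χ ≠ 0 ∧ (v ⨯₃ w) ⬝ᵥ u ≠ 0 := by
  obtain ⟨w, ψ, a, b, c⟩ := exists_opp' hi h hv hφ
  obtain ⟨g, hg, e⟩ := hi v _ hv (cross_ne hv h.1 (b ▸ one_ne_zero))
  exact ⟨w, ψ, _, _, a, b, c, h.conj hg, gl_ne' _ hφ, e⟩

theorem sl_case [Finite F] {k : Subfield F} (h : Hyp0 P) (hi : Irr P) (hk : KS P k) (ho : ¬ AO P) :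
    Concl P := by
  have hd : Det P := fun g hg => h.det hg
  have two : ∃ w φ ψ, w ≠ 0 ∧ φ ≠ 0 ∧ HT P w φ ∧ HT P w ψ ∧ ∀ c : F, ψ ≠ c • φ := by
    have k1 : ∀ v φ w ψ, HT P v φ → HT P w ψ → φ ≠ 0 → w ≠ 0 → φ ⬝ᵥ w = 0 → ψ ⬝ᵥ v ≠ 0 →
        ∃ w φ ψ, w ≠ 0 ∧ φ ≠ 0 ∧ HT P w φ ∧ HT P w ψ ∧ ∀ c : F, ψ ≠ c • φ :=
      fun v φ w ψ a b c c' d e => ⟨w, _, ψ, c', smul_ne_zero e c, a.comm b d, b, fun t e' => e (by
        rw [e']; simp [a.1])⟩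
    simp only [AO, not_forall] at ho
    obtain ⟨v, φ, w, ψ, a, b, hv, hφ, hψ, e, e'⟩ := ho
    push Not at e'
    have hw : w ≠ 0 := fun e => e' 0 (by simp [e])
    by_cases c : ψ ⬝ᵥ v = 0
    swap
    · exact k1 _ _ _ _ a b hφ hw e c
    obtain ⟨t, rfl⟩ := (perp2 a.1 e c b.1 hφ hv).resolve_right fun ⟨c, e⟩ => e' c e
    have ht : t ≠ 0 := by rintro rfl; simp at hψ
    rw [← ht_smul] at b
    obtain ⟨u, χ, d, d1, d2⟩ := exists_opp' hi a hv hφ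
    have t1 : χ ⬝ᵥ v ∈ k := by simpa [d1] using hk.pair a d
    have t2 : χ ⬝ᵥ t • w ∈ k := by simpa only [d1, one_mul, SetLike.mem_coe] using hk.pair b d
    refine k1 u χ _ φ d ((ht_smul.2 (hk.smul a t2)).sub' (ht_smul.2 (hk.smul b t1))) (ne_of_dot d2).1
      (fun e => e' ((χ ⬝ᵥ v * t)⁻¹ * χ ⬝ᵥ t • w) ?_) (by simp; ring) (d1 ▸ one_ne_zero)
    rw [mul_smul, sub_eq_zero.1 e, smul_smul, smul_smul, mul_assoc, inv_mul_cancel₀ (mul_ne_zero d2 ht),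
      one_smul]
  obtain ⟨w₀, φ₀, ψ₀, n1, n2, a1, a2, a3⟩ := two
  have two : ∀ v χ, HT P v χ → v ≠ 0 → χ ≠ 0 →
      ∃ φ ψ, φ ≠ 0 ∧ HT P v φ ∧ HT P v ψ ∧ ∀ c : F, ψ ≠ c • φ := fun v χ a hv hχ => by
    obtain ⟨g, hg, s, t, hs, -, e, -⟩ := flag_conj hd hi a1 n1 n2 a hv hχ
    refine ⟨_, _, smul_ne_zero hs (gl_ne' g⁻¹ n2), ht_smul.1 (e ▸ a1.conj hg),
      ht_smul.1 (e ▸ a2.conj hg), fun c e => a3 c ?_⟩
    rw [smul_comm, (smul_right_injective _ hs).eq_iff, ← smul_vecMul] at e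
    simpa using congrArg (· ᵥ* (g : Mt F)) e
  have join : ∀ v φ w ψ, HT P v φ → HT P w ψ → φ ≠ 0 → ψ ≠ 0 → v ⨯₃ w ≠ 0 →
      ∃ χ, χ ≠ 0 ∧ HT P v χ ∧ χ ⬝ᵥ w = 0 := fun v φ w ψ a b hφ hψ e => by
    have hv : v ≠ 0 := by rintro rfl; simp at e
    have hw : w ≠ 0 := by rintro rfl; simp at e
    obtain ⟨φ₁, φ₂, c0, c1, c2, c3⟩ := two v φ a hv hφ
    obtain ⟨ψ₁, ψ₂, d0, d1, d2, d3⟩ := two w ψ b hw hψ
    obtain ⟨ρ, r1, r2⟩ : ∃ ρ, HT P w ρ ∧ ρ ⬝ᵥ v ≠ 0 := by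
      by_contra! k
      rcases perp2 (k _ d1) d1.1 (k _ d2) d2.1 d0 hv with ⟨c, e⟩ | ⟨c, e'⟩
      · exact d3 c e
      · simp [e'] at e
    by_cases z : φ₁ ⬝ᵥ w = 0
    · exact ⟨_, c0, c1, z⟩
    refine ⟨_, fun e => c3 ((φ₁ ⬝ᵥ w * ρ ⬝ᵥ v)⁻¹ * (φ₂ ⬝ᵥ w * ρ ⬝ᵥ v)) ?_,
      (hk.smul c1 (hk.pair c2 r1)).sub (hk.smul c2 (hk.pair c1 r1)), by simp; ring⟩
    rw [mul_smul, sub_eq_zero.1 e, smul_smul, inv_mul_cancel₀ (mul_ne_zero z r2), one_smul]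
  obtain ⟨w, ψ, u, χ, b1, b2, b3, b4, b5, b6⟩ := three_centres hi a1 n1 n2
  have hψ := (ne_of_dot b3).1
  have b6' : (w₀ ⨯₃ u) ⬝ᵥ w ≠ 0 := by
    rwa [dotProduct_comm, triple_product_permutation, ← cross_anticomm, dotProduct_neg, neg_ne_zero,
      ← triple_product_permutation, dotProduct_comm]
  obtain ⟨φ₂, p0, p1, p2⟩ := join _ _ _ _ a1 b1 n2 hψ (ne_of_dot b6).1
  obtain ⟨φ₁, q0, q1, q2⟩ := join _ _ _ _ a1 b4 n2 b5 (ne_of_dot b6').1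
  have k1 : ∀ {x y z φ : V3 F}, φ ≠ 0 → φ ⬝ᵥ x = 0 → φ ⬝ᵥ y = 0 → (x ⨯₃ y) ⬝ᵥ z ≠ 0 → φ ⬝ᵥ z ≠ 0 := by
    intro x y z φ a b c d
    obtain ⟨t, rfl⟩ := par_cross b c (ne_of_dot d).1
    rw [smul_dotProduct]
    exact smul_ne_zero (by rintro rfl; simp at a) d
  have p3 := k1 p0 p1.1 p2 b6
  have q3 := k1 q0 q1.1 q2 b6'
  have c1 := b1.resc q3
  have c4 := b4.resc p3
  have hD : (w₀ ⨯₃ ((φ₁ ⬝ᵥ w)⁻¹ • w)) ⬝ᵥ ((φ₂ ⬝ᵥ u)⁻¹ • u) ≠ 0 := by simp [p3, q3, b6]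
  have c2 : φ₁ ⬝ᵥ (φ₁ ⬝ᵥ w)⁻¹ • w = 1 := by simp [q3]
  have c3 : φ₂ ⬝ᵥ (φ₁ ⬝ᵥ w)⁻¹ • w = 0 := by simp [p2]
  have c5 : φ₁ ⬝ᵥ (φ₂ ⬝ᵥ u)⁻¹ • u = 0 := by simp [q2]
  have c6 : φ₂ ⬝ᵥ (φ₂ ⬝ᵥ u)⁻¹ • u = 1 := by simp [p3]
  have c7 := smul_ne_zero q3 hψ
  have c8 := smul_ne_zero p3 b5
  generalize (φ₁ ⬝ᵥ w)⁻¹ • w = x at *
  generalize (φ₂ ⬝ᵥ u)⁻¹ • u = y at *
  have hD1 : (x ⨯₃ y) ⬝ᵥ w₀ ≠ 0 := by
    rwa [dotProduct_comm, triple_product_permutation, triple_product_permutation, dotProduct_comm]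
  have hD2 : (y ⨯₃ w₀) ⬝ᵥ x ≠ 0 := by
    rwa [dotProduct_comm, triple_product_permutation, dotProduct_comm]
  have an : ∀ {x y z : V3 F}, (x ⨯₃ y) ⬝ᵥ z ≠ 0 → (y ⨯₃ x) ⬝ᵥ z ≠ 0 := fun e => by
    rwa [← cross_anticomm, neg_dotProduct, neg_ne_zero]
  obtain ⟨χ₁, r0, r1, r2⟩ := join _ _ _ _ c1 c4 c7 c8 (ne_of_dot hD1).1
  obtain ⟨χ₂, s0, s1, s2⟩ := join _ _ _ _ c1 a1 c7 n2 (ne_of_dot (an hD)).1
  obtain ⟨χ₃, t0, t1, t2⟩ := join _ _ _ _ c4 c1 c8 c7 (ne_of_dot (an hD1)).1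
  obtain ⟨χ₄, u0, u1, u2⟩ := join _ _ _ _ c4 a1 c8 n2 (ne_of_dot hD2).1
  have hF := (det_cols _ _ _).trans_ne hD
  refine Concl.of_cj (g := fr _ _ _ hF) (Or.inl ⟨1, k, sl_frame (h.cj _) (hk.cj _) ?_ ?_
    (k1 r0 r1.1 r2 hD1) (k1 s0 s1.1 s2 (an hD)) (k1 t0 t1.1 t2 (an hD1)) (k1 u0 u1.1 u2 hD2)
    ?_ ?_ ?_ ?_⟩)
  · simpa [q1.1, c2, c5] using (ht_fr hF (P := P) (x := ![1, 0, 0]) (φ := φ₁)).2 (by simpa using q1)
  · simpa [p1.1, c3, c6] using (ht_fr hF (P := P) (x := ![1, 0, 0]) (φ := φ₂)).2 (by simpa using p1)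
  · simpa [r1.1, r2] using (ht_fr hF (P := P) (x := ![0, 1, 0]) (φ := χ₁)).2 (by simpa using r1)
  · simpa [s1.1, s2] using (ht_fr hF (P := P) (x := ![0, 1, 0]) (φ := χ₂)).2 (by simpa using s1)
  · simpa [t1.1, t2] using (ht_fr hF (P := P) (x := ![0, 0, 1]) (φ := χ₃)).2 (by simpa using t1)
  · simpa [u1.1, u2] using (ht_fr hF (P := P) (x := ![0, 0, 1]) (φ := χ₄)).2 (by simpa using u1)

end Cfsg.Agent.H7.PA
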