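import Cfsg.Agent.H7.PA1
import Cfsg.Agent.H5.U.Bridge

/-! `SU₃(q)`, `q ≥ 3`, is generated by three long root subgroups in general position. -/

set_option autoImplicit false
set_option linter.unusedSectionVars false
set_option linter.unusedVariables false
set_option linter.unnecessarySimpa false
set_option linter.style.haveILetI false
set_option linter.unusedSimpArgs false

namespace Cfsg.Agent.H7.PA

open Matrix Module Cfsg.Agent.H5.U Cfsg.Agent.H5.U.HF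

variable {K : Type*} [Field K] [StarRing K] [NStar K] [Finite K] {M : Subgroup (V3 K ≃ₗ[K] V3 K)}

local notation "𝔥" => stdHF (Fin 3) K

lemma h_eq (x v : V3 K) : 𝔥 x v = star v ⬝ᵥ x := by
  rw [dotProduct_comm]; rfl

lemma hperp2 {v w a b : V3 K} (h1 : 𝔥 v a = 0) (h2 : 𝔥 w a = 0) (h3 : 𝔥 v b = 0) (h4 : 𝔥 w b = 0)
    (ha : a ≠ 0) (hv : v ≠ 0) : (∃ c : K, b = c • a) ∨ ∃ c : K, w = c • v := by
  rw [h_eq] at h1 h2 h3 h4
  refine (perp2 h1 h2 h3 h4 (star_ne_zero.2 ha) hv).imp_left fun ⟨c, e⟩ => ⟨star c, ?_⟩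
  rw [← star_star b, e, star_smul, star_star]

lemma iso_par {x y : V3 K} (hx : 𝔥 x x = 0) (hy : 𝔥 y y = 0) (e : 𝔥 y x = 0) (h0 : x ≠ 0) :
    ∃ c : K, y = c • x := (hperp2 hx e (symm0 e) hy h0 h0).elim id id

lemma perp_two (a b : V3 K) : ∃ o, o ≠ 0 ∧ 𝔥 o a = 0 ∧ 𝔥 o b = 0 := by
  obtain ⟨o, -, h0, e⟩ := exists_ne_perp (h := 𝔥) ⊤ [a, b] (by simp)
  exact ⟨o, h0, e a (by simp), e b (by simp)⟩

lemma unit_two {a b : V3 K} (ha : 𝔥 a a ≠ 0) (hb : 𝔥 b b ≠ 0) (e : 𝔥 b a = 0) :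
    ∃ o, 𝔥 o o = 1 ∧ 𝔥 o a = 0 ∧ 𝔥 o b = 0 := by
  obtain ⟨o, h0, e1, e2⟩ := perp_two a b
  obtain ⟨z, ⟨⟨-, h1⟩, h2⟩, h3⟩ := ((ndOn_top.inf_pv trivial ha).inf_pv ⟨trivial, e⟩ hb).exists_unit
    ((Submodule.ne_bot_iff _).2 ⟨o, ⟨⟨trivial, e1⟩, e2⟩, h0⟩)
  exact ⟨z, h3, h1, h2⟩

lemma all_X (hM : M ≤ (𝔥).SU) {a b c o : V3 K} (ha : 𝔥 a a = 0) (hb : 𝔥 b b = 0) (hc : 𝔥 c c = 0)
    (hab : 𝔥 a b ≠ 0) (h1 : 𝔥 a o = 0) (h2 : 𝔥 b o = 0) (h3 : 𝔥 c o ≠ 0) (xa : (𝔥).XIn M a)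
    (xb : (𝔥).XIn M b) (xc : (𝔥).XIn M c) {x : V3 K} (hx : 𝔥 x x = 0) : (𝔥).XIn M x := by
  by_contra hn
  have x0 : x ≠ 0 := by rintro rfl; exact hn xIn_zero
  have k0 : ∀ y, 𝔥 y y = 0 → y ≠ 0 → (𝔥).XIn M y → 𝔥 y x ≠ 0 := fun y e e0 e1 e2 => by
    obtain ⟨t, rfl⟩ := iso_par e hx (symm0 e2) e0
    exact hn (e1.smul e t)
  have tr : ∀ s : F0 K, s * del K + star (s * del K) = 0 := fun s => by simp
  let p : Option (F0 K) → V3 K := fun s => s.elim b fun s => (𝔥).T b (s * del K) a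
  have p1 : ∀ s, 𝔥 (p s) (p s) = 0 ∧ (𝔥).XIn M (p s) ∧ 𝔥 (p s) o = 0 ∧ p s ≠ 0 := by
    rintro (_ | s)
    · exact ⟨hb, xb, h2, ne_zero_right hab⟩
    · exact ⟨(T_mem_GU _ _ _ _).trans ha, xa.map hM ha (xb _ (tr s)), by
        simp [p, T_apply hb (tr s), h1, h2], (map_ne_zero_iff _ (LinearEquiv.injective _)).2
          (ne_zero_left hab)⟩
  have p2 : ∀ s, 𝔥 (p s) c ≠ 0 := fun s e => by
    obtain ⟨t, e'⟩ := iso_par (p1 s).1 hc (symm0 e) (p1 s).2.2.2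
    simp [e', (p1 s).2.2.1] at h3
  have p3 : ∀ s s' (l : K), p s = l • p s' → s = s' ∧ l = 1 := by
    have hba := symm_ne hab
    rintro (_ | s) (_ | s') l e <;> have e1 := congrArg (𝔥 · a) e <;> have e2 := congrArg (𝔥 · b) e <;>
      simp [p, T_apply hb (tr _), ha, hb, hab, hba, del_ne] at e1 e2 ⊢
    · exact e1
    · simp [e2, hba] at e1
    · obtain rfl : l = 1 := e2
      simpa [hab, hba, del_ne] using e1
  let y : Option (F0 K) × F0 K → V3 K := fun i => (𝔥).T c (i.2 * del K) (p i.1)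
  have y1 : ∀ i, 𝔥 (y i) (y i) = 0 := fun i => (T_mem_GU _ _ _ _).trans (p1 _).1
  have y2 : ∀ i, (𝔥).XIn M (y i) := fun i => (p1 _).2.1.map hM (p1 _).1 (xc _ (tr _))
  have y3 : ∀ i, y i ≠ 0 := fun i => (map_ne_zero_iff _ (LinearEquiv.injective _)).2 (p1 _).2.2.2
  have y4 := fun i => k0 _ (y1 i) (y3 i) (y2 i)
  obtain ⟨z, z0, z1, z2⟩ := perp_two x a
  obtain ⟨i, j, hij, e⟩ : ∃ i j, i ≠ j ∧ 𝔥 (y i) z / 𝔥 (y i) x = 𝔥 (y j) z / 𝔥 (y j) x := by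
    by_contra! hi
    refine absurd (Nat.card_le_card_of_injective _ fun i j e => by_contra fun e' => hi i j e' e) ?_
    obtain ⟨g, hg⟩ := NStar.exists_ne (F := K)
    have := Nat.card_le_card_of_surjective (fun t : F0 K × F0 K => (t.1 : K) + t.2 * g) fun w => by
      obtain ⟨s, t, e1, e2, e3⟩ := exists_coord hg w
      exact ⟨(⟨s, e1⟩, ⟨t, e2⟩), e3.symm⟩
    have h0 : 0 < Nat.card (F0 K) := Nat.card_pos
    rw [Nat.card_prod] at this ⊢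
    rw [Finite.card_option, not_le]
    nlinarith
  rcases hperp2 (v := x) (w := (𝔥 (y i) x)⁻¹ • y i - (𝔥 (y j) x)⁻¹ • y j) (a := z) (b := x) (symm0 z1)
    (by simpa [sub_eq_zero, inv_mul_eq_div] using e) hx (by simp [y4]) z0 x0 with ⟨t, e⟩ | ⟨t, e⟩
  · exact k0 a ha (ne_zero_left hab) xa (by rw [e, smul_right, symm0 z2, mul_zero])
  by_cases ht : t = 0
  · rw [ht, zero_smul, sub_eq_zero, ← eq_inv_smul_iff₀ (inv_ne_zero (y4 i)), smul_smul] at e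
    generalize (_ * _ : K) = l at e
    simp only [y, T_apply hc (tr _)] at e
    have e1 := congrArg (𝔥 · o) e
    simp only [add_left, smul_left, (p1 _).2.2.1, zero_add, ← mul_assoc] at e1
    have e1 := mul_right_cancel₀ h3 e1
    rw [smul_add, smul_smul, e1, mul_assoc l, mul_assoc l, add_left_inj] at e
    obtain ⟨e2, rfl⟩ := p3 _ _ _ e
    rw [e2, one_mul] at e1
    exact hij (Prod.ext e2 (Subtype.ext (mul_right_cancel₀ del_ne (mul_right_cancel₀ (p2 _) e1))))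
  refine hn (XIn.of_smul hx ht ?_)
  by_cases e' : 𝔥 (y j) (y i) = 0
  · obtain ⟨l, e'⟩ := iso_par (y1 i) (y1 j) e' (y3 i)
    rw [← e, e', smul_smul, ← sub_smul]
    exact (y2 i).smul (y1 i) _
  · rw [← e, sub_eq_add_neg, ← neg_smul]
    exact XIn.line hM (y1 i) (y1 j) e' (y2 i) (y2 j) _ _ (by
      rw [neg_smul, ← sub_eq_add_neg, e]; simp [hx])

lemma SUW_pv (hX : ∀ u, 𝔥 u u = 0 → (𝔥).XIn M u) {o : V3 K} (ho : 𝔥 o o ≠ 0) :
    (𝔥).SUW (⊤ ⊓ (𝔥).pv o) ≤ M :=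
  SUW_le_of_XIn (ndOn_top.inf_pv trivial ho) (by
    have := finrank_inf_pv_lt (h := 𝔥) (K := ⊤) trivial ho
    simp only [finrank_top, finrank_fintype_fun_eq_card, Fintype.card_fin] at this
    omega) fun u _ => hX u

lemma move_plane (hX : ∀ u, 𝔥 u u = 0 → (𝔥).XIn M u) {o x y : V3 K} (ho : 𝔥 o o ≠ 0) (hx : 𝔥 x o = 0)
    (hy : 𝔥 y o = 0) (h0 : 𝔥 x x ≠ 0) (e : 𝔥 y y = 𝔥 x x) : ∃ k ∈ M, k x = y := by
  by_cases hd : x - y = 0
  · exact ⟨1, M.one_mem, sub_eq_zero.1 hd⟩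
  have hdo : 𝔥 (x - y) o = 0 := by simp [hx, hy]
  by_cases hdd : 𝔥 (x - y) (x - y) = 0
  · have h1 : 𝔥 x (x - y) ≠ 0 := fun e' => by
      rcases hperp2 hdd (symm0 hdo) (symm0 e') (symm0 hx) hd hd with ⟨c, e⟩ | ⟨c, e⟩
      · exact h0 (by nth_rw 2 [e]; rw [smul_right, e', mul_zero])
      · exact ho (by rw [e, smul_left, smul_right, hdd]; simp)
    have h2 : -(𝔥 x (x - y))⁻¹ + star (-(𝔥 x (x - y))⁻¹) = 0 := by
      have := symm_ne h1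
      rw [star_neg, star_inv₀, conj]
      field_simp
      simp only [sub_left, sub_right] at hdd ⊢
      linear_combination -hdd + e
    exact ⟨_, hX _ hdd _ h2, by rw [T_apply hdd h2, neg_mul, inv_mul_cancel₀ h1]; simp⟩
  have h1 : 𝔥 x (x - y) ≠ 0 := fun e' => hdd (by
    have := symm0 e'
    simp only [sub_left, sub_right] at e' this ⊢
    linear_combination e' + this + e)
  have h2 : 𝔥 y (x - y) / 𝔥 x (x - y) * star (𝔥 y (x - y) / 𝔥 x (x - y)) = 1 := by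
    have := symm_ne h1
    rw [star_div₀, conj, conj]
    field_simp
    simp only [sub_left, sub_right, e]
    ring
  obtain ⟨z, z1, z2, z3⟩ := unit_two ho h0 hx
  have hr := R_mem_GUW (h := 𝔥) (W := ⊤ ⊓ (𝔥).pv o) ⟨trivial, hdo⟩ (𝔥 y (x - y) / 𝔥 x (x - y))
  refine ⟨_, SUW_pv hX ho ⟨mul_mem hr (R_mem_GUW (W := ⊤ ⊓ (𝔥).pv o) ⟨trivial, z2⟩ _),
    mul_R_mem_SU hr.1 (z1 ▸ one_ne_zero)⟩, ?_⟩
  rw [mul_app, R_apply_of_perp (symm0 z3), R_apply hdd h2]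
  have : (𝔥 y (x - y) / 𝔥 x (x - y) - 1) * ((𝔥 (x - y) (x - y))⁻¹ * 𝔥 x (x - y)) = -1 := by
    field_simp
    rw [sub_left]; ring
  rw [this]; simp

theorem SU_le_of_X (hM : M ≤ (𝔥).SU) (hq : ∃ t : K, star t = t ∧ t ≠ 0 ∧ t ≠ 1) (hX : ∀ u, 𝔥 u u = 0 → (𝔥).XIn M u) :
    (𝔥).SU ≤ M := by
  intro g hg
  obtain ⟨x, -, hx⟩ := (ndOn_top (h := 𝔥)).exists_unit top_ne_bot
  have x1 : 𝔥 x x ≠ 0 := hx ▸ one_ne_zero
  have hy : 𝔥 (g x) (g x) = 1 := (hg.1 _ _).trans hx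
  have hW := (ndOn_top (h := 𝔥)).inf_pv trivial x1
  obtain ⟨u, u1, u2, u3⟩ : ∃ u, 𝔥 u u = 1 ∧ 𝔥 u x = 0 ∧ 𝔥 (g x) u * 𝔥 u (g x) ≠ 1 := by
    have y1 : 𝔥 (g x - 𝔥 (g x) x • x) x = 0 := by simp [hx]
    have y2 : ∀ u, 𝔥 u x = 0 → 𝔥 u (g x) = 𝔥 u (g x - 𝔥 (g x) x • x) := fun u e => by simp [e]
    generalize g x - 𝔥 (g x) x • x = y at y1 y2
    by_cases y0 : y = 0
    · obtain ⟨o, o0, o1, -⟩ := perp_two x x
      obtain ⟨u, ⟨-, a⟩, b⟩ := hW.exists_unit ((Submodule.ne_bot_iff _).2 ⟨o, ⟨trivial, o1⟩, o0⟩)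
      exact ⟨u, b, a, by simp [y2 u a, y0]⟩
    by_cases yy : 𝔥 y y = 0
    · obtain ⟨s, ⟨-, s1⟩, s2, s3⟩ := hW.exists_partner ⟨trivial, y1⟩ y0 yy
      obtain ⟨t, t1, t2, t3⟩ := hq
      obtain ⟨β, b0, b1⟩ := exists_norm' t1 t2
      obtain ⟨α, b2⟩ := exists_tr_mul (star_one K) (star_ne_zero' b0)
      have s1 : 𝔥 s x = 0 := s1
      have u2 : 𝔥 (α • y + β • s) x = 0 := by simp [y1, s1]
      refine ⟨α • y + β • s, ?_, u2, ?_⟩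
      · simp [yy, s2, s3, symm1 s3] at b2 ⊢
        linear_combination b2
      · rw [← (𝔥).conj (α • y + β • s), y2 _ u2]
        simpa [yy, symm1 s3, mul_comm, b1] using t3
    · obtain ⟨u, a, b, c⟩ := unit_two x1 yy y1
      exact ⟨u, a, b, by simp [y2 u b, c]⟩
  have u0 : 𝔥 u u ≠ 0 := u1 ▸ one_ne_zero
  obtain ⟨o, o1, o2, o3⟩ := unit_two x1 u0 u2
  obtain ⟨k, hk, e⟩ := move_plane hX (o1 ▸ one_ne_zero) (symm0 o2) (symm0 o3) x1 (u1.trans hx.symm)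
  obtain ⟨o', p1, p2, p3⟩ := unit_two (b := g x - 𝔥 (g x) u • u) u0 (by
    simp [hy, u1]
    exact fun e => u3 (by linear_combination -e)) (by simp [u1])
  obtain ⟨k', hk', e'⟩ := move_plane hX (p1 ▸ one_ne_zero) (symm0 p2) (y := g x)
    (symm0 (by simpa [p2] using p3)) u0 (hy.trans u1.symm)
  have : (k' * k)⁻¹ * g ∈ M := SUW_pv hX x1 (mem_SUW.2 ⟨mul_mem (inv_mem (hM (mul_mem hk' hk))) hg,
    fun z hz => by
      have : z = 𝔥 z x • x := sub_eq_zero.1 (hW.eq_zero ⟨trivial, by simp [hx]⟩ fun w hw => by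
        simp [hz w hw, symm0 (mem_pv.1 hw.2)])
      rw [this, map_smul, mul_app, ← e', ← e, ← mul_app k', H6.inv_apply_apply]⟩)
  simpa only [mul_inv_cancel_left] using M.mul_mem (mul_mem hk' hk) this

end Cfsg.Agent.H7.PA
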