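import Cfsg.Agent.H7.PA4
import Cfsg.Agent.H7.PA5
import Cfsg.Agent.H7.AschHerm

/-! Groups generated by transvections: the unitary case. -/

set_option autoImplicit false
set_option linter.unusedSectionVars false
set_option linter.unusedVariables false
set_option linter.unnecessarySimpa false
set_option linter.style.haveILetI false
set_option linter.unusedSimpArgs false

namespace Cfsg.Agent.H7.PA

open Cfsg.Geo Matrix Cfsg.Agent.H8 Cfsg.Agent.H8.M3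
open scoped MatrixGroups

attribute [-simp] cons_dotProduct dotProduct_cons

variable {F : Type*} [Field F] {P Q : Subgroup (GL3 F)} {u v w o φ ψ χ θ : V3 F}

lemma isSU3_std [Finite F] (h : Hyp0 P) {σ : F →+* F} {q : ℕ} (hσ : ∀ x, σ x = x ^ q) {K : Subfield F}
    (hK : Nat.card K = q ^ 2) (hK' : ∀ x, x ∈ K ↔ σ (σ x) = x) (ht : ∃ t, σ t = t ∧ t ≠ 0 ∧ t ≠ 1)
    (hk : ∀ v φ s, σ s = s → HT P v φ → HT P v (s • φ))
    (hs : ∀ v φ, HT P v φ → (vv v φ).map σ = -(vv v φ)ᵀ) (h1 : HT P v φ) (h2 : HT P w ψ)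
    (h3 : HT P u χ) (e1 : ψ ⬝ᵥ v ≠ 0) (hφ : φ ≠ 0) (hχ : χ ≠ 0) (hD : (v ⨯₃ w) ⬝ᵥ u ≠ 0) :
    IsSU3 P 1 K q := by
  have hm : ∀ A : Mt F, A.map (· ^ q) = A.map σ := fun A => by ext; simp [hσ]
  have hs' : ∀ v φ, HT P v φ → ∀ i j, σ (v i * φ j) = -(v j * φ i) := fun v φ a i j =>
    congrFun (congrFun (hs v φ a) i) j
  have hr := h.rat (k := K) fun v φ a i j => by rw [hK', hs' v φ a, map_neg, hs' v φ a, neg_neg]
  refine ⟨hK, fun A => ?_⟩
  simp only [inv_one, one_mul, mul_one, hm]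
  refine ⟨fun a => ⟨h.det a, mem_rat.1 (hr a), h.ind (p := fun A => Aᵀ * A.map σ = 1) (by simp)
    (fun v φ A a e => ?_) a⟩, fun ⟨a, b, c⟩ => ?_⟩
  · rw [transpose_mul, Matrix.map_mul, Matrix.map_add _ (map_add σ), hs v φ a, Matrix.map_one _ σ.map_zero
      σ.map_one, mul_assoc, ← mul_assoc _ (1 + _), show 1 + -(vv v φ)ᵀ = (1 + vv v (-φ))ᵀ by
        rw [vv_neg, transpose_add, transpose_one, transpose_neg], ← transpose_mul,
      show (1 + vv v (-φ)) * (1 + vv v φ) = 1 from (tvU v φ a.1).inv_mul, transpose_one, one_mul, e]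
  obtain ⟨A, rfl⟩ := mem_rat.2 b
  haveI := Fintype.ofFinite K
  have hc : Fintype.card K = q ^ 2 := Nat.card_eq_fintype_card.symm.trans hK
  letI := H5.U.powStar hc
  haveI := H5.U.powStar_nstar hc
  have st : ∀ x : K, ((star x : K) : F) = σ x := fun x => (hσ x).symm
  set M := (P.comap (gm K)).map H6.gl0.toMonoidHom ⊓ (H5.U.stdHF (Fin 3) K).SU with hM
  have key : ∀ v φ, HT P v φ → v ≠ 0 → φ ≠ 0 → ∃ (x : V3 K) (a b : F), a ≠ 0 ∧ b ≠ 0 ∧
      K.subtype ∘ x = a • v ∧ K.subtype ∘ star x = b • φ ∧ H5.U.stdHF (Fin 3) K x x = 0 ∧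
      (H5.U.stdHF (Fin 3) K).XIn M x := fun v φ a hv hφ => by
    obtain ⟨j, hj⟩ := Function.ne_iff.1 hφ
    let x : V3 K := fun i => ⟨v i * φ j, by rw [hK', hs' v φ a, map_neg, hs' v φ a, neg_neg]⟩
    have x1 : K.subtype ∘ x = φ j • v := funext fun i => mul_comm _ _
    have x2 : K.subtype ∘ star x = -v j • φ := funext fun i => (st _).trans
      ((hs' v φ a i j).trans (by simp))
    have hj' : v j ≠ 0 := fun e => by
      obtain ⟨i, hi⟩ := Function.ne_iff.1 hv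
      have := hs' v φ a i j
      rw [e, zero_mul, neg_zero, map_eq_zero] at this
      exact mul_ne_zero hi hj this
    have x3 : H5.U.stdHF (Fin 3) K x x = 0 := K.subtype.injective (by
      rw [h_eq, RingHom.map_dotProduct, x1, x2]; simp [a.1])
    refine ⟨x, _, _, hj, neg_ne_zero.2 hj', x1, x2, x3, fun c hc => ⟨?_, H5.U.HF.T_mem_SU _ _⟩⟩
    have hc' : σ c = -c := by
      rw [← st, eq_neg_iff_add_eq_zero, add_comm]; exact congrArg Subtype.val hc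
    obtain ⟨g, hg, e⟩ := hasT_of (P := P) (v := x) (φ := c • star x) (by
      rw [x1, show K.subtype ∘ (c • star x) = (c : F) • K.subtype ∘ star x from rfl, x2, ht_smul,
        smul_smul, smul_smul]
      refine hk _ _ _ ?_ a
      rw [show φ j * c * -v j = -(c * (v j * φ j)) by ring, map_neg, map_mul, hc', hs' v φ a]
      ring)
    rwa [show (H5.U.stdHF (Fin 3) K).T x c = g from LinearEquiv.ext fun y => by
      rw [e, H5.U.HF.T_apply x3 hc, h_eq, smul_dotProduct, smul_eq_mul]]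
  have hv : v ≠ 0 := (ne_of_dot e1).2
  have hw : w ≠ 0 := by rintro rfl; simp at hD
  obtain ⟨x, a1, a2, a3, a4, a5, a6, a7, a8⟩ := key _ _ h1 hv hφ
  obtain ⟨y, b1, b2, b3, b4, b5, b6, b7, b8⟩ := key _ _ h2 hw (ne_of_dot e1).1
  obtain ⟨z, c1, c2, c3, c4, c5, c6, c7, c8⟩ := key _ _ h3 (ne_of_dot hD).2 hχ
  have cr : K.subtype ∘ (x ⨯₃ y) = (K.subtype ∘ x) ⨯₃ (K.subtype ∘ y) := by
    refine ext3 ?_ ?_ ?_ <;> simp [cross_apply]
  obtain ⟨t, t1, t2, t3⟩ := ht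
  obtain ⟨⟨B, hB, e⟩, -⟩ := SU_le_of_X (M := M) inf_le_right
    ⟨⟨t, by rw [hK', t1, t1]⟩, Subtype.ext ((st _).trans t1), fun e => t2 (congrArg Subtype.val e),
      fun e => t3 (congrArg Subtype.val e)⟩
    (fun u hu => all_X inf_le_right a7 b7 c7 (o := star (x ⨯₃ y)) (fun e => by
        have := congrArg K.subtype e
        rw [h_eq, RingHom.map_dotProduct, a5, b6] at this
        simp [a3, b4, e1] at this) (by simp [h_eq, dotProduct_comm]) (by simp [h_eq, dotProduct_comm])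
      (fun e => by
        have := congrArg K.subtype e
        rw [h_eq, star_star, RingHom.map_dotProduct, cr, a5, b5, c5] at this
        simp [a3, b3, c3, hD] at this) a8 b8 c8 hu) (x := H6.gl0 A) ⟨fun x y => by
      have e : (A : Mt K)ᵀ * (A : Mt K).map star = 1 := by
        ext i j
        have := congrFun (congrFun c i) j
        simp only [mul_apply, transpose_apply, map_apply] at this ⊢
        push_cast
        simp only [st]
        rw [one_apply, apply_ite Subtype.val]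
        exact this
      rw [h_eq, h_eq, H6.gl0_apply, H6.gl0_apply, dotProduct_comm, ← vecMul_transpose,
        show star ((A : Mt K) *ᵥ y) = (A : Mt K).map star *ᵥ star y by
          ext i; simp [mulVec, dotProduct, star_sum, star_mul'],
        ← dotProduct_mulVec, mulVec_mulVec, e, one_mulVec, dotProduct_comm],
      (H6.glEquiv_mem_SLV _ A).2 (by
        change GeneralLinearGroup.det A = 1
        exact Units.ext (K.subtype.injective ((gm_det A).symm.trans (a.trans (map_one _).symm))))⟩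
  exact H6.gl0.injective e ▸ hB

lemma conjT_ne (h : φ ≠ 0) (e : ψ ⬝ᵥ w = 0) : φ - (φ ⬝ᵥ w) • ψ ≠ 0 := fun e' => by
  have := congrArg (· ⬝ᵥ w) e'
  simp only [sub_dotProduct, smul_dotProduct, e, smul_zero, sub_zero, zero_dotProduct] at this
  simp [this, h] at e'

lemma AO.sym (ho : AO P) (h : HT P v φ) (h' : HT P w ψ) (hφ : φ ≠ 0) (hw : w ≠ 0) (e : φ ⬝ᵥ w = 0) :
    ψ ⬝ᵥ v = 0 := by
  by_contra k
  obtain ⟨c, rfl⟩ := ho h h' (ne_of_dot k).2 hφ (ne_of_dot k).1 e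
  have := h'.1
  simp [k] at this
  simp [this] at hw

variable {k : Subfield F}

lemma KS.diff (hk : KS P k) (h1 : HT P v φ) (h2 : HT P w ψ) (h3 : HT P u χ) :
    φ ⬝ᵥ w * ψ ⬝ᵥ u * χ ⬝ᵥ v - φ ⬝ᵥ u * χ ⬝ᵥ w * ψ ⬝ᵥ v ∈ k := by
  convert k.sub_mem (k.sub_mem (hk.pair h1 h3) (k.mul_mem (hk.pair h1 h2) (hk.pair h2 h3)))
    (hk.pair (h1.conjT h2) h3) using 1
  simp
  ring

lemma KS.dep (hk : KS P k) (ho : AO P) (h1 : HT P v φ) (h2 : HT P w ψ) (h3 : HT P u χ)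
    (e : φ ⬝ᵥ u * χ ⬝ᵥ w * ψ ⬝ᵥ v ≠ 0) (e' : φ ⬝ᵥ u * χ ⬝ᵥ w * ψ ⬝ᵥ v ∈ k) :
    ∃ c d : F, u = c • v + d • w := by
  simp only [ne_eq, mul_eq_zero, not_or] at e
  have a := hk.smul h2 (k.neg_mem (k.div_mem (hk.pair h1 h3) e'))
  obtain ⟨c, e1⟩ := ho h3 (h1.conjT a) (ne_of_dot e.1.1).2 (ne_of_dot e.1.2).1
    (conjT_ne (ne_of_dot e.1.1).1 a.1) (by
      simp only [dotProduct_add, dotProduct_smul, smul_dotProduct, smul_eq_mul]
      have := e.1.1; have := e.1.2; have := e.2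
      field_simp
      ring)
  have hc : c ≠ 0 := by
    rintro rfl
    simpa [h2.1, e.2] using congrArg (ψ ⬝ᵥ ·) e1
  exact ⟨c⁻¹, _, by rw [← smul_smul, ← smul_add, e1, smul_smul, inv_mul_cancel₀ hc, one_smul]⟩

/-- triple traces are skew -/
def Tri (P : Subgroup (GL3 F)) (σ : F →+* F) : Prop :=
  ∀ ⦃v φ w ψ u χ : V3 F⦄, HT P v φ → HT P w ψ → HT P u χ →
    σ (φ ⬝ᵥ w * ψ ⬝ᵥ u * χ ⬝ᵥ v) = -(φ ⬝ᵥ u * χ ⬝ᵥ w * ψ ⬝ᵥ v)

lemma Tri.cj {σ : F →+* F} (h : Tri P σ) (g : GL3 F) : Tri (cjP P g) σ := fun v φ w ψ u χ a b c => by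
  simpa only [dot_conj] using h a.of_cj b.of_cj c.of_cj

lemma KS.tri (hk : KS P k) (ho : AO P) {σ : F →+* F} (hσ : ∀ x, σ x = x ↔ x ∈ k) : Tri P σ := by
  intro v φ w ψ u χ h1 h2 h3
  have hd := hk.diff h1 h2 h3
  by_cases e : φ ⬝ᵥ u * χ ⬝ᵥ w * ψ ⬝ᵥ v = 0
  · have : φ ⬝ᵥ w * ψ ⬝ᵥ u * χ ⬝ᵥ v = 0 := by
      by_contra e'
      simp only [ne_eq, mul_eq_zero, not_or] at e e'
      rcases e with (e | e) | e
      · exact e'.2 (ho.sym h1 h3 (ne_of_dot e'.1.1).1 (ne_of_dot e'.1.2).2 e)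
      · exact e'.1.2 (ho.sym h3 h2 (ne_of_dot e'.2).1 (ne_of_dot e'.1.1).2 e)
      · exact e'.1.1 (ho.sym h2 h1 (ne_of_dot e'.1.2).1 (ne_of_dot e'.2).2 e)
    simp [e, this]
  by_cases ha : φ ⬝ᵥ w * ψ ⬝ᵥ u * χ ⬝ᵥ v ∈ k
  · obtain ⟨c, d, rfl⟩ := hk.dep ho h1 h2 h3 e (by simpa using k.sub_mem ha hd)
    rw [(hσ _).2 ha]
    have := h3.1
    simp [h1.1, h2.1] at this ⊢
    linear_combination (φ ⬝ᵥ w * ψ ⬝ᵥ v) * this
  have hm : φ ⬝ᵥ w * ψ ⬝ᵥ u * χ ⬝ᵥ v * (φ ⬝ᵥ u * χ ⬝ᵥ w * ψ ⬝ᵥ v) ∈ k := by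
    convert k.mul_mem (k.mul_mem (hk.pair h1 h2) (hk.pair h2 h3)) (hk.pair h1 h3) using 1
    ring
  rw [← hσ] at ha hd hm
  generalize φ ⬝ᵥ w * ψ ⬝ᵥ u * χ ⬝ᵥ v = a at *
  generalize φ ⬝ᵥ u * χ ⬝ᵥ w * ψ ⬝ᵥ v = b at *
  rw [map_sub] at hd
  rw [map_mul] at hm
  exact eq_neg_of_add_eq_zero_left (mul_left_cancel₀ (sub_ne_zero.2 ha)
    (by linear_combination σ a * hd + hm))

lemma su_frame [Finite F] (h : Hyp0 P) (hk : KS P k) (h3 : 3 ≤ Nat.card k) {σ : F →+* F}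
    (hσ : ∀ x, σ x = x ^ Nat.card k) (hT : Tri P σ) {a b : F} (ha : σ a ≠ a) (hb : b ≠ 0)
    (h0 : HT P ![1, 0, 0] ![0, 1, 1]) (h1 : HT P ![0, 1, 0] ![-1, 0, a])
    (h2 : HT P ![0, 0, 1] ![-1, b, 0]) : Concl P := by
  have hσ' : ∀ x, σ x = x ↔ x ∈ k := fun x => by rw [hσ, mem_subfield_iff_pow]
  have e1 : σ a = -b := by simpa [dot3, neg_eq_iff_eq_neg] using hT h0 h1 h2
  have e2 : σ b = -a := by simpa [dot3, neg_eq_iff_eq_neg] using hT h0 h2 h1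
  have a0 : a ≠ 0 := by rintro rfl; simp at ha
  obtain ⟨p, hp, _⟩ := exists_char F
  haveI := Fact.mk hp
  haveI := Fintype.ofFinite k
  obtain ⟨n, -, hn⟩ := FiniteField.card k p
  rw [← Nat.card_eq_fintype_card] at hn
  obtain ⟨K, k1, -, k2⟩ := exists_subfield_pow (F := F) p (n * 2) (by have := n.pos; omega)
  rw [pow_mul, ← hn] at k1 k2
  have k1 : ∀ x, x ∈ K ↔ σ (σ x) = x := fun x => by rw [k1, hσ, hσ, ← pow_mul, ← pow_two]
  have aK : a ∈ K := by rw [k1, e1, map_neg, e2, neg_neg]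
  have hK : Nat.card K = Nat.card k ^ 2 := by
    obtain ⟨m, hm⟩ := card_subfield_le_pow (F₀ := k) (F₁ := K) fun x hx => by
      rw [k1, (hσ' x).2 hx, (hσ' x).2 hx]
    rw [hm] at k2 ⊢
    have := (Nat.pow_le_pow_iff_right (by omega)).1 k2
    have h1 : 1 < Nat.card K := Finite.one_lt_card
    interval_cases m
    · rw [hm, pow_zero] at h1; omega
    · exact absurd (by rw [hσ, ← pow_one (Nat.card k), ← hm]; exact (mem_subfield_iff_pow K a).1 aK) ha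
    · rfl
  haveI := Fintype.ofFinite K
  have hc : Fintype.card K = Nat.card k ^ 2 := Nat.card_eq_fintype_card.symm.trans hK
  obtain ⟨τ, hτ⟩ := exists_qHom hc
  have st : ∀ x : K, ((τ x : K) : F) = σ x := fun x => by rw [hτ, hσ]; rfl
  obtain ⟨ζ, z0, z1⟩ := exists_trace_zero (qHom_invol hc hτ) (qHom_ne hc hτ)
  have z2 : σ ζ = -ζ := by
    rw [← st, eq_neg_iff_add_eq_zero, add_comm]; exact congrArg Subtype.val z1
  let J : Mt K := ζ • !![0, -1, -1; 1, 0, -τ ⟨a, aK⟩; 1, ⟨a, aK⟩, 0]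
  obtain ⟨Y, hY⟩ := HForm.exists_tw_eq_one hc hτ (hform_gform (G := J) (qHom_invol hc hτ) (by
      simp only [J, det_smul]
      refine mul_ne_zero (pow_ne_zero _ z0) fun e => ha ?_
      simp [det_fin_three] at e
      have := congrArg Subtype.val e
      push_cast at this
      rw [st] at this
      linear_combination this) (Or.inl rfl) (by
    have : τ ζ = -ζ := eq_neg_of_add_eq_zero_right z1
    ext i j : 2
    fin_cases i <;> fin_cases j <;> simp [J, this, qHom_invol hc hτ]))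
  let Φ : Mt F := !![0, 1, 1; -1, 0, a; -1, b, 0]
  have hY' : (ζ : F) • ((gm K Y : Mt F).map σ)ᵀ * Φ * gm K Y = 1 := by
    have := congrArg (fun X : Mt K => (X.map K.subtype)ᵀ) hY
    simp only [tw, Matrix.map_mul, transpose_mul, transpose_map, transpose_transpose] at this
    rw [Matrix.map_one _ (map_zero _) (map_one _), transpose_one, ← mul_assoc] at this
    rw [← this, smul_mul_assoc, ← mul_smul_comm]
    congr 2
    · ext i j; exact (st _).symm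
    · ext i j
      fin_cases i <;> fin_cases j <;> simp [J, Φ, st, e1]
  have hY2 : ((gm K Y : Mt F).map σ).map σ = gm K Y := by
    ext i j; exact (k1 _).1 (Y i j).2
  have hH : ∀ w ψ, HT P w ψ → (Φ * vv w ψ).map σ = (Φ * vv w ψ)ᵀ := fun w ψ c => by
    have b00 := (hσ' _).2 (hk.pair h0 c)
    have b11 := (hσ' _).2 (hk.pair h1 c)
    have b22 := (hσ' _).2 (hk.pair h2 c)
    have b01 := hT c h0 h1
    have b10 := hT c h1 h0
    have b02 := hT c h0 h2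
    have b20 := hT c h2 h0
    have b12 := hT c h1 h2
    have b21 := hT c h2 h1
    simp only [dot3, map_mul, map_add, map_neg, map_one, map_zero, e1, e2, cons_val_zero, cons_val_one,
      cons_val, mul_one, mul_zero, add_zero, zero_add, zero_mul, one_mul, neg_mul, mul_neg]
      at b00 b11 b22 b01 b10 b02 b20 b12 b21
    rw [mul_vv]
    ext i j
    fin_cases i <;> fin_cases j <;>
      simp [Φ, mulVec, dot3, e1, e2] <;> (clear * - b00 b11 b22 b01 b10 b02 b20 b12 b21 a0 hb; grind)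
  refine Concl.of_cj (g := gm K Y) (Or.inr (Or.inl ⟨1, K, _, isSU3_std (h.cj _) hσ hK k1 ?_
    (fun v φ s c d => (hk.cj _).smul d ((hσ' s).1 c)) (fun v φ c => ?_) (h0.cj _) (h1.cj _) (h2.cj _)
    ?_ (gl_ne' _ (by simp)) (gl_ne' _ (by simp)) ?_⟩))
  · have : 2 < Fintype.card k := by rw [← Nat.card_eq_fintype_card]; omega
    obtain ⟨t, t1, t2⟩ : ∃ t : k, t ≠ 0 ∧ t ≠ 1 := by
      obtain ⟨x, y, z, h⟩ := Fintype.two_lt_card_iff.1 this
      by_contra! H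
      have H' : ∀ t : k, t = 0 ∨ t = 1 := fun t => or_iff_not_imp_left.2 (H t)
      rcases H' x with rfl | rfl <;> rcases H' y with rfl | rfl <;> rcases H' z with rfl | rfl <;>
        simp at h
    exact ⟨t, (hσ' _).2 t.2, fun e => t1 (Subtype.ext e), fun e => t2 (Subtype.ext e)⟩
  · have e := hH _ _ c.of_cj
    rw [← conj_vv] at e
    have e' : vv v φ = (ζ : F) • ((gm K Y : Mt F).map σ)ᵀ *
        (Φ * (gm K Y * vv v φ * ((gm K Y)⁻¹ : GL3 F))) * gm K Y := by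
      rw [← mul_assoc, ← mul_assoc, ← mul_assoc, hY', one_mul, Units.inv_mul_cancel_right]
    generalize Φ * _ = X at e e'
    rw [e', Matrix.map_mul, Matrix.map_mul, e, Matrix.map_smul' _ _ _ (map_mul σ), transpose_map,
      hY2, z2]
    simp [mul_assoc]
  · rw [← dotProduct_mulVec, mulVec_inv_mulVec]; simp [dot3]
  · rw [← det_cols, ← mul_cols, det_mul]
    exact mul_ne_zero (GeneralLinearGroup.det_ne_zero _) (by simp [det_cols, dot3, cross_apply])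

theorem su_case [Finite F] (h : Hyp0 P) (hi : Irr P) (hk : KS P k) (h3 : 3 ≤ Nat.card k) (ho : AO P) :
    Concl P := by
  obtain ⟨σ, hσ, hσ'⟩ := exists_fixHom k
  obtain ⟨v, φ, hv, hφ, h0⟩ := h.flag
  obtain ⟨w, ψ, u, χ, h1, b2, b3, h2, hχ, hD⟩ := three_centres hi h0 hv hφ
  have hw := (ne_of_dot (b2 ▸ one_ne_zero : φ ⬝ᵥ w ≠ 0)).2
  have c1 : φ ⬝ᵥ u ≠ 0 := fun e => by
    obtain ⟨c, rfl⟩ := ho h0 h2 hv hφ hχ e
    simp [dotProduct_comm] at hD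
  have c2 : ψ ⬝ᵥ u ≠ 0 := fun e => by
    obtain ⟨c, rfl⟩ := ho h1 h2 hw (ne_of_dot b3).1 hχ e
    simp [dotProduct_comm] at hD
  have c3 : χ ⬝ᵥ v ≠ 0 := fun e => c1 (ho.sym h2 h0 hχ hv e)
  have c4 : χ ⬝ᵥ w ≠ 0 := fun e => c2 (ho.sym h2 h1 hχ hw e)
  have h2' := h2.resc c1
  have d1 : φ ⬝ᵥ (φ ⬝ᵥ u)⁻¹ • u = 1 := by simp [c1]
  have d2 : ((φ ⬝ᵥ u) • χ) ⬝ᵥ v ≠ 0 := by simp [c1, c3]
  have d3 : ((φ ⬝ᵥ u) • χ) ⬝ᵥ w ≠ 0 := by simp [c1, c4]
  have d4 : (v ⨯₃ w) ⬝ᵥ (φ ⬝ᵥ u)⁻¹ • u ≠ 0 := by simp [c1, hD]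
  generalize (φ ⬝ᵥ u)⁻¹ • u = x at *
  generalize (φ ⬝ᵥ u) • χ = ρ at *
  have f1 := hk.smul h1 (k.neg_mem (k.inv_mem (show ψ ⬝ᵥ v ∈ k by simpa [b2] using hk.pair h0 h1)))
  have f2 := hk.smul h2' (k.neg_mem (k.inv_mem (show ρ ⬝ᵥ v ∈ k by simpa [d1] using hk.pair h0 h2')))
  have g1 : (-(ψ ⬝ᵥ v)⁻¹ • ψ) ⬝ᵥ v = -1 := by simp [b3]
  have g2 : (-(ρ ⬝ᵥ v)⁻¹ • ρ) ⬝ᵥ v = -1 := by simp [d2]
  have g3 : (-(ρ ⬝ᵥ v)⁻¹ • ρ) ⬝ᵥ w ≠ 0 := by simp [d2, d3]
  generalize -(ψ ⬝ᵥ v)⁻¹ • ψ = ψ' at *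
  generalize -(ρ ⬝ᵥ v)⁻¹ • ρ = ρ' at *
  have hF := (det_cols _ _ _).trans_ne d4
  refine Concl.of_cj (g := fr _ _ _ hF) (su_frame (h.cj _) (hk.cj _) h3 hσ ((hk.tri ho hσ').cj _)
    (a := ψ' ⬝ᵥ x) (fun e => ?_) g3 ?_ ?_ ?_)
  · have := hk.diff h0 f1 f2
    rw [b2, g2, one_mul, mul_neg_one] at this
    obtain ⟨c, d, rfl⟩ := hk.dep ho h0 f1 f2 (by simp [d1, g1, g3])
      (by simpa using k.sub_mem (k.neg_mem ((hσ' _).1 e)) this)
    simp [dotProduct_comm] at d4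
  · simpa [h0.1, b2, d1] using (ht_fr hF (P := P) (x := ![1, 0, 0]) (φ := φ)).2 (by simpa using h0)
  · simpa [f1.1, g1] using (ht_fr hF (P := P) (x := ![0, 1, 0]) (φ := ψ')).2 (by simpa using f1)
  · simpa [f2.1, g2] using (ht_fr hF (P := P) (x := ![0, 0, 1]) (φ := ρ')).2 (by simpa using f2)

end Cfsg.Agent.H7.PA
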