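import Cfsg.Agent.H7.PA4

/-! Groups generated by transvections: root groups of order two. -/

set_option autoImplicit false
set_option linter.unusedSectionVars false
set_option linter.unusedVariables false
set_option linter.unnecessarySimpa false
set_option linter.style.haveILetI false
set_option linter.unusedSimpArgs false

namespace Cfsg.Agent.H7.PA

open Cfsg.Geo Matrix Cfsg.Agent.H8 Cfsg.Agent.H8.M3
open scoped MatrixGroups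

attribute [-simp] cons_dotProduct dotProduct_cons

variable {F : Type*} [Field F] {P Q : Subgroup (GL3 F)} {u v v' w o φ φ' ψ χ θ : V3 F}

/-- root groups of order two -/
structure Two (P : Subgroup (GL3 F)) : Prop where
  two : (2 : F) = 0
  T : ∀ ⦃v φ : V3 F⦄ ⦃s : F⦄, HT P v φ → HT P v (s • φ) → v ≠ 0 → φ ≠ 0 → s = 0 ∨ s = 1

lemma Two.cj (h : Two P) (g : GL3 F) : Two (cjP P g) :=
  ⟨h.two, fun v φ s a b hv hφ => h.T a.of_cj (smul_vecMul s φ _ ▸ b.of_cj) (gl_ne _ hv) (gl_ne' _ hφ)⟩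

lemma Two.tr (h : Two P) : Two (trP P) :=
  ⟨h.two, fun v φ s a b hv hφ => h.T (ht_tr.1 a) (ht_smul.1 (ht_tr.1 b)) hφ hv⟩

lemma Two.add_self (h : Two P) (v : V3 F) : v + v = 0 := by rw [← two_smul F, h.two, zero_smul]

lemma three_le {α : Type*} [Finite α] {a b c : α} (h1 : a ≠ b) (h2 : a ≠ c) (h3 : b ≠ c) :
    3 ≤ Nat.card α := by
  haveI := Fintype.ofFinite α
  rw [Nat.card_eq_fintype_card]
  exact Fintype.two_lt_card_iff.2 ⟨a, b, c, h1, h2, h3⟩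

lemma two_of_nT [Finite F] (hd : Det P) (hi : Irr P) (h : HT P v φ) (hv : v ≠ 0) (hφ : φ ≠ 0)
    (h3 : ¬ 3 ≤ nT P v φ) : Two P := by
  have k : ∀ ⦃v φ : V3 F⦄ ⦃s : F⦄, HT P v φ → HT P v (s • φ) → v ≠ 0 → φ ≠ 0 → s = 0 ∨ s = 1 := by
    intro w ψ s a b hw hψ
    by_contra! e
    rw [nT_eq hd hi h hv hφ a hw hψ] at h3
    exact h3 (three_le (a := ⟨0, by simpa using ht_zero w⟩) (b := ⟨1, by simpa using a⟩) (c := ⟨s, b⟩)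
      (by simp) (by simp [e.1.symm]) (by simp [e.2.symm]))
  refine ⟨?_, k⟩
  rcases k h (s := -1) (by simpa using h.neg) hv hφ with e | e
  · simp at e
  · linear_combination -e

/-- every centre has a second axis -/
def A2 (P : Subgroup (GL3 F)) : Prop :=
  ∀ ⦃v φ : V3 F⦄, HT P v φ → v ≠ 0 → φ ≠ 0 → ∃ χ, HT P v χ ∧ χ ≠ 0 ∧ χ ≠ φ

/-- every centre has one axis -/
def NA (P : Subgroup (GL3 F)) : Prop :=
  ∀ ⦃v φ χ : V3 F⦄, HT P v φ → HT P v χ → v ≠ 0 → φ ≠ 0 → χ ≠ 0 → χ = φ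

lemma A2.cj (h : A2 P) (g : GL3 F) : A2 (cjP P g) := fun v φ a hv hφ => by
  obtain ⟨χ, b, c, d⟩ := h a.of_cj (gl_ne _ hv) (gl_ne' _ hφ)
  exact ⟨_, ht_cj.2 b, gl_ne' _ c, fun e => d (by simp [← e])⟩

lemma NA.cj (h : NA P) (g : GL3 F) : NA (cjP P g) := fun v φ χ a b hv hφ hχ => by
  simpa using congrArg (· ᵥ* (g : Mt F)) (h a.of_cj b.of_cj (gl_ne _ hv) (gl_ne' _ hφ) (gl_ne' _ hχ))

lemma trP_cj (g : GL3 F) : trP (cjP P g) = cjP (trP P) (trI g) := by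
  ext A
  change g * trI A * g⁻¹ ∈ P ↔ trI (trI g * A * (trI g)⁻¹) ∈ P
  rw [map_mul, map_mul, map_inv, show trI (trI g) = g from trI.left_inv g]

lemma A2_or [Finite F] (hd : Det P) (hi : Irr P) : A2 P ∨ NA P := by
  refine or_iff_not_imp_right.2 fun k w ψ c hw hψ => ?_
  simp only [NA, not_forall] at k
  obtain ⟨v, φ, χ, a, b, hv, hφ, hχ, e⟩ := k
  obtain ⟨g, hg, x, y, hx, -, e1, -⟩ := flag_conj hd hi a hv hφ c hw hψ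
  have a' := a.conj hg
  have b' := b.conj hg
  rw [e1, ht_smul] at a' b'
  by_contra! k
  have := (k _ b' (smul_ne_zero hx (gl_ne' _ hχ))).trans (k _ a' (smul_ne_zero hx (gl_ne' _ hφ))).symm
  exact e (by simpa using congrArg (· ᵥ* (g : Mt F)) (smul_right_injective _ hx this))

lemma HT.inc (h : HT P v φ) (h' : HT P w ψ) (hv : v ≠ 0) (hφ : φ ≠ 0) (hw : w ≠ 0) (hψ : ψ ≠ 0)
    (e : φ ⬝ᵥ w = 0) : ∃ c : F, c ≠ 0 ∧ HT P (c • w) φ := by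
  by_cases k : ψ ⬝ᵥ v = 0
  · rcases perp2 h'.1 k e h.1 hψ hw with ⟨c, rfl⟩ | ⟨c, rfl⟩
    · have hc : c ≠ 0 := by rintro rfl; simp at hφ
      exact ⟨c⁻¹, inv_ne_zero hc, h'.resc hc⟩
    · exact ⟨c, by rintro rfl; simp at hv, h⟩
  · exact ⟨_, k, ht_smul.2 (h.comm h' e)⟩

lemma Two.one (t : Two P) (h1 : HT P v φ) (h2 : HT P v φ') (h3 : HT P v' φ) (hv : v ≠ 0) (hφ : φ ≠ 0)
    (a1 : φ' ≠ 0) (a2 : φ' ≠ φ) (b1 : v' ≠ 0) (b2 : v' ≠ v) : φ' ⬝ᵥ v' = 1 := by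
  refine (t.T h1 (h3.comm h2 h1.1) hv hφ).resolve_left fun e => ?_
  rcases perp2 h1.1 h3.1 h2.1 e hφ hv with ⟨c, rfl⟩ | ⟨c, rfl⟩
  · rcases t.T h1 h2 hv hφ with rfl | rfl <;> simp at a1 a2
  · rcases t.T h1 (ht_smul.1 h3) hv hφ with rfl | rfl <;> simp at b1 b2

lemma Two.four (t : Two P) (hb : A2 (trP P)) (h1 : HT P v φ) (h2 : HT P v φ') (hv : v ≠ 0) (hφ : φ ≠ 0)
    (a1 : φ' ≠ 0) (a2 : φ' ≠ φ) (h3 : HT P v χ) : χ = 0 ∨ χ = φ ∨ χ = φ' ∨ χ = φ + φ' := by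
  obtain ⟨v', b, b1, b2⟩ := hb h1.tr hφ hv
  by_contra! k
  have c1 := t.one h1 h2 (ht_tr.1 b) hv hφ a1 a2 b1 b2
  have c2 := t.one h1 h3 (ht_tr.1 b) hv hφ k.1 k.2.1 b1 b2
  have c3 := t.one h1 (h3.sub h2) (ht_tr.1 b) hv hφ (sub_ne_zero.2 k.2.2.1)
    (fun e => k.2.2.2 (sub_eq_iff_eq_add.1 e)) b1 b2
  simp [c1, c2] at c3

lemma up_elation (hd : Det P) (h2 : (2 : F) = 0) (hvw : v ⨯₃ w ≠ 0)
    (hW : ∀ χ, HT P v χ → χ ⬝ᵥ w = 0 → χ = 0) (s : F) :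
    up s ∈ Pl P v w ↔ ∃ χ, HT P v χ ∧ χ ⬝ᵥ w = s := by
  constructor
  swap
  · rintro ⟨χ, ⟨a, g, hg, e⟩, rfl⟩
    exact ⟨g, hg, by simp [e, tv_mulVec, a], by simp [e, tv_mulVec, add_comm]⟩
  rintro ⟨g, hg, a1, a2⟩
  by_cases hs : s = 0
  · exact ⟨0, ht_zero v, by simp [hs]⟩
  simp at a1 a2
  obtain ⟨i, hi⟩ := Function.ne_iff.1 hvw
  obtain ⟨o, ho⟩ : ∃ o, (v ⨯₃ w) ⬝ᵥ o = 1 := ⟨Pi.single i ((v ⨯₃ w) i)⁻¹, by simpa using mul_inv_cancel₀ hi⟩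
  have hD : (cols v w o).det ≠ 0 := by rw [det_cols, ho]; exact one_ne_zero
  obtain ⟨x, hx⟩ : ∃ x : V3 F, (g : Mt F) *ᵥ o = x 0 • v + x 1 • w + x 2 • o :=
    ⟨_, by rw [← fr_mulVec hD, mulVec_inv_mulVec]⟩
  have e1 := det_mul (g : Mt F) (cols v w o)
  rw [mul_cols, a1, a2, hx, hd g hg, det_cols, det_cols, ho] at e1
  simp [ho, dotProduct_comm _ v, dotProduct_comm _ w] at e1
  have tw : ∀ y : V3 F, y + y = 0 := fun y => by rw [← two_smul F, h2, zero_smul]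
  have e2 := hW ((x 1 * s) • v ⨯₃ w) ⟨by simp [dotProduct_comm _ v], g * g, P.mul_mem hg hg, ext_cols hD
    (by simp [← mulVec_mulVec, a1, tv_mulVec, dotProduct_comm _ v])
    (by simp [← mulVec_mulVec, a1, a2, tv_mulVec, dotProduct_comm _ w, mulVec_add, mulVec_smul,
      ← add_assoc, tw]) (by
      simp only [Units.val_mul, ← mulVec_mulVec, a1, a2, tv_mulVec, mulVec_add, mulVec_smul, hx, e1,
        smul_dotProduct, ho]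
      linear_combination (norm := module) tw (x 0 • v + x 1 • w))⟩ (by simp [dotProduct_comm _ w])
  have e3 : x 1 = 0 := by simpa [hs, hvw] using e2
  have c1 : (o ⨯₃ v) ⬝ᵥ w = 1 := by
    rw [← ho, dot3, dot3]; simp [cross_apply]; ring
  refine ⟨s • o ⨯₃ v + x 0 • v ⨯₃ w, ⟨by simp [dotProduct_comm _ v], g, hg, ext_cols hD ?_ ?_ ?_⟩, ?_⟩
  · simp [a1, tv_mulVec, dotProduct_comm _ v]
  · simp [a2, tv_mulVec, c1, dotProduct_comm (v ⨯₃ w), add_comm]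
  · simp [hx, tv_mulVec, e1, e3, ho, dotProduct_comm (o ⨯₃ v), add_comm]
  · simp [c1, dotProduct_comm (v ⨯₃ w)]

variable [Finite F]

lemma line_core (hd : Det P) (h2 : (2 : F) = 0) (b : HT P w ψ) (e : ψ ⬝ᵥ v ≠ 0)
    (hW : ∀ χ, HT P v χ → χ ⬝ᵥ w = 0 → χ = 0) (h1 : HT P v φ) (h1' : HT P v φ') (hφ : φ ≠ 0)
    (a1 : φ' ≠ 0) (a2 : φ' ≠ φ) : ∃ k : Subfield F, Nat.card k = nA P v ∧
      ∀ χ, HT P v χ → χ ≠ 0 → ∀ s, (∃ ρ, HT P v ρ ∧ ρ ⬝ᵥ w = s * χ ⬝ᵥ w) ↔ s ∈ k := by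
  have k1 := up_elation hd h2 (cross_ne (ne_of_dot e).2 h1.1 fun e => hφ (hW _ h1 e)) hW
  have inj : ∀ χ ρ, HT P v χ → HT P v ρ → χ ⬝ᵥ w = ρ ⬝ᵥ w → χ = ρ := fun χ ρ a b e =>
    sub_eq_zero.1 (hW _ (a.sub b) (by simp [e]))
  have hc : nA P v = Nat.card {s // up s ∈ Pl P v w} := Nat.card_eq_of_bijective
    (fun χ => ⟨χ.1 ⬝ᵥ w, (k1 _).2 ⟨_, χ.2, rfl⟩⟩) ⟨fun χ ρ e => Subtype.ext
      (inj _ _ χ.2 ρ.2 (congrArg Subtype.val e)), fun s => by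
        obtain ⟨χ, a, e⟩ := (k1 _).1 s.2
        exact ⟨⟨χ, a⟩, Subtype.ext e⟩⟩
  have h3 : 3 ≤ nA P v := three_le (a := ⟨0, ht_zero v⟩) (b := ⟨φ, h1⟩) (c := ⟨φ', h1'⟩)
    (by simp [hφ.symm]) (by simp [a1.symm]) (by simp [a2.symm])
  rcases core2 (hc ▸ h3) e (show lo (ψ ⬝ᵥ v) ∈ Pl P v w from
    ⟨_, b.mem, by simp [tvU, tv_mulVec], by simp [tvU, tv_mulVec, b.1]⟩) with
    ⟨k, α, hα, c1, -⟩ | ⟨c, -⟩
  · refine ⟨k, ?_, fun χ a hχ s => ?_⟩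
    · rw [hc]
      exact (Nat.card_congr ((Equiv.divRight₀ α hα).subtypeEquiv c1)).symm
    · have d1 := (c1 _).1 ((k1 _).2 ⟨χ, a, rfl⟩)
      have d2 : χ ⬝ᵥ w / α ≠ 0 := div_ne_zero (fun e => hχ (hW _ a e)) hα
      rw [← k1, c1, mul_div_assoc]
      exact ⟨fun h => by simpa [d2] using k.div_mem h d1, fun h => k.mul_mem h d1⟩
  · exact absurd (by linear_combination c - h2) (one_ne_zero (α := F))

lemma Two.cube (t : Two P) (hd : Det P) (ha : A2 P) (hb : A2 (trP P)) (h1 : HT P v φ) (h2 : HT P v φ')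
    (hv : v ≠ 0) (hφ : φ ≠ 0) (a1 : φ' ≠ 0) (a2 : φ' ≠ φ) (b : HT P w ψ) (hw : w ≠ 0) (hψ : ψ ≠ 0) :
    φ ⬝ᵥ w = 0 ∨ φ' ⬝ᵥ w = 0 ∨ φ ⬝ᵥ w + φ' ⬝ᵥ w = 0 ∨
      φ ⬝ᵥ w * φ ⬝ᵥ w + φ ⬝ᵥ w * φ' ⬝ᵥ w + φ' ⬝ᵥ w * φ' ⬝ᵥ w = 0 := by
  by_contra! k
  obtain ⟨ρ, c, e⟩ : ∃ ρ, HT P w ρ ∧ ρ ⬝ᵥ v ≠ 0 := by
    by_contra! k'
    obtain ⟨χ, c, c1, c2⟩ := ha b hw hψ
    rcases perp2 b.1 (k' _ b) c.1 (k' _ c) hψ hw with ⟨d, rfl⟩ | ⟨d, rfl⟩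
    · rcases t.T b c hw hψ with rfl | rfl <;> simp at c1 c2
    · have := h1.1
      simp [k.1] at this
      simp [this] at hv
  obtain ⟨K, -, hK⟩ := line_core hd t.two c e (fun χ a e => by
    rcases t.four hb h1 h2 hv hφ a1 a2 a with rfl | rfl | rfl | rfl
    · rfl
    · exact absurd e k.1
    · exact absurd e k.2.1
    · exact absurd ((add_dotProduct _ _ _).symm.trans e) k.2.2.1) h1 h2 hφ a1 a2
  have r1 := (hK φ h1 hφ (φ' ⬝ᵥ w / φ ⬝ᵥ w)).1 ⟨_, h2, (div_mul_cancel₀ _ k.1).symm⟩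
  obtain ⟨χ, d1, d2⟩ := (hK φ h1 hφ _).2 (K.mul_mem r1 r1)
  obtain ⟨k1, k2, k3, k4⟩ := k
  rw [mul_assoc, div_mul_cancel₀ _ k1, div_mul_eq_mul_div, eq_div_iff k1] at d2
  have := (t.four hb h1 h2 hv hφ a1 a2 d1).imp (congrArg (· ⬝ᵥ w)) (Or.imp (congrArg (· ⬝ᵥ w))
    (Or.imp (congrArg (· ⬝ᵥ w)) (congrArg (· ⬝ᵥ w))))
  simp only [zero_dotProduct, add_dotProduct] at this
  generalize χ ⬝ᵥ w = x at *
  generalize φ ⬝ᵥ w = y at *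
  generalize φ' ⬝ᵥ w = z at *
  have t2 := t.two
  clear * - k1 k2 k3 k4 this d2 t2
  grind

omit [Finite F] in
lemma conjT_ne' (h : φ ≠ 0) (e : ψ ⬝ᵥ w = 0) : φ - (φ ⬝ᵥ w) • ψ ≠ 0 := fun e' => by
  have := congrArg (· ⬝ᵥ w) e'
  simp only [sub_dotProduct, smul_dotProduct, e, smul_zero, sub_zero, zero_dotProduct] at this
  simp [this, h] at e'

omit [Finite F] in
lemma NA.ao (hb : NA (trP P)) : AO P := fun v φ w ψ a b hv hφ hψ e => by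
  by_cases hw : w = 0
  · exact ⟨0, by simp [hw]⟩
  obtain ⟨c, hc, d⟩ := a.inc b hv hφ hw hψ e
  exact ⟨c⁻¹, by rw [← hb a.tr d.tr hφ hv (smul_ne_zero hc hw), smul_smul, inv_mul_cancel₀ hc, one_smul]⟩

theorem not_A2_NB (h : Hyp0 P) (hi : Irr P) (t : Two P) (ha : A2 P) (hb : NA (trP P)) : False := by
  have hd : Det P := fun g => h.det
  have ho := hb.ao
  obtain ⟨v, φ, hv, hφ, h0⟩ := h.flag
  obtain ⟨w, ψ, u, χ, h1, b2, b3, h2, hχ, hD⟩ := three_centres hi h0 hv hφ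
  have key : ∀ v φ w ψ, HT P v φ → HT P w ψ → v ≠ 0 → φ ≠ 0 → ψ ≠ 0 → v ⨯₃ w ≠ 0 → ∃ k : Subfield F,
      Nat.card k = nA P u ∧ (∀ χ, HT P v χ → χ ≠ 0 → χ ⬝ᵥ w ≠ 0) ∧
      ∀ χ, HT P v χ → χ ≠ 0 → ∀ s, (∃ ρ, HT P v ρ ∧ ρ ⬝ᵥ w = s * χ ⬝ᵥ w) ↔ s ∈ k := by
    intro v φ w ψ a b hv hφ hψ e
    have hW : ∀ χ, HT P v χ → χ ≠ 0 → χ ⬝ᵥ w ≠ 0 := fun χ c hχ e' => by
      obtain ⟨d, rfl⟩ := ho c b hv hχ hψ e'
      simp at e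
    obtain ⟨φ', c, c1, c2⟩ := ha a hv hφ
    obtain ⟨k, k1, k2⟩ := line_core hd t.two b (fun e' => by
      obtain ⟨d, rfl⟩ := ho b a (by rintro rfl; simp at e) hψ hφ e'
      simp at e) (fun χ c e => by_contra fun h => hW χ c h e) a c hφ c1 c2
    exact ⟨k, k1.trans (nA_eq hd hi a hv hφ h2 (ne_of_dot hD).2 hχ), hW, k2⟩
  have hu := (ne_of_dot hD).2
  have hψ := (ne_of_dot b3).1
  have hw := (ne_of_dot (b2 ▸ one_ne_zero : φ ⬝ᵥ w ≠ 0)).2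
  have nz : ∀ a b : F, u ⨯₃ (a • v + w) ≠ 0 := fun a b e => by
    obtain ⟨c, e⟩ := par_of_cross hu e
    have e1 := congrArg ((v ⨯₃ w) ⬝ᵥ ·) e
    simp [dotProduct_comm _ v, dotProduct_comm _ w, hD] at e1
    have e2 := congrArg (φ ⬝ᵥ ·) e
    simp [e1, h0.1, b2] at e2
  have cen : ∀ ρ, HT P v ρ → ∃ η, η ≠ 0 ∧ HT P ((ρ ⬝ᵥ w) • v + w) η := fun ρ c =>
    ⟨_, conjT_ne' hψ c.1, add_comm w _ ▸ h1.conjT c⟩
  obtain ⟨k, k1, -, k2⟩ := key v φ w ψ h0 h1 hv hφ hψ (ne_of_dot hD).1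
  obtain ⟨χ', c, c1, c2⟩ := ha h2 hu hχ
  have rat : ∀ x η, HT P x η → η ≠ 0 → u ⨯₃ x ≠ 0 → χ ⬝ᵥ x ≠ 0 ∧ χ' ⬝ᵥ x / χ ⬝ᵥ x ∈ k := by
    intro x η a hη e
    obtain ⟨k', l1, l2, l3⟩ := key u χ x η h2 a hu hχ hη e
    rw [subfield_eq_of_card (k1.trans l1.symm)]
    exact ⟨l2 _ h2 hχ, (l3 χ h2 hχ _).1 ⟨_, c, (div_mul_cancel₀ _ (l2 _ h2 hχ)).symm⟩⟩
  obtain ⟨r1, r2⟩ := rat v φ h0 hφ fun e => by
    obtain ⟨c, rfl⟩ := par_of_cross hu e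
    simp [dotProduct_comm _ u] at hD
  obtain ⟨r3, r4⟩ := rat w ψ h1 hψ (by simpa using nz 0 0)
  obtain ⟨η, d1, d2⟩ := cen φ h0
  obtain ⟨r5, r6⟩ := rat _ η d2 d1 (nz _ 0)
  simp only [b2, one_smul, dotProduct_add] at r5 r6
  by_cases e : χ' ⬝ᵥ w / χ ⬝ᵥ w = (χ' ⬝ᵥ v + χ' ⬝ᵥ w) / (χ ⬝ᵥ v + χ ⬝ᵥ w)
  · have : χ' = (χ' ⬝ᵥ v / χ ⬝ᵥ v) • χ := by
      rw [← sub_eq_zero]
      by_contra h0
      rw [div_eq_div_iff r3 r5] at e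
      obtain ⟨d, e'⟩ := par_cross (φ := χ' - (χ' ⬝ᵥ v / χ ⬝ᵥ v) • χ) (v := v) (w := w) (by simp [r1])
        (by simp; field_simp; linear_combination e) (ne_of_dot hD).1
      have := congrArg (· ⬝ᵥ u) e'
      simp [c.1, h2.1, hD] at this
      simp [this, h0] at e'
    rcases t.T h2 (this ▸ c) hu hχ with e | e <;> simp [e] at this <;> contradiction
  obtain ⟨ρ, d3, d4⟩ := (k2 φ h0 hφ _).2 (k.div_mem (k.sub_mem r2 r6) (k.sub_mem r4 r6))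
  obtain ⟨η', d5, d6⟩ := cen ρ d3
  refine (rat _ η' d6 d5 (nz _ 0)).1 ?_
  rw [dotProduct_add, dotProduct_smul, d4, b2, mul_one, smul_eq_mul, div_mul_eq_mul_div,
    div_add' _ _ _ (sub_ne_zero.2 e), div_eq_zero_iff]
  left
  field_simp
  ring

end Cfsg.Agent.H7.PA
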