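import Cfsg.Agent.H7.PA7

/-! Groups generated by transvections: `SL₃(2)` and `3·A₆`. -/

set_option autoImplicit false
set_option linter.unusedSectionVars false
set_option linter.unusedVariables false
set_option linter.unnecessarySimpa false
set_option linter.style.haveILetI false
set_option linter.unusedSimpArgs false

namespace Cfsg.Agent.H7.PA

open Cfsg.Geo Matrix Cfsg.Agent.H8 Cfsg.Agent.H8.M3 Equiv
open scoped MatrixGroups

attribute [-simp] cons_dotProduct dotProduct_cons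

variable {F : Type*} [Field F] {P Q : Subgroup (GL3 F)} {u v v' w o φ φ' ψ χ θ : V3 F}

/-- all transvections of `P` with centre on a line lie in `Q` -/
def LF (P Q : Subgroup (GL3 F)) (θ : V3 F) : Prop := ∀ ⦃w ψ⦄, HT P w ψ → θ ⬝ᵥ w = 0 → HT Q w ψ

lemma LF.conj (h : LF P Q θ) (hQ : Q ≤ P) (a : HT Q u χ) (e : o = θ + (θ ⬝ᵥ u) • χ) : LF P Q o := by
  intro w ψ b e'
  have := (h (b.conjT (a.mono hQ)) (by simpa [e, mul_comm] using e')).conjT a.neg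
  simpa [a.1] using this

lemma Two.full (t : Two P) (hb : A2 (trP P)) (hQ : Q ≤ P) (h1 : HT Q v φ) (h2 : HT Q v φ') (hv : v ≠ 0)
    (hφ : φ ≠ 0) (a1 : φ' ≠ 0) (a2 : φ' ≠ φ) (h3 : HT P v χ) : HT Q v χ := by
  rcases t.four hb (h1.mono hQ) (h2.mono hQ) hv hφ a1 a2 h3 with rfl | rfl | rfl | rfl
  exacts [ht_zero _, h1, h2, h1.add h2]

lemma le_gens [Finite F] (h : Hyp0 P) (t : Two P) (ha : A2 P) (hb : A2 (trP P)) (hQ : Q ≤ P) {a : F}
    (h01 : HT Q ![1, 0, 0] ![0, 1, 0]) (h02 : HT Q ![1, 0, 0] ![0, 0, 1]) (h12 : HT Q ![0, 1, 0] ![0, 0, 1])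
    (h10 : HT Q ![0, 1, 0] ![1, 0, 0]) (h21 : HT Q ![a, 0, 1] ![0, 1, 0]) : P ≤ Q := by
  have t2 := t.two
  have g1 : HT Q ![1, 1, 0] ![0, 0, 1] := by simpa using h02.add' h12
  have g2 : HT Q ![1, 1, 0] ![1, 1, 0] := by
    have := h10.conjT h01.neg
    convert this using 1 <;> refine ext3 ?_ ?_ ?_ <;>
      simp [dot3, neg_eq_of_add_eq_zero_left (one_add_one_eq_two.trans t2)]
  have l0 : LF P Q ![0, 0, 1] := fun w ψ b e => by
    by_cases h0 : w = 0 ∨ ψ = 0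
    · rcases h0 with rfl | rfl
      exacts [ht_zero' _, ht_zero _]
    push Not at h0
    obtain ⟨c, hc, d⟩ := (h02.mono hQ).inc b (by simp) (by simp) h0.1 h0.2 e
    have b' := b.resc' hc
    suffices HT Q (c • w) (c⁻¹ • ψ) by simpa [hc] using this.resc hc
    rcases t.tr.four (by rwa [trP_trP]) (h02.mono hQ).tr (h12.mono hQ).tr (by simp) (by simp) (by simp)
      (by simp) d.tr with e | e | e | e <;> rw [e] at b' ⊢
    · exact ht_zero' _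
    · exact t.full hb hQ h01 h02 (by simp) (by simp) (by simp) (by simp) b'
    · exact t.full hb hQ h10 h12 (by simp) (by simp) (by simp) (by simp) b'
    · simp only [Matrix.add_cons, head_cons, tail_cons, add_zero, zero_add, empty_add_empty] at b' ⊢
      exact t.full hb hQ g1 g2 (by simp) (by simp) (by simp) (by simp) b'
  have e2 : (1 : F) + 1 = 0 := one_add_one_eq_two.trans t2
  have l1 : LF P Q ![0, 1, 1] := l0.conj hQ h21 (by simp [dot3])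
  have l2 : LF P Q ![0, 1, 0] := l1.conj hQ h12 (by simp [dot3, e2])
  have l3 : LF P Q ![1, 1, 0] := l2.conj hQ h10 (by simp [dot3])
  have l4 : LF P Q ![1, 1, 1] := l1.conj hQ h10 (by simp [dot3])
  have l5 : LF P Q ![1, 0, 0] := l3.conj hQ h01 (by simp [dot3, e2])
  have l6 : LF P Q ![1, 0, 1] := l4.conj hQ h01 (by simp [dot3, e2])
  refine h.le Q fun w ψ b => ?_
  by_cases h0 : w = 0 ∨ ψ = 0
  · rcases h0 with rfl | rfl
    exacts [ht_zero' _, ht_zero _]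
  push Not at h0
  have hd : Det P := fun g => h.det
  have c0 := t.cube hd ha hb (h01.mono hQ) (h02.mono hQ) (by simp) (by simp) (by simp) (by simp) b h0.1 h0.2
  have c1 := t.cube hd ha hb (h10.mono hQ) (h12.mono hQ) (by simp) (by simp) (by simp) (by simp) b h0.1 h0.2
  have c2 := t.cube hd ha hb (g2.mono hQ) (g1.mono hQ) (by simp) (by simp) (by simp) (by simp) b h0.1 h0.2
  by_contra k
  have m0 := mt (l0 b) k
  have m1 := mt (l1 b) k
  have m2 := mt (l2 b) k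
  have m3 := mt (l3 b) k
  have m4 := mt (l4 b) k
  have m5 := mt (l5 b) k
  have m6 := mt (l6 b) k
  simp only [dot3, cons_val_zero, cons_val_one, cons_val, one_mul, zero_mul, add_zero, zero_add]
    at c0 c1 c2 m0 m1 m2 m3 m4 m5 m6
  simp only [m0, m1, m2, m3, m4, m5, m6, false_or] at c0 c1 c2
  exact m0 (mul_self_eq_zero.1 (by linear_combination c0 + c1 + c2 -
    (w 0 * w 0 + w 1 * w 1 + w 2 * w 2 + w 0 * w 1 + w 0 * w 2 + w 1 * w 2) * t2))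

lemma HT.inf (h : HT P v φ) (h' : tvU v φ h.1 ∈ Q) : HT (P ⊓ Q) v φ := ⟨h.1, _, ⟨h.mem, h'⟩, rfl⟩

lemma tv_rat {k : Subfield F} (e : φ ⬝ᵥ v = 0) (h : ∀ i, v i ∈ k) (h' : ∀ i, φ i ∈ k) :
    tvU v φ e ∈ (gm k).range := mem_rat.2 fun i j => by
  change (1 : Mt F) i j + v i * φ j ∈ k
  refine k.add_mem ?_ (k.mul_mem (h i) (h' j))
  rw [one_apply]
  split_ifs
  exacts [k.one_mem, k.zero_mem]

lemma vec_mem {k : Subfield F} {a b c : F} (ha : a ∈ k) (hb : b ∈ k) (hc : c ∈ k) :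
    ∀ i, ![a, b, c] i ∈ k := fun i => by fin_cases i <;> assumption

lemma fano [Finite F] (h : Hyp0 P) (t : Two P) (ha : A2 P) (hb : A2 (trP P))
    (h01 : HT P ![1, 0, 0] ![0, 1, 0]) (h02 : HT P ![1, 0, 0] ![0, 0, 1]) (h12 : HT P ![0, 1, 0] ![0, 0, 1])
    (h10 : HT P ![0, 1, 0] ![1, 0, 0]) (h21 : HT P ![0, 0, 1] ![0, 1, 0]) : IsSL3 P 1 ⊥ := by
  have z := (⊥ : Subfield F).zero_mem
  have o := (⊥ : Subfield F).one_mem
  have h20 : HT P ![0, 0, 1] ![1, 0, 0] := by simpa [dot3] using h10.comm h21 (by simp [dot3])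
  haveI := CharTwo.of_one_ne_zero_of_two_eq_zero (R := F) one_ne_zero t.two
  refine isSL3_std (fun g => h.det) ((le_gens h t ha hb inf_le_left
    (h01.inf (tv_rat _ (vec_mem o z z) (vec_mem z o z))) (h02.inf (tv_rat _ (vec_mem o z z) (vec_mem z z o)))
    (h12.inf (tv_rat _ (vec_mem z o z) (vec_mem z z o))) (h10.inf (tv_rat _ (vec_mem z o z) (vec_mem o z z)))
    (h21.inf (tv_rat _ (vec_mem z z o) (vec_mem z o z)))).trans inf_le_right) fun i j hij s hs =>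
    HT.bot ?_ 2 hs
  have e0 : (Pi.single 0 1 : V3 F) = ![1, 0, 0] := ext3 (by simp) (by simp) (by simp)
  have e1 : (Pi.single 1 1 : V3 F) = ![0, 1, 0] := ext3 (by simp) (by simp) (by simp)
  have e2 : (Pi.single 2 1 : V3 F) = ![0, 0, 1] := ext3 (by simp) (by simp) (by simp)
  fin_cases i <;> fin_cases j <;> simp [e0, e1, e2] at hij ⊢ <;> assumption

/-- `g` permutes the given points -/
def PermOf {ι : Type*} (pt : ι → V3 F) (g : GL3 F) (σ : Perm ι) : Prop :=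
  ∀ i, ∃ c : F, (g : Mt F) *ᵥ pt i = c • pt (σ i)

section
variable {ι : Type*} {pt : ι → V3 F} {g g' : GL3 F} {σ τ : Perm ι}

lemma PermOf.mul (h : PermOf pt g σ) (h' : PermOf pt g' τ) : PermOf pt (g * g') (σ * τ) := fun i => by
  obtain ⟨c, e⟩ := h' i
  obtain ⟨d, e'⟩ := h (τ i)
  exact ⟨c * d, by rw [Units.val_mul, ← mulVec_mulVec, e, mulVec_smul, e', smul_smul]; rfl⟩

lemma PermOf.inv (hn : ∀ i, pt i ≠ 0) (h : PermOf pt g σ) : PermOf pt g⁻¹ σ⁻¹ := fun i => by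
  obtain ⟨c, e⟩ := h (σ⁻¹ i)
  have hc : c ≠ 0 := by rintro rfl; exact gl_ne g (hn _) (by rw [e, zero_smul])
  refine ⟨c⁻¹, gl_inj g ?_⟩
  rw [mulVec_inv_mulVec, mulVec_smul, e, smul_smul, inv_mul_cancel₀ hc, one_smul]
  simp

lemma PermOf.uniq (hn : ∀ i, pt i ≠ 0) (hp : ∀ i j (c : F), pt i = c • pt j → i = j) (h : PermOf pt g σ)
    (h' : PermOf pt g τ) : σ = τ := Equiv.ext fun i => by
  obtain ⟨c, e⟩ := h i
  obtain ⟨d, e'⟩ := h' i
  have hc : c ≠ 0 := by rintro rfl; exact gl_ne g (hn _) (by rw [e, zero_smul])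
  exact hp _ _ (c⁻¹ * d) (by rw [← smul_smul, ← e', e, smul_smul, inv_mul_cancel₀ hc, one_smul])

/-- the stabiliser of a set of points -/
def permSt (pt : ι → V3 F) (hn : ∀ i, pt i ≠ 0) : Subgroup (GL3 F) where
  carrier := {g | ∃ σ, PermOf pt g σ}
  one_mem' := ⟨1, fun i => ⟨1, by simp⟩⟩
  mul_mem' := fun ⟨_, a⟩ ⟨_, b⟩ => ⟨_, a.mul b⟩
  inv_mem' := fun ⟨_, a⟩ => ⟨_, a.inv hn⟩

lemma exists_perm_hom (hn : ∀ i, pt i ≠ 0) (hp : ∀ i j (c : F), pt i = c • pt j → i = j)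
    (hP : P ≤ permSt pt hn) : ∃ f : ModSc P →* Perm ι, ∀ (g : P) σ, PermOf pt g σ → f g = σ := by
  choose b hb using fun g : P => (hP g.2 : ∃ σ, PermOf pt g σ)
  obtain ⟨f, hf⟩ := lift_hom (MonoidHom.mk' b fun x y => (hb (x * y)).uniq hn hp ((hb x).mul (hb y)))
    fun x c e => (hb x).uniq hn hp fun i => ⟨c, by rw [e, smul_mulVec, one_mulVec]; rfl⟩
  exact ⟨f, fun g σ a => (hf g).trans ((hb g).uniq hn hp a)⟩

end

/-- five generators of `A₆` -/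
def gen6 : Fin 5 → Perm (Fin 6) :=
  ![⟨![0, 3, 2, 1, 5, 4], ![0, 3, 2, 1, 5, 4], by decide, by decide⟩,
    ⟨![2, 3, 0, 1, 4, 5], ![2, 3, 0, 1, 4, 5], by decide, by decide⟩,
    ⟨![1, 0, 3, 2, 4, 5], ![1, 0, 3, 2, 4, 5], by decide, by decide⟩,
    ⟨![0, 1, 3, 2, 5, 4], ![0, 1, 3, 2, 5, 4], by decide, by decide⟩,
    ⟨![0, 4, 2, 5, 1, 3], ![0, 4, 2, 5, 1, 3], by decide, by decide⟩]

/-- words for the three-cycles -/
def words6 : List (List (Fin 5)) :=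
  [[3,0],[0,3],[3,1,0],[3,2,0],[1,3,0],[0,3,1],[0,3,2],[1,0,3],[4,3,4,0],[4,3,4,1],[4,0,3,4],[1,4,3,4],
   [4,3,4,3,0],[4,3,2,4,0],[4,1,3,4,0],[3,4,3,4,0],[4,3,4,0,3],[4,0,3,4,3],[4,0,3,1,4],[1,4,3,1,4],
   [3,4,0,3,4],[0,3,4,3,4],[2,4,3,4,2,1],[4,1,3,4,3,1],[2,4,3,4,0,2],[2,4,0,3,4,2],[2,1,4,3,4,2],
   [3,4,3,4,1,3],[3,1,4,3,4,3],[1,3,4,3,1,4],[1,4,3,4,3,1,0],[2,4,0,3,4,2,0],[2,1,4,3,4,2,0],
   [4,0,3,4,0,3,0],[2,4,3,4,1,3,0],[3,2,4,3,2,4,0],[0,3,4,0,3,4,0],[2,4,3,2,4,2,1],[2,4,1,3,4,2,1],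
   [3,4,1,3,4,2,1]]

lemma words6_ok : ∀ a b c : Fin 6, a ≠ b → a ≠ c → b ≠ c →
    ∃ w ∈ words6, ∀ i, (w.map gen6).prod i = swap a b (swap a c i) := by
  decide +kernel

lemma alt6_le {S : Subgroup (Perm (Fin 6))} (h : ∀ i, gen6 i ∈ S) : alternatingGroup (Fin 6) ≤ S := by
  rw [← Perm.closure_three_cycles_eq_alternating, Subgroup.closure_le]
  intro σ hσ
  obtain ⟨τ, rfl⟩ := isConj_iff.1 (Perm.isConj_iff_cycleType_eq.2
    ((Perm.isThreeCycle_swap_mul_swap_same (a := (0 : Fin 6)) (b := 1) (c := 2) (by decide) (by decide)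
      (by decide)).trans hσ.symm))
  obtain ⟨w, -, e⟩ := words6_ok (τ 0) (τ 1) (τ 2) (by simp) (by simp) (by simp)
  rw [show τ * (swap 0 1 * swap 0 2) * τ⁻¹ = (w.map gen6).prod from Equiv.ext fun i => by
    rw [e, swap_apply_apply, swap_apply_apply]; simp]
  exact S.list_prod_mem fun x hx => by
    obtain ⟨i, -, rfl⟩ := List.mem_map.1 hx
    exact h i

lemma oval [Finite F] (h : Hyp0 P) (t : Two P) (ha : A2 P) (hb : A2 (trP P)) {a : F}
    (h0 : a * a + a + 1 = 0)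
    (h01 : HT P ![1, 0, 0] ![0, 1, 0]) (h02 : HT P ![1, 0, 0] ![0, 0, 1]) (h12 : HT P ![0, 1, 0] ![0, 0, 1])
    (h10 : HT P ![0, 1, 0] ![1, 0, 0]) (h21 : HT P ![a, 0, 1] ![0, 1, 0]) : Concl P := by
  have t2 := t.two
  haveI := CharTwo.of_one_ne_zero_of_two_eq_zero (R := F) one_ne_zero t2
  obtain ⟨k, hk, -⟩ := exists_subfield_pow (F := F) 2 2 two_pos
  have z := k.zero_mem
  have o := k.one_mem
  have ak : a ∈ k := (hk a).2 (by linear_combination (a * a - a) * h0)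
  let pt : Fin 6 → V3 F := ![![0, 0, 1], ![0, 1, 1], ![1, 0, 1], ![1, 1, 1], ![a, 1, 0], ![a + 1, 1, 0]]
  have hn : ∀ i, pt i ≠ 0 := fun i => by fin_cases i <;> simp [pt]
  have hp : ∀ i j (c : F), pt i = c • pt j → i = j := fun i j c e => by
    have e0 := congrFun e 0
    have e1 := congrFun e 1
    have e2 := congrFun e 2
    clear * - e0 e1 e2
    fin_cases i <;> fin_cases j <;> simp [pt] at e0 e1 e2 ⊢ <;> grind
  have po : ∀ (v φ : V3 F) (e : φ ⬝ᵥ v = 0) (σ : Perm (Fin 6)),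
      (∀ i, pt (σ i) ⨯₃ (pt i + (φ ⬝ᵥ pt i) • v) = 0) → PermOf pt (tvU v φ e) σ := fun v φ e σ a i =>
    par_of_cross (hn _) ((tv_mulVec v φ _).symm ▸ a i)
  have p : PermOf pt (tvU _ _ h01.1) (gen6 0) ∧ PermOf pt (tvU _ _ h02.1) (gen6 1) ∧
      PermOf pt (tvU _ _ h12.1) (gen6 2) ∧ PermOf pt (tvU _ _ h10.1) (gen6 3) ∧
      PermOf pt (tvU _ _ h21.1) (gen6 4) := by
    refine ⟨?_, ?_, ?_, ?_, ?_⟩ <;> refine po _ _ _ _ fun i => ?_ <;> clear * - h0 t2 <;> fin_cases i <;>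
      refine ext3 ?_ ?_ ?_ <;> simp [pt, gen6, cross_apply, dot3, vecHead, vecTail] <;> grind
  obtain ⟨p0, p1, p2, p3, p4⟩ := p
  have hle := (le_gens h t ha hb (Q := P ⊓ ((gm k).range ⊓ permSt pt hn)) inf_le_left
    (h01.inf ⟨tv_rat _ (vec_mem o z z) (vec_mem z o z), _, p0⟩)
    (h02.inf ⟨tv_rat _ (vec_mem o z z) (vec_mem z z o), _, p1⟩)
    (h12.inf ⟨tv_rat _ (vec_mem z o z) (vec_mem z z o), _, p2⟩)
    (h10.inf ⟨tv_rat _ (vec_mem z o z) (vec_mem o z z), _, p3⟩)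
    (h21.inf ⟨tv_rat _ (vec_mem ak z o) (vec_mem z o z), _, p4⟩)).trans inf_le_right
  obtain ⟨f, hf⟩ := exists_perm_hom hn hp (hle.trans inf_le_right)
  have hr : f.range = alternatingGroup (Fin 6) := le_antisymm (by
      rintro _ ⟨x, rfl⟩
      exact h.sn.hom_eq_one (Perm.sign.comp f) x) (alt6_le fun i => by
      fin_cases i
      exacts [⟨_, hf ⟨_, h01.mem⟩ _ p0⟩, ⟨_, hf ⟨_, h02.mem⟩ _ p1⟩, ⟨_, hf ⟨_, h12.mem⟩ _ p2⟩,
        ⟨_, hf ⟨_, h10.mem⟩ _ p3⟩, ⟨_, hf ⟨_, h21.mem⟩ _ p4⟩])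
  have hi : Function.Injective f := by
    rw [← MonoidHom.ker_eq_bot_iff]
    refine (h.sn.normal_cases _ inferInstance).resolve_right fun e => ?_
    exact absurd ((hf ⟨_, h01.mem⟩ _ p0).symm.trans (MonoidHom.mem_ker.1 (e ▸ Subgroup.mem_top _)))
      (by decide)
  refine Or.inr (Or.inr ⟨t2, ⟨(MonoidHom.ofInjective hi).trans (MulEquiv.subgroupCongr hr)⟩,
    fun A hA => (hk _).1 ?_⟩)
  exact k.sum_mem fun i _ => mem_rat.1 (hle hA).1 i i

/-- the frame with given rows -/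
noncomputable def ro (u v w : V3 F) (h : (of ![u, v, w]).det ≠ 0) : GL3 F :=
  GeneralLinearGroup.mkOfDetNeZero _ h

lemma ht_ro (h : (of ![ψ, φ', φ]).det ≠ 0) {x a : V3 F} :
    HT (cjP P (ro ψ φ' φ h)⁻¹) ![ψ ⬝ᵥ x, φ' ⬝ᵥ x, φ ⬝ᵥ x] a ↔ HT P x (a 0 • ψ + a 1 • φ' + a 2 • φ) := by
  rw [show ![ψ ⬝ᵥ x, φ' ⬝ᵥ x, φ ⬝ᵥ x] = (ro ψ φ' φ h : Mt F) *ᵥ x from ext3 rfl rfl rfl, ht_cj',
    show a ᵥ* (ro ψ φ' φ h : Mt F) = a 0 • ψ + a 1 • φ' + a 2 • φ from funext fun i => by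
      simp [ro, vecMul, dot3]]

theorem case_A2_B2 [Finite F] (h : Hyp0 P) (t : Two P) (ha : A2 P) (hb : A2 (trP P)) : Concl P := by
  obtain ⟨v, φ, hv, hφ, h0⟩ := h.flag
  obtain ⟨φ', a, a1, a2⟩ := ha h0 hv hφ
  obtain ⟨v', b, b1, b2⟩ := hb h0.tr hφ hv
  rw [ht_tr] at b
  obtain ⟨ψ, c, c1, c2⟩ := ha b b1 hφ
  obtain ⟨p, d, d1, d2⟩ := hb a.tr a1 hv
  rw [ht_tr] at d
  have e1 := t.one h0 a b hv hφ a1 a2 b1 b2
  have e2 := t.one b c h0 b1 hφ c1 c2 hv b2.symm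
  have e3 := t.one a h0 d hv a1 hφ a2.symm d1 d2
  have hD : (of ![ψ, φ', φ]).det ≠ 0 := by
    obtain ⟨x, e⟩ := par_cross (φ := v) (v := φ') (w := φ) (dotProduct_comm _ v ▸ a.1)
      (dotProduct_comm _ v ▸ h0.1) fun e => by
        obtain ⟨x, rfl⟩ := par_of_cross a1 e
        have := b.1
        simp [e1] at this
        simp [this] at hφ
    intro e'
    rw [e, dotProduct_smul, triple_product_eq_det] at e2
    simp [show det ![ψ, φ', φ] = 0 from e'] at e2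
  have := t.cube (fun g => h.det) ha hb c b b1 c1 hφ c2.symm d d1 a1
  rw [e3] at this
  have h01 := (ht_ro hD (P := P) (x := v) (a := ![0, 1, 0])).2 (by simpa using a)
  have h02 := (ht_ro hD (P := P) (x := v) (a := ![0, 0, 1])).2 (by simpa using h0)
  have h12 := (ht_ro hD (P := P) (x := v') (a := ![0, 0, 1])).2 (by simpa using b)
  have h10 := (ht_ro hD (P := P) (x := v') (a := ![1, 0, 0])).2 (by simpa using c)
  have h21 := (ht_ro hD (P := P) (x := p) (a := ![0, 1, 0])).2 (by simpa using d)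
  rw [e2, a.1, h0.1] at h01 h02
  rw [e1, b.1, c.1] at h12 h10
  rw [e3, d.1] at h21
  have hb' : A2 (trP (cjP P (ro ψ φ' φ hD)⁻¹)) := by rw [trP_cj]; exact hb.cj _
  refine Concl.of_cj (g := (ro ψ φ' φ hD)⁻¹) ?_
  rcases this with e | e | e | e
  · exact Or.inl ⟨1, ⊥, fano (h.cj _) (t.cj _) (ha.cj _) hb' h01 h02 h12 h10 (e ▸ h21)⟩
  · simp at e
  · exact Or.inl ⟨1, ⊥, fano (h.cj _) (t.cj _) (ha.cj _) hb' h01 h02 h12 h10
      (by simpa [e] using h21.add' h01)⟩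
  · exact oval (h.cj _) (t.cj _) (ha.cj _) hb' (by simpa using e) h01 h02 h12 h10 h21

end Cfsg.Agent.H7.PA
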