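import Cfsg.Agent.H7.PA6
import Cfsg.Agent.H7.PA8

/-! Groups generated by transvections in dimension three: the classification. -/

set_option autoImplicit false
set_option linter.unusedSectionVars false
set_option linter.unusedVariables false
set_option linter.unnecessarySimpa false
set_option linter.style.haveILetI false
set_option linter.unusedSimpArgs false

namespace Cfsg.Agent.H7.PA

open Cfsg.Geo Matrix Cfsg.Agent.H8 Cfsg.Agent.H8.M3
open scoped MatrixGroups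

attribute [-simp] cons_dotProduct dotProduct_cons

variable {F : Type*} [Field F] {P Q : Subgroup (GL3 F)} {u v v' w o φ φ' ψ χ θ : V3 F}

lemma frob_inv {G : Type*} [Group G] [Finite G] (h : SN G) {t : G} (h1 : t ≠ 1) (h2 : t * t = 1)
    (hc : ∀ x, t * x = x * t → x = 1 ∨ x = t ∨ x * x = t) : False := by
  refine h.frob (Subgroup.centralizer {t}) (fun e => h1 (Subgroup.mem_bot.1 (e ▸ by simp
    [Subgroup.mem_centralizer_iff]))) (fun e => h1 (h.center_eq fun g => ?_)) fun g x hx x1 hg => ?_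
  · exact Subgroup.mem_centralizer_singleton_iff.1 (e ▸ Subgroup.mem_top g)
  rw [Subgroup.mem_centralizer_singleton_iff] at hx hg ⊢
  have e : g⁻¹ * x * g * (g⁻¹ * x * g) = g⁻¹ * (x * x) * g := by group
  have k : ∀ y, g⁻¹ * y * g = 1 → y = 1 := fun y e => by
    rw [show y = g * (g⁻¹ * y * g) * g⁻¹ by group, e]; group
  have k' : g⁻¹ * t * g = t → g * t = t * g := fun e => by
    rw [← mul_left_cancel_iff (a := g⁻¹), ← mul_assoc, ← mul_assoc, e, inv_mul_cancel, one_mul]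
  rcases hc _ hg.symm with a | a | a
  · exact absurd (k _ a) x1
  · rcases hc _ hx.symm with b | b | b
    · exact absurd b x1
    · exact k' (b ▸ a)
    · rw [a, h2, b] at e
      exact absurd (k _ e.symm) h1
  · rcases hc _ hx.symm with b | b | b
    · exact absurd b x1
    · rw [a, b, h2] at e
      exact absurd (by simpa using e) h1
    · exact k' (by rw [b] at e; rw [← e, a])

/-- `P` contains a homology -/
def Hm (P : Subgroup (GL3 F)) (o θ : V3 F) : Prop :=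
  θ ⬝ᵥ o ≠ 0 ∧ ∃ g ∈ P, ∃ c : F, (g : Mt F) = c • (1 + vv o θ)

lemma hm_ne {g : GL3 F} {c : F} (e : (g : Mt F) = c • (1 + vv o θ)) : c ≠ 0 ∧ 1 + θ ⬝ᵥ o ≠ 0 := by
  have := g.det_ne_zero
  rw [e, det_smul, det_tv] at this
  simpa using this

lemma Hm.tr (h : Hm P o θ) : Hm (trP P) θ o := by
  obtain ⟨a, g, hg, c, e⟩ := h
  refine ⟨dotProduct_comm o θ ▸ a, trI g⁻¹, ?_, c, ?_⟩
  · change trI (trI _) ∈ P
    rw [show trI (trI g⁻¹) = _ from trI.left_inv _]
    exact P.inv_mem hg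
  · change (g : Mt F)ᵀ = _
    rw [e]
    ext i j
    simp [one_apply, eq_comm, mul_comm, mul_add]

lemma Hm.cj (h : Hm P o θ) (g : GL3 F) :
    Hm (cjP P g) (((g⁻¹ : GL3 F) : Mt F) *ᵥ o) (θ ᵥ* (g : Mt F)) := by
  obtain ⟨a, x, hx, c, e⟩ := h
  refine ⟨by rwa [← dotProduct_mulVec, mulVec_inv_mulVec], _, mem_cjP'.2 hx, c, ?_⟩
  rw [Units.val_mul, Units.val_mul, e, mul_smul_comm, smul_mul_assoc, mul_add, add_mul, mul_one,
    Units.inv_mul, conj_vv]

lemma Hm.conjT (h : Hm P o θ) (a : HT P w ψ) : Hm P (o + (ψ ⬝ᵥ o) • w) (θ - (θ ⬝ᵥ w) • ψ) := by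
  have := h.cj (tvU w ψ a.1)⁻¹
  rw [show cjP P (tvU w ψ a.1)⁻¹ = P from Subgroup.ext fun x => by
    rw [mem_cjP, P.mul_mem_cancel_right (P.inv_mem (P.inv_mem a.mem)),
      P.mul_mem_cancel_left (P.inv_mem a.mem)]] at this
  change Hm P ((1 + vv w ψ) *ᵥ o) (θ ᵥ* (1 + vv w (-ψ))) at this
  rwa [tv_mulVec, vecMul_tv, smul_neg, ← sub_eq_add_neg] at this

lemma Hm.one (h : Hm P o θ) (hb : NA (trP P)) (a : HT P w ψ) (hw : w ≠ 0) (hψ : ψ ≠ 0) (e : ψ ⬝ᵥ o = 0) :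
    θ ⬝ᵥ w = 0 := by
  obtain ⟨h0, g, hg, c, e'⟩ := h
  obtain ⟨hc, h1⟩ := hm_ne e'
  have b := a.conj hg
  have : ψ = c • ψ ᵥ* ((g⁻¹ : GL3 F) : Mt F) := by
    rw [← smul_vecMul, show c • ψ = ψ ᵥ* (g : Mt F) by rw [e', vecMul_smul, vecMul_tv, e]; simp]
    simp
  rw [e', smul_mulVec, ht_smul, ← this, tv_mulVec] at b
  by_cases k : w + (θ ⬝ᵥ w) • o = 0
  · have := congrArg (θ ⬝ᵥ ·) k
    simp only [dotProduct_add, dotProduct_smul, dotProduct_zero, smul_eq_mul] at this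
    exact (mul_eq_zero.1 (show θ ⬝ᵥ w * (1 + θ ⬝ᵥ o) = 0 by linear_combination this)).resolve_right h1
  · simpa [(ne_of_dot h0).2] using hb a.tr b.tr hψ hw k

variable [Finite F]

lemma Hm.flag (h : Hm P o θ) (hd : Det P) (t : Two P) (ha : NA P) (hb : NA (trP P)) (a : HT P w ψ)
    (hw : w ≠ 0) (hψ : ψ ≠ 0) : (θ ⬝ᵥ w = 0 ∧ ψ ⬝ᵥ o = 0) ∨ θ ⬝ᵥ w * ψ ⬝ᵥ o = θ ⬝ᵥ o := by
  by_cases e : ψ ⬝ᵥ o = 0
  · exact Or.inl ⟨h.one hb a hw hψ e, e⟩
  have e' : θ ⬝ᵥ w ≠ 0 := fun k => e (dotProduct_comm o ψ ▸ h.tr.one (by rwa [trP_trP]) a.tr hψ hw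
    (dotProduct_comm θ w ▸ k))
  obtain ⟨h0, g, hg, c, eg⟩ := h
  obtain ⟨hc, h1⟩ := hm_ne eg
  have k := up_iff hd (v := w) (w := (ψ ⬝ᵥ o)⁻¹ • o) (o := ψ ⨯₃ θ) (φ := ψ) (by
    rw [det_cols, cross_dot_cross]
    simp [dotProduct_comm w, dotProduct_comm o, a.1, e, e']) a.1 (by simp [e]) (by simp)
  rcases dih2 t.two ((k 1).2 (by simpa using a)) (fun s hs => t.T a ((k s).1 hs) hw hψ)
    (B := mat c 0 (c * (θ ⬝ᵥ w * ψ ⬝ᵥ o)) (c * (1 + θ ⬝ᵥ o)) (by simp [hc, h1]))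
    ⟨g, ⟨hg, c, by rw [eg, smul_mulVec, tv_mulVec]; simp⟩, by
      rw [eg, smul_mulVec, tv_mulVec]
      simp [smul_smul, e, mul_assoc], by
      rw [eg, smul_mulVec, tv_mulVec]
      simp [smul_smul]
      module⟩ rfl with b | b
  · simp [hc, h0] at b
  · have := t.two
    simp at b
    exact Or.inr (mul_left_cancel₀ hc (by linear_combination b + c * this))

lemma monomial (h : Hyp0 P) (hi : Irr P) (t : Two P) (ha : NA P) (hb : NA (trP P)) {m n : F}
    (h0 : Hm P ![1, 0, 0] ![m, 0, 0]) (h1 : Hm P ![0, 1, 0] ![0, m, 0]) : False := by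
  have hd : Det P := fun g => h.det
  have hm : m ≠ 0 := by simpa [dot3] using h0.1
  have t2 := t.two
  have h2 : Hm P ![0, 0, 1] ![0, 0, (1 + m)⁻¹ - 1] := by
    obtain ⟨-, g, hg, c, e⟩ := h0
    obtain ⟨-, g', hg', c', e'⟩ := h1
    have : 1 + m ≠ 0 := by simpa [dot3] using (hm_ne e).2
    refine ⟨by simp [dot3, sub_eq_zero, hm], _, P.mul_mem hg hg', c * c' * (1 + m), ?_⟩
    rw [Units.val_mul, e, e']
    ext i j
    fin_cases i <;> fin_cases j <;> simp [mul_apply, Fin.sum_univ_three, this] <;> ring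
  have hm' : (1 + m)⁻¹ - 1 ≠ 0 := by simpa [dot3] using h2.1
  have mon : ∀ g ∈ P, ∀ i, ∃ j, ∃ a : F, (g : Mt F) *ᵥ Pi.single i 1 = a • Pi.single j 1 := fun g hg =>
    h.ind (p := fun A => ∀ i, ∃ j, ∃ a : F, A *ᵥ Pi.single i 1 = a • Pi.single j 1)
      (fun i => ⟨i, 1, by rw [one_mulVec, one_smul]⟩) (fun w ψ A b k i => by
        obtain ⟨j, a, e⟩ := k i
        suffices ∃ l, ∃ c : F, (1 + vv w ψ) *ᵥ Pi.single j 1 = c • Pi.single l 1 by
          obtain ⟨l, c, e'⟩ := this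
          exact ⟨l, a * c, by rw [← mulVec_mulVec, e, mulVec_smul, e', smul_smul]⟩
        rw [tv_mulVec, dotProduct_single_one]
        by_cases z : ψ j = 0
        · exact ⟨j, 1, by simp [z]⟩
        by_cases hw : w = 0
        · exact ⟨j, 1, by simp [hw]⟩
        have hψ : ψ ≠ 0 := by rintro rfl; simp at z
        have b0 := h0.flag hd t ha hb b hw hψ
        have b1 := h1.flag hd t ha hb b hw hψ
        have b2 := h2.flag hd t ha hb b hw hψ
        have b3 := b.1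
        simp [dot3, hm, hm', mul_assoc] at b0 b1 b2 b3
        have : ∃ l, ∀ x, x ≠ l → (Pi.single j 1 : V3 F) x + ψ j * w x = 0 := by
          clear * - b0 b1 b2 b3 z t2
          fin_cases j <;> simp [Fin.exists_fin_succ, Fin.forall_fin_succ] at z ⊢ <;> grind
        obtain ⟨l, e'⟩ := this
        refine ⟨l, (Pi.single j 1 : V3 F) l + ψ j * w l, funext fun x => ?_⟩
        by_cases hx : x = l
        · simp [hx]
        · simpa [hx] using e' x hx) hg
  rcases h.normal (⨅ i, ptSt (Pi.single i 1)) (fun g hg x hx => Subgroup.mem_iInf.2 fun i => by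
      obtain ⟨j, a, e⟩ := mon _ (P.inv_mem hg) i
      obtain ⟨c, e'⟩ := Subgroup.mem_iInf.1 hx j
      exact ⟨c, by rw [Units.val_mul, Units.val_mul, ← mulVec_mulVec, ← mulVec_mulVec, e, mulVec_smul, e',
        smul_comm, ← e, mulVec_smul, mulVec_inv_mulVec]⟩) (fun g hg => Subgroup.mem_iInf.2 fun i => by
      obtain ⟨c, e⟩ := mem_sc.1 hg
      exact ⟨c, by rw [e, smul_mulVec, one_mulVec]⟩) with k | k
  · obtain ⟨g, hg, e⟩ := hi (Pi.single 0 1) (Pi.single 1 1) (by simp) (by simp)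
    obtain ⟨c, e'⟩ := Subgroup.mem_iInf.1 (k hg) 0
    simp [e'] at e
  · obtain ⟨-, g, hg, c, e⟩ := h0
    obtain ⟨d, e'⟩ := k g hg (Subgroup.mem_iInf.2 fun i => ⟨c * (1 + (![m, 0, 0] : V3 F) i), by
      rw [e, smul_mulVec, tv_mulVec]
      fin_cases i <;> refine ext3 ?_ ?_ ?_ <;> simp [vecHead, vecTail]⟩)
    have hc := (hm_ne e).1
    rw [e] at e'
    have e0 := congrFun (congrFun e' 0) 0
    have e1 := congrFun (congrFun e' 1) 1
    simp at e0 e1
    simp [← e1, hc, hm] at e0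

lemma no_hm (h : Hyp0 P) (hi : Irr P) (t : Two P) (ha : NA P) (hb : NA (trP P)) (h0 : Hm P o θ) :
    False := by
  have hd : Det P := fun g => h.det
  obtain ⟨w, ψ, a, e⟩ : ∃ w ψ, HT P w ψ ∧ θ ⬝ᵥ w * ψ ⬝ᵥ o = θ ⬝ᵥ o := by
    by_contra! k
    have k' : ∀ w ψ, HT P w ψ → w ≠ 0 → ψ ≠ 0 → θ ⬝ᵥ w = 0 := fun w ψ a hw hψ =>
      ((h0.flag hd t ha hb a hw hψ).resolve_right (k w ψ a)).1
    obtain ⟨v, φ, hv, hφ, a⟩ := h.flag
    obtain ⟨g, hg, e⟩ := hi v θ hv (ne_of_dot h0.1).1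
    exact e (k' _ _ (a.conj hg) (gl_ne _ hv) (gl_ne' _ hφ))
  have h1 := h0.conjT a
  have t2 := t.two
  have e1 : θ ⬝ᵥ (o + (ψ ⬝ᵥ o) • w) = 0 := by simp; linear_combination e + θ ⬝ᵥ o * t2
  have e2 : (θ - (θ ⬝ᵥ w) • ψ) ⬝ᵥ o = 0 := by simp; linear_combination -e
  have e3 : (θ - (θ ⬝ᵥ w) • ψ) ⬝ᵥ (o + (ψ ⬝ᵥ o) • w) = θ ⬝ᵥ o := by simp [a.1]; ring
  generalize o + (ψ ⬝ᵥ o) • w = o' at *
  generalize θ - (θ ⬝ᵥ w) • ψ = θ' at *
  have hD : (cols o o' (θ ⨯₃ θ')).det ≠ 0 := by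
    rw [det_cols, cross_dot_cross]
    simp [dotProduct_comm o, dotProduct_comm o', e1, e3, h0.1]
  have k0 := h0.cj (fr _ _ _ hD)
  have k1 := h1.cj (fr _ _ _ hD)
  rw [vecMul_fr, gl_inj (fr _ _ _ hD) (x := _ *ᵥ o) (y := ![1, 0, 0])
    (by rw [mulVec_inv_mulVec, fr_mulVec]; simp)] at k0
  rw [vecMul_fr, gl_inj (fr _ _ _ hD) (x := _ *ᵥ o') (y := ![0, 1, 0])
    (by rw [mulVec_inv_mulVec, fr_mulVec]; simp)] at k1
  rw [e1, dot_self_cross] at k0
  rw [e2, e3, dot_cross_self] at k1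
  exact monomial (n := 0) (h.cj _) (hi.cj _) (t.cj _) (ha.cj _) (by rw [trP_cj]; exact hb.cj _) k0 k1

omit [Finite F] in
lemma ht_of_smul (hd : Det P) (h2 : (2 : F) = 0) {g : GL3 F} (hg : g ∈ P) {c : F}
    (e : (g : Mt F) = c • (1 + vv v φ)) (h : φ ⬝ᵥ v = 0) : HT P v φ := by
  have := hd g hg
  rw [e, det_smul, det_tv, h, add_zero, mul_one] at this
  refine ⟨h, g * g * g, P.mul_mem (P.mul_mem hg hg) hg, ?_⟩
  rw [Units.val_mul, Units.val_mul, e, smul_mul_smul_comm, smul_mul_smul_comm, tv_mul_tv, h, zero_smul,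
    add_zero, add_assoc, ← two_smul F (vv v φ), h2, zero_smul, add_zero, one_mul,
    show c * c * c = 1 by rw [← this]; simp; ring, one_smul]

lemma isolated (h : Hyp0 P) (hi : Irr P) (t : Two P) (ha : NA P) (hb : NA (trP P))
    (h0 : HT P ![1, 0, 0] ![0, 1, 0]) : False := by
  have hd : Det P := fun g => h.det
  have t2 := t.two
  refine frob_inv h.sn (t := ((⟨_, h0.mem⟩ : P) : ModSc P)) (fun e => ?_) ?_ fun x hx => ?_
  · obtain ⟨c, e⟩ := mk_eq_one.1 e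
    exact tv_not_sc h0.1 (by simp) (by simp) c e
  · rw [← QuotientGroup.mk_mul, mk_eq_one]
    refine ⟨1, ?_⟩
    change (1 + vv _ _) * (1 + vv _ _) = _
    rw [tv_mul_tv, h0.1, zero_smul, add_zero, add_assoc, ← two_smul F (vv _ _), t2]
    simp
  obtain ⟨⟨g, hg⟩, rfl⟩ := QuotientGroup.mk_surjective x
  rw [← QuotientGroup.mk_mul, ← QuotientGroup.mk_mul, mk_eq] at hx
  obtain ⟨c, e⟩ := hx
  change (g : Mt F) * (1 + vv _ _) = c • ((1 + vv _ _) * (g : Mt F)) at e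
  have d := hd g hg
  rw [det_fin_three] at d
  have E := fun i j => congrFun (congrFun e i) j
  have e00 := E 0 0; have e01 := E 0 1; have e02 := E 0 2; have e10 := E 1 0; have e11 := E 1 1
  have e12 := E 1 2; have e20 := E 2 0; have e21 := E 2 1; have e22 := E 2 2
  simp only [mul_apply, Fin.sum_univ_three, Matrix.smul_apply, Matrix.add_apply, one_apply, vv_apply]
    at e00 e01 e02 e10 e11 e12 e20 e21 e22
  simp at e00 e01 e02 e10 e11 e12 e20 e21 e22
  obtain rfl : c = 1 := by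
    by_contra k
    clear * - k d e10 e12 e20 e22
    grind
  simp at e00 e01 e02 e11 e21
  obtain ⟨a, b, x, y, z, eg⟩ : ∃ a b x y z : F, (g : Mt F) = !![a, y, x; 0, a, 0; 0, z, b] :=
    ⟨g 0 0, g 2 2, g 0 2, g 0 1, g 2 1, by
      have : g 1 1 = g 0 0 := by linear_combination -e01
      ext i j; fin_cases i <;> fin_cases j <;> simp [e00, this, e02, e21]⟩
  simp [eg] at d
  have a0 : a ≠ 0 := by rintro rfl; simp at d
  have g2 : ((g * g : GL3 F) : Mt F) = (a * a) • (1 + vv ![x, 0, a + b] ((a * a)⁻¹ • ![0, z, a + b])) := by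
    rw [Units.val_mul, eg]
    ext i j
    clear * - a0 t2
    fin_cases i <;> fin_cases j <;> simp [mul_apply, Fin.sum_univ_three] <;> field_simp <;> grind
  by_cases hab : a + b = 0
  swap
  · exact (no_hm h hi t ha hb ⟨by simp [dot3, a0, hab], _, P.mul_mem hg hg, _, g2⟩).elim
  rw [hab, show vv ![x, 0, 0] ((a * a)⁻¹ • ![0, z, 0]) = vv ![1, 0, 0] ((x * z / (a * a)) • ![0, 1, 0]) by
    ext i j; fin_cases i <;> fin_cases j <;> simp; ring] at g2
  rcases t.T h0 (ht_of_smul hd t2 (P.mul_mem hg hg) g2 (by simp [dot3])) (by simp) (by simp) with k | k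
  swap
  · refine Or.inr (Or.inr ?_)
    rw [← QuotientGroup.mk_mul, eq_comm, mk_eq]
    exact ⟨_, by rw [k, one_smul] at g2; exact g2⟩
  obtain rfl : a = b := by linear_combination hab - b * t2
  suffices ∃ v φ, HT P v φ ∧ (g : Mt F) = a • (1 + vv v φ) ∧ (v = ![1, 0, 0] ∨ φ = ![0, 1, 0]) by
    obtain ⟨v, φ, b, e, k⟩ := this
    by_cases z : vv v φ = 0
    · exact Or.inl (mk_eq_one.2 ⟨a, by simpa [z] using e⟩)
    simp only [vv_eq_zero, not_or] at z
    refine Or.inr (Or.inl (mk_eq.2 ⟨a, ?_⟩).symm)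
    rcases k with rfl | rfl
    · rwa [ha h0 b z.1 (by simp) z.2] at e
    · rwa [hb h0.tr b.tr z.2 (by simp) z.1] at e
  simp [a0] at k
  rcases k with rfl | rfl
  · have e : (g : Mt F) = a • (1 + vv ![y / a, 0, z / a] ![0, 1, 0]) := by
      rw [eg]; ext i j; fin_cases i <;> fin_cases j <;> simp <;> field_simp
    exact ⟨_, _, ht_of_smul hd t2 hg e (by simp [dot3]), e, Or.inr rfl⟩
  · have e : (g : Mt F) = a • (1 + vv ![1, 0, 0] ![0, y / a, x / a]) := by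
      rw [eg]; ext i j; fin_cases i <;> fin_cases j <;> simp <;> field_simp
    exact ⟨_, _, ht_of_smul hd t2 hg e (by simp [dot3]), e, Or.inl rfl⟩

theorem not_NA_NB (h : Hyp0 P) (hi : Irr P) (t : Two P) (ha : NA P) (hb : NA (trP P)) : False := by
  obtain ⟨v, φ, hv, hφ, h0⟩ := h.flag
  obtain ⟨w, ψ, a, e1, e2⟩ := exists_opp' hi h0 hv hφ
  have hD := det_opp h0.1 a.1 (e1 ▸ one_ne_zero) e2
  refine isolated (h.cj (fr _ _ _ hD)) (hi.cj _) (t.cj _) (ha.cj _) (by rw [trP_cj]; exact hb.cj _) ?_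
  simpa [h0.1, e1] using (ht_fr hD (P := P) (x := ![1, 0, 0]) (φ := φ)).2 (by simpa using h0)

theorem concl (h : Hyp0 P) (hi : Irr P) : Concl P := by
  have hd : Det P := fun g => h.det
  obtain ⟨v, φ, hv, hφ, h0⟩ := h.flag
  by_cases h3 : 3 ≤ nT P v φ
  · obtain ⟨k, hk, h3⟩ := exists_KS hd hi h0 hv hφ h3
    by_cases ho : AO P
    exacts [su_case h hi hk h3 ho, sl_case h hi hk ho]
  have t := two_of_nT hd hi h0 hv hφ h3
  rcases A2_or hd hi with a | a <;> rcases A2_or (fun g => h.tr.det) hi.tr with b | b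
  · exact case_A2_B2 h t a b
  · exact (not_A2_NB h hi t a b).elim
  · exact (not_A2_NB h.tr hi.tr t.tr b (by rwa [trP_trP])).elim
  · exact (not_NA_NB h hi t a b).elim

end Cfsg.Agent.H7.PA

namespace Cfsg.Agent.H7

open Cfsg.Geo Matrix Cfsg.Agent.H8 Cfsg.Agent.H8.M3 PA

/-- classification of the projectively simple subgroups of `SL₃(F)` generated by transvections -/
theorem partA (F : Type*) [Field F] [Finite F] : H8.PartA F := by
  intro P hP hi hs hc
  have h : Hyp0 P := ⟨fun Q hQ => hP ▸ (Subgroup.closure_le Q).2 fun g ⟨hg, _, e⟩ => by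
    obtain ⟨v, φ, a, b⟩ := exists_vv_of_sq e
    have e' : (g : Mt F) = 1 + vv v φ := by rw [← b, add_sub_cancel]
    have := (hQ v φ ⟨a, g, hg, e'⟩).mem
    rwa [show tvU v φ a = g from Units.ext e'.symm] at this, hs, hc⟩
  refine concl h (hi.elim (fun hi v φ hv hφ => ?_) h.irr)
  by_contra! k
  let W : Submodule F (V3 F) :=
    { carrier := {w | ∀ g ∈ P, φ ⬝ᵥ (g : Mt F) *ᵥ w = 0}
      zero_mem' := fun g _ => by simp
      add_mem' := fun a b g hg => by rw [mulVec_add, dotProduct_add, a g hg, b g hg, add_zero]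
      smul_mem' := fun c x a g hg => by rw [mulVec_smul, dotProduct_smul, a g hg, smul_zero] }
  rcases hi W (by
    rintro _ ⟨g, hg, rfl⟩ _ ⟨w, hw, rfl⟩ x hx
    rw [toLin'_apply, mulVec_mulVec]
    exact hw _ (P.mul_mem hx hg)) with e | e
  · exact hv ((Submodule.mem_bot F).1 (e ▸ k))
  · refine hφ (funext fun i => ?_)
    have := (e ▸ Submodule.mem_top : Pi.single i 1 ∈ W) 1 P.one_mem
    rwa [Units.val_one, one_mulVec, dotProduct_single_one] at this

end Cfsg.Agent.H7
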