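import Cfsg.Agent.H7.Subf
import Cfsg.Agent.H3.MinNormal

/-! Auxiliary results for the dimension three classification. -/

set_option autoImplicit false
set_option linter.unusedSectionVars false
set_option linter.unusedVariables false
set_option linter.unnecessarySimpa false
set_option linter.style.haveILetI false
set_option linter.unusedSimpArgs false

namespace Cfsg.Agent.H7

open Cfsg.Geo Matrix Cfsg.Agent.H8 Cfsg.Agent.H8.M3 PA Sf
open scoped MatrixGroups

attribute [-simp] cons_dotProduct dotProduct_cons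

theorem socle {G : Type*} [Group G] [Finite G] [Nontrivial G] (h : H8.NoEA G)
    (hc : ∀ S : Subgroup G, IsSimpleGroup S → (¬ ∀ a b : S, a * b = b * a) →
      ∀ a : G, (∀ x ∈ S, a * x = x * a) → a = 1) :
    ∃ S : Subgroup G, S.Normal ∧ IsSimpleGroup S ∧ ¬ ∀ a b : S, a * b = b * a := by
  obtain ⟨N, ⟨hN, hN0⟩, hmin⟩ := Set.Finite.exists_minimal (s := {N : Subgroup G | N.Normal ∧ N ≠ ⊥})
    (Set.toFinite _) ⟨⊤, inferInstance, top_ne_bot⟩
  haveI : Nontrivial N := (Subgroup.nontrivial_iff_ne_bot N).2 hN0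
  obtain ⟨T, _, π, hT, hπ⟩ := H3.exists_simple_quotient N
  haveI : Finite T := Finite.of_surjective π hπ
  obtain ⟨m, ⟨e⟩⟩ := H3.exists_pi_equiv_of_separating (N := N) (T := T) fun n hn => by
    obtain ⟨g, hg⟩ := H3.separating_of_minimal_normal N (fun M a b =>
      or_iff_not_imp_left.2 fun c => le_antisymm b (hmin ⟨a, c⟩ b)) π hπ n hn
    exact ⟨π.comp (MulAut.conjNormal g : MulAut N).toMonoidHom,
      hπ.comp (MulAut.conjNormal g : MulAut N).surjective, hg⟩
  have nc : ¬ ∀ a b : T, a * b = b * a := fun k => by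
    letI : CommGroup T := { (inferInstance : Group T) with mul_comm := k }
    refine hN0 (h N hN ⟨⟨fun a b => e.injective (by rw [map_mul, map_mul, mul_comm])⟩⟩
      ⟨_, IsSimpleGroup.prime_card (α := T), fun x hx => ?_⟩)
    have : e (⟨x, hx⟩ ^ Nat.card T) = e 1 := by
      rw [map_pow, map_one]; funext i; exact pow_card_eq_one'
    exact congrArg Subtype.val (e.injective this)
  obtain ⟨i⟩ : Nonempty (Fin m) := by
    by_contra k
    rw [not_nonempty_iff] at k
    exact not_subsingleton N e.injective.subsingleton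
  let f : Fin m → T →* G := fun j => N.subtype.comp (e.symm.toMonoidHom.comp (MonoidHom.mulSingle (fun _ => T) j))
  have hf : ∀ j, Function.Injective (f j) := fun j =>
    N.subtype_injective.comp (e.symm.injective.comp (Pi.mulSingle_injective (M := fun _ => T) j))
  have e1 := MonoidHom.ofInjective (hf i)
  have s1 : IsSimpleGroup (f i).range := e1.symm.isSimpleGroup
  have s2 : ¬ ∀ a b : (f i).range, a * b = b * a := fun k => nc fun a b => e1.injective (by
    rw [map_mul, map_mul, k])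
  refine ⟨(f i).range, ?_, s1, s2⟩
  convert hN
  refine le_antisymm (by rintro _ ⟨t, rfl⟩; exact SetLike.coe_mem _) fun n hn => ⟨e ⟨n, hn⟩ i, ?_⟩
  refine congrArg Subtype.val (e.symm_apply_eq.2 (funext fun j => ?_) : _ = (⟨n, hn⟩ : N))
  by_cases hj : j = i
  · simp [hj]
  obtain ⟨t, ht⟩ := exists_ne (1 : T)
  refine absurd (hf j ((hc _ s1 s2 (f j t) ?_).trans (map_one _).symm)) ht
  rintro _ ⟨s, rfl⟩
  exact (Pi.mulSingle_commute (f := fun _ => T) hj t s).map (N.subtype.comp e.symm.toMonoidHom)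

variable {F : Type*} [Field F]

lemma absIrr_of_cjP {P : Subgroup (GL3 F)} {g : GL3 F} (h : AbsIrr (cjP P g)) : AbsIrr P := by
  refine ⟨fun W hW => ?_, fun x hx => ?_⟩
  · rcases h.1 (W.comap (toLin' (g : Mt F))) (fun a ha v hv => by
      have := hW _ ha _ hv
      simpa [mulVec_mulVec, mul_assoc] using this) with e | e
    · refine Or.inl (eq_bot_iff.2 fun v hv => ?_)
      have : ((g⁻¹ : GL3 F) : Mt F) *ᵥ v ∈ W.comap (toLin' (g : Mt F)) := by
        rwa [Submodule.mem_comap, toLin'_apply, mulVec_inv_mulVec]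
      rw [e, Submodule.mem_bot] at this
      exact gl_inj g⁻¹ (this.trans (mulVec_zero _).symm)
    · refine Or.inr (eq_top_iff.2 fun v _ => ?_)
      have : ((g⁻¹ : GL3 F) : Mt F) *ᵥ v ∈ W.comap (toLin' (g : Mt F)) := e ▸ Submodule.mem_top
      rwa [Submodule.mem_comap, toLin'_apply, mulVec_inv_mulVec] at this
  · obtain ⟨c, e⟩ := h.2 (((g⁻¹ : GL3 F) : Mt F) * x * g) fun a ha => by
      have := congrArg (fun y => ((g⁻¹ : GL3 F) : Mt F) * y * g) (hx _ ha)
      simpa [mul_assoc] using this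
    refine ⟨c, ?_⟩
    simpa [mul_assoc] using congrArg (fun y => (g : Mt F) * y * ((g⁻¹ : GL3 F) : Mt F)) e

lemma absIrr_of_std (h2 : (2 : F) ≠ 0) {P : Subgroup (GL3 F)} {g : GL3 F} {k : Subfield F} {q : ℕ}
    (hq : Odd q) (h : ∀ A : GL3 F, (A : Mt F).det = 1 → (∀ i j, A i j ∈ k) →
      (A : Mt F)ᵀ * (A : Mt F).map (· ^ q) = 1 → g * A * g⁻¹ ∈ P) : AbsIrr P := by
  refine absIrr_of_cjP (g := g) (absIrr_A4 h2
    ⟨GeneralLinearGroup.mkOfDetNeZero _ (by simp [det_fin_three]), h _ ?_ (fun i j => ?_) ?_, rfl⟩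
    ⟨GeneralLinearGroup.mkOfDetNeZero _ (by simp [det_fin_three]), h _ ?_ (fun i j => ?_) ?_, rfl⟩)
  · simp [det_fin_three]
  · fin_cases i <;> fin_cases j <;> simp
  · ext i j; fin_cases i <;> fin_cases j <;> simp [mul_apply, Fin.sum_univ_three, hq.neg_pow, hq.pos.ne']
  · simp [det_fin_three]
  · fin_cases i <;> fin_cases j <;> simp
  · ext i j; fin_cases i <;> fin_cases j <;> simp [mul_apply, Fin.sum_univ_three, hq.neg_pow, hq.pos.ne']

theorem absIrr_isSL3 (h2 : (2 : F) ≠ 0) {P : Subgroup (GL3 F)} {g : GL3 F} {k : Subfield F}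
    (h : IsSL3 P g k) : AbsIrr P :=
  absIrr_of_std h2 (g := g) (k := k) odd_one fun A a b _ => (h _).2 ⟨by
    rw [Units.val_mul, Units.val_mul, det_units_conj, a], by simpa [mul_assoc] using b⟩

theorem absIrr_isSU3 [Finite F] (h2 : (2 : F) ≠ 0) {P : Subgroup (GL3 F)} {g : GL3 F} {k : Subfield F}
    {q : ℕ} (h : IsSU3 P g k q) : AbsIrr P :=
  absIrr_of_std h2 (g := g) (k := k) (q := q) (by
    haveI := Fintype.ofFinite k
    have := FiniteField.odd_card_of_char_ne_two (F := k) fun e => h2 (by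
      have := (ringChar.spec k 2).2 (e ▸ dvd_rfl)
      exact congrArg Subtype.val this)
    rw [← Nat.card_eq_fintype_card, h.1, ← Nat.odd_iff, Nat.odd_pow_iff two_ne_zero] at this
    exact this) fun A a b c => (h.2 _).2 ⟨by
    rw [Units.val_mul, Units.val_mul, det_units_conj, a], by simpa [mul_assoc] using b, by
    simpa [mul_assoc] using c⟩

/-! ### `A₆` in `PSL₃(4)` -/

lemma tr_sq (h2 : (2 : F) = 0) (A : Mt F) : (A * A).trace = A.trace * A.trace := by
  simp only [trace_fin_three, mul_apply, Fin.sum_univ_three]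
  grind

lemma five_data (h2 : (2 : F) = 0) (h4 : ∀ x : F, x ^ 4 = x) {A : GL3 F} (hd : (A : Mt F).det = 1)
    (h5 : A ^ 5 = 1) (h1 : A ≠ 1) : (A : Mt F).trace * (A : Mt F).trace + (A : Mt F).trace + 1 = 0 ∧
      (A : Mt F) * A * A = (A : Mt F).trace • ((A : Mt F) * A) + (A : Mt F).trace • (A : Mt F) + 1 := by
  have e5 : (A : Mt F) * A * A * (A * A) = 1 := by
    rw [← Units.val_one, ← h5]; simp [pow_succ, mul_assoc]
  have e4 : (A : Mt F).adjugate = A * A * (A * A) := by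
    have := adjugate_mul (A : Mt F)
    rw [hd, one_smul, ← e5] at this
    exact (Units.mul_left_inj A).1 (this.trans (by simp only [mul_assoc]))
  have e3 := congrArg trace e4
  rw [tr_sq h2, tr_sq h2, show ∀ x : F, x * x * (x * x) = x ^ 4 from fun x => by ring, h4] at e3
  have ch : (A : Mt F) * A * A = (A : Mt F).trace • ((A : Mt F) * A) + (A : Mt F).trace • (A : Mt F) + 1 := by
    rw [adjugate_fin_three, trace_fin_three] at e3
    rw [det_fin_three] at hd
    ext i j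
    clear * - e3 hd h2
    fin_cases i <;> fin_cases j <;> simp [trace_fin_three, mul_apply, Fin.sum_univ_three] at e3 ⊢ <;> grind
  refine ⟨by_contra fun k => h1 ?_, ch⟩
  generalize (A : Mt F).trace = t at *
  have tw : (2 : F) • (1 : Mt F) = 0 := by rw [h2, zero_smul]
  have : (t * t + t + 1) • ((A : Mt F) * A * (A - 1)) = 0 := by
    have c1 := congrArg (· * (A : Mt F)) ch
    have c2 := congrArg (· * ((A : Mt F) * A)) ch
    have c3 : ∀ X : Mt F, (2 : F) • X = 0 := fun X => by rw [h2, zero_smul]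
    simp only [add_mul, smul_mul_assoc, one_mul, mul_assoc, mul_sub, mul_one] at *
    linear_combination (norm := module) e5 - c2 - t • c1 + ch + c3 (1 - (t * t + 1) • ((A : Mt F) * A))
  rw [smul_eq_zero, or_iff_right k, ← Units.val_mul, Units.mul_right_eq_zero, sub_eq_zero] at this
  exact Units.ext this

lemma five_cent (h2 : (2 : F) = 0) (h4 : ∀ x : F, x ^ 4 = x) {A B : GL3 F} (hd : (A : Mt F).det = 1)
    (h5 : A ^ 5 = 1) (h1 : A ≠ 1) (hB : (B : Mt F).det = 1) (hc : B * A = A * B) :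
    ∃ (j : ℕ) (d : F), (B : Mt F) = d • ((A ^ j : GL3 F) : Mt F) := by
  obtain ⟨ht, ch⟩ := five_data h2 h4 hd h5 h1
  have e4 : ((A⁻¹ : GL3 F) : Mt F).trace = (A : Mt F).trace := by
    rw [show A⁻¹ = A * A * (A * A) by rw [inv_eq_iff_mul_eq_one, ← h5]; simp [pow_succ, mul_assoc],
      Units.val_mul, Units.val_mul, tr_sq h2, tr_sq h2, ← h4 (A : Mt F).trace]
    ring_nf
    rw [show 16 = 4 * 4 by rfl, pow_mul, h4]
  have tw : ∀ y : V3 F, (2 : F) • y = 0 := fun y => by rw [h2, zero_smul]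
  obtain ⟨x, hx⟩ : ∃ x, (A : Mt F) *ᵥ (A : Mt F) *ᵥ x + ((A : Mt F).trace + 1) • (A : Mt F) *ᵥ x + x ≠ 0 := by
    by_contra! k
    have : (A : Mt F) + ((A : Mt F).trace + 1) • 1 + (A⁻¹ : GL3 F) = 0 := ext_of_mulVec_single fun i => by
      simpa only [mulVec_inv_mulVec, add_mulVec, smul_mulVec, one_mulVec, zero_mulVec] using
        k (((A⁻¹ : GL3 F) : Mt F) *ᵥ Pi.single i 1)
    have := congrArg trace this
    simp only [trace_add, e4, trace_smul, trace_one, trace_zero, Fintype.card_fin, smul_eq_mul, Nat.cast_ofNat] at this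
    generalize (A : Mt F).trace = t at *
    exact one_ne_zero (α := F) (by linear_combination ht - t * this + (2 * t * t + t) * h2)
  obtain ⟨y, hy⟩ : ∃ y, (A : Mt F) *ᵥ y + y ≠ 0 := by
    by_contra! k
    refine h1 (Units.ext (ext_of_mulVec_single fun i => ?_))
    rw [Units.val_one, one_mulVec]
    linear_combination (norm := module) k (Pi.single i 1) - tw (Pi.single i 1)
  have c3 : ∀ v, (A : Mt F) *ᵥ (A : Mt F) *ᵥ (A : Mt F) *ᵥ v =
      (A : Mt F).trace • (A : Mt F) *ᵥ (A : Mt F) *ᵥ v + (A : Mt F).trace • (A : Mt F) *ᵥ v + v := fun v => by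
    simpa only [← mulVec_mulVec, add_mulVec, smul_mulVec, one_mulVec] using congrArg (· *ᵥ v) ch
  generalize (A : Mt F).trace = t at *
  have a1 := c3 x
  have a2 := c3 y
  set w := (A : Mt F) *ᵥ (A : Mt F) *ᵥ x + (t + 1) • (A : Mt F) *ᵥ x + x
  set z := (A : Mt F) *ᵥ y + y
  have b1 : (A : Mt F) *ᵥ w = w := by
    simp only [w, mulVec_add, mulVec_smul]
    linear_combination (norm := module) a1 + tw (t • (A : Mt F) *ᵥ (A : Mt F) *ᵥ x)
  have b2 : (A : Mt F) *ᵥ (A : Mt F) *ᵥ z = (t + 1) • (A : Mt F) *ᵥ z + z := by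
    simp only [z, mulVec_add, mulVec_smul]
    linear_combination (norm := module) a2 - tw ((A : Mt F) *ᵥ y)
  clear_value w z
  have hD : (cols (w + z) ((A : Mt F) *ᵥ (w + z)) ((A : Mt F) *ᵥ (A : Mt F) *ᵥ (w + z))).det ≠ 0 := fun e => by
    obtain ⟨a, a0, e⟩ := exists_mulVec_eq_zero_iff.2 e
    simp only [cols_mulVec, mulVec_add, b1, b2] at e
    have e1 := congrArg ((A : Mt F) *ᵥ ·) e
    have e2 := congrArg ((A : Mt F) *ᵥ ·) e1
    simp only [mulVec_add, mulVec_smul, b1, b2, mulVec_zero] at e1 e2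
    have f1 : ((a 0 + a 1 + a 2) * (t + 1)) • w = 0 := by
      linear_combination (norm := module) e2 + (t + 1) • e1 + e - tw ((a 0 + a 1 + a 2) • w +
        (a 0 + (a 1 + a 2 * (t + 1)) * (t + 1) + a 2) • z + ((a 0 + a 2) * (t + 1) + (a 1 + a 2 * (t + 1)) *
          ((t + 1) * (t + 1) + 1)) • (A : Mt F) *ᵥ z)
    have f2 : a 0 + a 1 + a 2 = 0 := by
      rw [smul_eq_zero, or_iff_left hx] at f1
      clear * - f1 ht h2; grind
    have f3 : (a 1 + a 2 * (t + 1)) • (A : Mt F) *ᵥ z = -(a 0 + a 2) • z := by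
      linear_combination (norm := module) e - f2 • w
    have f4 := congrArg ((A : Mt F) *ᵥ ·) f3
    simp only [mulVec_smul, b2] at f4
    have f5 : ((a 1 + a 2 * (t + 1)) ^ 2 - (a 1 + a 2 * (t + 1)) * (t + 1) * (a 0 + a 2) - (a 0 + a 2) ^ 2) • z = 0 := by
      linear_combination (norm := module) (a 1 + a 2 * (t + 1)) • f4 -
        ((a 1 + a 2 * (t + 1)) * (t + 1) + (a 0 + a 2)) • f3
    rw [smul_eq_zero, or_iff_left hy] at f5
    have g0 := h4 (a 0)
    have g1 := h4 (a 2)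
    have := ne3 a0
    clear * - f2 f5 g0 g1 this ht h2
    grind
  obtain ⟨a, ha⟩ : ∃ a : V3 F, (B : Mt F) *ᵥ (w + z) = a 0 • (w + z) + a 1 • (A : Mt F) *ᵥ (w + z) +
      a 2 • (A : Mt F) *ᵥ (A : Mt F) *ᵥ (w + z) := ⟨_, by rw [← fr_mulVec hD, mulVec_inv_mulVec]⟩
  have cm : ∀ v, (B : Mt F) *ᵥ (A : Mt F) *ᵥ v = (A : Mt F) *ᵥ (B : Mt F) *ᵥ v := fun v => by
    rw [mulVec_mulVec, mulVec_mulVec, ← Units.val_mul, hc, Units.val_mul]
  generalize w + z = v at *
  have eB : (B : Mt F) = a 0 • 1 + a 1 • (A : Mt F) + a 2 • ((A : Mt F) * A) := by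
    refine ext_cols hD ?_ ?_ ?_ <;>
      simp only [cm, ha, add_mulVec, smul_mulVec, one_mulVec, ← mulVec_mulVec, mulVec_add, mulVec_smul]
  have d1 := det_mul (B : Mt F) (cols v ((A : Mt F) *ᵥ v) ((A : Mt F) *ᵥ (A : Mt F) *ᵥ v))
  rw [mul_cols, hB, one_mul, cm, cm, cm, ha] at d1
  simp only [mulVec_add, mulVec_smul, c3] at d1
  generalize (A : Mt F) *ᵥ (A : Mt F) *ᵥ v = v2 at *
  generalize (A : Mt F) *ᵥ v = v1 at *
  have d2 : (of ![![a 0, a 2, a 1 + t * a 2], ![a 1, a 0 + t * a 2, a 2 + t * (a 1 + t * a 2)],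
      ![a 2, a 1 + t * a 2, a 0 + t * a 2 + t * (a 1 + t * a 2)]]).det = 1 := by
    apply mul_left_cancel₀ hD
    rw [← det_mul, mul_one, ← d1]
    congr 1
    ext i j
    fin_cases j <;> simp [cols, mul_apply, Fin.sum_univ_three] <;> ring
  simp [det_fin_three] at d2
  have p3 : ((A ^ 3 : GL3 F) : Mt F) = t • ((A : Mt F) * A) + t • (A : Mt F) + 1 := by
    rw [← ch]; simp [pow_succ]
  have p4 : ((A ^ 4 : GL3 F) : Mt F) = (t * t + t) • ((A : Mt F) * A) + (t * t + 1) • (A : Mt F) + t • 1 := by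
    rw [pow_succ, Units.val_mul, p3, add_mul, add_mul, smul_mul_assoc, ch, smul_mul_assoc, one_mul]
    module
  have k : ∀ s : F, s = 0 ∨ s = 1 ∨ s = t ∨ s = t + 1 := fun s => by
    have := h4 s
    clear * - this ht h2
    grind
  have : (a 1 = 0 ∧ a 2 = 0) ∨ (a 0 = 0 ∧ a 2 = 0) ∨ (a 0 = 0 ∧ a 1 = 0) ∨ (a 1 = a 0 * t ∧ a 2 = a 0 * t) ∨
      (a 0 = a 2 * t ∧ a 1 = a 2 * t) := by
    have k0 := k (a 0); have k1 := k (a 1); have k2 := k (a 2)
    generalize a 0 = a0 at *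
    generalize a 1 = a1 at *
    generalize a 2 = a2 at *
    clear * - k0 k1 k2 d2 ht h2
    rcases k0 with rfl | rfl | rfl | rfl <;> rcases k1 with rfl | rfl | rfl | rfl <;>
      rcases k2 with rfl | rfl | rfl | rfl <;> grind
  rcases this with ⟨e, e'⟩ | ⟨e, e'⟩ | ⟨e, e'⟩ | ⟨e, e'⟩ | ⟨e, e'⟩
  · exact ⟨0, a 0, by simp [eB, e, e']⟩
  · exact ⟨1, a 1, by simp [eB, e, e']⟩
  · exact ⟨2, a 2, by simp [eB, e, e', pow_two]⟩
  · exact ⟨3, a 0, by rw [eB, p3, e, e']; module⟩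
  · refine ⟨4, a 2, ?_⟩
    rw [eB, p4, e, e', show t * t + t = 1 by linear_combination ht - h2,
      show t * t + 1 = t by linear_combination ht - t * h2]
    module

lemma a6_five {G : Type*} [Group G] (e : G ≃* alternatingGroup (Fin 6)) : ∃ a : G, orderOf a = 5 ∧
    ∀ b : G, orderOf b = 5 → ∃ x : G, x⁻¹ * b * x = a ∨ x⁻¹ * b * x = a * a := by
  haveI : Fact (Nat.Prime 5) := ⟨Nat.prime_five⟩
  let a : alternatingGroup (Fin 6) := ⟨⟨![1, 2, 3, 4, 0, 5], ![4, 0, 1, 2, 3, 5], by decide, by decide⟩,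
    Equiv.Perm.mem_alternatingGroup.2 (by decide)⟩
  let y : alternatingGroup (Fin 6) := ⟨⟨![0, 4, 3, 2, 1, 5], ![0, 4, 3, 2, 1, 5], by decide, by decide⟩,
    Equiv.Perm.mem_alternatingGroup.2 (by decide)⟩
  have ha : orderOf a = 5 := orderOf_eq_prime (by decide) (by decide)
  refine ⟨e.symm a, by rw [e.symm.orderOf_eq, ha], fun b hb => ?_⟩
  suffices ∃ x, x⁻¹ * e b * x = a ∨ x⁻¹ * e b * x = a * a by
    obtain ⟨x, h⟩ := this
    exact ⟨e.symm x, h.imp (fun h => e.injective (by simp [h])) fun h => e.injective (by simp [h])⟩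
  rw [← e.orderOf_eq] at hb
  obtain ⟨k, hk⟩ := H4.exists_conj_mem' (Subgroup.zpowers a) (by
    have := (Subgroup.zpowers a).card_mul_index
    rw [Nat.card_zpowers, ha, nat_card_alternatingGroup] at this
    simp [Nat.factorial] at this
    omega) hb
  rw [mem_zpowers_iff_mem_range_orderOf, ha, Finset.mem_image] at hk
  obtain ⟨j, hj, hk⟩ := hk
  rw [Finset.mem_range] at hj
  interval_cases j
  · rw [show e b = k * (k⁻¹ * e b * k) * k⁻¹ by group, ← hk] at hb
    simp at hb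
  · exact ⟨k, Or.inl (by rw [← hk, pow_one])⟩
  · exact ⟨k, Or.inr (by rw [← hk, pow_two])⟩
  · exact ⟨k * y, Or.inr (by rw [show (k * y)⁻¹ * e b * (k * y) = y⁻¹ * (k⁻¹ * e b * k) * y by group, ← hk]; decide)⟩
  · exact ⟨k * y, Or.inl (by rw [show (k * y)⁻¹ * e b * (k * y) = y⁻¹ * (k⁻¹ * e b * k) * y by group, ← hk]; decide)⟩

theorem q4 [Fintype F] (hF : Fintype.card F = 4) {H P : Subgroup (GL (Fin 3) F)}
    (hH : H ≤ specialLinear (Fin 3) F) (hP : P ≤ H) (hn : ∀ h ∈ H, ∀ x ∈ P, h * x * h⁻¹ ∈ P)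
    (e : Nonempty (H8.ModSc P ≃* alternatingGroup (Fin 6))) :
    Nonempty (H8.ModSc H ≃* alternatingGroup (Fin 6)) := by
  obtain ⟨e⟩ := e
  haveI : Fact (Nat.Prime 5) := ⟨Nat.prime_five⟩
  have h4 : ∀ x : F, x ^ 4 = x := fun x => hF ▸ FiniteField.pow_card x
  have h2 : (2 : F) = 0 := by linear_combination h4 (-1)
  have hd : ∀ g ∈ H, (g : Mt F).det = 1 := fun g hg => congrArg Units.val (hH hg)
  have sc : ∀ g ∈ H, ∀ g' ∈ H, ∀ c : F, (g : Mt F) = c • (g' : Mt F) → c ^ 3 = 1 := fun g hg g' hg' c e => by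
    simpa [e, hd g' hg'] using hd g hg
  obtain ⟨a, ha, hb⟩ := a6_five e
  obtain ⟨A, rfl, h5⟩ : ∃ A : P, (A : ModSc P) = a ∧ A ^ 5 = 1 := by
    obtain ⟨A, rfl⟩ := QuotientGroup.mk_surjective a
    have h5 := pow_orderOf_eq_one (A : ModSc P)
    rw [ha] at h5
    refine ⟨A ^ 6, by rw [QuotientGroup.mk_pow, pow_succ, h5, one_mul], ?_⟩
    obtain ⟨c, e⟩ := mk_eq_one.1 (show ((A ^ 5 : P) : ModSc P) = 1 from h5)
    have := sc _ (hP (A ^ 5).2) 1 H.one_mem c e
    refine Subtype.ext (Units.ext ?_)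
    rw [← pow_mul, mul_comm, pow_mul, Subgroup.coe_pow, Units.val_pow_eq_pow_val, e, smul_pow, one_pow,
      show 6 = 3 * 2 by rfl, pow_mul, this, one_pow, one_smul]
    rfl
  have h5' : (A : GL3 F) ^ 5 = 1 := congrArg Subtype.val h5
  have h1 : (A : GL3 F) ≠ 1 := fun k => by simp [show A = 1 from Subtype.ext k] at ha
  have dA := hd _ (hP A.2)
  have key : ∀ h ∈ H, ∃ x ∈ P, ∃ c : F, (h : Mt F) = c • (x : Mt F) := fun h hh => by
    have c1 : ∀ (B : GL3 F) (c : F) (j : ℕ), B ∈ H → ((B * A * B⁻¹ : GL3 F) : Mt F) =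
        c • (((A : GL3 F) ^ j : GL3 F) : Mt F) → c = 1 := fun B c j hB e => by
      have e3 := sc _ (H.mul_mem (H.mul_mem hB (hP A.2)) (H.inv_mem hB)) _ (H.pow_mem (hP A.2) j) c e
      have := congrArg (· ^ 5) e
      simp only [smul_pow, ← Units.val_pow_eq_pow_val, conj_pow, h5', pow_right_comm _ j, one_pow, mul_one,
        mul_inv_cancel] at this
      have := congrFun (congrFun this 0) 0
      simp at this
      linear_combination (c ^ 3 + 1) * e3 + c * this
    obtain ⟨x, hx⟩ := hb ((⟨_, hn h hh _ A.2⟩ : P) : ModSc P) (orderOf_eq_prime (by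
      rw [← QuotientGroup.mk_pow, show (⟨_, hn h hh _ A.2⟩ : P) ^ 5 = 1 from
        Subtype.ext (by simp [conj_pow, h5'])]; rfl) fun k => by
      obtain ⟨c, k⟩ := mk_eq_one.1 k
      obtain rfl := c1 h c 0 hh k
      exact h1 (by simpa using (Units.ext (k.trans (one_smul _ _)) : h * A * h⁻¹ = 1)))
    obtain ⟨x, rfl⟩ := QuotientGroup.mk_surjective x
    have hB := H.mul_mem (H.inv_mem (hP x.2)) hh
    have eq : (x : GL3 F)⁻¹ * h * A * ((x : GL3 F)⁻¹ * h)⁻¹ = (x : GL3 F)⁻¹ * (h * A * h⁻¹) * x := by group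
    rw [← QuotientGroup.mk_inv, ← QuotientGroup.mk_mul, ← QuotientGroup.mk_mul, ← QuotientGroup.mk_mul,
      eq_comm, mk_eq, eq_comm, mk_eq] at hx
    rcases hx with ⟨c, k⟩ | ⟨c, k⟩
    · obtain rfl := c1 _ c 1 hB (by rw [eq, pow_one]; exact k)
      obtain ⟨j, d, e⟩ := five_cent h2 h4 dA h5' h1 (hd _ hB) (by
        rw [← mul_inv_eq_iff_eq_mul, eq]; exact Units.ext (k.trans (one_smul _ _)))
      exact ⟨x * A ^ j, P.mul_mem x.2 (P.pow_mem A.2 j), d, by
        rw [Units.val_mul, ← mul_smul_comm, ← e, ← Units.val_mul, mul_inv_cancel_left]⟩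
    · obtain rfl := c1 _ c 2 hB (by rw [eq, pow_two]; exact k)
      have := congrArg trace k
      change (((x : GL3 F)⁻¹ * (h * A * h⁻¹) * x : GL3 F) : Mt F).trace = ((1 : F) • ((A : GL3 F) * (A : GL3 F) : Mt F)).trace at this
      rw [one_smul, tr_sq h2, Units.val_mul, Units.val_mul, trace_units_conj', Units.val_mul, Units.val_mul,
        trace_units_conj] at this
      have k := (five_data h2 h4 dA h5' h1).1
      exact absurd (by linear_combination k + this - ((A : GL3 F) : Mt F).trace * h2) (one_ne_zero (α := F))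
  obtain ⟨f, hf⟩ := lift_hom ((QuotientGroup.mk' ((scalars (Fin 3) F).subgroupOf H)).comp
    (Subgroup.inclusion hP)) fun x c e => mk_eq_one.2 ⟨c, e⟩
  refine ⟨(MulEquiv.ofBijective f ⟨(injective_iff_map_eq_one f).2 fun x hx => ?_, fun y => ?_⟩).symm.trans e⟩
  · obtain ⟨x, rfl⟩ := QuotientGroup.mk_surjective x
    exact mk_eq_one.2 ((mk_eq_one (a := Subgroup.inclusion hP x)).1 ((hf x).symm.trans hx))
  · obtain ⟨y, rfl⟩ := QuotientGroup.mk_surjective y
    obtain ⟨x, hx, k⟩ := key y y.2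
    exact ⟨(⟨x, hx⟩ : P), (hf _).trans (mk_eq.2 k)⟩

end Cfsg.Agent.H7
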