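import Cfsg.Agent.H7.PA4
import Cfsg.Agent.H8.M3Iface2
import Cfsg.Agent.H3.FinSub

/-! Subgroups of `PSL₃(q)` normalising a subfield group. -/

set_option autoImplicit false
set_option linter.unusedSectionVars false
set_option linter.unusedVariables false
set_option linter.unnecessarySimpa false
set_option linter.style.haveILetI false
set_option linter.unusedSimpArgs false

namespace Cfsg.Agent.H7.Sf

open Cfsg.Geo Matrix Cfsg.Agent.H8 Cfsg.Agent.H8.M3 PA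
open scoped MatrixGroups

variable {F : Type*} [Field F]

/-- change of frame -/
def cjSL (g : GL3 F) : SL(3, F) →* GL3 F :=
  MonoidHom.mk' (fun A => g⁻¹ * SpecialLinearGroup.toGL A * g) fun A B => by simp [mul_assoc]

lemma cjSL_apply (g : GL3 F) (A : SL(3, F)) : cjSL g A = g⁻¹ * SpecialLinearGroup.toGL A * g := rfl

lemma cjSL_inj (g : GL3 F) : Function.Injective (cjSL g) := fun A B e =>
  SpecialLinearGroup.toGL_injective (by simpa [cjSL_apply] using e)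

lemma cjSL_det (g : GL3 F) (A : SL(3, F)) : (cjSL g A : Mt F).det = 1 := by
  rw [cjSL_apply, Units.val_mul, Units.val_mul, det_units_conj']
  exact A.2

lemma exists_cjSL (g : GL3 F) {B : GL3 F} (h : (B : Mt F).det = 1) : ∃ A, cjSL g A = B :=
  ⟨⟨(g * B * g⁻¹ : GL3 F), by rw [Units.val_mul, Units.val_mul, det_units_conj, h]⟩, by
    refine Units.ext ?_
    change ((g⁻¹ * (g * B * g⁻¹) * g : GL3 F) : Mt F) = _
    simp [mul_assoc]⟩

lemma sc_comm (c : Fˣ) (B : GL3 F) : scalGL (Fin 3) c * B = B * scalGL (Fin 3) c := Units.ext (by simp)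

lemma sc_mul (c d : Fˣ) : scalGL (Fin 3) (c * d) = scalGL (Fin 3) c * scalGL (Fin 3) d :=
  Units.ext (by simp [smul_smul, mul_comm])

lemma sc_det (c : Fˣ) (B : GL3 F) : ((scalGL (Fin 3) c * B : GL3 F) : Mt F).det = c ^ 3 * (B : Mt F).det := by
  simp

lemma mk_eq_iff (g : GL3 F) {A B : SL(3, F)} : (A : PSL(3, F)) = B ↔
    ∃ c : Fˣ, cjSL g B = scalGL (Fin 3) c * cjSL g A := by
  rw [QuotientGroup.eq, Matrix.SpecialLinearGroup.mem_center_iff]
  constructor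
  · rintro ⟨r, h, e⟩
    refine ⟨Units.ofPowEqOne r _ h (by simp), ?_⟩
    rw [sc_comm, ← inv_mul_eq_iff_eq_mul, ← map_inv, ← map_mul]
    refine Units.ext ?_
    change _ * (A⁻¹ * B).1 * _ = _
    rw [← e]
    simp [← smul_one_eq_diagonal]
  · rintro ⟨c, e⟩
    have d := cjSL_det g B
    rw [e, sc_det, cjSL_det, mul_one] at d
    refine ⟨c, by simpa using d, ?_⟩
    rw [sc_comm, ← inv_mul_eq_iff_eq_mul, ← map_inv, ← map_mul, cjSL_apply, mul_assoc,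
      inv_mul_eq_iff_eq_mul, ← sc_comm, mul_left_inj] at e
    rw [scalar_apply, ← smul_one_eq_diagonal, ← scalGL_val, ← e]
    rfl

lemma index_core {g : GL3 F} {Γ : Subgroup (GL3 F)} {N : ℕ} (hdet : ∀ A ∈ Γ, (A : Mt F).det ^ N = 1)
    (hsc : ∀ c : Fˣ, scalGL (Fin 3) c ∈ Γ ↔ c ^ N = 1) {H : Subgroup PSL(3, F)}
    (hH : ∀ A : SL(3, F), (A : PSL(3, F)) ∈ H → ∃ c : Fˣ, ∃ B ∈ Γ, cjSL g A = scalGL (Fin 3) c * B)
    {L : Subgroup H} (hL : ∀ h : H, h ∈ L ↔ ∃ A : SL(3, F), cjSL g A ∈ Γ ∧ (A : PSL(3, F)) = h) :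
    L = ⊤ ∨ (L.index = 3 ∧ 3 ∣ N ∧ ∃ c : Fˣ, c ^ N ≠ 1 ∧ (c ^ N) ^ 3 = 1) := by
  have key : ∀ h : H, ∃ c : Fˣ, ∃ A : SL(3, F), (A : PSL(3, F)) = h ∧ ∃ B ∈ Γ,
      cjSL g A = scalGL (Fin 3) c * B := fun h => by
    obtain ⟨A, e⟩ := QuotientGroup.mk_surjective h.1
    obtain ⟨c, k⟩ := hH A (e ▸ h.2)
    exact ⟨c, A, e, k⟩
  have cube : ∀ (c : Fˣ) (A : SL(3, F)), ∀ B ∈ Γ, cjSL g A = scalGL (Fin 3) c * B → (c ^ N) ^ 3 = 1 := by
    intro c A B hB e
    have := congrArg (· ^ N) (cjSL_det g A)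
    simp only [e, sc_det, mul_pow, hdet B hB, mul_one, one_pow] at this
    exact Units.ext (by push_cast; rw [← this]; ring)
  by_cases h3 : 3 ∣ N
  swap
  · refine Or.inl (eq_top_iff.2 fun h _ => ?_)
    obtain ⟨c, A, e, B, hB, e'⟩ := key h
    have k := cube c A B hB e'
    obtain ⟨m, hm⟩ : 3 ∣ 2 * N * N + 1 := by
      have : N % 3 = 1 ∨ N % 3 = 2 := by omega
      rcases this with h | h <;> rw [Nat.dvd_iff_mod_eq_zero, Nat.add_mod, Nat.mul_mod, Nat.mul_mod 2, h]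
    obtain ⟨A', e''⟩ := exists_cjSL g (B := scalGL (Fin 3) (c ^ (2 * N * N)) * cjSL g A) (by
      rw [sc_det, cjSL_det, mul_one, ← Units.val_pow_eq_pow_val, Units.val_eq_one,
        show (c ^ (2 * N * N)) ^ 3 = ((c ^ N) ^ 3) ^ (2 * N) by rw [← pow_mul, ← pow_mul, ← pow_mul]; ring_nf, k,
        one_pow])
    refine (hL h).2 ⟨A', ?_, ((mk_eq_iff g).2 ⟨_, e''⟩).symm.trans e⟩
    rw [e'', e', ← mul_assoc, ← sc_mul, ← pow_succ, hm]
    refine Γ.mul_mem ((hsc _).2 ?_) hB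
    rw [show (c ^ (3 * m)) ^ N = ((c ^ N) ^ 3) ^ m by rw [← pow_mul, ← pow_mul, ← pow_mul]; ring_nf, k, one_pow]
  have uniq : ∀ (c c' : Fˣ) (A A' : SL(3, F)), (A : PSL(3, F)) = A' → ∀ B ∈ Γ, ∀ B' ∈ Γ,
      cjSL g A = scalGL (Fin 3) c * B → cjSL g A' = scalGL (Fin 3) c' * B' → c ^ N = c' ^ N := by
    intro c c' A A' e B hB B' hB' e1 e2
    obtain ⟨w, e⟩ := (mk_eq_iff g).1 e
    have d := cjSL_det g A'
    rw [e, sc_det, cjSL_det, mul_one, ← Units.val_pow_eq_pow_val, Units.val_eq_one] at d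
    obtain ⟨m, rfl⟩ := h3
    have := (hsc (c'⁻¹ * (w * c))).1 (by
      rw [show scalGL (Fin 3) (c'⁻¹ * (w * c)) = B' * B⁻¹ by
        rw [eq_mul_inv_iff_mul_eq, ← mul_right_inj (scalGL (Fin 3) c'), ← mul_assoc, ← sc_mul,
          mul_inv_cancel_left, ← e2, e, e1, sc_mul, mul_assoc]]
      exact Γ.mul_mem hB' (Γ.inv_mem hB))
    rwa [mul_pow, mul_pow, pow_mul w, d, one_pow, one_mul, inv_pow, inv_mul_eq_one, eq_comm] at this
  choose c A e B hB e' using key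
  let χ : H →* Fˣ := MonoidHom.mk' (fun h => c h ^ N) fun x y => by
    rw [← mul_pow]
    refine uniq _ _ (A (x * y)) (A x * A y) (by rw [QuotientGroup.mk_mul, e, e, e]; rfl) _ (hB _) _
      (Γ.mul_mem (hB x) (hB y)) (e' _) ?_
    rw [map_mul, e', e', sc_mul, mul_assoc, mul_assoc, ← mul_assoc (B x), ← sc_comm, mul_assoc]
  have hk : L = χ.ker := Subgroup.ext fun h => (hL h).trans ⟨fun ⟨A', a, b⟩ =>
      (uniq _ 1 _ A' ((e h).trans b.symm) _ (hB h) _ a (e' h) (Units.ext (by simp))).trans (one_pow _),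
    fun a => ⟨A h, e' h ▸ Γ.mul_mem ((hsc _).2 a) (hB h), e h⟩⟩
  refine or_iff_not_imp_left.2 fun hne => ?_
  obtain ⟨h, hh⟩ : ∃ h, χ h ≠ 1 := by
    by_contra! k
    exact hne (hk.trans (eq_top_iff.2 fun h _ => k h))
  have k := fun h => cube _ _ _ (hB h) (e' h)
  refine ⟨?_, h3, c h, hh, k h⟩
  rw [hk, Subgroup.index_ker]
  have h1 : χ.range ≤ rootsOfUnity 3 F := by
    rintro _ ⟨x, rfl⟩
    exact k x
  have h2 := (Subgroup.card_le_of_le h1).trans (card_rootsOfUnity F 3)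
  haveI : Fact (Nat.Prime 3) := ⟨Nat.prime_three⟩
  have h4 := Subgroup.orderOf_dvd_natCard χ.range ⟨h, rfl⟩
  rw [orderOf_eq_prime (x := χ h) (k h) hh] at h4
  haveI : Finite χ.range := Finite.of_injective _ (Subgroup.inclusion_injective h1)
  exact le_antisymm h2 (Nat.le_of_dvd Nat.card_pos h4)

lemma iso_core {g : GL3 F} {S : Type*} [Group S] {φ : S →* GL3 F} (hi : Function.Injective φ)
    (hd : ∀ s, (φ s : Mt F).det = 1) (ha : AbsIrr φ.range) {H : Subgroup PSL(3, F)}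
    (hH : ∀ A : SL(3, F), cjSL g A ∈ φ.range → (A : PSL(3, F)) ∈ H) :
    ∃ L : Subgroup H, (∀ h : H, h ∈ L ↔ ∃ A : SL(3, F), cjSL g A ∈ φ.range ∧ (A : PSL(3, F)) = h) ∧
      Nonempty (L ≃* S ⧸ Subgroup.center S) := by
  choose f hf using fun s => exists_cjSL g (hd s)
  let ψ : S →* H := ((QuotientGroup.mk' _).comp (MonoidHom.mk' f fun x y => cjSL_inj g (by
    simp [hf]))).codRestrict H fun s => hH _ ⟨s, (hf s).symm⟩
  have hk : ψ.ker = Subgroup.center S := Subgroup.ext fun s => by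
    rw [MonoidHom.mem_ker, Subtype.ext_iff, Subgroup.mem_center_iff]
    change ((f s : SL(3, F)) : PSL(3, F)) = (1 : SL(3, F)) ↔ _
    rw [eq_comm, mk_eq_iff g, hf, map_one]
    refine ⟨fun ⟨c, e⟩ t => hi (by rw [map_mul, map_mul, e, mul_one, sc_comm]), fun h => ?_⟩
    obtain ⟨c, e⟩ := mem_sc.2 (ha.2 (φ s) (by
      rintro _ ⟨t, rfl⟩
      rw [← Units.val_mul, ← map_mul, ← h, map_mul, Units.val_mul]))
    exact ⟨c, by rw [mul_one]; exact e.symm⟩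
  refine ⟨ψ.range, fun h => ⟨?_, ?_⟩, ⟨(QuotientGroup.quotientKerEquivRange ψ).symm.trans
    (QuotientGroup.quotientMulEquivOfEq hk)⟩⟩
  · rintro ⟨s, rfl⟩
    exact ⟨f s, ⟨s, (hf s).symm⟩, rfl⟩
  · rintro ⟨A, ⟨s, e⟩, e'⟩
    exact ⟨s, Subtype.ext (by rw [← e', ← cjSL_inj g ((hf s).trans e)]; rfl)⟩

lemma absIrr_A4 (h2 : (2 : F) ≠ 0) {L : Subgroup (GL3 F)}
    (h1 : ∃ a ∈ L, (a : Mt F) = !![1, 0, 0; 0, -1, 0; 0, 0, -1])
    (h3 : ∃ a ∈ L, (a : Mt F) = !![0, 0, 1; 1, 0, 0; 0, 1, 0]) : AbsIrr L := by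
  obtain ⟨a, ha, ea⟩ := h1
  obtain ⟨b, hb, eb⟩ := h3
  refine ⟨fun W hW => or_iff_not_imp_left.2 fun h => ?_, fun x hx => ?_⟩
  · obtain ⟨w, hw, h0⟩ := (Submodule.ne_bot_iff W).1 h
    have a' : ∀ w ∈ W, ![w 0, -w 1, -w 2] ∈ W := fun w hw => by
      convert hW a ha w hw
      refine ext3 ?_ ?_ ?_ <;> simp [ea, mulVec, dot3, vecHead, vecTail]
    have b' : ∀ w ∈ W, ![w 2, w 0, w 1] ∈ W := fun w hw => by
      convert hW b hb w hw
      refine ext3 ?_ ?_ ?_ <;> simp [eb, mulVec, dot3, vecHead, vecTail]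
    have k : ∀ w ∈ W, w 0 ≠ 0 → ![1, 0, 0] ∈ W := fun w hw h0 => by
      convert W.smul_mem (2 * w 0)⁻¹ (W.add_mem hw (a' w hw))
      refine ext3 ?_ ?_ ?_ <;> simp [vecHead, vecTail]
      field_simp
      norm_num
    have e0 : ![1, 0, 0] ∈ W := by
      rcases ne3 h0 with h | h | h
      exacts [k w hw h, k _ (b' _ (b' w hw)) h, k _ (b' w hw) h]
    refine eq_top_iff.2 fun v _ => ?_
    convert W.add_mem (W.add_mem (W.smul_mem (v 0) e0) (W.smul_mem (v 1) (b' _ e0)))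
      (W.smul_mem (v 2) (b' _ (b' _ e0)))
    refine ext3 ?_ ?_ ?_ <;> simp
  · have e1 := fun i j => congrFun (congrFun (hx a ha) i) j
    have e2 := fun i j => congrFun (congrFun (hx b hb) i) j
    simp [ea, eb, Fin.forall_fin_succ, mul_apply, Fin.sum_univ_three] at e1 e2
    refine ⟨x 0 0, ?_⟩
    ext i j
    fin_cases i <;> fin_cases j <;> simp <;> grind

lemma three_dvd [Fintype F] {Q m : ℕ} (hF : Fintype.card F = Q ^ m) {c w : Fˣ} (h1 : w ≠ 1) (h3 : w ^ 3 = 1)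
    (hQ : w ^ Q = w) (hc : c ^ Q = w * c) : 3 ∣ m := by
  have k : ∀ j, c ^ Q ^ j = w ^ j * c := fun j => by
    induction j with
    | zero => simp
    | succ j ih => rw [pow_succ, pow_mul, ih, mul_pow, hc, ← pow_mul, mul_comm j, pow_mul, hQ, pow_succ, mul_assoc]
  have := k m
  rw [← hF, show c ^ Fintype.card F = c from Units.ext (FiniteField.pow_card _), right_eq_mul] at this
  haveI i : Fact (Nat.Prime 3) := ⟨Nat.prime_three⟩
  exact orderOf_eq_prime h3 h1 ▸ orderOf_dvd_of_pow_eq_one this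

lemma herm_iff {K : Type*} [Field K] {q : ℕ} {σ : K →+* K} (hσ : ∀ x, σ x = x ^ q) (A : Mt K) :
    (∀ u v, hermForm 3 K q (A *ᵥ u) (A *ᵥ v) = hermForm 3 K q u v) ↔ Aᵀ * A.map (· ^ q) = 1 := by
  have e : ∀ u v, hermForm 3 K q u v = u ⬝ᵥ (σ ∘ v) := fun u v => by simp [hermForm, dotProduct, hσ]
  have e' : ∀ u v, hermForm 3 K q (A *ᵥ u) (A *ᵥ v) = u ⬝ᵥ (Aᵀ * A.map (· ^ q)) *ᵥ (σ ∘ v) := fun u v => by
    rw [e, ← mulVec_mulVec, dotProduct_mulVec u, vecMul_transpose, show A.map (· ^ q) = A.map σ by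
      ext; simp [hσ]]
    congr 1
    ext i
    exact RingHom.map_mulVec σ A v i
  refine ⟨fun h => ?_, fun h u v => by rw [e', h, one_mulVec, e]⟩
  ext i j
  have := h (Pi.single i 1) (Pi.single j 1)
  rw [e', e, show σ ∘ Pi.single j 1 = Pi.single j 1 by ext l; simp [Pi.single_apply, apply_ite]] at this
  simpa [one_apply, Pi.single_apply, eq_comm] using this

lemma small (k : Subfield F) [Finite F] : ∃ (K : Type) (_ : Field K) (_ : Fintype K) (φ : SL(3, K) →* GL3 F)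
    (ι : K →+* F), Fintype.card K = Nat.card k ∧ Function.Injective φ ∧ (∀ A, (φ A : Mt F) = A.1.map ι) ∧
      ∀ B : GL3 F, B ∈ φ.range ↔ (B : Mt F).det = 1 ∧ B ∈ (gm k).range := by
  obtain ⟨K, _, _, h, ⟨e⟩⟩ := H3.exists_small_field k
  let ι : K →+* F := k.subtype.comp e
  refine ⟨K, _, _, SpecialLinearGroup.toGL.comp (SpecialLinearGroup.map ι), ι, h, fun A B a => ?_,
    fun A => rfl, fun B => ⟨?_, fun ⟨a, b⟩ => ?_⟩⟩
  · ext i j
    exact ι.injective (congrArg (fun x : GL3 F => (x : Mt F) i j) a)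
  · rintro ⟨A, rfl⟩
    exact ⟨(SpecialLinearGroup.map ι A).2, mem_rat.2 fun i j => (e (A i j)).2⟩
  · have e' : (of fun i j => e.symm ⟨B i j, mem_rat.1 b i j⟩).map ι = B := by ext; simp [ι]
    exact ⟨⟨of fun i j => e.symm ⟨B i j, mem_rat.1 b i j⟩, ι.injective (by
      rw [RingHom.map_det, RingHom.mapMatrix_apply, e', a, map_one])⟩, Units.ext e'⟩

lemma sc_rat {k : Subfield F} (c : Fˣ) : scalGL (Fin 3) c ∈ (gm k).range ↔ (c : F) ∈ k := by
  rw [mem_rat]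
  refine ⟨fun h => by simpa using h 0 0, fun h i j => ?_⟩
  by_cases e : i = j <;> simp [e, h]

lemma rat_det {k : Subfield F} {A : GL3 F} (h : A ∈ (gm k).range) : (A : Mt F).det ∈ k := by
  obtain ⟨A, rfl⟩ := h
  rw [gm_det]
  exact SetLike.coe_mem _

/-- the group induced by `H` -/
abbrev Ht (g : GL3 F) (H : Subgroup PSL(3, F)) : Subgroup (GL3 F) :=
  (H.comap (QuotientGroup.mk' _)).map (cjSL g)

lemma norm_of {g : GL3 F} {H : Subgroup PSL(3, F)} {P L : Subgroup (GL3 F)}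
    (hL : ∀ B, B ∈ L ↔ g * B * g⁻¹ ∈ P) (h : ∀ A : SL(3, F), (A : PSL(3, F)) ∈ H → ∀ x ∈ P,
      SpecialLinearGroup.toGL A * x * (SpecialLinearGroup.toGL A)⁻¹ ∈ P) : NormG (Ht g H) L := by
  rintro _ ⟨A, hA, rfl⟩ x hx
  simpa [hL, cjSL_apply, mul_assoc] using h A hA _ ((hL x).1 hx)

lemma rat_of_norm [Finite F] {k : Subfield F} {H L : Subgroup (GL3 F)} (ha : AbsIrr L) (hn : NormG H L)
    (hL : L ≤ (gm k).range) {A : GL3 F} (hA : A ∈ H) :
    ∃ c : Fˣ, ∃ B ∈ (gm k).range, A = scalGL (Fin 3) c * B := by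
  obtain ⟨c, hc, e⟩ := mem_subfieldSubgroup_iff.1 (ha.le_subfieldSubgroup hn (F₁ := k) (B := 1)
    (fun g hg i j => by simpa [cj] using mem_rat.1 (hL hg) i j) hA)
  exact ⟨(Units.mk0 c hc)⁻¹, scalGL (Fin 3) (Units.mk0 c hc) * A, mem_rat.2 fun i j => by
    simpa [cj] using e i j, by rw [← mul_assoc, ← sc_mul, inv_mul_cancel]; exact Units.ext (by simp)⟩

lemma card_pow [Fintype F] {p α : ℕ} [Fact p.Prime] (hF : Fintype.card F = p ^ α) (k : Subfield F) :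
    ∃ β m, Nat.card k = p ^ β ∧ α = β * m := by
  obtain ⟨m, hm⟩ := card_subfield_le_pow (F₀ := k) (F₁ := ⊤) le_top
  rw [Nat.card_congr Subfield.topEquiv.toEquiv, Nat.card_eq_fintype_card, hF] at hm
  have h0 : m ≠ 0 := by
    rintro rfl
    have := Fintype.one_lt_card (α := F)
    rw [hF, hm] at this
    simp at this
  obtain ⟨β, -, e⟩ := (Nat.dvd_prime_pow Fact.out).1 (hm ▸ dvd_pow_self _ h0)
  exact ⟨β, m, e, Nat.pow_right_injective (Fact.out : p.Prime).two_le (by simp only [hm, e, pow_mul])⟩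

end Cfsg.Agent.H7.Sf

namespace Cfsg.Agent.H7

open Cfsg.Geo Matrix Cfsg.Agent.H8 Cfsg.Agent.H8.M3 PA Sf
open scoped MatrixGroups

theorem subfPart (F : Type*) [Field F] [Fintype F] : H8.SubfPart F := by
  intro p α _ hp hF H P hP h1 h2
  have hc : CharP F p := charP_of_card_eq_prime_pow hF
  have t2 : (2 : F) ≠ 0 := fun e => hp ((Nat.prime_dvd_prime_iff_eq Fact.out Nat.prime_two).1
    ((CharP.cast_eq_zero_iff F p 2).1 e))
  let a : GL3 F := GeneralLinearGroup.mkOfDetNeZero !![1, 0, 0; 0, -1, 0; 0, 0, -1] (by simp [det_fin_three])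
  let b : GL3 F := GeneralLinearGroup.mkOfDetNeZero !![0, 0, 1; 1, 0, 0; 0, 1, 0] (by simp [det_fin_three])
  have ha : ∀ k : Subfield F, (a : Mt F).det = 1 ∧ a ∈ (gm k).range := fun k =>
    ⟨by simp [a, det_fin_three], mem_rat.2 fun i j => by fin_cases i <;> fin_cases j <;> simp [a]⟩
  have hb : ∀ k : Subfield F, (b : Mt F).det = 1 ∧ b ∈ (gm k).range := fun k =>
    ⟨by simp [b, det_fin_three], mem_rat.2 fun i j => by fin_cases i <;> fin_cases j <;> simp [b]⟩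
  have dc : ∀ g B : GL3 F, ((g * B * g⁻¹ : GL3 F) : Mt F).det = (B : Mt F).det := fun g B => by
    rw [Units.val_mul, Units.val_mul, det_units_conj]
  have cc : ∀ g B : GL3 F, g⁻¹ * (g * B * g⁻¹) * g = B := fun g B => by group
  have cc' : ∀ g (A : SL(3, F)), g * cjSL g A * g⁻¹ = SpecialLinearGroup.toGL A := fun g A => by
    simp [cjSL_apply, mul_assoc]
  rcases hP with ⟨g, k, hP⟩ | ⟨g, k, q, hq, hP⟩
  · obtain ⟨K, _, _, φ, ι, c1, c2, c3, c4⟩ := small k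
    obtain ⟨β, m, d1, rfl⟩ := card_pow hF k
    have hL : ∀ B, B ∈ φ.range ↔ g * B * g⁻¹ ∈ P := fun B => by rw [hP, c4, dc, cc, mem_rat]
    have ai : AbsIrr φ.range := absIrr_A4 t2 ⟨a, (c4 _).2 (ha k), rfl⟩ ⟨b, (c4 _).2 (hb k), rfl⟩
    obtain ⟨L, l1, ⟨l2⟩⟩ := iso_core (g := g) (H := H) c2 (fun s => ((c4 _).1 ⟨s, rfl⟩).1) ai
      fun A hA => h1 A (cc' g A ▸ (hL _).1 hA)
    have hN : p ^ β = p ^ β - 1 + 1 := (Nat.sub_add_cancel (Nat.one_le_pow _ _ (Fact.out : p.Prime).pos)).symm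
    have hk : ∀ x : F, x ≠ 0 → (x ∈ k ↔ x ^ (p ^ β - 1) = 1) := fun x hx => by
      rw [mem_subfield_iff_pow, d1, hN, pow_succ, mul_left_eq_self₀, or_iff_left hx, Nat.add_sub_cancel]
    rcases index_core (g := g) (Γ := (gm k).range) (N := p ^ β - 1) (L := L)
      (fun A hA => (hk _ A.det_ne_zero).1 (rat_det hA))
      (fun c => by rw [sc_rat, hk _ c.ne_zero, ← Units.val_pow_eq_pow_val, Units.val_eq_one])
      (fun A hA => rat_of_norm ai (norm_of hL h2) (fun x hx => ((c4 x).1 hx).2) ⟨A, hA, rfl⟩)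
      (fun h => by simp only [l1, c4, cjSL_det, true_and]) with rfl | ⟨i1, i2, c, i3, i4⟩
    · exact Or.inl ⟨K, _, _, β, c1.trans d1, dvd_mul_right _ _, ⟨Subgroup.topEquiv.symm.trans l2⟩⟩
    · refine Or.inr (Or.inr (Or.inl ⟨K, _, _, β, c1.trans d1, i2, ?_, L, i1, ⟨l2⟩⟩))
      rw [mul_comm]
      refine Nat.mul_dvd_mul_left _ (three_dvd (hF.trans (pow_mul _ _ _)) i3 i4 ?_ (c := c)
        (by rw [← pow_succ, ← hN]))
      obtain ⟨n, e⟩ := i2
      generalize c ^ (p ^ β - 1) = w at *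
      rw [hN, e, pow_succ, pow_mul, i4, one_pow, one_mul]
  obtain ⟨K, _, _, φ, ι, c1, c2, c3, c4⟩ := small k
  obtain ⟨γ, m, d1, rfl⟩ := card_pow hF k
  haveI : CharP K p := charP_of_card_eq_prime_pow (c1.trans d1)
  obtain ⟨β, -, rfl⟩ := exists_q_eq_pow (c1.trans hq) p
  obtain rfl : γ = 2 * β := Nat.pow_right_injective (Fact.out : p.Prime).two_le (by
    simp only [← d1, hq, ← pow_mul, mul_comm])
  obtain ⟨σ, hσ⟩ := exists_powHom (F := F) (p := p) (k := β)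
  obtain ⟨τ, hτ⟩ := exists_powHom (F := K) (p := p) (k := β)
  have hm : ∀ A : Mt F, A.map (· ^ p ^ β) = A.map σ := fun A => by ext; simp [hσ]
  have gu : ∀ B : GL3 F, B ∈ GU 3 F (p ^ β) ↔ (B : Mt F)ᵀ * (B : Mt F).map σ = 1 := fun B =>
    (herm_iff hσ _).trans (by rw [hm]; rfl)
  let φ' := φ.comp (SU 3 K (p ^ β)).subtype
  have c5 : ∀ B, B ∈ φ'.range ↔ (B : Mt F).det = 1 ∧ B ∈ (gm k).range ⊓ GU 3 F (p ^ β) := fun B => by
    have k1 : ∀ A, A ∈ SU 3 K (p ^ β) ↔ φ A ∈ GU 3 F (p ^ β) := fun A => by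
      refine (herm_iff hτ _).trans ?_
      rw [gu, c3, ← (map_injective ι.injective).eq_iff, Matrix.map_mul, Matrix.map_one _ ι.map_zero ι.map_one,
        show (A.1.map ι).map σ = (A.1.map (· ^ p ^ β)).map ι by ext; simp [hσ]]
      rfl
    rw [Subgroup.mem_inf, ← and_assoc, ← c4]
    exact ⟨fun ⟨s, e⟩ => ⟨⟨s, e⟩, e ▸ (k1 _).1 s.2⟩, fun ⟨⟨s, e⟩, h⟩ => ⟨⟨s, (k1 _).2 (e ▸ h)⟩, e⟩⟩
  have hL : ∀ B, B ∈ φ'.range ↔ g * B * g⁻¹ ∈ P := fun B => by
    rw [hP, c5, dc, cc, Subgroup.mem_inf, mem_rat, gu, hm]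
  have ai : AbsIrr φ'.range := absIrr_A4 t2 ⟨a, (c5 _).2 ⟨(ha k).1, (ha k).2, (gu _).2 (by
      ext i j; fin_cases i <;> fin_cases j <;> simp [a, mul_apply, Fin.sum_univ_three])⟩, rfl⟩
    ⟨b, (c5 _).2 ⟨(hb k).1, (hb k).2, (gu _).2 (by
      ext i j; fin_cases i <;> fin_cases j <;> simp [b, mul_apply, Fin.sum_univ_three])⟩, rfl⟩
  obtain ⟨L, l1, ⟨l2⟩⟩ := iso_core (g := g) (H := H) (φ := φ') (c2.comp Subtype.val_injective)
    (fun s => ((c5 _).1 ⟨s, rfl⟩).1) ai fun A hA => h1 A (cc' g A ▸ (hL _).1 hA)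
  have hk : ∀ x : F, x ∈ k ↔ σ (σ x) = x := fun x => by
    rw [mem_subfield_iff_pow, hq, hσ, hσ, ← pow_mul x, pow_two]
  have nm : ∀ x : F, x ^ (p ^ β + 1) = x * σ x := fun x => by rw [pow_succ', hσ]
  have su : ∀ (c : Fˣ) (B : GL3 F), ((scalGL (Fin 3) c * B : GL3 F) : Mt F)ᵀ *
      ((scalGL (Fin 3) c * B : GL3 F) : Mt F).map σ = (c * σ c) • ((B : Mt F)ᵀ * (B : Mt F).map σ) := by
    intro c B
    simp [Matrix.map_smul' _ _ _ (map_mul σ), smul_smul, mul_comm]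
  rcases index_core (g := g) (Γ := (gm k).range ⊓ GU 3 F (p ^ β)) (N := p ^ β + 1) (L := L)
    (fun A hA => by
      simpa [nm, ← RingHom.mapMatrix_apply, ← RingHom.map_det] using congrArg det ((gu A).1 hA.2))
    (fun c => by
      have e := su c 1
      rw [mul_one] at e
      rw [Subgroup.mem_inf, sc_rat, gu, e, ← Units.val_eq_one, Units.val_pow_eq_pow_val, nm, hk]
      refine ⟨fun h => by simpa using congrFun (congrFun h.2 0) 0, fun h => ⟨?_, by simp [h]⟩⟩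
      have := congrArg σ h
      rw [map_mul, map_one, ← h, mul_comm] at this
      exact mul_right_cancel₀ ((map_ne_zero σ).2 c.ne_zero) this)
    (fun A hA => by
      obtain ⟨c, B, hB, e⟩ := rat_of_norm ai (norm_of hL h2) (fun x hx => ((c5 x).1 hx).2.1) ⟨A, hA, rfl⟩
      obtain ⟨d, d0, e'⟩ := ai.tw_of_normG (norm_of hL h2) σ (G := 1) (by simp) (fun x hx => by
        simpa [tw] using (gu x).1 ((c5 x).1 hx).2.2) ⟨A, hA, rfl⟩
      rw [tw, mul_one, e, su] at e'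
      have c0 : (c : F) * σ c ≠ 0 := by simp
      obtain ⟨y, e1⟩ : ∃ y, (B : Mt F)ᵀ * (B : Mt F).map σ = y • 1 :=
        ⟨(c * σ c)⁻¹ * d, by rw [← smul_smul, ← e', smul_smul, inv_mul_cancel₀ c0, one_smul]⟩
      have e2 := congrFun (congrFun e1 0) 0
      simp [mul_apply, Fin.sum_univ_three] at e2
      have b' := fun i j => (hk _).1 (mem_rat.1 hB i j)
      have y1 : σ y = y := by rw [← e2]; simp [b', mul_comm]
      haveI := Fintype.ofFinite k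
      have hck : Fintype.card k = (p ^ β) ^ 2 := Nat.card_eq_fintype_card.symm.trans hq
      obtain ⟨ρ, hρ⟩ := exists_qHom hck
      have st : ∀ x : k, ((ρ x : k) : F) = σ x := fun x => by rw [hρ, hσ]; rfl
      obtain ⟨l, e3⟩ := exists_norm_eq hck hρ (d := ⟨y, by rw [hk, y1, y1]⟩) (Subtype.ext ((st _).trans y1))
      have e3 : (l : F) * σ l = y := by rw [← st]; exact congrArg Subtype.val e3
      have l0 : (l : F) ≠ 0 := by
        rintro e
        have := congrArg det e1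
        simp [← e3, e, ← RingHom.mapMatrix_apply, ← RingHom.map_det, B.det_ne_zero] at this
      refine ⟨c * Units.mk0 _ l0, scalGL (Fin 3) (Units.mk0 _ l0)⁻¹ * B, ⟨mul_mem ((sc_rat _).2 (by
        simp)) hB, (gu _).2 ?_⟩, by rw [e, ← mul_assoc, ← sc_mul, mul_inv_cancel_right]⟩
      rw [su, e1, smul_smul, ← e3]
      simp [l0, show (l : F)⁻¹ * (σ l)⁻¹ * (l * σ l) = 1 by
        rw [mul_mul_mul_comm, inv_mul_cancel₀ l0, inv_mul_cancel₀ (by simpa using l0), one_mul]])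
    (fun h => by simp only [l1, c5, cjSL_det, true_and]) with rfl | ⟨i1, i2, c, i3, i4⟩
  · exact Or.inr (Or.inl ⟨K, _, _, β, c1.trans d1, dvd_mul_right _ _, ⟨Subgroup.topEquiv.symm.trans l2⟩⟩)
  refine Or.inr (Or.inr (Or.inr ⟨K, _, _, β, c1.trans d1, i2, ?_, L, i1, ⟨l2⟩⟩))
  rw [show 6 * β = 2 * β * 3 by ring]
  obtain ⟨n, e⟩ := i2
  have w1 : (c ^ (p ^ β + 1)) ^ p ^ β = (c ^ (p ^ β + 1))⁻¹ := by
    rw [eq_inv_iff_mul_eq_one, ← pow_succ, e, pow_mul _ 3 n, ← e, i4, one_pow]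
  refine Nat.mul_dvd_mul_left _ (three_dvd (hF.trans (pow_mul _ _ _)) i3 i4 ?_ (c := c) ?_)
  · rw [mul_comm 2, pow_mul, pow_two, pow_mul, w1, inv_pow, w1, inv_inv]
  · rw [← mul_left_inj (c ^ p ^ β), ← pow_add, show p ^ (2 * β) + p ^ β = (p ^ β + 1) * p ^ β by ring,
      pow_mul, w1, mul_assoc, ← pow_succ', inv_eq_iff_mul_eq_one, ← i4, pow_three]

end Cfsg.Agent.H7
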